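import Mathlib
import Cfsg.Agent.Lib.StdW.Cov
import Cfsg.Agent.Lib.StdM24.Basic

/-! Standard subgroups of type `J₂`: the finite facts used, and the frames of the proof. -/

set_option autoImplicit false

namespace H79.JS

open Subgroup H69 H36.SW
open H48.SM (Pf)
open scoped commutatorElement

/-- The data in `X = J₂.2`. -/
structure Dy (X : Type) [Group X] where
  J : Subgroup X
  Ts : Subgroup X
  M : Subgroup X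
  R : Subgroup X
  U : Subgroup X
  X5 : Subgroup X
  z : X
  q : X
  b : X
  c : X
  a : X
  f : X
  φ : X
  ω : X
  ρ : X

variable {X : Type} [Group X] {G : Type*} [Group G]

namespace Dy
variable (F : Dy X)

/-- Sylow subgroup of `J` -/
def T : Subgroup X := F.Ts ⊓ F.J
/-- `C_J(z)` -/
def D : Subgroup X := F.J ⊓ centralizer {F.z}
/-- the `2A`-pure four-group -/
def W : Subgroup X := closure {F.z, F.q}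
/-- the `2B`-pure four-group -/
def V : Subgroup X := closure {F.b, F.c}
/-- the class of `z` -/
def Zc (a : X) : Prop := ∃ j ∈ F.J, j * F.z * j⁻¹ = a
/-- the class of `b` -/
def Bc (a : X) : Prop := ∃ j ∈ F.J, j * F.b * j⁻¹ = a
/-- pairs conjugate to `(z, q)` under `X` -/
def Ty (a a' : X) : Prop := ∃ g, g * F.z * g⁻¹ = a ∧ g * F.q * g⁻¹ = a'
/-- what is used of an outer involution -/
def Out (x : X) : Prop :=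
  (∃ u ∈ F.J, ∃ v ∈ F.J, u * x = x * u ∧ v * x = x * v ∧ ⁅u, v⁆ ≠ 1 ∧ ∃ j ∈ F.J, j * x * j⁻¹ = x * ⁅u, v⁆) ∧
    ∃ P ≤ F.J, (∀ a ∈ P, a * a = 1) ∧ (∀ a ∈ P, a * x = x * a) ∧ Nat.card P = 4
/-- `f = z`, `M = D`, the second centre of `T` -/
def Mode1 : Prop :=
  F.f = F.z ∧ F.D ≤ F.M ∧
  ∀ x ∈ F.T, (∀ τ ∈ F.T, τ * x * τ⁻¹ = x ∨ τ * x * τ⁻¹ = x * F.z) →
    x = 1 ∨ x = F.z ∨ ∀ N : Subgroup X, (∀ d ∈ F.D, ⁅x, d⁆ ∈ N) → F.q ∈ N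
/-- a homomorphic image of `C_J(z)` centralised by a group of order four kills a neighbour of `z` -/
def Cen4 : Prop :=
  ∀ (ρ : F.D →* X) (P : Subgroup X), IsPGroup 2 P → (∀ a ∈ P, ∀ a' ∈ P, a * a' = a' * a) → 4 ≤ Nat.card P →
    (∀ a ∈ P, ∀ d, a * ρ d = ρ d * a) → ∃ d : F.D, F.Ty F.z d ∧ ρ d = 1
/-- `g` centralises `a`, `c` and `C_J(a, c)` -/
def CC (a c g : X) : Prop :=
  g * a = a * g ∧ g * c = c * g ∧ ∀ d ∈ F.J, d * a = a * d → d * c = c * d → g * d = d * g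
/-- the five singular points of `O₂(D) / ⟨z⟩` -/
def pt (i : Fin 5) : X :=
  ![F.q, F.a, F.b * F.a * F.b, F.c * F.a * F.c, F.b * F.c * F.a * (F.b * F.c)] i

end Dy

/-- global facts -/
structure Gl (F : Dy X) : Prop where
  nJ : F.J.Normal
  simple : IsSimpleGroup F.J
  sq : ∀ a, a ∉ F.J → ∀ b, b ∉ F.J → a * b ∈ F.J
  aut : ∀ θ : F.J ≃* F.J, ∃ x : X, ∀ j : F.J, (θ j : X) = x * j * x⁻¹
  syl : IsSylowIn 2 F.Ts ⊤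
  zT : F.z ∈ F.T
  z2 : F.z * F.z = 1
  z1 : F.z ≠ 1
  cT : ∀ a ∈ F.Ts, a * F.z = F.z * a
  φT : F.φ ∈ F.Ts
  φJ : F.φ ∉ F.J
  φ2 : F.φ * F.φ = 1
  oφ : F.Out F.φ
  cardT : Nat.card F.T = 128
  n49 : ¬ 49 ∣ Nat.card F.J
  oo : ∃ N : Subgroup X, Pf N ∧ N ≤ F.J ∧ (∀ a ∈ N, a * F.φ = F.φ * a) ∧ 7 ∣ Nat.card N
  n5 : ∀ x ∈ F.J, x ^ 5 = 1 → x * F.φ = F.φ * x → x = 1
  ea4 : ∀ E ≤ F.J, (∀ x ∈ E, x * x = 1) → (∀ x ∈ E, x * F.φ = F.φ * x) → Nat.card E ≤ 4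
  gen : ∃ S : Set X, F.J ≤ closure S ∧ (∀ s ∈ S, F.Zc s) ∧ ∀ s ∈ S, ∀ s' ∈ S, s = s' ∨ F.Ty s s' ∨
    ∃ j ∈ F.J, j * F.a * j⁻¹ = s ∧ j * F.q * j⁻¹ = s'

/-- the Sylow subgroup -/
structure Sy (F : Dy X) : Prop where
  ctr : ∀ a ∈ F.Ts, (∀ τ ∈ F.T, a * τ = τ * a) → a = 1 ∨ a = F.z
  genT : F.T ≤ closure {a | a ∈ F.T ∧ a * a = 1}
  invT : ∀ a ∈ F.T, a * a = 1 → a = 1 ∨ F.Zc a ∨
    (F.Bc a ∧ Nat.card (F.T ⊓ centralizer {a} : Subgroup X) ≤ Nat.card F.R)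
  outT : ∀ x ∈ F.Ts, x ∉ F.J → x * x = 1 →
    (∃ j ∈ F.J, j * F.φ * j⁻¹ = x) ∧ Nat.card (F.Ts ⊓ centralizer {x} : Subgroup X) ≤ 32
  memR : ∀ x, x ∈ F.R ↔ ∃ w ∈ F.W, ∃ v ∈ F.V, x = w * v
  cardR : Nat.card F.R = 16
  R2 : ∀ x ∈ F.R, x * x = 1
  RU : F.R ≤ F.U
  UT : F.U ≤ F.T
  cardU : Nat.card F.U = 64
  RB : ∀ x ∈ F.R, x ∉ F.W → F.Bc x
  bW : ∀ v ∈ F.V, v ∈ F.W → v = 1
  b1 : F.b ≠ 1
  c1 : F.c ≠ 1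
  bc1 : F.b ≠ F.c
  UW : ∀ u ∈ F.U, ∀ w ∈ F.W, u * w = w * u
  UR : ∀ u ∈ F.U, ∀ x ∈ F.R, u * x * u⁻¹ * x ∈ F.W
  aT : F.a ∈ F.T
  a2 : F.a * F.a = 1
  aq : F.a * F.q * F.a = F.q * F.z
  aU : ∀ x ∈ F.R, F.a * x * F.a ∈ F.U
  aR : F.a * F.b * F.a ∉ F.R
  inj : ∀ r ∈ F.V, ∀ v ∈ F.V, F.a * r * F.a * v = v * (F.a * r * F.a) → r = 1 ∨ v = 1
  e16 : ∀ E ≤ F.T, (∀ x ∈ E, x * x = 1) → 16 ≤ Nat.card E → E = F.R ∨ E = F.R ^ᶜ F.a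
  z2T : ∀ x ∈ F.T, (∀ τ ∈ F.T, τ * x * τ⁻¹ = x ∨ τ * x * τ⁻¹ = x * F.z) → x ∈ F.W

/-- the centraliser of `z` -/
structure Ce (F : Dy X) : Prop where
  MD : F.M ≤ F.D
  DM : F.D ≤ F.M
  fz : F.f = F.z
  pfM : Pf F.M
  qM : F.q ∈ F.M
  cM : ∀ g, (∀ m ∈ F.M, g * m = m * g) → g ∈ zpowers F.f
  autM : ∀ θ : X → X, (∀ a ∈ F.M, θ a ∈ F.M) → (∀ a ∈ F.M, ∀ a' ∈ F.M, θ (a * a') = θ a * θ a') →
    (∀ a ∈ F.M, θ a = 1 → a = 1) → θ F.z = F.z → ∃ x, x * F.z = F.z * x ∧ ∀ m ∈ F.M, θ m = x * m * x⁻¹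
  gq : F.J ≤ F.D ⊔ (F.J ⊓ centralizer {F.q})
  qq : ∀ N : Subgroup X, (∀ d ∈ F.D, ⁅F.q, d⁆ ∈ N) → F.q ∈ N
  φU : F.φ ∈ 𝐍(F.U)
  φq : F.φ * F.q * F.φ⁻¹ = F.q ∨ F.φ * F.q * F.φ⁻¹ = F.z * F.q
  cU : ∀ g, (∀ u ∈ F.U, g * u = u * g) → g ∈ F.W
  tyJ : ∀ x, F.Zc x → x * F.z = F.z * x → x = F.z ∨ ∃ d ∈ F.D, d * F.q * d⁻¹ = x
  pure : ∀ x, F.Zc x → x * F.z = F.z * x → x * F.q = F.q * x → x ∈ F.W
  d8 : ∀ x y, F.Ty F.z x → F.Ty F.z y → x * y ≠ y * x → ∃ d ∈ F.D, d * F.a * d⁻¹ = x ∧ d * F.q * d⁻¹ = y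
  ccA : ∀ g, F.CC F.a F.q g → g = 1 ∨ g = F.z
  pty : ∀ i, F.Ty F.z (F.pt i)
  pnc : ∀ i j, i ≠ j → F.pt i * F.pt j ≠ F.pt j * F.pt i
  pprod : F.pt 1 * F.pt 2 * F.pt 3 * F.pt 4 = F.q ∨ F.pt 1 * F.pt 2 * F.pt 3 * F.pt 4 = F.q * F.z
  cQ : ∀ g, (∀ i, g * F.pt i = F.pt i * g) → g = 1 ∨ g = F.z
  c5 : ∀ d ∈ F.D, d ^ 5 = 1 → ∀ p ∈ F.D, p * p = 1 → p * d = d * p → d = 1 ∨ p = 1 ∨ p = F.z

/-- the centraliser of `b` -/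
structure Cb (F : Dy X) : Prop where
  nzb : ¬ F.Zc F.b
  XJ : F.X5 ≤ F.J
  isoX : Nonempty (F.X5 ≃* alternatingGroup (Fin 5))
  zX : F.z ∈ F.X5
  qX : F.q ∈ F.X5
  ρX : F.ρ ∈ F.X5
  Xb : ∀ x ∈ F.X5, x * F.b = F.b * x
  Xc : ∀ x ∈ F.X5, x * F.c = F.c * x
  invX : ∀ x ∈ F.X5, x * x = 1 → x = 1 ∨ F.Zc x
  cJb : ∀ g ∈ F.J, g * F.b = F.b * g → ∃ v ∈ F.V, ∃ x ∈ F.X5, g = v * x
  cV : ∀ g, g * F.b = F.b * g → g * F.c = F.c * g → g ∈ F.J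
  nb : ∀ g, g * F.b = F.b * g → g ∈ 𝐍(F.V) ∧ g ∈ 𝐍(F.X5)
  cX : ∀ g, (∀ x ∈ F.X5, g * x = x * g) → ∃ v ∈ F.V, g = v ∨ g = v * F.ω ∨ g = v * F.ω⁻¹
  cbW : ∀ g, g * F.b = F.b * g → g * F.z = F.z * g → g * F.q = F.q * g → g ∈ F.R
  b32 : ∀ P : Subgroup X, IsPGroup 2 P → (∀ x ∈ P, x * F.b = F.b * x) → Nat.card P ≤ 32
  ωJ : F.ω ∈ F.J
  ω3 : F.ω ^ 3 = 1
  ωX : ∀ x ∈ F.X5, x * F.ω = F.ω * x
  ωb : F.ω * F.b * F.ω⁻¹ = F.c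
  ωc : F.ω * F.c * F.ω⁻¹ = F.b * F.c
  ωa : F.ω * F.a = F.a * F.ω
  ρ3 : F.ρ ^ 3 = 1
  ρz : F.ρ * F.z * F.ρ⁻¹ = F.q
  ρq : F.ρ * F.q * F.ρ⁻¹ = F.z * F.q
  ρU : F.ρ ∈ 𝐍(F.U)
  lin : ∀ n, n * F.z = F.z * n → n * F.q = F.q * n → n * F.b * n⁻¹ * F.b ∈ F.W → n * F.c * n⁻¹ * F.c ∈ F.W →
    n * F.c * n⁻¹ * F.c = F.ρ * (n * F.b * n⁻¹ * F.b) * F.ρ⁻¹

/-- all the facts -/
structure Fx (F : Dy X) : Prop extends Gl F, Sy F, Ce F, Cb F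

/-- `L ≅ J`; `α` is the action of `N(L)`, `h` the inverse of `α` on `J` -/
structure Iso (J : Subgroup X) (L : Subgroup G) (α : G → X) (h : X → G) : Prop where
  cov : Cov J L α
  hL : ∀ j ∈ J, h j ∈ L
  αh : ∀ j ∈ J, α (h j) = j
  inj : ∀ a ∈ L, α a = 1 → a = 1

/-- `C(t) ≤ N(L)`, `C(t) ∩ C(L) = ⟨t⟩ × O` -/
structure W0 (F : Dy X) (t : G) (L O : Subgroup G) (α : G → X) (h : X → G) : Prop
    extends Iso F.J L α h where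
  t2 : t * t = 1
  t1 : t ≠ 1
  tL : t ∈ 𝐂(L)
  CN : ∀ g, g * t = t * g → g ∈ 𝐍(L)
  OL : O ≤ 𝐂(L)
  Ot : ∀ o ∈ O, o * t = t * o
  oddO : ∀ o ∈ O, Odd (orderOf o)
  ker2 : ∀ k ∈ 𝐂(L), k * t = t * k → k ∈ O ∨ k * t ∈ O

/-- `t ~ t ẑ` -/
structure W (F : Dy X) (t : G) (L O : Subgroup G) (α : G → X) (h : X → G) : Prop
    extends W0 F t L O α h where
  fus : ∃ g, g * t * g⁻¹ = t * h F.z

/-- by an element centralising `O` and `M̂` -/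
structure W1 (F : Dy X) (t : G) (L O : Subgroup G) (α : G → X) (h : X → G) (g : G) : Prop
    extends W0 F t L O α h where
  gt : g * t * g⁻¹ = t * h F.z
  gO : ∀ o ∈ O, g * o = o * g
  gM : ∀ m ∈ F.M, g * h m = h m * g

/-- by an involution centralising `O` and `D̂` -/
structure W2 (F : Dy X) (t : G) (L O : Subgroup G) (α : G → X) (h : X → G) (u : G) : Prop
    extends W0 F t L O α h where
  u2 : u * u = 1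
  ut : u * t * u⁻¹ = t * h F.z
  uO : ∀ o ∈ O, u * o = o * u
  uD : ∀ d ∈ F.D, u * h d = h d * u

/-- the involutions `e a`, `a` in the class of `z` -/
structure We (F : Dy X) (t : G) (L O : Subgroup G) (α : G → X) (h : X → G) (e : X → G) : Prop
    extends W0 F t L O α h where
  e2 : ∀ a, F.Zc a → e a * e a = 1
  et : ∀ a, F.Zc a → e a * t * (e a)⁻¹ = t * h a
  eO : ∀ a, F.Zc a → ∀ o ∈ O, e a * o = o * e a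
  ecj : ∀ a, F.Zc a → ∀ j ∈ F.J, e (j * a * j⁻¹) = h j * e a * (h j)⁻¹

/-- `L` is the diagonal of `A × tAt` -/
structure Pr (F : Dy X) (t : G) (L O : Subgroup G) (α : G → X) (h : X → G) (u : G) (A : Subgroup G)
    (β : G → X) : Prop extends W2 F t L O α h u where
  covA : Cov F.J A β
  comm : ∀ g ∈ A, ∀ k ∈ A, g * (t * k * t⁻¹) = (t * k * t⁻¹) * g
  piL : ∀ g ∈ A, g * (t * g * t⁻¹) ∈ L
  piα : ∀ g ∈ A, α (g * (t * g * t⁻¹)) = β g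
  onL : ∀ l ∈ L, ∃ g ∈ A, g * (t * g * t⁻¹) = l
  uA : u ∈ A
  genA : A ≤ closure {g | g ∈ A ∧ g * g = 1}

/-- `e a * e c = e (a c) * m̂` -/
def AdE (F : Dy X) (h e : X → G) (a c m : X) : Prop :=
  F.Zc a ∧ F.Zc c ∧ F.Zc (a * c) ∧ m ∈ F.J ∧ e a * e c = e (a * c) * h m

/-- an abelian group of order 16 moving `t` through `t Ŷ`, `Y` a four-group of `J` -/
structure Ab (t : G) (O : Subgroup G) (h : X → G) (Y : Subgroup X) (A : Subgroup G) : Prop where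
  ab : ∀ x ∈ A, ∀ y ∈ A, x * y = y * x
  p2 : IsPGroup 2 A
  card : Nat.card A = 16
  YA : ∀ w ∈ Y, h w ∈ A
  tr : ∀ w ∈ Y, ∃ y ∈ A, y * t * y⁻¹ = t * h w
  act : ∀ y ∈ A, ∃ w ∈ Y, y * t * y⁻¹ = t * h w
  fix : ∀ y ∈ A, y * t = t * y → ∃ w ∈ Y, y = h w
  tA : t ∈ 𝐍(A)
  cO : ∀ y ∈ A, ∀ o ∈ O, y * o = o * y

/-- the group `A` over `W` -/
structure Es (F : Dy X) (t : G) (L O : Subgroup G) (α : G → X) (h : X → G) (e : X → G) (A : Subgroup G) :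
    Prop extends We F t L O α h e where
  ab : Ab t O h F.W A
  cW : ∀ d ∈ F.J, d * F.z = F.z * d → d * F.q = F.q * d → ∀ y ∈ A, h d * y = y * h d
  nW : ∀ d ∈ F.J, d ∈ 𝐍(F.W) → h d ∈ 𝐍(A)

/-- the untwisted case -/
structure EU (F : Dy X) (t : G) (L O : Subgroup G) (α : G → X) (h : X → G) (e : X → G) (A : Subgroup G) :
    Prop extends Es F t L O α h e A where
  uu : ∀ a c, F.Ty a c → e a * e c = e (a * c)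
  eA : ∀ w ∈ F.W, w ≠ 1 → e w ∈ A
  sqA : ∀ y ∈ A, y * y = 1

/-- the twisted case -/
structure ET (F : Dy X) (t : G) (L O : Subgroup G) (α : G → X) (h : X → G) (e : X → G) (A : Subgroup G) :
    Prop extends Es F t L O α h e A where
  tw : ∀ a c, F.Ty a c → e a * e c = e (a * c) * (h a * t)
  eA : ∀ w ∈ F.W, w ≠ 1 → e w * t ∈ A
  sqA : ∀ y ∈ A, y * t * y⁻¹ = t * (y * y)

/-- the group `Y` over `V`, when `t ~ t b̂` -/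
structure Ev (F : Dy X) (t : G) (O : Subgroup G) (h : X → G) (Y : Subgroup G) : Prop where
  ab : Ab t O h F.V Y
  cX : ∀ x ∈ F.X5, ∀ y ∈ Y, h x * y = y * h x
  ωN : h F.ω ∈ 𝐍(Y)

theorem eqns_Defs : True := by
  have := @Dy.T.eq_1
  have := @Dy.D.eq_1
  have := @Dy.W.eq_1
  have := @Dy.V.eq_1
  have := @Dy.Zc.eq_1
  have := @Dy.Bc.eq_1
  have := @Dy.Ty.eq_1
  have := @Dy.Out.eq_1
  have := @Dy.Mode1.eq_1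
  have := @Dy.Cen4.eq_1
  have := @Dy.CC.eq_1
  have := @Dy.pt.eq_1
  have := @AdE.eq_1.{0}
  trivial

end H79.JS
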