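import Mathlib
import Cfsg.Agent.Lib.JS.Defs

/-! Consequences of `Fx`; the calculus of `Iso` and `W0`. -/

set_option autoImplicit false
set_option linter.unusedSectionVars false

namespace H79.JS

open Subgroup H69 H36.SW
open H48.SM (Pf)
open scoped commutatorElement

variable {X : Type} [Group X] {G : Type*} [Group G]

theorem cjc {j x y : G} (h : x * y = y * x) : j * x * j⁻¹ * (j * y * j⁻¹) = j * y * j⁻¹ * (j * x * j⁻¹) := by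
  rw [conj_mul, conj_mul, h]

theorem cj_fix {j x : G} : j * x * j⁻¹ = x ↔ j * x = x * j := mul_inv_eq_iff_eq_mul

theorem mem_four {x y g : G} (x2 : x * x = 1) (y2 : y * y = 1) (c : x * y = y * x) :
    g ∈ closure {x, y} ↔ g = 1 ∨ g = x ∨ g = y ∨ g = x * y := by
  have xx : ∀ w, x * (x * w) = w := fun w => by rw [← mul_assoc, x2, one_mul]
  have yy : ∀ w, y * (y * w) = w := fun w => by rw [← mul_assoc, y2, one_mul]
  have yx : ∀ w, y * (x * w) = x * (y * w) := fun w => by rw [← mul_assoc, ← c, mul_assoc]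
  have hx : x ∈ closure {x, y} := subset_closure (by simp)
  have hy : y ∈ closure {x, y} := subset_closure (by simp)
  refine ⟨fun h => ?_, by rintro (rfl | rfl | rfl | rfl); exacts [one_mem _, hx, hy, mul_mem hx hy]⟩
  induction h using closure_induction with
  | mem a h => rcases h with rfl | rfl <;> simp
  | one => simp
  | mul a b _ _ h k =>
    rcases h with rfl | rfl | rfl | rfl <;> rcases k with rfl | rfl | rfl | rfl <;>
      simp [mul_assoc, xx, yy, yx, x2, y2, ← c]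
  | inv a _ h =>
    rcases h with rfl | rfl | rfl | rfl <;>
      simp [inv_eq_of_mul_eq_one_left x2, inv_eq_of_mul_eq_one_left y2, ← c]

namespace Dy
variable {F : Dy X}
theorem zW : F.z ∈ F.W := subset_closure (by simp)
theorem qW : F.q ∈ F.W := subset_closure (by simp)
theorem bV : F.b ∈ F.V := subset_closure (by simp)
theorem cV : F.c ∈ F.V := subset_closure (by simp)
theorem mem_T {a : X} : a ∈ F.T ↔ a ∈ F.Ts ∧ a ∈ F.J := Iff.rfl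
theorem mem_D {a : X} : a ∈ F.D ↔ a ∈ F.J ∧ a * F.z = F.z * a :=
  and_congr_right fun _ => mem_centralizer_singleton_iff
theorem TTs : F.T ≤ F.Ts := inf_le_left
theorem TJ : F.T ≤ F.J := inf_le_right
theorem DJ : F.D ≤ F.J := inf_le_left
theorem Dz {a : X} (h : a ∈ F.D) : a * F.z = F.z * a := (mem_D.1 h).2
theorem Zz : F.Zc F.z := ⟨1, one_mem _, by group⟩
theorem Bb : F.Bc F.b := ⟨1, one_mem _, by group⟩
theorem Zc.cj {a j : X} (h : F.Zc a) (hj : j ∈ F.J) : F.Zc (j * a * j⁻¹) :=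
  let ⟨k, hk, e⟩ := h; ⟨j * k, mul_mem hj hk, by rw [← e]; group⟩
theorem Bc.cj {a j : X} (h : F.Bc a) (hj : j ∈ F.J) : F.Bc (j * a * j⁻¹) :=
  let ⟨k, hk, e⟩ := h; ⟨j * k, mul_mem hj hk, by rw [← e]; group⟩
theorem Zc.of_cj {a j : X} (hj : j ∈ F.J) (h : F.Zc (j * a * j⁻¹)) : F.Zc a := by
  simpa [mul_assoc] using h.cj (inv_mem hj)
theorem Bc.of_cj {a j : X} (hj : j ∈ F.J) (h : F.Bc (j * a * j⁻¹)) : F.Bc a := by
  simpa [mul_assoc] using h.cj (inv_mem hj)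
theorem Bc.zc {a : X} (h : F.Bc a) (hb : F.Zc F.b) : F.Zc a := let ⟨_, hj, e⟩ := h; e ▸ hb.cj hj
theorem Ty.cj {a a' : X} (h : F.Ty a a') (g : X) : F.Ty (g * a * g⁻¹) (g * a' * g⁻¹) :=
  let ⟨k, e, e'⟩ := h; ⟨g * k, by rw [← e]; group, by rw [← e']; group⟩
theorem Ty.base : F.Ty F.z F.q := ⟨1, by group, by group⟩
end Dy

namespace Fx
variable {F : Dy X} (H : Fx F)
include H

theorem cjJ {a : X} (ha : a ∈ F.J) (x : X) : x * a * x⁻¹ ∈ F.J := H.nJ.conj_mem a ha x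
theorem cjJ' {a x : X} : x * a * x⁻¹ ∈ F.J ↔ a ∈ F.J :=
  ⟨fun h => by simpa [mul_assoc] using H.cjJ h x⁻¹, fun h => H.cjJ h x⟩
theorem zJ : F.z ∈ F.J := H.zT.2
theorem zTs : F.z ∈ F.Ts := H.zT.1
theorem TD : F.T ≤ F.D := fun a ha => Dy.mem_D.2 ⟨ha.2, H.cT a ha.1⟩
theorem MJ : F.M ≤ F.J := H.MD.trans Dy.DJ
theorem RT : F.R ≤ F.T := H.RU.trans H.UT
theorem UJ : F.U ≤ F.J := H.UT.trans Dy.TJ
theorem zM : F.z ∈ F.M := H.DM (H.TD H.zT)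
theorem fM : F.f ∈ F.M := H.fz ▸ H.zM
theorem fc : ∀ m ∈ F.M, m * F.f = F.f * m := fun _ hm => H.fz ▸ Dy.Dz (H.MD hm)
theorem DD : ⁅F.D, F.D⁆ ≤ F.M := (commutator_le_of_le le_rfl le_rfl).trans H.DM
theorem ρJ : F.ρ ∈ F.J := H.XJ H.ρX
theorem sg : ∃ σ ∈ F.J, σ * F.z * σ⁻¹ = F.q ∧ σ * F.q * σ⁻¹ = F.z * F.q := ⟨_, H.ρJ, H.ρz, H.ρq⟩
theorem WR : F.W ≤ F.R := fun w hw => (H.memR w).2 ⟨w, hw, 1, one_mem _, (mul_one w).symm⟩
theorem VR : F.V ≤ F.R := fun w hw => (H.memR w).2 ⟨1, one_mem _, w, hw, (one_mul w).symm⟩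
theorem WX : F.W ≤ F.X5 := (closure_le _).2 (by rintro _ (rfl | rfl); exacts [H.zX, H.qX])
theorem WJ : F.W ≤ F.J := H.WX.trans H.XJ
theorem VJ : F.V ≤ F.J := (H.VR.trans H.RT).trans Dy.TJ
theorem Rc {x y : X} (hx : x ∈ F.R) (hy : y ∈ F.R) : x * y = y * x := by
  rw [← inv_eq_of_mul_eq_one_left (H.R2 _ (mul_mem hx hy)), mul_inv_rev,
    inv_eq_of_mul_eq_one_left (H.R2 x hx), inv_eq_of_mul_eq_one_left (H.R2 y hy)]
theorem bR : F.b ∈ F.R := H.VR Dy.bV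
theorem cR : F.c ∈ F.R := H.VR Dy.cV
theorem b2 : F.b * F.b = 1 := H.R2 _ H.bR
theorem c2 : F.c * F.c = 1 := H.R2 _ H.cR
theorem q2 : F.q * F.q = 1 := H.R2 _ (H.WR Dy.qW)
theorem bc : F.b * F.c = F.c * F.b := H.Rc H.bR H.cR
theorem Rb : ∀ a ∈ F.R, a * F.b = F.b * a := fun _ ha => H.Rc ha H.bR
theorem genR : F.R ≤ closure {a | a ∈ F.R ∧ a * a = 1} := fun a ha => subset_closure ⟨ha, H.R2 a ha⟩
theorem R4 : 4 < Nat.card F.R := by rw [H.cardR]; norm_num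
theorem mem_W {x : X} : x ∈ F.W ↔ x = 1 ∨ x = F.z ∨ x = F.q ∨ x = F.z * F.q :=
  mem_four H.z2 H.q2 (H.Rc (H.WR Dy.zW) (H.WR Dy.qW))
theorem mem_V {x : X} : x ∈ F.V ↔ x = 1 ∨ x = F.b ∨ x = F.c ∨ x = F.b * F.c := mem_four H.b2 H.c2 H.bc
theorem aJ : F.a ∈ F.J := H.aT.2
theorem cJ' : F.c ∈ F.J := H.VJ Dy.cV
theorem XV {x v : X} (hx : x ∈ F.X5) (hv : v ∈ F.V) : x * v = v * x := by
  rcases H.mem_V.1 hv with rfl | rfl | rfl | rfl
  exacts [by simp, H.Xb x hx, H.Xc x hx, (Commute.mul_right (H.Xb x hx) (H.Xc x hx) :)]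
theorem Bv {v : X} (hv : v ∈ F.V) (v1 : v ≠ 1) : F.Bc v := H.RB v (H.VR hv) fun h => v1 (H.bW v hv h)
/-- `C_X(V) = V × X₅` -/
theorem cV' {g : X} (h1 : g * F.b = F.b * g) (h2 : g * F.c = F.c * g) : ∃ v ∈ F.V, ∃ x ∈ F.X5, g = v * x :=
  H.cJb g (H.cV g h1 h2) h1
/-- `C_X(R) = R` -/
theorem cenR {g : X} (h : ∀ x ∈ F.R, g * x = x * g) : g ∈ F.R :=
  H.cbW g (h _ H.bR) (h _ (H.WR Dy.zW)) (h _ (H.WR Dy.qW))
theorem mode : F.Mode1 := ⟨H.fz, H.DM, fun x hx h => by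
  rcases H.mem_W.1 (H.z2T x hx h) with rfl | rfl | rfl | rfl
  exacts [Or.inl rfl, Or.inr (Or.inl rfl), Or.inr (Or.inr H.qq), Or.inr (Or.inr fun N hN => H.qq N fun d hd => by
    have := hN d hd
    rwa [commutatorElement_def, mul_inv_rev, show F.z * F.q * d * (F.q⁻¹ * F.z⁻¹) * d⁻¹ =
      F.z * (F.q * d * F.q⁻¹) * F.z⁻¹ * d⁻¹ by group, cj_fix.2 (Dy.Dz (mul_mem (mul_mem (H.MD H.qM) hd)
        (inv_mem (H.MD H.qM)))).symm] at this)]⟩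
theorem exO : ∃ A ≤ F.M, F.z ∈ A ∧ F.φ ∈ 𝐍(A) ∧ (∀ g, (∀ a ∈ A, g * a = a * g) → g ∈ F.J) ∧
    ∃ l1 ∈ F.J, ∃ l2 ∈ F.J, l1 ∈ 𝐍(A) ∧ l2 ∈ 𝐍(A) ∧
      l1 * (F.z * (F.φ * (l2 * F.z * l2⁻¹) * F.φ⁻¹)) * l1⁻¹ = F.z := by
  refine ⟨F.U, (H.UT.trans H.TD).trans H.DM, H.RU (H.WR Dy.zW), H.φU, fun g h => H.WJ (H.cU g h), ?_⟩
  rcases H.φq with e | e
  · refine ⟨F.ρ, H.ρJ, F.ρ, H.ρJ, H.ρU, H.ρU, ?_⟩
    rw [H.ρz, e, ← conj_mul, H.ρz, H.ρq, ← mul_assoc, Dy.Dz (H.MD H.qM), mul_assoc, H.q2, mul_one]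
  · refine ⟨F.ρ⁻¹, inv_mem H.ρJ, F.ρ, H.ρJ, inv_mem H.ρU, H.ρU, ?_⟩
    rw [H.ρz, e, ← mul_assoc F.z, H.z2, one_mul, ← H.ρz]; group
theorem RJ : F.R ≤ F.J := H.RT.trans Dy.TJ
theorem qJ : F.q ∈ F.J := H.MJ H.qM
theorem fJ : F.f ∈ F.J := H.MJ H.fM
theorem bR' : F.b ∈ F.R := H.bR
theorem bT : F.b ∈ F.T := H.RT H.bR'
theorem bJ : F.b ∈ F.J := H.bT.2
theorem Jne : F.J ≠ ⊥ := fun e => H.z1 (mem_bot.1 (e ▸ H.zJ))
theorem P2T {a : X} (ha : a ∈ F.Ts) : P2 a := P2.of_mem H.syl.isP ha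
theorem pT : IsPGroup 2 F.T := H.syl.isP.to_inf_left
theorem pR : IsPGroup 2 F.R := H.pT.to_le H.RT
theorem sq2 (x : X) : x * x ∈ F.J := (em _).elim (fun h => mul_mem h h) fun h => H.sq x h x h
theorem inv_mul_mem {x y : X} (hx : x ∉ F.J) (hy : y ∉ F.J) : x⁻¹ * y ∈ F.J :=
  H.sq _ (by rwa [inv_mem_iff]) _ hy
theorem mul_inv_mem {x y : X} (hx : x ∉ F.J) (hy : y ∉ F.J) : x * y⁻¹ ∈ F.J :=
  H.sq _ hx _ (by rwa [inv_mem_iff])

theorem comm_mem (x y : X) : ⁅x, y⁆ ∈ F.J := by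
  rw [commutatorElement_def]
  by_cases hx : x ∈ F.J
  · rw [mul_assoc, mul_assoc, ← mul_assoc y]; exact mul_mem hx (H.cjJ (inv_mem hx) y)
  · by_cases hy : y ∈ F.J
    · exact mul_mem (H.cjJ hy x) (inv_mem hy)
    · rw [mul_assoc]; exact mul_mem (H.sq x hx y hy) (H.sq _ (by rwa [inv_mem_iff]) _ (by rwa [inv_mem_iff]))

theorem perf_le {N : Subgroup X} (h : N ≤ ⁅N, N⁆) : N ≤ F.J :=
  h.trans (commutator_le.2 fun a _ b _ => H.comm_mem a b)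

theorem mem_of_odd_pow {x : X} {n : ℕ} (hn : Odd n) (h : x ^ n ∈ F.J) : x ∈ F.J := by
  obtain ⟨k, rfl⟩ := hn
  rw [pow_succ, pow_mul, pow_two] at h
  exact (mul_mem_cancel_left (pow_mem (H.sq2 x) k)).1 h

/-- `X = J ∪ J x` -/
theorem dec {x : X} (hx : x ∉ F.J) (g : X) : g ∈ F.J ∨ ∃ j ∈ F.J, g = j * x :=
  (em _).imp id fun h => ⟨_, H.mul_inv_mem h hx, by group⟩

theorem φz : F.φ * F.z = F.z * F.φ := H.cT _ H.φT

theorem Zc_cj {a : X} (h : F.Zc a) (g : X) : F.Zc (g * a * g⁻¹) := by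
  rcases H.dec H.φJ g with hg | ⟨j, hj, rfl⟩
  · exact h.cj hg
  · obtain ⟨k, hk, rfl⟩ := h
    refine ⟨j * (F.φ * k * F.φ⁻¹), mul_mem hj (H.cjJ hk _), ?_⟩
    calc _ = j * F.φ * k * (F.φ⁻¹ * (F.z * F.φ)) * k⁻¹ * F.φ⁻¹ * j⁻¹ := by group
      _ = _ := by rw [← H.φz]; group
theorem Zc_mem {a : X} (h : F.Zc a) : a ∈ F.J := let ⟨j, _, e⟩ := h; e ▸ H.cjJ H.zJ j
theorem Zc_sq {a : X} (h : F.Zc a) : a * a = 1 := let ⟨j, _, e⟩ := h; e ▸ cjsq H.z2 j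
theorem Zc_ne {a : X} (h : F.Zc a) : a ≠ 1 := let ⟨j, _, e⟩ := h; e ▸ cjne H.z1 j
theorem Bc_mem {a : X} (h : F.Bc a) : a ∈ F.J := let ⟨j, _, e⟩ := h; e ▸ H.cjJ H.bJ j
theorem Bc_sq {a : X} (h : F.Bc a) : a * a = 1 := let ⟨j, _, e⟩ := h; e ▸ cjsq H.b2 j
theorem Bc_ne {a : X} (h : F.Bc a) : a ≠ 1 := let ⟨j, _, e⟩ := h; e ▸ cjne H.b1 j
theorem Zq : F.Zc F.q := let ⟨σ, h, e, _⟩ := H.sg; ⟨σ, h, e⟩
theorem Zzq : F.Zc (F.z * F.q) := let ⟨_, h, _, e⟩ := H.sg; e ▸ H.Zq.cj h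
theorem qz : F.q * F.z = F.z * F.q := Dy.Dz (H.MD H.qM)
theorem Ty1 {a a' : X} (h : F.Ty a a') : F.Zc a := let ⟨g, e, _⟩ := h; e ▸ H.Zc_cj Dy.Zz g
theorem Ty2 {a a' : X} (h : F.Ty a a') : F.Zc a' := let ⟨g, _, e⟩ := h; e ▸ H.Zc_cj H.Zq g
theorem Ty3 {a a' : X} (h : F.Ty a a') : F.Zc (a * a') := by
  obtain ⟨g, rfl, rfl⟩ := h; rw [conj_mul]; exact H.Zc_cj H.Zzq g
theorem Tyc {a a' : X} (h : F.Ty a a') : a * a' = a' * a := by
  obtain ⟨g, rfl, rfl⟩ := h; exact cjc H.qz.symm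

theorem Tyne {a a' : X} (h : F.Ty a a') : a ≠ a' := fun e => H.Zc_ne (H.Ty3 h) (e ▸ H.Zc_sq (H.Ty1 h))
theorem Tya : F.Ty F.z F.a := H.pty 1
theorem Za : F.Zc F.a := H.Ty2 H.Tya
theorem Zw {w : X} (hw : w ∈ F.W) (w1 : w ≠ 1) : F.Zc w := by
  rcases H.mem_W.1 hw with rfl | rfl | rfl | rfl
  exacts [absurd rfl w1, Dy.Zz, H.Zq, H.Zzq]
theorem not_Zc {a : X} (h : F.Bc a) : ¬ F.Zc a := fun k => let ⟨_, hj, e⟩ := h; H.nzb (Dy.Zc.of_cj hj (e ▸ k))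
/-- commuting involutions of the class of `z` -/
theorem tyJ' {a c : X} (ha : F.Zc a) (hc : F.Zc c) (e : a * c = c * a) (n : a ≠ c) :
    ∃ j ∈ F.J, j * F.z * j⁻¹ = a ∧ j * F.q * j⁻¹ = c := by
  obtain ⟨j, hj, rfl⟩ := ha
  rcases H.tyJ (j⁻¹ * c * j⁻¹⁻¹) (hc.cj (inv_mem hj)) (by
    simpa [mul_assoc] using (cjc (j := j⁻¹) e).symm) with k | ⟨d, hd, k⟩
  · exact absurd (by rw [← k]; group) n
  · refine ⟨j * d, mul_mem hj (Dy.DJ hd), ?_, ?_⟩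
    · calc _ = j * (d * F.z * d⁻¹) * j⁻¹ := by group
        _ = _ := by rw [cj_fix.2 (Dy.Dz hd)]
    · calc _ = j * (d * F.q * d⁻¹) * j⁻¹ := by group
        _ = c := by rw [k]; group
theorem TyJ {a c : X} (h : F.Ty a c) : ∃ j ∈ F.J, j * F.z * j⁻¹ = a ∧ j * F.q * j⁻¹ = c :=
  H.tyJ' (H.Ty1 h) (H.Ty2 h) (H.Tyc h) (H.Tyne h)
theorem ty_of {a c : X} (ha : F.Zc a) (hc : F.Zc c) (e : a * c = c * a) (n : a ≠ c) : F.Ty a c :=
  let ⟨j, _, k⟩ := H.tyJ' ha hc e n; ⟨j, k⟩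
theorem ccW {g : X} (h : F.CC F.z F.q g) : g = 1 ∨ g = F.z ∨ g = F.q ∨ g = F.z * F.q :=
  H.mem_W.1 (H.cU g fun u hu => h.2.2 u (H.UJ hu) (H.UW u hu _ Dy.zW) (H.UW u hu _ Dy.qW))

theorem P2f : P2 F.f := H.fz ▸ P2.of_sq H.z2
theorem Z0M : zpowers F.f ≤ F.M := zpowers_le.2 H.fM
theorem P2Z0 {g : X} (h : g ∈ zpowers F.f) : P2 g := P2.of_mem H.P2f.zpowers h
theorem Z0c {g m : X} (h : g ∈ zpowers F.f) (hm : m ∈ F.M) : m * g = g * m :=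
  let ⟨k, e⟩ := h; e ▸ (Commute.zpow_right (H.fc m hm) k).eq
theorem mem_Z0 {g : X} (h : g ∈ zpowers F.f) : g = 1 ∨ g = F.z := (mem_zp H.z2).1 (H.fz ▸ h)

/-- `C_X(D) = ⟨z⟩` -/
theorem cD {g : X} (h : ∀ d ∈ F.D, g * d = d * g) : g = 1 ∨ g = F.z :=
  H.mem_Z0 (H.cM g fun m hm => h m (H.MD hm))

theorem cJ {g : X} (h : ∀ j ∈ F.J, g * j = j * g) : g = 1 := by
  refine (H.cD fun d hd => h d (Dy.DJ hd)).elim id fun e => ?_
  obtain ⟨σ, hσ, e1, e2⟩ := H.sg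
  rw [← e, ← h σ hσ, mul_inv_cancel_right] at e1
  rw [← e1, e, H.z2] at e2
  exact absurd e2 (cjne H.z1 σ)

theorem cjD {x d : X} (hx : x * F.z = F.z * x) (hd : d ∈ F.D) : x * d * x⁻¹ ∈ F.D :=
  Dy.mem_D.2 ⟨H.cjJ (Dy.DJ hd) x, by have := cjc (j := x) (Dy.Dz hd); rwa [cj_fix.2 hx] at this⟩

theorem cjM {x m : X} (hx : x * F.z = F.z * x) (hm : m ∈ F.M) : x * m * x⁻¹ ∈ F.M := by
  have : F.M ^ᶜ x ≤ F.M := (cj_mono x H.pfM.1).trans (by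
    rw [cj_commutator]
    have : F.M ^ᶜ x ≤ F.D := fun _ ⟨m, hm, e⟩ => e ▸ H.cjD hx (H.MD hm)
    exact (commutator_mono this this).trans H.DD)
  exact this (cj_mem x hm)

variable [Finite X]

theorem sylT : IsSylowIn 2 F.T F.J := H.syl.inf_normal le_top (normal_iff_top_le_normalizer.1 H.nJ)

theorem cardTs : Nat.card F.Ts = Nat.card F.T * 2 := by
  have i2 : (F.J.subgroupOf F.Ts).index = 2 := by
    refine index_eq_two_iff.2 ⟨⟨F.φ, H.φT⟩, fun b => ?_⟩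
    by_cases hb : (b : X) ∈ F.J
    · exact Or.inr ⟨hb, fun h => H.φJ ((F.J.mul_mem_cancel_left hb).1 h)⟩
    · exact Or.inl ⟨H.sq _ hb _ H.φJ, hb⟩
  rw [← (F.J.subgroupOf F.Ts).card_mul_index, i2, Dy.T, inf_comm, ← subgroupOf_map_subtype,
    card_map_of_injective F.Ts.subtype_injective]

/-- a `2`-subgroup is `J`-conjugate into `Ts` -/
theorem cjTs {P : Subgroup X} (h : IsPGroup 2 P) : ∃ j ∈ F.J, P ^ᶜ j ≤ F.Ts := by
  obtain ⟨g, -, e⟩ := H.syl.exists_cj_le h le_top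
  by_cases hg : g ∈ F.J
  · exact ⟨g, hg, e⟩
  · exact ⟨F.φ * g, H.sq _ H.φJ _ hg, by
      rw [← cj_cj]; exact (cj_mono _ e).trans (cj_eq_of_mem_normalizer (le_normalizer H.φT)).le⟩

theorem cjTs' {x : X} (h : P2 x) : ∃ j ∈ F.J, j * x * j⁻¹ ∈ F.Ts :=
  let ⟨j, hj, e⟩ := H.cjTs h.zpowers; ⟨j, hj, e (cj_mem j (mem_zpowers x))⟩

theorem card_le {P : Subgroup X} (h : IsPGroup 2 P) : Nat.card P ≤ Nat.card F.Ts := H.syl.card_le h le_top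

theorem inv {a : X} (ha : a ∈ F.J) (a2 : a * a = 1) : a = 1 ∨ F.Zc a ∨ F.Bc a := by
  obtain ⟨j, hj, e⟩ := H.cjTs' (P2.of_sq a2)
  rcases H.invT _ ⟨e, H.cjJ ha j⟩ (cjsq a2 j) with e | e | ⟨e, -⟩
  exacts [Or.inl (by simpa using e), Or.inr (Or.inl (e.of_cj hj)), Or.inr (Or.inr (e.of_cj hj))]

/-- an element centralising a `2`-subgroup of `J` of full order -/
theorem zc_of_card {P : Subgroup X} (hP : IsPGroup 2 P) (PJ : P ≤ F.J) (c : Nat.card F.T ≤ Nat.card P) {a : X}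
    (a2 : P2 a) (ca : ∀ x ∈ P, a * x = x * a) : a = 1 ∨ F.Zc a := by
  obtain ⟨j, hj, e⟩ := H.cjTs (P := P ⊔ zpowers a) (IsPGroup.to_sup_of_normal_left' hP a2.zpowers
    (zpowers_le.2 (centralizer_le_normalizer _ fun x hx => (ca x hx).symm)))
  have e1 : P ^ᶜ j = F.T := eq_of_le_of_card_ge (le_inf ((cj_mono j le_sup_left).trans e) (cj_le_of_mem PJ hj))
    (by rwa [card_cj])
  rcases H.ctr _ (e (cj_mem j (mem_sup_right (mem_zpowers a)))) (by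
    rw [← e1]; rintro _ ⟨x, hx, rfl⟩; exact cjc (ca x hx)) with e | e
  exacts [Or.inl (by simpa using e), Or.inr (Dy.Zc.of_cj hj (e ▸ Dy.Zz))]

theorem out {x : X} (hx : x ∉ F.J) (x2 : x * x = 1) : ∃ j ∈ F.J, j * F.φ * j⁻¹ = x := by
  obtain ⟨j, hj, e⟩ := H.cjTs' (P2.of_sq x2)
  obtain ⟨⟨k, hk, e⟩, -⟩ := H.outT _ e (by rwa [H.cjJ']) (cjsq x2 j)
  exact ⟨j⁻¹ * k, mul_mem (inv_mem hj) hk, by
    calc _ = j⁻¹ * (k * F.φ * k⁻¹) * j := by group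
      _ = x := by rw [e]; group⟩

omit [Finite X] in
theorem Out_cj {x : X} (h : F.Out x) (g : X) : F.Out (g * x * g⁻¹) := by
  obtain ⟨⟨u, hu, v, hv, e1, e2, n, j, hj, e⟩, P, PJ, p, c, k⟩ := h
  refine ⟨⟨_, H.cjJ hu g, _, H.cjJ hv g, cjc e1, cjc e2, ?_, _, H.cjJ hj g, ?_⟩, P ^ᶜ g,
    fun _ ⟨a, ha, e⟩ => e ▸ H.cjJ (PJ ha) g, fun _ ⟨a, ha, e⟩ => e ▸ cjsq (p a ha) g, fun _ ⟨a, ha, e⟩ => e ▸ cjc (c a ha),
    by rwa [card_cj]⟩ <;> rw [← conjugate_commutatorElement]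
  · exact cjne n g
  · rw [← show g * (x * ⁅u, v⁆) * g⁻¹ = _ from conj_mul.symm, ← e]; group

theorem outAll {x : X} (hx : x ∉ F.J) (x2 : x * x = 1) : F.Out x :=
  let ⟨j, _, e⟩ := H.out hx x2; e ▸ H.Out_cj H.oφ j

/-- `2`-subgroups centralising an outer involution -/
theorem ext3 {P : Subgroup X} (hP : IsPGroup 2 P) {x : X} (hx : x ∉ F.J) (x2 : x * x = 1)
    (c : ∀ a ∈ P, a * x = x * a) : Nat.card P ≤ 32 := by
  obtain ⟨j, hj, e⟩ := H.cjTs (P := P ⊔ zpowers x) (IsPGroup.to_sup_of_normal_left' hP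
    (P2.of_sq x2).zpowers (zpowers_le.2 (centralizer_le_normalizer _ c)))
  refine le_trans ?_ (H.outT _ (e (cj_mem j (mem_sup_right (mem_zpowers _)))) (by rwa [H.cjJ']) (cjsq x2 j)).2
  rw [← card_cj P j]
  exact card_le_of_le (le_inf ((cj_mono j le_sup_left).trans e)
    fun _ ⟨a, ha, e⟩ => e ▸ mem_centralizer_singleton_iff.2 (cjc (c a ha)))

omit [Finite X] in
theorem zTT : F.z ∈ ⁅F.T, F.T⁆ := by
  have qT := H.RT (H.WR Dy.qW)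
  have := commutator_mem_commutator H.aT qT
  rwa [commutatorElement_def, inv_eq_of_mul_eq_one_left H.a2, H.aq, H.qz, mul_inv_cancel_right] at this

theorem cRT : Nat.card F.R ≤ Nat.card F.T := card_le_of_le H.RT

/-- every involution of `J` centralises an elementary abelian group of order 16 -/
theorem e16c {a : X} (ha : a ∈ F.J) (a2 : a * a = 1) : ∃ P ≤ F.J, (∀ x ∈ P, x * x = 1) ∧
    (∀ x ∈ P, x * a = a * x) ∧ Nat.card P = 16 := by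
  rcases H.inv ha a2 with rfl | ⟨j, hj, rfl⟩ | ⟨j, hj, rfl⟩
  · exact ⟨F.R, H.RJ, H.R2, by simp, H.cardR⟩
  · exact ⟨F.R ^ᶜ j, cj_le_of_mem H.RJ hj, fun _ ⟨x, hx, e⟩ => e ▸ cjsq (H.R2 x hx) j,
      fun _ ⟨x, hx, e⟩ => e ▸ cjc (H.cT x (H.RT hx).1), by rw [card_cj, H.cardR]⟩
  · exact ⟨F.R ^ᶜ j, cj_le_of_mem H.RJ hj, fun _ ⟨x, hx, e⟩ => e ▸ cjsq (H.R2 x hx) j,
      fun _ ⟨x, hx, e⟩ => e ▸ cjc (H.Rb x hx), by rw [card_cj, H.cardR]⟩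

end Fx

namespace Iso
variable {J : Subgroup X} {L : Subgroup G} {α : G → X} {h : X → G} (c : Iso J L α h)
include c

theorem hN {j : X} (hj : j ∈ J) : h j ∈ 𝐍(L) := le_normalizer (c.hL j hj)
theorem ext {a b : G} (ha : a ∈ L) (hb : b ∈ L) (e : α a = α b) : a = b :=
  inv_mul_eq_one.1 (c.inj _ (mul_mem (inv_mem ha) hb)
    (c.cov.cen (c.cov.inv_mul_mem (le_normalizer ha) (le_normalizer hb) e)))
theorem hα {a : G} (ha : a ∈ L) : h (α a) = a := c.ext (c.hL _ (c.cov.mem a ha)) ha (c.αh _ (c.cov.mem a ha))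
theorem ex {a : G} (ha : a ∈ L) : ∃ j ∈ J, h j = a := ⟨_, c.cov.mem a ha, c.hα ha⟩
theorem one : h 1 = 1 := by rw [← c.cov.one, c.hα (one_mem _)]
theorem mul {j k : X} (hj : j ∈ J) (hk : k ∈ J) : h (j * k) = h j * h k :=
  c.ext (c.hL _ (mul_mem hj hk)) (mul_mem (c.hL j hj) (c.hL k hk))
    (by rw [c.cov.mul' (c.hL j hj) (c.hL k hk), c.αh j hj, c.αh k hk, c.αh _ (mul_mem hj hk)])
theorem inv {j : X} (hj : j ∈ J) : h j⁻¹ = (h j)⁻¹ :=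
  eq_inv_of_mul_eq_one_left (by rw [← c.mul (inv_mem hj) hj, inv_mul_cancel, c.one])
theorem pow {j : X} (hj : j ∈ J) (n : ℕ) : h (j ^ n) = h j ^ n := by
  induction n with
  | zero => rw [pow_zero, pow_zero, c.one]
  | succ n ih => rw [pow_succ, pow_succ, c.mul (pow_mem hj n) hj, ih]
theorem cj {j k : X} (hj : j ∈ J) (hk : k ∈ J) : h (j * k * j⁻¹) = h j * h k * (h j)⁻¹ := by
  rw [c.mul (mul_mem hj hk) (inv_mem hj), c.mul hj hk, c.inv hj]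
theorem hinj {j k : X} (hj : j ∈ J) (hk : k ∈ J) (e : h j = h k) : j = k := by
  rw [← c.αh j hj, e, c.αh k hk]
theorem ne {j : X} (hj : j ∈ J) (n : j ≠ 1) : h j ≠ 1 := fun e => n (c.hinj hj (one_mem _) (e.trans c.one.symm))
theorem sq {j : X} (hj : j ∈ J) (e : j * j = 1) : h j * h j = 1 := by rw [← c.mul hj hj, e, c.one]
theorem p2 {j : X} (hj : j ∈ J) (e : P2 j) : P2 (h j) := let ⟨k, hk⟩ := e; ⟨k, by rw [← c.pow hj, hk, c.one]⟩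
theorem comm {j k : X} (hj : j ∈ J) (hk : k ∈ J) (e : j * k = k * j) : h j * h k = h k * h j := by
  rw [← c.mul hj hk, e, c.mul hk hj]
theorem cmt {j k : X} (hj : j ∈ J) (hk : k ∈ J) : h ⁅j, k⁆ = ⁅h j, h k⁆ := by
  rw [commutatorElement_def, commutatorElement_def, c.mul (mul_mem (mul_mem hj hk) (inv_mem hj)) (inv_mem hk),
    c.cj hj hk, c.inv hk]
/-- the action of `N(L)` -/
theorem conj {g : G} (hg : g ∈ 𝐍(L)) {j : X} (hj : j ∈ J) : g * h j * g⁻¹ = h (α g * j * (α g)⁻¹) := by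
  have := c.hα (conj_mem_of_mem_normalizer hg (c.hL j hj))
  rw [c.cov.conj hg (c.hN hj), c.αh j hj] at this
  exact this.symm
theorem comm_of {g : G} (hg : g ∈ 𝐍(L)) {j : X} (hj : j ∈ J) (e : α g * j = j * α g) : g * h j = h j * g :=
  cj_fix.1 (by rw [c.conj hg hj, cj_fix.2 e])
theorem of_comm {g : G} (hg : g ∈ 𝐍(L)) {j : X} (hj : j ∈ J) (e : g * h j = h j * g) : α g * j = j * α g := by
  have := c.cov.comm hg (c.hN hj) e; rwa [c.αh j hj] at this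
theorem cen {k : G} (hk : k ∈ 𝐂(L)) {j : X} (hj : j ∈ J) : h j * k = k * h j := hk _ (c.hL j hj)
/-- `h` as a homomorphism -/
def hom : J →* G := MonoidHom.mk' (fun j => h j) fun j k => c.mul j.2 k.2
/-- the copy in `L` of a subgroup of `J` -/
def hat (Y : Subgroup X) : Subgroup G := (Y.subgroupOf J).map c.hom
theorem mem_hat {Y : Subgroup X} (hY : Y ≤ J) {g : G} : g ∈ c.hat Y ↔ ∃ y ∈ Y, h y = g :=
  ⟨fun ⟨y, hy, e⟩ => ⟨y, hy, e⟩, fun ⟨y, hy, e⟩ => ⟨⟨y, hY hy⟩, hy, e⟩⟩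
theorem hat_le (Y : Subgroup X) : c.hat Y ≤ L := fun _ ⟨y, _, e⟩ => e ▸ c.hL _ y.2
theorem card_hat {Y : Subgroup X} (hY : Y ≤ J) : Nat.card (c.hat Y) = Nat.card Y := by
  rw [hat, card_map_of_injective fun j k e => Subtype.ext (c.hinj j.2 k.2 e)]
  exact Nat.card_congr (subgroupOfEquivOfLe hY).toEquiv
theorem hat_comm {Y : Subgroup X} (hY : Y ≤ J) {y : X} (hy : y ∈ ⁅Y, Y⁆) : h y ∈ ⁅c.hat Y, c.hat Y⁆ := by
  have : ⁅Y, Y⁆ ≤ (⁅c.hat Y, c.hat Y⁆.comap c.hom).map J.subtype := commutator_le.2 fun a ha b hb =>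
    ⟨⁅(⟨a, hY ha⟩ : J), ⟨b, hY hb⟩⁆, by
      rw [SetLike.mem_coe, mem_comap, map_commutatorElement]
      exact commutator_mem_commutator ⟨_, ha, rfl⟩ ⟨_, hb, rfl⟩, rfl⟩
  obtain ⟨k, hk, rfl⟩ := this hy
  exact hk
theorem pf_hat {Y : Subgroup X} (hY : Y ≤ J) (p : Pf Y) : Pf (c.hat Y) := by
  refine ⟨fun _ ⟨y, hy, e⟩ => e ▸ c.hat_comm hY (p.1 hy), fun _ ⟨y, hy, e⟩ => ?_⟩
  have : closure {i | i ∈ Y ∧ i * i = 1} ≤
      ((closure {i | i ∈ c.hat Y ∧ i * i = 1}).comap c.hom).map J.subtype := (closure_le _).2 fun i hi =>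
    ⟨⟨i, hY hi.1⟩, subset_closure ⟨⟨⟨i, hY hi.1⟩, hi.1, rfl⟩, c.sq (hY hi.1) hi.2⟩, rfl⟩
  obtain ⟨k, hk, e'⟩ := this (p.2 hy)
  exact e ▸ (Subtype.ext e' : k = y) ▸ hk
theorem isP_hat {Y : Subgroup X} (p : IsPGroup 2 Y) : IsPGroup 2 (c.hat Y) := p.comap_subtype.map _
theorem card : Nat.card L = Nat.card J := by
  rw [← c.card_hat le_rfl, le_antisymm (c.hat_le J) fun a ha => (c.mem_hat le_rfl).2 (c.ex ha)]

end Iso

/-- a perfect central extension of `J` with centre of odd order is a cover -/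
theorem exists_cov {F : Dy X} (H : Fx F) [Finite X] {A : Subgroup G} (f : A →* X) (hm : ∀ a, f a ∈ F.J)
    (ho : ∀ j ∈ F.J, ∃ a, f a = j) (hk : ∀ a : A, f a = 1 → (a : G) ∈ 𝐂(A) ∧ Odd (orderOf (a : G)))
    (hp : A ≤ ⁅A, A⁆) : ∃ α : G → X, Cov F.J A α ∧ ∀ a : A, α a = f a := by
  classical
  have kz : ∀ a : A, (a : G) ∈ 𝐂(A) → f a = 1 := fun a ha => H.cJ fun j hj => by
    obtain ⟨b, rfl⟩ := ho j hj
    rw [← map_mul, ← map_mul]; congr 1; exact Subtype.ext (ha b b.2).symm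
  let f' : A →* F.J := f.codRestrict _ hm
  have sj : Function.Surjective f' := fun j => let ⟨a, h⟩ := ho j j.2; ⟨a, Subtype.ext h⟩
  have key : ∀ g : 𝐍(A), ∃ x : X, ∀ a : A, f (A.normalizerMonoidHom g a) = x * f a * x⁻¹ := fun g => by
    have nz : ∀ a : A, f (A.normalizerMonoidHom g a) = 1 ↔ f a = 1 := fun a =>
      ⟨fun h => kz _ (by
        have := conj_mem_of_mem_normalizer' (normalizer_le_normalizer_centralizer A g.2) (hk _ h).1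
        simpa [mul_assoc] using this),
      fun h => kz _ (conj_mem_of_mem_normalizer (normalizer_le_normalizer_centralizer A g.2) (hk _ h).1)⟩
    let ψ : F.J →* F.J := f'.liftOfSurjective sj ⟨f'.comp (A.normalizerMonoidHom g).toMonoidHom,
      fun a ha => Subtype.ext ((nz a).2 (congrArg Subtype.val ha))⟩
    have e : ∀ a, ψ (f' a) = f' (A.normalizerMonoidHom g a) := fun a =>
      f'.liftOfRightInverse_comp_apply _ _ _ a
    have inj : Function.Injective ψ := (injective_iff_map_eq_one _).2 fun j hj => by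
      obtain ⟨a, rfl⟩ := sj j
      rw [e] at hj
      exact Subtype.ext ((nz a).1 (congrArg Subtype.val hj))
    obtain ⟨x, hx⟩ := H.aut (MulEquiv.ofBijective ψ (Finite.injective_iff_bijective.1 inj))
    exact ⟨x, fun a => (congrArg Subtype.val (e a)).symm.trans (hx (f' a))⟩
  choose β hβ using key
  have un : ∀ (g : 𝐍(A)) (x : X), (∀ a : A, f (A.normalizerMonoidHom g a) = x * f a * x⁻¹) → β g = x :=
    fun g x h => (inv_mul_eq_one.1 (H.cJ (g := x⁻¹ * β g) fun j hj => by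
      obtain ⟨a, rfl⟩ := ho j hj
      calc _ = x⁻¹ * (β g * f a * (β g)⁻¹) * β g := by group
        _ = _ := by rw [← hβ, h]; group)).symm
  have ea : ∀ a : A, β ⟨a, le_normalizer a.2⟩ = f a := fun a => un _ _ fun b => by
    rw [← map_inv, ← map_mul, ← map_mul]; rfl
  have ea' : ∀ a : A, (if h : (a : G) ∈ 𝐍(A) then β ⟨a, h⟩ else 1) = f a := fun a => by
    rw [dif_pos (le_normalizer a.2), ea]
  refine ⟨fun g => if h : g ∈ 𝐍(A) then β ⟨g, h⟩ else 1, ⟨fun g hg k hk => ?_, fun a ha => ?_,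
    fun j hj => ?_, fun g hg => ?_, fun a ha h => ?_, hp⟩, ea'⟩
  · rw [dif_pos hg, dif_pos hk, dif_pos (mul_mem hg hk)]
    refine un (⟨g, hg⟩ * ⟨k, hk⟩) _ fun a => ?_
    rw [map_mul, MulAut.mul_apply, hβ, hβ]; group
  · exact ea' ⟨a, ha⟩ ▸ hm _
  · obtain ⟨a, rfl⟩ := ho j hj
    exact ⟨a, a.2, ea' a⟩
  · rw [dif_pos hg]
    refine ⟨fun h => mem_cent_of_perf hp hg fun a ha => ?_, fun h => un _ _ fun a => ?_⟩
    · refine (hk ((⟨a, ha⟩ : A)⁻¹ * A.normalizerMonoidHom ⟨g, hg⟩ ⟨a, ha⟩) ?_).1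
      rw [map_mul, hβ, h]; simp
    · rw [one_mul, inv_one, mul_one]; congr 1
      exact Subtype.ext (conj_eq_of_mem_centralizer h a.2)
  · exact (hk ⟨a, ha⟩ ((ea' ⟨a, ha⟩).symm.trans h)).2

namespace W0
variable {F : Dy X} {t : G} {L O : Subgroup G} {α : G → X} {h : X → G} (w : W0 F t L O α h)
include w

theorem ti : t⁻¹ = t := inv_eq_of_mul_eq_one_left w.t2
theorem tt (x : G) : t * (t * x) = x := by rw [← mul_assoc, w.t2, one_mul]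
theorem tt' (x : G) : x * t * t = x := by rw [mul_assoc, w.t2, mul_one]
theorem Lt {a : G} (ha : a ∈ L) : a * t = t * a := w.tL a ha
theorem ht {j : X} (hj : j ∈ F.J) : h j * t = t * h j := w.Lt (w.hL j hj)
theorem cjt {l : G} (hl : l ∈ L) : l * t * l⁻¹ = t := cj_fix.2 (w.Lt hl)
theorem tN : t ∈ 𝐍(L) := w.CN t rfl
theorem at1 : α t = 1 := w.cov.cen w.tL
theorem tO : t ∉ O := fun h => w.t1 ((P2.of_sq w.t2).eq_one (w.oddO t h))
theorem LO {a o : G} (ha : a ∈ L) (ho : o ∈ O) : a * o = o * a := w.OL ho a ha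
theorem hO {j : X} (hj : j ∈ F.J) {o : G} (ho : o ∈ O) : h j * o = o * h j := w.LO (w.hL j hj) ho
theorem LO1 {a : G} (ha : a ∈ L) (ho : a ∈ O) : a = 1 := w.inj a ha (w.cov.cen (w.OL ho))

theorem memO {k : G} (hk : k ∈ 𝐂(L)) (c : k * t = t * k) (o : Odd (orderOf k)) : k ∈ O := by
  refine (w.ker2 k hk c).elim id fun h => absurd ?_ w.t1
  exact (P2.of_sq w.t2).eq_one (Odd.of_dvd_nat (o.mul (w.oddO _ h)) (by
    have e : t = k⁻¹ * (k * t) := by group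
    conv_lhs => rw [e]
    rw [← orderOf_inv k]
    exact Commute.orderOf_mul_dvd_mul_orderOf (Commute.inv_left (Commute.mul_right rfl c))))

theorem cjO {g o : G} (c : g * t = t * g) (ho : o ∈ O) : g * o * g⁻¹ ∈ O :=
  w.memO (conj_mem_of_mem_normalizer (normalizer_le_normalizer_centralizer L (w.CN g c)) (w.OL ho))
    (((Commute.mul_left c (w.Ot o ho)).mul_left (Commute.inv_left c) :))
    (by rw [H9.orderOf_conj]; exact w.oddO o ho)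

theorem ker_P2 {k : G} (hk : k ∈ 𝐂(L)) (c : k * t = t * k) (h : P2 k) : k = 1 ∨ k = t :=
  (w.ker2 k hk c).imp (fun e => h.eq_one (w.oddO k e)) fun e => by
    have := (h.mul (P2.of_sq w.t2) c).eq_one (w.oddO _ e)
    rw [eq_inv_of_mul_eq_one_left this, w.ti]

/-- elements of `C(t)` acting as inner automorphisms -/
theorem ovr {g : G} (c : g * t = t * g) (hJ : α g ∈ F.J) :
    ∃ o ∈ O, g = h (α g) * o ∨ g = h (α g) * t * o := by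
  have ha := w.hL _ hJ
  have h1 := w.cov.inv_mul_mem (le_normalizer ha) (w.CN g c) (w.αh _ hJ)
  generalize h (α g) = a at ha h1
  rcases w.ker2 _ h1 ((Commute.inv_left (w.Lt ha)).mul_left c :) with h | h
  · exact ⟨_, h, Or.inl (by group)⟩
  · refine ⟨_, h, Or.inr ?_⟩
    rw [mul_assoc a, ← w.Ot _ h, mul_assoc (a⁻¹ * g), w.t2]; group

theorem over2 {g : G} (c : g * t = t * g) (g2 : P2 g) (hJ : α g ∈ F.J) : g = h (α g) ∨ g = h (α g) * t := by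
  have ha := w.hL _ hJ
  have a2 := w.p2 hJ (w.cov.p2 (w.CN g c) g2)
  obtain ⟨o, ho, e⟩ := w.ovr c hJ
  generalize h (α g) = a at ha a2 e
  rcases e with rfl | rfl
  · rw [a2.odd_eq_one g2 (w.LO ha ho) (w.oddO o ho), mul_one]; exact Or.inl rfl
  · rw [(a2.mul (P2.of_sq w.t2) (w.Lt ha)).odd_eq_one g2
      ((Commute.mul_left (w.LO ha ho) (w.Ot o ho).symm :)) (w.oddO o ho), mul_one]
    exact Or.inr rfl

theorem memLO {x : G} : x ∈ L ⊔ O ↔ ∃ a ∈ L, ∃ o ∈ O, x = a * o := mem_sup_comm fun _ ha _ ho => w.LO ha ho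

theorem t_not : t ∉ L ⊔ O := fun h => by
  obtain ⟨a, ha, o, ho, e⟩ := w.memLO.1 h
  refine w.tO (e ▸ ?_)
  rw [w.inj a ha (by rw [← w.cov.mul_cen (le_normalizer ha) (w.OL ho), ← e, w.at1]), one_mul]
  exact ho

theorem tL' : t ∉ L := fun h => w.t_not (mem_sup_left h)

theorem P2_mem {x : G} (hx : x ∈ L ⊔ O) (p : P2 x) : x ∈ L := by
  obtain ⟨a, ha, o, ho, rfl⟩ := w.memLO.1 hx
  have : P2 a := by
    have := w.p2 (w.cov.mem a ha) (w.cov.mul_cen (le_normalizer ha) (w.OL ho) ▸ w.cov.p2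
      (mul_mem (le_normalizer ha) (centralizer_le_normalizer _ (w.OL ho))) p)
    rwa [w.hα ha] at this
  rwa [this.odd_eq_one p (w.LO ha ho) (w.oddO o ho), mul_one]

variable (H : Fx F)
include H

/-- `C(t)' ≤ L O` -/
theorem comm_le {Y : Subgroup G} (c : ∀ g ∈ Y, g * t = t * g) : ⁅Y, Y⁆ ≤ L ⊔ O := by
  have cC : ∀ {g x}, g * t = t * g → x ∈ L ⊔ O → g * x * g⁻¹ ∈ L ⊔ O := fun {g x} hg hx => by
    obtain ⟨a, ha, o, ho, rfl⟩ := w.memLO.1 hx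
    rw [← conj_mul]
    exact mul_mem_sup (conj_mem_of_mem_normalizer (w.CN g hg) ha) (w.cjO hg ho)
  have inn : ∀ {g k}, g * t = t * g → k * t = t * k → α g ∈ F.J → ⁅g, k⁆ ∈ L ⊔ O := fun {g k} hg hk hJ => by
    have key : ∀ x ∈ L ⊔ O, ⁅x, k⁆ ∈ L ⊔ O := fun x hx => by
      rw [commutatorElement_def, mul_assoc, mul_assoc, ← mul_assoc k]
      exact mul_mem hx (cC hk (inv_mem hx))
    obtain ⟨o, ho, e | e⟩ := w.ovr hg hJ
    · exact e ▸ key _ (mul_mem_sup (w.hL _ hJ) ho)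
    · have := key _ (mul_mem_sup (w.hL _ hJ) ho)
      rw [e, mul_assoc, ← w.Ot o ho, ← mul_assoc]
      convert this using 1
      simp only [commutatorElement_def, mul_inv_rev]
      calc _ = h (α g) * o * (t * k * t⁻¹) * (o⁻¹ * (h (α g))⁻¹) * k⁻¹ := by group
        _ = _ := by rw [← hk, mul_inv_cancel_right]
  refine commutator_le.2 fun g hg k hk => ?_
  by_cases gJ : α g ∈ F.J
  · exact inn (c g hg) (c k hk) gJ
  by_cases kJ : α k ∈ F.J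
  · rw [← commutatorElement_inv]; exact inv_mem (inn (c k hk) (c g hg) kJ)
  have m := mul_mem (inv_mem hk) hg
  have := cC (c k hk) (inn (c _ m) (c k hk) (by
    rw [w.cov.mul _ (inv_mem (w.CN k (c k hk))) _ (w.CN g (c g hg)), w.cov.inv (w.CN k (c k hk))]
    exact H.inv_mul_mem kJ gJ))
  convert this using 1
  simp only [commutatorElement_def]; group

theorem pf_le {Y : Subgroup G} (c : ∀ g ∈ Y, g * t = t * g) (p : Pf Y) : Y ≤ L :=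
  p.2.trans ((closure_le _).2 fun _ hi => w.P2_mem (w.comm_le H c (p.1 hi.1)) (P2.of_sq hi.2))

/-- no conjugate of `t` is a `2A`-involution of `L` -/
theorem not_conj (g : G) {a : X} (ha : F.Zc a) : g * t * g⁻¹ ≠ h a := fun hg => by
  obtain ⟨j, hj, rfl⟩ := ha
  have e : (h j)⁻¹ * g * t * ((h j)⁻¹ * g)⁻¹ = h F.z := by
    calc _ = (h j)⁻¹ * (g * t * g⁻¹) * h j := by group
      _ = _ := by rw [hg, w.cj hj H.zJ]; group
  generalize (h j)⁻¹ * g = k at e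
  have := cj_mem k⁻¹ (w.hat_comm Dy.TJ H.zTT)
  rw [← e, cj_commutator, show k⁻¹ * (k * t * k⁻¹) * k⁻¹⁻¹ = t by group] at this
  refine w.t_not (w.comm_le H ?_ this)
  rintro _ ⟨_, ⟨y, hy, rfl⟩, rfl⟩
  have := cjc (j := k⁻¹) (w.comm y.2 H.zJ (H.cT y hy.1))
  rw [← e, show k⁻¹ * (k * t * k⁻¹) * k⁻¹⁻¹ = t by group] at this
  exact this

end W0

theorem cj_inj' {g x y : G} : g * x * g⁻¹ = g * y * g⁻¹ ↔ x = y := by simp

theorem cj_cj_inv (g x : G) : g * (g⁻¹ * x * g) * g⁻¹ = x := by group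

theorem Fx.CC_cj {F : Dy X} (H : Fx F) (g : X) {a c m : X} :
    F.CC (g * a * g⁻¹) (g * c * g⁻¹) (g * m * g⁻¹) ↔ F.CC a c m := by
  have key : ∀ (g : X) {a c m : X}, F.CC a c m → F.CC (g * a * g⁻¹) (g * c * g⁻¹) (g * m * g⁻¹) :=
    fun g a c m ⟨h1, h2, h3⟩ => ⟨cjc h1, cjc h2, fun d hd e1 e2 => by
      rw [← cj_cj_inv g d] at e1 e2 ⊢
      simp only [conj_mul, cj_inj'] at e1 e2
      exact cjc (h3 _ (by simpa using H.cjJ hd g⁻¹) e1 e2)⟩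
  exact ⟨fun h => by simpa [mul_assoc] using key g⁻¹ h, key g⟩

theorem eqns_Basic : True := by
  have := @Iso.hom.eq_1.{0}
  have := @Iso.hat.eq_1.{0}
  trivial

end H79.JS
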