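import Cfsg.Agent.Lib.JS.Basic

set_option autoImplicit false
set_option linter.unusedSectionVars false

namespace H79.JS

open Subgroup H69 H36.SW
open H48.SM (Pf)
open scoped commutatorElement

variable {X : Type} [Group X] [Finite X] {G : Type*} [Group G] [Finite G] {F : Dy X}
variable {t : G} {L O A V Y I S : Subgroup G} {α : G → X} {h e : X → G}

namespace CT1

theorem sle {A N : Subgroup X} (hs : IsSimpleGroup A) (hn : A ≤ 𝐍(N)) {x : X} (hA : x ∈ A) (hN : x ∈ N)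
    (x1 : x ≠ 1) : A ≤ N := by
  have n : (N.subgroupOf A).Normal := ⟨fun a ha g => conj_mem_of_mem_normalizer (A := N) (hn g.2) ha⟩
  rcases n.eq_bot_or_eq_top with e | e
  · have : (⟨x, hA⟩ : A) ∈ N.subgroupOf A := hN
    rw [e, mem_bot] at this
    exact absurd (congrArg Subtype.val this) x1
  · exact fun a ha => (e ▸ mem_top (⟨a, ha⟩ : A) : (⟨a, ha⟩ : A) ∈ N.subgroupOf A)

theorem pfX (H : Fx F) : Pf F.X5 := by
  obtain ⟨e⟩ := H.isoX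
  have hs : IsSimpleGroup F.X5 := e.isSimpleGroup
  refine ⟨sle hs (le_normalizer_commutator le_normalizer le_normalizer) (x := ⁅F.ρ, F.z⁆)
    (commutator_le_of_le le_rfl le_rfl (commutator_mem_commutator H.ρX H.zX))
    (commutator_mem_commutator H.ρX H.zX) ?_,
    sle hs (fun g hg => mem_normalizer_of_cj_le (map_le_iff_le_comap.2 ((closure_le _).2 fun i hi =>
      subset_closure ⟨mul_mem (mul_mem hg hi.1) (inv_mem hg), cjsq hi.2 g⟩))) H.zX (subset_closure ⟨H.zX, H.z2⟩) H.z1⟩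
  rw [commutatorElement_def, H.ρz, Ne, mul_inv_eq_one]
  exact (H.Tyne Dy.Ty.base).symm

theorem five (H : Fx F) : ∃ d ∈ F.X5, d ^ 5 = 1 ∧ d ≠ 1 := by
  obtain ⟨e⟩ := H.isoX
  have : Fact (Nat.Prime 5) := ⟨by norm_num⟩
  obtain ⟨d, hd⟩ := exists_prime_orderOf_dvd_card' (G := F.X5) 5 (by
    rw [Nat.card_congr e.toEquiv, nat_card_alternatingGroup]; simp [Nat.factorial])
  refine ⟨d, d.2, congrArg Subtype.val (hd ▸ pow_orderOf_eq_one d : d ^ 5 = 1), fun h1 => ?_⟩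
  rw [show d = 1 from Subtype.ext h1, orderOf_one] at hd
  omega

theorem Vc (H : Fx F) {u v : X} (hu : u ∈ F.V) (hv : v ∈ F.V) : u * v = v * u := H.Rc (H.VR hu) (H.VR hv)

theorem V2 (H : Fx F) {v : X} (hv : v ∈ F.V) : v * v = 1 := H.R2 v (H.VR hv)

theorem cXb (H : Fx F) {g : X} (h1 : ∀ x ∈ F.X5, g * x = x * g) (h2 : g * F.b = F.b * g) : g ∈ F.V := by
  have n : F.ω * F.b ≠ F.b * F.ω := fun e => H.bc1 ((cj_fix.2 e).symm.trans H.ωb)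
  obtain ⟨v, hv, rfl | rfl | rfl⟩ := H.cX g h1
  · exact hv
  · rw [← mul_assoc, ← Vc H hv Dy.bV, mul_assoc, mul_assoc, mul_right_inj] at h2
    exact absurd h2 n
  · rw [← mul_assoc, ← Vc H hv Dy.bV, mul_assoc, mul_assoc, mul_right_inj] at h2
    exact absurd (Commute.inv_left_iff.1 h2).eq n

theorem cardV (H : Fx F) : Nat.card F.V = 4 := by
  have e : F.V = zpowers F.b ⊔ zpowers F.c := le_antisymm ((closure_le _).2 (by
    rintro _ (rfl | rfl)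
    exacts [mem_sup_left (mem_zpowers _), mem_sup_right (mem_zpowers _)]))
    (sup_le (zpowers_le.2 Dy.bV) (zpowers_le.2 Dy.cV))
  rw [e, card_sup_comm (fun a ha b hb => Vc H (zpowers_le.2 Dy.bV ha) (zpowers_le.2 Dy.cV hb)) fun a ha hb => ?_,
    card_zp H.b2 H.b1, card_zp H.c2 H.c1]
  rcases (mem_zp H.b2).1 ha with rfl | rfl
  · rfl
  · exact ((mem_zp H.c2).1 hb).elim id fun e => absurd e H.bc1

theorem ωbc (H : Fx F) : F.ω * (F.b * F.c) * F.ω⁻¹ = F.b := by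
  rw [← conj_mul, H.ωb, H.ωc, H.bc, ← mul_assoc, H.c2, one_mul]

theorem ωV (H : Fx F) {v : X} (hv : v ∈ F.V) : F.ω * v * F.ω⁻¹ ∈ F.V := by
  rcases H.mem_V.1 hv with rfl | rfl | rfl | rfl
  · simp
  · exact H.ωb ▸ Dy.cV
  · exact H.ωc ▸ mul_mem Dy.bV Dy.cV
  · exact (ωbc H).symm ▸ Dy.bV

theorem ωfix (H : Fx F) {v : X} (hv : v ∈ F.V) (e : F.ω * v * F.ω⁻¹ = v) : v = 1 := by
  rcases H.mem_V.1 hv with rfl | rfl | rfl | rfl
  · rfl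
  · exact absurd (e.symm.trans H.ωb) H.bc1
  · exact absurd (mul_eq_right.1 (H.ωc.symm.trans e)) H.b1
  · exact absurd (mul_eq_left.1 (e.symm.trans (ωbc H))) H.c1

variable (H : Fx F) (w : W0 F t L O α h) {k : G}
include H w

theorem base (hk : k * (t * h F.b) * k⁻¹ = t) {e : G} (h1 : e * t = t * e) (h2 : e * h F.b = h F.b * e) :
    k * e * k⁻¹ * t = t * (k * e * k⁻¹) := by
  have := cjc (j := k) (Commute.mul_right h1 h2).eq
  rwa [hk] at this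

theorem baseL (hk : k * (t * h F.b) * k⁻¹ = t) : w.hat F.X5 ^ᶜ k ≤ L := by
  refine w.pf_le H (fun y hy => ?_) ((w.pf_hat H.XJ (pfX H)).cj k)
  obtain ⟨a, ha, rfl⟩ := mem_cj'.1 hy
  obtain ⟨x, hx, rfl⟩ := (w.mem_hat H.XJ).1 ha
  exact base H w hk (w.ht (H.XJ hx)) (w.comm (H.XJ hx) H.bJ (H.Xb x hx))

theorem step1 (hk : k * (t * h F.b) * k⁻¹ = t) : ∃ k, k * (t * h F.b) * k⁻¹ = t ∧ α (k * t * k⁻¹) = F.b := by
  obtain ⟨d, hd, d5, d1⟩ := five H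
  have dJ := H.XJ hd
  have dL : k * h d * k⁻¹ ∈ L := baseL H w hk (cj_mem k ((w.mem_hat H.XJ).2 ⟨d, hd, rfl⟩))
  obtain ⟨D, hD⟩ : ∃ D, D = α (k * h d * k⁻¹) := ⟨_, rfl⟩
  have DJ : D ∈ F.J := hD ▸ w.cov.mem _ dL
  have D5 : D ^ 5 = 1 := by rw [hD, ← w.cov.pow (le_normalizer dL), conj_pow, ← w.pow dJ, d5, w.one]; simpa using w.cov.one
  have D1 : D ≠ 1 := fun e => cjne (w.ne dJ d1) k (w.inj _ dL (hD ▸ e))
  have key : ∀ e, e * t = t * e → e * h F.b = h F.b * e → e * h d = h d * e → e * e = 1 → e ≠ 1 → e ≠ t * h F.b →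
      α (k * e * k⁻¹) * α (k * e * k⁻¹) = 1 ∧ α (k * e * k⁻¹) ≠ 1 ∧ α (k * e * k⁻¹) * D = D * α (k * e * k⁻¹) ∧
        α (k * e * k⁻¹) ∈ F.J := fun e h1 h2 h3 e2 e1 e3 => by
    have c := base H w hk h1 h2
    have n := w.CN _ c
    have a2 := w.cov.sq n (cjsq e2 k)
    have a3 : α (k * e * k⁻¹) * D = D * α (k * e * k⁻¹) := hD ▸ w.cov.comm n (le_normalizer dL) (cjc h3)
    refine ⟨a2, fun e0 => ?_, a3, by_contra fun hJ => ?_⟩
    · rcases w.ker_P2 ((w.cov.ker _ n).1 e0) c (P2.of_sq (cjsq e2 k)) with e4 | e4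
      · exact cjne e1 k e4
      · exact e3 (cj_inj'.1 (e4.trans hk.symm))
    · obtain ⟨j, hj, e4⟩ := H.out hJ a2
      have := cjc (j := j⁻¹) a3
      rw [← e4, show j⁻¹ * (j * F.φ * j⁻¹) * j⁻¹⁻¹ = F.φ by group] at this
      exact cjne D1 j⁻¹ (H.n5 _ (H.cjJ DJ _) (by rw [conj_pow, D5]; group) this.symm)
  have cb := w.comm H.cJ' H.bJ H.bc.symm
  have cd := w.comm H.cJ' dJ (H.Xc d hd).symm
  have ct := w.ht H.cJ'
  have c2 := w.sq H.cJ' H.c2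
  have tL := w.tL'
  obtain ⟨p2, p1, pD, pJ⟩ := key t rfl (w.ht H.bJ).symm (w.ht dJ).symm w.t2 w.t1
    fun e => w.ne H.bJ H.b1 (mul_eq_left.1 e.symm)
  obtain ⟨q2, q1, qD, qJ⟩ := key (h F.c) ct cb cd c2 (w.ne H.cJ' H.c1) fun e =>
    tL ((mul_mem_cancel_right (w.hL _ H.bJ)).1 (e ▸ w.hL _ H.cJ'))
  obtain ⟨-, r1, -, -⟩ := key (t * h F.c) (by rw [mul_assoc, ct]) (Commute.mul_left (w.ht H.bJ).symm cb).eq
    (Commute.mul_left (w.ht dJ).symm cd).eq (by rw [mul_assoc, ← mul_assoc (h F.c), ct, mul_assoc, c2, mul_one, w.t2])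
    (fun e => tL (eq_inv_of_mul_eq_one_left e ▸ inv_mem (w.hL _ H.cJ')))
    fun e => H.bc1 (w.hinj H.bJ H.cJ' (mul_left_cancel e).symm)
  have tN := w.CN _ (base H w hk rfl (w.ht H.bJ).symm)
  have cN := w.CN _ (base H w hk ct cb)
  rw [← conj_mul, w.cov.mul _ tN _ cN] at r1
  have pq := w.cov.comm tN cN (cjc ct.symm)
  rcases H.inv pJ p2 with e | ⟨j, hj, e⟩ | ⟨j, hj, e⟩
  · exact absurd e p1
  · exfalso
    have ez : j⁻¹ * α (k * t * k⁻¹) * j⁻¹⁻¹ = F.z := by rw [← e]; group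
    rcases H.c5 (j⁻¹ * D * j⁻¹⁻¹) (Dy.mem_D.2 ⟨H.cjJ DJ _, ez ▸ cjc pD.symm⟩) (by rw [conj_pow, D5]; group)
      (j⁻¹ * α (k * h F.c * k⁻¹) * j⁻¹⁻¹) (Dy.mem_D.2 ⟨H.cjJ qJ _, ez ▸ cjc pq.symm⟩) (cjsq q2 _) (cjc qD) with
      e1 | e1 | e1
    · exact cjne D1 _ e1
    · exact cjne q1 _ e1
    · exact r1 (by rw [cj_inj'.1 (e1.trans ez.symm), p2])
  · refine ⟨(h j)⁻¹ * k, ?_, ?_⟩
    · rw [← w.cjt (inv_mem (w.hL j hj))]
      conv_rhs => rw [← hk]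
      rw [w.cjt (inv_mem (w.hL j hj))]; group
    · rw [show (h j)⁻¹ * k * t * ((h j)⁻¹ * k)⁻¹ = (h j)⁻¹ * (k * t * k⁻¹) * (h j)⁻¹⁻¹ by group,
        w.cov.conj (inv_mem (w.hN hj)) tN, w.cov.inv (w.hN hj), w.αh j hj, ← e]
      group

omit H w in
/-- translations of `t V̂` -/
structure Tr (F : Dy X) (t : G) (O : Subgroup G) (h : X → G) (y : G) (v : X) : Prop where
  cX : ∀ x ∈ F.X5, h x * y = y * h x
  cO : ∀ o ∈ O, y * o = o * y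
  cV : ∀ u ∈ F.V, h u * y = y * h u
  mem : v ∈ F.V
  act : y * t * y⁻¹ = t * h v

theorem step2 (nL : ∀ g, g * t * g⁻¹ ∉ L) (hk : k * (t * h F.b) * k⁻¹ = t) (hb : α (k * t * k⁻¹) = F.b) :
    ∃ y, Tr F t O h y F.c := by
  have ct := base H w hk rfl (w.ht H.bJ).symm
  have kX : k ∈ 𝐍(w.hat F.X5) := by
    refine mem_normalizer_of_cj_le (((w.pf_hat H.XJ (pfX H)).cj k).1.trans (commutator_le.2 fun y hy y' hy' => ?_))
    have dec : ∀ y ∈ w.hat F.X5 ^ᶜ k, ∃ x ∈ F.X5, ∃ v ∈ F.V, y = h (x * v) := fun y hy => by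
      have yL := baseL H w hk hy
      obtain ⟨a, ha, rfl⟩ := mem_cj'.1 hy
      obtain ⟨x, hx, rfl⟩ := (w.mem_hat H.XJ).1 ha
      obtain ⟨v, hv, x', hx', e⟩ := H.cJb _ (w.cov.mem _ yL)
        (hb ▸ w.cov.comm (le_normalizer yL) (w.CN _ ct) (cjc (w.ht (H.XJ hx))))
      exact ⟨x', hx', v, hv, by rw [H.XV hx' hv, ← e, w.hα yL]⟩
    obtain ⟨x, hx, v, hv, rfl⟩ := dec y hy
    obtain ⟨x', hx', v', hv', rfl⟩ := dec y' hy'
    have cx : ∀ x ∈ F.X5, x ∈ 𝐂(F.V) := fun x hx v hv => (H.XV hx hv).symm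
    have cv : ∀ v ∈ F.V, v ∈ 𝐂(F.V) := fun v hv u hu => Vc H hu hv
    rw [← w.cmt (mul_mem (H.XJ hx) (H.VJ hv)) (mul_mem (H.XJ hx') (H.VJ hv')),
      comm_cen (A := 𝐂(F.V)) (cx x hx) (mul_mem (cx x' hx') (cv v' hv')) (fun a ha => (ha v hv).symm)
        fun a ha => (ha v' hv').symm]
    exact (w.mem_hat H.XJ).2 ⟨_, commutator_le_of_le le_rfl le_rfl (commutator_mem_commutator hx hx'), rfl⟩
  have kt : k * t * k⁻¹ = h F.b * t := by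
    rcases w.over2 ct (P2.of_sq (cjsq w.t2 k)) (hb ▸ H.bJ) with e | e
    · exact absurd (e ▸ w.hL _ (hb ▸ H.bJ)) (nL k)
    · rwa [hb] at e
  have b2 := w.sq H.bJ H.b2
  have kb : k * h F.b * k⁻¹ = h F.b := by
    rw [← conj_mul, kt, w.ht H.bJ, mul_assoc, mul_eq_left] at hk
    exact mul_left_cancel (hk.trans b2.symm)
  have cen : ∀ e, (∀ x ∈ F.X5, h x * e = e * h x) → e * t = t * e → e * h F.b = h F.b * e →
      α (k * e * k⁻¹) ∈ F.V := fun e h1 h2 h3 => by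
    have n := w.CN _ (base H w hk h2 h3)
    refine cXb H (fun x hx => w.of_comm n (H.XJ hx) ?_) (w.of_comm n H.bJ (kb ▸ cjc h3))
    obtain ⟨x', hx', e1⟩ := (w.mem_hat H.XJ).1
      (conj_mem_of_mem_normalizer' kX ((w.mem_hat H.XJ).2 ⟨x, hx, rfl⟩))
    have := cjc (j := k) (h1 x' hx').symm
    rwa [e1, cj_cj_inv] at this
  have ωt := w.ht H.ωJ
  have Ωb : h F.ω * h F.b * (h F.ω)⁻¹ = h F.c := by rw [← w.cj H.ωJ H.bJ, H.ωb]
  have Ωc : h F.ω * h F.c * (h F.ω)⁻¹ = h F.b * h F.c := by rw [← w.cj H.ωJ H.cJ', H.ωc, w.mul H.bJ H.cJ']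
  have tc := w.ht H.cJ'
  have bc := w.comm H.bJ H.cJ' H.bc
  obtain ⟨v, hv, kc⟩ : ∃ v ∈ F.V, k * h F.c * k⁻¹ = h v := by
    have c1 : t * h F.c * t = t * (t * h F.c) := by rw [mul_assoc, tc]
    have c2 := (Commute.mul_left (w.ht H.bJ).symm bc.symm).eq
    have m := cen (t * h F.c) (fun x hx => (Commute.mul_right (w.ht (H.XJ hx))
      (w.comm (H.XJ hx) H.cJ' (H.Xc x hx))).eq) c1 c2
    have e0 : k * (t * h F.c) * k⁻¹ = k * h F.ω * k⁻¹ * t * (k * h F.ω * k⁻¹)⁻¹ := by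
      conv_rhs => rw [← hk]
      rw [← Ωb]
      conv_lhs => rw [← cj_fix.2 ωt]
      group
    rcases w.over2 (base H w hk c1 c2) (e0 ▸ P2.of_sq (cjsq w.t2 _)) (H.VJ m) with e | e
    · exact absurd (e0 ▸ e ▸ w.hL _ (H.VJ m)) (nL (k * h F.ω * k⁻¹))
    · generalize α (k * (t * h F.c) * k⁻¹) = u at e m
      refine ⟨_, mul_mem Dy.bV m, ?_⟩
      rw [← conj_mul, kt, w.ht H.bJ, w.ht (H.VJ m), mul_assoc, mul_right_inj] at e
      rw [w.mul H.bJ (H.VJ m), ← e, ← mul_assoc (h F.b), b2, one_mul]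
  obtain ⟨o, oJ, oX, ob, ov⟩ : ∃ o ∈ F.J, (∀ x ∈ F.X5, x * o = o * x) ∧ o * F.b * o⁻¹ = v ∧ o * v * o⁻¹ = F.b * v := by
    rcases H.mem_V.1 hv with rfl | rfl | rfl | rfl
    · exact absurd (kc.trans w.one) (cjne (w.ne H.cJ' H.c1) k)
    · exact absurd (w.hinj H.bJ H.cJ' (cj_inj'.1 (kb.trans kc.symm))) H.bc1
    · exact ⟨_, H.ωJ, H.ωX, H.ωb, H.ωc⟩
    · refine ⟨_, inv_mem H.ωJ, fun x hx => (Commute.inv_right (H.ωX x hx)).eq, ?_, ?_⟩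
      · conv_lhs => rw [← ωbc H]
        group
      · rw [← mul_assoc F.b, H.b2, one_mul, ← H.ωc]; group
  obtain ⟨g, hg⟩ : ∃ g, g = k⁻¹ * h o * k := ⟨_, rfl⟩
  have cg : ∀ x y, h o * (k * x * k⁻¹) * (h o)⁻¹ = k * y * k⁻¹ → g * x * g⁻¹ = y := fun x y e => by
    calc _ = k⁻¹ * (h o * (k * x * k⁻¹) * (h o)⁻¹) * k := by rw [hg]; group
      _ = _ := by rw [e]; group
  have gb : g * h F.b * g⁻¹ = h F.c := cg _ _ (by rw [kb, kc, ← w.cj oJ H.bJ, ob])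
  have gc : g * h F.c * g⁻¹ = h F.b * h F.c :=
    cg _ _ (by rw [kc, ← w.cj oJ (H.VJ hv), ov, w.mul H.bJ (H.VJ hv), ← conj_mul, kb, kc])
  have gs : g * (t * h F.b) * g⁻¹ = t * h F.b := cg _ _ (by rw [hk, w.cjt (w.hL _ oJ)])
  have gt : g * t * g⁻¹ = t * (h F.b * h F.c) := by
    rw [← conj_mul, gb] at gs
    rw [← mul_assoc, ← gs, mul_assoc _ (h F.c), w.sq H.cJ' H.c2, mul_one]
  have cy : ∀ x y, g * x * g⁻¹ = h F.ω * y * (h F.ω)⁻¹ → (h F.ω)⁻¹ * g * x * ((h F.ω)⁻¹ * g)⁻¹ = y := fun x y e => by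
    calc _ = (h F.ω)⁻¹ * (g * x * g⁻¹) * h F.ω := by group
      _ = _ := by rw [e]; group
  have yb := cj_fix.1 (cy _ _ (gb.trans Ωb.symm))
  have yc := cj_fix.1 (cy _ _ (gc.trans Ωc.symm))
  refine ⟨(h F.ω)⁻¹ * g, fun x hx => (cj_fix.1 (cy _ _ ?_)).symm, fun o' ho' => cj_fix.1 (cy _ _ ?_), fun u hu => ?_,
    Dy.cV, cy _ _ (by rw [gt, ← conj_mul, Ωc, cj_fix.2 ωt])⟩
  · rw [cj_fix.2 (w.comm H.ωJ (H.XJ hx) (H.ωX x hx).symm)]
    obtain ⟨x', hx', e1⟩ := (w.mem_hat H.XJ).1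
      (conj_mem_of_mem_normalizer kX ((w.mem_hat H.XJ).2 ⟨x, hx, rfl⟩))
    exact cg _ _ (by rw [← e1, cj_fix.2 (w.comm oJ (H.XJ hx') (oX x' hx').symm)])
  · rw [cj_fix.2 (w.hO H.ωJ ho')]
    have c1 := w.Ot _ ho'
    have c2 := (w.hO H.bJ ho').symm
    have c3 := base H w hk c1 c2
    have n := w.CN _ c3
    have od : Odd (orderOf (k * o' * k⁻¹)) := by rw [H9.orderOf_conj]; exact w.oddO _ ho'
    have m := cen o' (fun x hx => w.hO (H.XJ hx) ho') c1 c2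
    have a1 : α (k * o' * k⁻¹) = 1 := by
      rw [← pow_odd_of_sq (V2 H m) od, ← w.cov.pow n, pow_orderOf_eq_one, w.cov.one]
    exact cg _ _ (cj_fix.2 (w.hO oJ (w.memO ((w.cov.ker _ n).1 a1) c3 od)))
  · rcases H.mem_V.1 hu with rfl | rfl | rfl | rfl
    · simp [w.one]
    · exact yb.symm
    · exact yc.symm
    · rw [w.mul H.bJ H.cJ']; exact (Commute.mul_left yb.symm yc.symm).eq

namespace Tr
variable {y y' : G} {v v' : X}

theorem mul (a : Tr F t O h y v) (b : Tr F t O h y' v') : Tr F t O h (y * y') (v * v') :=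
  ⟨fun x hx => (Commute.mul_right (a.cX x hx) (b.cX x hx)).eq, fun x hx => (Commute.mul_left (a.cO x hx) (b.cO x hx)).eq,
    fun x hx => (Commute.mul_right (a.cV x hx) (b.cV x hx)).eq, mul_mem a.mem b.mem, by
      rw [w.mul (H.VJ a.mem) (H.VJ b.mem), ← mul_assoc, ← a.act, ← cj_fix.2 (a.cV _ b.mem).symm, conj_mul, ← b.act]
      group⟩

theorem inv (a : Tr F t O h y v) : Tr F t O h y⁻¹ v :=
  ⟨fun x hx => (Commute.inv_right (a.cX x hx)).eq, fun x hx => (Commute.inv_left (a.cO x hx)).eq,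
    fun x hx => (Commute.inv_right (a.cV x hx)).eq, a.mem, by
      have : y * (t * h v) * y⁻¹ = t := by
        rw [← conj_mul, a.act, cj_fix.2 (a.cV _ a.mem).symm, mul_assoc, w.sq (H.VJ a.mem) (V2 H a.mem), mul_one]
      conv_lhs => rw [← this]
      group⟩

theorem hat {u : X} (hu : u ∈ F.V) : Tr F t O h (h u) 1 :=
  ⟨fun x hx => w.comm (H.XJ hx) (H.VJ hu) (H.XV hx hu), fun _ ho => w.hO (H.VJ hu) ho,
    fun _ hx => w.comm (H.VJ hx) (H.VJ hu) (Vc H hx hu), one_mem _, by rw [w.one, mul_one, w.cjt (w.hL _ (H.VJ hu))]⟩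

theorem self : Tr F t O h t 1 :=
  ⟨fun _ hx => w.ht (H.XJ hx), fun o ho => (w.Ot o ho).symm, fun _ hx => w.ht (H.VJ hx), one_mem _, by simp [w.one]⟩

theorem pow (a : Tr F t O h y v) (n : ℕ) : Tr F t O h (y ^ n) (v ^ n) := by
  induction n with
  | zero => simpa [w.one] using hat H w (one_mem _)
  | succ n ih => rw [pow_succ, pow_succ]; exact ih.mul H w a

theorem om (a : Tr F t O h y v) : Tr F t O h (h F.ω * y * (h F.ω)⁻¹) (F.ω * v * F.ω⁻¹) := by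
  refine ⟨fun x hx => ?_, fun o ho => ?_, fun u hu => ?_, ωV H a.mem, ?_⟩
  · have := cjc (j := h F.ω) (a.cX x hx)
    rwa [cj_fix.2 (w.comm H.ωJ (H.XJ hx) (H.ωX x hx).symm)] at this
  · have := cjc (j := h F.ω) (a.cO o ho)
    rwa [cj_fix.2 (w.hO H.ωJ ho)] at this
  · have m := ωV H (ωV H hu)
    have := cjc (j := h F.ω) (a.cV _ m)
    rwa [← w.cj H.ωJ (H.VJ m), show F.ω * (F.ω * (F.ω * u * F.ω⁻¹) * F.ω⁻¹) * F.ω⁻¹ = F.ω ^ 3 * u * (F.ω ^ 3)⁻¹ by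
      rw [pow_three]; group, H.ω3, one_mul, inv_one, mul_one] at this
  · rw [w.cj H.ωJ (H.VJ a.mem)]
    conv => lhs; rw [← cj_fix.2 (w.ht H.ωJ)]
    conv => rhs; rw [← cj_fix.2 (w.ht H.ωJ), conj_mul, ← a.act]
    group

theorem ker0 (a : Tr F t O h y 1) : y * t = t * y ∧ α y ∈ F.V := by
  have c : y * t = t * y := cj_fix.1 (by rw [a.act, w.one, mul_one])
  exact ⟨c, cXb H (fun x hx => w.of_comm (w.CN _ c) (H.XJ hx) (a.cX x hx).symm)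
    (w.of_comm (w.CN _ c) H.bJ (a.cV _ Dy.bV).symm)⟩

theorem ker2 (a : Tr F t O h y 1) (p : P2 y) : ∃ u ∈ F.V, y = h u ∨ y = h u * t :=
  ⟨_, (a.ker0 H w).2, w.over2 (a.ker0 H w).1 p (H.VJ (a.ker0 H w).2)⟩

theorem nc (a : Tr F t O h y v) {u : X} (hu : u ∈ F.V) (c : y * (h u * t) = h u * t * y) : v = 1 := by
  rw [← mul_assoc, ← a.cV u hu, mul_assoc, mul_assoc, mul_right_inj] at c
  exact w.hinj (H.VJ a.mem) (one_mem _) ((mul_eq_left.1 (a.act.symm.trans (cj_fix.2 c))).trans w.one.symm)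

theorem sq (a : Tr F t O h y v) (v1 : v ≠ 1) (p : P2 y) : ∃ u ∈ F.V, y * y = h u := by
  obtain ⟨u, hu, e | e⟩ := (V2 H a.mem ▸ a.mul H w a).ker2 H w (p.mul p rfl)
  · exact ⟨u, hu, e⟩
  · exact absurd (a.nc H w hu (by rw [← e, mul_assoc])) v1

theorem cm (a : Tr F t O h y v) (v1 : v ≠ 1) (p : P2 y) (b : Tr F t O h y' v') :
    ∃ u ∈ F.V, y * y' * y⁻¹ * y'⁻¹ = h u := by
  obtain ⟨κ, hκ⟩ : ∃ κ, κ = y * y' * y⁻¹ * y'⁻¹ := ⟨_, rfl⟩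
  have k : Tr F t O h κ 1 := by
    have := ((a.mul H w b).mul H w (a.inv H w)).mul H w (b.inv H w)
    rwa [← hκ, mul_assoc, V2 H (mul_mem a.mem b.mem)] at this
  obtain ⟨s, hs, es⟩ := a.sq H w v1 p
  have e : y * κ * y⁻¹ * κ = 1 := by
    calc _ = y * y * y' * y⁻¹ * y⁻¹ * y'⁻¹ := by rw [hκ]; group
      _ = 1 := by rw [es, b.cV s hs, ← es]; group
  rw [← hκ]
  obtain ⟨c, m⟩ := k.ker0 H w
  have J := H.VJ m
  have u2 := w.sq J (V2 H m)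
  obtain ⟨o, ho, e1 | e1⟩ := w.ovr c J <;> generalize α κ = u at m J u2 e1
  · refine ⟨u, m, ?_⟩
    rw [e1, ← conj_mul, cj_fix.2 (a.cV u m).symm, cj_fix.2 (a.cO o ho),
      (show Commute o (h u) from (w.hO J ho).symm).mul_mul_mul_comm, u2, one_mul] at e
    rw [e1, (P2.of_sq e).eq_one (w.oddO o ho), mul_one]
  · exfalso
    have vJ := H.VJ a.mem
    rw [e1, ← conj_mul, ← conj_mul, cj_fix.2 (a.cV u m).symm, cj_fix.2 (a.cO o ho), a.act,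
      (Commute.mul_right (w.hO J ho).symm (w.Ot o ho)).mul_mul_mul_comm, ← w.ht vJ, ← mul_assoc (h u), ← w.mul J vJ,
      (show Commute t (h u) from (w.ht J).symm).mul_mul_mul_comm, w.t2, mul_one, ← w.mul (mul_mem J vJ) J,
      mul_assoc, ← Vc H m a.mem, ← mul_assoc u, V2 H m, one_mul] at e
    exact w.ne vJ v1 (w.LO1 (w.hL _ vJ) (eq_inv_of_mul_eq_one_left e ▸ inv_mem (mul_mem ho ho)))

theorem p2 (a : Tr F t O h y v) (v1 : v ≠ 1) (p : P2 y) (b : Tr F t O h y' v') (v1' : v' ≠ 1) (p' : P2 y') :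
    P2 (y * y') := by
  obtain ⟨s, hs, es⟩ := a.sq H w v1 p
  obtain ⟨s', hs', es'⟩ := b.sq H w v1' p'
  obtain ⟨u, hu, e⟩ := (a.inv H w).cm H w v1 p.inv b
  have m := mul_mem (mul_mem hs hu) hs'
  refine P2.of_mul_self (P2.of_sq ?_)
  rw [show y * y' * (y * y') = h (s * u * s') by
    rw [w.mul (H.VJ (mul_mem hs hu)) (H.VJ hs'), w.mul (H.VJ hs) (H.VJ hu), ← es, ← es', ← e]; group]
  exact w.sq (H.VJ m) (V2 H m)

end Tr

theorem step3 {y : G} (a : Tr F t O h y F.c) : ∃ y1 y2, Tr F t O h y1 F.b ∧ Tr F t O h y2 F.c ∧ P2 y1 ∧ P2 y2 ∧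
    y1 * y2 = y2 * y1 ∧ h F.ω * y1 * (h F.ω)⁻¹ = y2 ∧ ∃ u ∈ F.V, h F.ω * y2 * (h F.ω)⁻¹ = (y1 * y2)⁻¹ * h u := by
  obtain ⟨y, a, p⟩ : ∃ y, Tr F t O h y F.b ∧ P2 y := by
    have a' := (a.om H w).om H w
    rw [H.ωc, ωbc H] at a'
    obtain ⟨m, hm, p⟩ := exists_odd_P2 (h F.ω * (h F.ω * y * (h F.ω)⁻¹) * (h F.ω)⁻¹)
    exact ⟨_, pow_odd_of_sq H.b2 hm ▸ a'.pow H w m, p⟩
  have two : ∀ {y}, Tr F t O h y F.b → Tr F t O h (h F.ω * y * (h F.ω)⁻¹) F.c := fun a => H.ωb ▸ a.om H w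
  have bc1 : F.b * F.c ≠ 1 := fun e => H.bc1 ((eq_inv_of_mul_eq_one_left e).trans (inv_eq_of_mul_eq_one_left H.c2))
  obtain ⟨y, a, p, u, hu, n⟩ : ∃ y, Tr F t O h y F.b ∧ P2 y ∧ ∃ u ∈ F.V, y * (h F.ω * y * (h F.ω)⁻¹) *
      (h F.ω * (h F.ω * y * (h F.ω)⁻¹) * (h F.ω)⁻¹) = h u := by
    have a2 := two a
    have a3 := a2.om H w
    rw [H.ωc] at a3
    have k := (a.mul H w a2).mul H w a3
    rw [V2 H (mul_mem Dy.bV Dy.cV)] at k
    obtain ⟨u, hu, e | e⟩ := k.ker2 H w ((a.mul H w a2).p2 H w bc1 (a.p2 H w H.b1 p a2 H.c1 (p.conj _)) a3 bc1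
      ((p.conj _).conj _))
    · exact ⟨y, a, p, u, hu, e⟩
    · refine ⟨y * t, mul_one F.b ▸ a.mul H w (Tr.self H w), ?_, u * F.c, mul_mem hu Dy.cV, ?_⟩
      · obtain ⟨s, hs, es⟩ := a.sq H w H.b1 p
        have m := mul_mem hs Dy.bV
        refine P2.of_mul_self (P2.of_sq ?_)
        rw [show y * t * (y * t) = h (s * F.b) by
          calc _ = y * y * (y⁻¹ * t * y⁻¹⁻¹) * t := by group
            _ = _ := by rw [(a.inv H w).act, es, ← w.ht H.bJ, ← mul_assoc, w.tt', w.mul (H.VJ hs) H.bJ]]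
        exact w.sq (H.VJ m) (V2 H m)
      · have q : ∀ x, h F.ω * (x * t) * (h F.ω)⁻¹ = h F.ω * x * (h F.ω)⁻¹ * t := fun x => by
          rw [← conj_mul, cj_fix.2 (w.ht H.ωJ)]
        rw [q, q]
        generalize h F.ω * (h F.ω * y * (h F.ω)⁻¹) * (h F.ω)⁻¹ = y3 at a3 e
        generalize h F.ω * y * (h F.ω)⁻¹ = y2 at a2 e
        calc _ = y * y2 * ((y2⁻¹ * t * y2⁻¹⁻¹) * t * y3) * t := by group
          _ = y * y2 * y3 * (h F.c * t) := by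
            rw [(a2.inv H w).act, ← w.ht H.cJ', w.tt', a3.cV _ Dy.cV]; group
          _ = _ := by rw [e, w.ht H.cJ', mul_assoc, w.tt, w.mul (H.VJ hu) H.cJ']
  have a2 := two a
  obtain ⟨s, hs, es⟩ := a.cm H w H.b1 p a2
  have p2 := p.conj (h F.ω)
  obtain ⟨y2, e2⟩ : ∃ y2, h F.ω * y * (h F.ω)⁻¹ = y2 := ⟨_, rfl⟩
  rw [e2] at n a2 es p2
  have e3 : h F.ω * y2 * (h F.ω)⁻¹ = (y * y2)⁻¹ * h u := eq_inv_mul_of_mul_eq n
  refine ⟨y, y2, a, a2, p, p2, ?_, e2, u, hu, e3⟩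
  have s1 : s = 1 := ωfix H hs (w.hinj (H.VJ (ωV H hs)) (H.VJ hs) (by
    rw [w.cj H.ωJ (H.VJ hs)]
    calc _ = h F.ω * y * (h F.ω)⁻¹ * (h F.ω * y2 * (h F.ω)⁻¹) * (h F.ω * y * (h F.ω)⁻¹)⁻¹ *
          (h F.ω * y2 * (h F.ω)⁻¹)⁻¹ := by rw [← es]; group
      _ = y⁻¹ * (h u * y2⁻¹) * (h u)⁻¹ * y * y2 := by rw [e2, e3]; group
      _ = (y2 * y)⁻¹ * (h s * (y2 * y)) := by rw [(a2.inv H w).cV u hu, ← es]; group
      _ = _ := by rw [(a2.mul H w a).cV s hs]; group))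
  rw [s1, w.one, mul_inv_eq_one, mul_inv_eq_iff_eq_mul] at es
  exact es

end CT1

open CT1 in
theorem W0.exists_ev (H : Fx F) (w : W0 F t L O α h) (nL : ∀ g, g * t * g⁻¹ ∉ L)
    (c : ∃ g, g * t * g⁻¹ = t * h F.b) : ∃ Y, Ev F t O h Y := by
  obtain ⟨g, hg⟩ := c
  obtain ⟨k, hk, hb⟩ := step1 H w (k := g⁻¹) (by rw [← hg]; group)
  obtain ⟨y, a⟩ := step2 H w nL hk hb
  obtain ⟨y1, y2, a1, a2, p1, p2, c12, e1, u, hu, e2⟩ := step3 H w a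
  obtain ⟨S, hS⟩ : ∃ S : Set G, S = {y1, y2, h F.b, h F.c} := ⟨_, rfl⟩
  have m1 : y1 ∈ closure S := subset_closure (by simp [hS])
  have m2 : y2 ∈ closure S := subset_closure (by simp [hS])
  have mb : h F.b ∈ closure S := subset_closure (by simp [hS])
  have mc : h F.c ∈ closure S := subset_closure (by simp [hS])
  have YA : ∀ v ∈ F.V, h v ∈ closure S := fun v hv => by
    rcases H.mem_V.1 hv with rfl | rfl | rfl | rfl
    exacts [w.one ▸ one_mem _, mb, mc, w.mul H.bJ H.cJ' ▸ mul_mem mb mc]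
  have ab : ∀ x ∈ closure S, ∀ y ∈ closure S, x * y = y * x := fun x hx y hy => by
    have h1 : closure S ≤ centralizer S := (closure_le _).2 (by
      rw [hS]
      rintro _ (rfl | rfl | rfl | rfl) _ (rfl | rfl | rfl | rfl)
      exacts [rfl, c12.symm, a1.cV _ Dy.bV, a1.cV _ Dy.cV, c12, rfl, a2.cV _ Dy.bV, a2.cV _ Dy.cV,
        (a1.cV _ Dy.bV).symm, (a2.cV _ Dy.bV).symm, rfl, w.comm H.cJ' H.bJ H.bc.symm,
        (a1.cV _ Dy.cV).symm, (a2.cV _ Dy.cV).symm, w.comm H.bJ H.cJ' H.bc, rfl])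
    exact mem_centralizer_singleton_iff.1 ((closure_le (centralizer {y})).2
      (fun s hs => mem_centralizer_singleton_iff.2 (h1 hy s hs)) hx)
  have tr : ∀ y ∈ closure S, (∃ v, Tr F t O h y v) ∧ P2 y := fun y hy => by
    induction hy using closure_induction with
    | mem x hx =>
      rw [hS] at hx
      rcases hx with rfl | rfl | rfl | rfl
      exacts [⟨⟨_, a1⟩, p1⟩, ⟨⟨_, a2⟩, p2⟩, ⟨⟨_, Tr.hat H w Dy.bV⟩, P2.of_sq (w.sq H.bJ H.b2)⟩,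
        ⟨⟨_, Tr.hat H w Dy.cV⟩, P2.of_sq (w.sq H.cJ' H.c2)⟩]
    | one => exact ⟨⟨_, w.one ▸ Tr.hat H w (one_mem _)⟩, P2.of_sq (mul_one 1)⟩
    | mul x y hx hy i j =>
      obtain ⟨⟨_, i1⟩, i2⟩ := i
      obtain ⟨⟨_, j1⟩, j2⟩ := j
      exact ⟨⟨_, i1.mul H w j1⟩, i2.mul j2 (ab x hx y hy)⟩
    | inv x _ i => exact ⟨i.1.imp fun _ a => a.inv H w, i.2.inv⟩
  have nrm : ∀ g, (∀ s ∈ S, g * s * g⁻¹ ∈ closure S) → g ∈ 𝐍(closure S) := fun g hg =>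
    mem_normalizer_of_cj_le (map_le_iff_le_comap.2 ((closure_le _).2 hg))
  have ωN : h F.ω ∈ 𝐍(closure S) := nrm _ fun s hs => by
    rw [hS] at hs
    rcases hs with rfl | rfl | rfl | rfl
    · exact e1 ▸ m2
    · exact e2 ▸ mul_mem (inv_mem (mul_mem m1 m2)) (YA u hu)
    · exact w.cj H.ωJ H.bJ ▸ YA _ (ωV H Dy.bV)
    · exact w.cj H.ωJ H.cJ' ▸ YA _ (ωV H Dy.cV)
  have tA : t ∈ 𝐍(closure S) := nrm _ fun s hs => by
    obtain ⟨⟨v, a⟩, -⟩ := tr s (subset_closure hs)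
    rw [show t * s * t⁻¹ = s * h v by
      calc _ = s * (s⁻¹ * t * s⁻¹⁻¹) * t⁻¹ := by group
        _ = _ := by rw [(a.inv H w).act, ← w.ht (H.VJ a.mem)]; group]
    exact mul_mem (subset_closure hs) (YA v a.mem)
  generalize closure S = Y at *
  have tr' : ∀ v ∈ F.V, ∃ y ∈ Y, y * t * y⁻¹ = t * h v := fun v hv => by
    rcases H.mem_V.1 hv with rfl | rfl | rfl | rfl
    exacts [⟨1, one_mem _, by simp [w.one]⟩, ⟨_, m1, a1.act⟩, ⟨_, m2, a2.act⟩, ⟨_, mul_mem m1 m2, (a1.mul H w a2).act⟩]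
  have fix : ∀ y ∈ Y, y * t = t * y → ∃ v ∈ F.V, y = h v := fun y hy c => by
    obtain ⟨⟨v, a⟩, p⟩ := tr y hy
    obtain rfl := a.nc H w (one_mem _) (by simpa [w.one] using c)
    obtain ⟨u, hu, e | e⟩ := a.ker2 H w p
    · exact ⟨u, hu, e⟩
    · exact absurd (a1.nc H w hu (e ▸ ab _ m1 _ hy)) H.b1
  refine ⟨Y, ⟨ab, isP_of_P2 fun y hy => (tr y hy).2, ?_, YA, tr', fun y hy => ?_, fix, tA, fun y hy => ?_⟩,
    fun x hx y hy => ?_, ωN⟩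
  · let τ : Y →* G := MonoidHom.mk' (fun y => t * (y * t * (y : G)⁻¹)) fun x y => by
      obtain ⟨⟨v, a⟩, -⟩ := tr x x.2
      obtain ⟨⟨v', b⟩, -⟩ := tr y y.2
      rw [coe_mul, (a.mul H w b).act, a.act, b.act, w.tt, w.tt, w.tt, w.mul (H.VJ a.mem) (H.VJ b.mem)]
    have r : τ.range = w.hat F.V := by
      ext x
      rw [w.mem_hat H.VJ]
      refine ⟨fun ⟨y, e⟩ => ?_, fun ⟨v, hv, e⟩ => ?_⟩
      · obtain ⟨⟨v, a⟩, -⟩ := tr y y.2
        exact ⟨v, a.mem, by rw [← e, ← w.tt (h v), ← a.act]; rfl⟩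
      · obtain ⟨y, hy, e'⟩ := tr' v hv
        exact ⟨⟨y, hy⟩, by rw [← e, ← w.tt (h v), ← e']; rfl⟩
    have k : τ.ker = (w.hat F.V).subgroupOf Y := by
      ext y
      rw [mem_subgroupOf, w.mem_hat H.VJ]
      refine ⟨fun e => ?_, fun ⟨v, hv, e⟩ => ?_⟩
      · obtain ⟨v, hv, e'⟩ := fix y y.2 (cj_fix.1 ((eq_inv_of_mul_eq_one_right e).trans w.ti))
        exact ⟨v, hv, e'.symm⟩
      · show t * (y * t * (y : G)⁻¹) = 1
        rw [← e, w.cjt (w.hL _ (H.VJ hv)), w.t2]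
    rw [← τ.ker.card_mul_index, index_ker, r, k, card_subgroupOf fun x hx => ?_, w.card_hat H.VJ, cardV H]
    obtain ⟨v, hv, rfl⟩ := (w.mem_hat H.VJ).1 hx
    exact YA v hv
  · obtain ⟨⟨v, a⟩, -⟩ := tr y hy
    exact ⟨v, a.mem, a.act⟩
  · obtain ⟨⟨v, a⟩, -⟩ := tr y hy
    exact a.cO
  · obtain ⟨⟨v, a⟩, -⟩ := tr y hy
    exact a.cX x hx

end H79.JS
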