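import Cfsg.Agent.Lib.JS.D0

set_option autoImplicit false
set_option linter.unusedSectionVars false
set_option linter.unusedVariables false

namespace H79.JS

open Subgroup H69 H36.SW
open H48.SM (Pf)
open scoped commutatorElement

variable {X : Type} [Group X] [Finite X] {G : Type*} [Group G] [Finite G] {F : Dy X}
variable {t : G} {L O A V Y I S : Subgroup G} {α : G → X} {h e : X → G}

namespace CT2

/-- `g` centralises `R̂` -/
def CR (F : Dy X) (h : X → G) (g : G) : Prop := ∀ r ∈ F.R, h r * g = g * h r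

theorem CR.mul {g k : G} (a : CR F h g) (b : CR F h k) : CR F h (g * k) := fun r hr => by
  rw [← mul_assoc, a r hr, mul_assoc, b r hr, mul_assoc]

theorem CR.inv {g : G} (a : CR F h g) : CR F h g⁻¹ := fun r hr =>
  (Commute.inv_right (a r hr)).eq

theorem mv_mul (H : Fx F) (w : W0 F t L O α h) {g k : G} {r s : X} (hr : r ∈ F.R) (hs : s ∈ F.R)
    (c : CR F h g) (e1 : g * t * g⁻¹ = t * h r) (e2 : k * t * k⁻¹ = t * h s) :
    g * k * t * (g * k)⁻¹ = t * h (r * s) := by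
  calc _ = g * (k * t * k⁻¹) * g⁻¹ := by group
    _ = g * t * (h s * g⁻¹) := by rw [e2]; group
    _ = _ := by rw [c.inv s hs, ← mul_assoc, e1, w.toIso.mul (H.RJ hr) (H.RJ hs), mul_assoc]

theorem mv_inv (H : Fx F) (w : W0 F t L O α h) {g : G} {r : X} (hr : r ∈ F.R)
    (c : CR F h g) (e1 : g * t * g⁻¹ = t * h r) : g⁻¹ * t * g⁻¹⁻¹ = t * h r := by
  have e2 : t = g * t * g⁻¹ * h r := by
    rw [e1, mul_assoc, w.toIso.sq (H.RJ hr) (H.R2 r hr), mul_one]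
  calc g⁻¹ * t * g⁻¹⁻¹ = g⁻¹ * (g * t * g⁻¹ * h r) * g⁻¹⁻¹ := by rw [← e2]
    _ = t * (g⁻¹ * (h r * g)) := by group
    _ = _ := by rw [c r hr]; group

theorem dec (H : Fx F) (w : W0 F t L O α h) {g : G} (c : CR F h g) (e : g * t * g⁻¹ = t * h 1) :
    ∃ β ∈ F.R, ∃ o ∈ O, g = h β * o ∨ g = h β * t * o := by
  rw [w.toIso.one, mul_one, cj_fix] at e
  have hβ : α g ∈ F.R := H.cenR fun r hr => w.toIso.of_comm (w.CN g e) (H.RJ hr) (c r hr).symm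
  exact ⟨_, hβ, w.ovr e (H.RJ hβ)⟩

theorem odd1 {o : G} (ho : Odd (orderOf o)) (e : o * o = 1) : o = 1 := (P2.of_sq e).eq_one ho

theorem del (H : Fx F) (w : W0 F t L O α h) {P Q : Subgroup X} {B C : Subgroup G} (hP : P ≤ F.R)
    (hQ : Q ≤ F.R) (aB : Ab t O h P B) (aC : Ab t O h Q C) (cB : ∀ b ∈ B, CR F h b)
    (cC : ∀ c ∈ C, CR F h c) {b c : G} (hb : b ∈ B) (hc : c ∈ C) : ∃ β ∈ F.R, ⁅b, c⁆ = h β := by
  obtain ⟨p, hp, e1⟩ := aB.act b hb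
  obtain ⟨q, hq, e2⟩ := aC.act c hc
  have hp := hP hp
  have hq := hQ hq
  have triv : ∀ {b : G}, b ∈ B → b * t * b⁻¹ = t * h 1 → ⁅b, c⁆ = 1 := fun {b} hb e => by
    rw [w.toIso.one, mul_one, cj_fix] at e
    obtain ⟨p, hp, rfl⟩ := aB.fix b hb e
    exact commutatorElement_eq_one_iff_mul_comm.2 (cC c hc p (hP hp))
  have c1 := (cB b hb).mul (cC c hc)
  have c2 := c1.mul (cB b hb).inv
  have e3 := mv_mul H w (mul_mem (mul_mem hp hq) hp) hq c2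
    (mv_mul H w (mul_mem hp hq) hp c1 (mv_mul H w hp hq (cB b hb) e1 e2) (mv_inv H w hp (cB b hb) e1))
    (mv_inv H w hq (cC c hc) e2)
  rw [mul_assoc (p * q), H.R2 _ (mul_mem hp hq)] at e3
  obtain ⟨β, hβ, o, ho, e4⟩ := dec H w (c2.mul (cC c hc).inv) e3
  rw [← commutatorElement_def] at e4
  have e5 : b * ⁅b, c⁆ * b⁻¹ * ⁅b, c⁆ = 1 := by
    rw [← triv (mul_mem hb hb) (H.R2 p hp ▸ mv_mul H w hp hp (cB b hb) e1 e1)]
    simp only [commutatorElement_def]; group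
  have k1 : b * h β * b⁻¹ = h β := cj_fix.2 (cB b hb β hβ).symm
  have k2 : b * o * b⁻¹ = o := cj_fix.2 (aB.cO b hb o ho)
  have k3 : o * h β = h β * o := (w.hO (H.RJ hβ) ho).symm
  have k4 : h β * h β = 1 := w.toIso.sq (H.RJ hβ) (H.R2 β hβ)
  rcases e4 with e4 | e4
  · refine ⟨β, hβ, ?_⟩
    rw [e4, ← conj_mul, k1, k2, mul_assoc, ← mul_assoc o, k3, mul_assoc, ← mul_assoc, k4, one_mul] at e5
    rw [e4, odd1 (w.oddO o ho) e5, mul_one]
  · refine ⟨1, one_mem _, ?_⟩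
    rw [w.toIso.one]
    refine triv hb ?_
    rw [e4, ← conj_mul, ← conj_mul, k1, k2, e1] at e5
    have k5 : Commute (h β) t := w.ht (H.RJ hβ)
    have k6 : Commute (h p) t := w.ht (H.RJ hp)
    have k7 : Commute o t := w.Ot o ho
    have k8 : Commute (h p) (h β) := w.toIso.comm (H.RJ hp) (H.RJ hβ) (H.Rc hp hβ)
    have e6 : h p * (o * o) = 1 := by
      calc h p * (o * o) = (h β * t) * (h β * t) * (h p * (o * o)) := by
            rw [mul_assoc (h β) t, ← mul_assoc t, ← k5.eq, mul_assoc (h β) t, w.t2, mul_one, k4, one_mul]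
        _ = (h β * t) * (((h β * t) * h p) * o) * o := by group
        _ = (h β * t) * (h p * ((h β * t) * o)) * o := by
            rw [← (k8.mul_right k6).eq]; group
        _ = (h β * t) * (h p * (o * (h β * t))) * o := by
            rw [← (Commute.mul_right k3 k7).eq]
        _ = 1 := by rw [← e5]; group
    have e7 : h p = 1 := w.LO1 (w.hL p (H.RJ hp)) (by
      rw [eq_inv_of_mul_eq_one_left e6]; exact inv_mem (mul_mem ho ho))
    rw [e1, e7, w.toIso.one]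

theorem part (H : Fx F) (w : W0 F t L O α h) {P Q : Subgroup X} {B C : Subgroup G} (hP : P ≤ F.R)
    (hQ : Q ≤ F.R) (aB : Ab t O h P B) (aC : Ab t O h Q C) (cB : ∀ b ∈ B, CR F h b)
    (cC : ∀ c ∈ C, CR F h c) {s : X} (sJ : s ∈ F.J) (sP : ∀ p ∈ P, s * p * s⁻¹ = p)
    (sQ : ∀ q ∈ Q, s * q * s⁻¹ ∈ Q ∧ q * (s * q * s⁻¹) * (s * (s * q * s⁻¹) * s⁻¹) = 1)
    (sB : ∀ b ∈ B, h s * b = b * h s) (sC : h s ∈ 𝐍(C)) {b c : G} (hb : b ∈ B) (hc : c ∈ C)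
    {p q : X} (hp : p ∈ P) (hq : q ∈ Q) (e : ⁅b, c⁆ = h (p * q)) : p = 1 := by
  have I := w.toIso
  have mv : ∀ {c : G} {q : X}, q ∈ F.R → c * t * c⁻¹ = t * h q →
      h s * c * (h s)⁻¹ * t * (h s * c * (h s)⁻¹)⁻¹ = t * h (s * q * s⁻¹) := fun {c q} hq e => by
    have k := w.cjt (w.hL s sJ)
    calc _ = h s * c * (h s)⁻¹ * (h s * t * (h s)⁻¹) * (h s * c * (h s)⁻¹)⁻¹ := by rw [k]
      _ = h s * (c * t * c⁻¹) * (h s)⁻¹ := by group
      _ = _ := by rw [e, ← conj_mul, k, I.cj sJ (H.RJ hq)]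
  have cm : ∀ {c : G} {r : X}, r ∈ F.R → ⁅b, c⁆ = h r → ⁅b, h s * c * (h s)⁻¹⁆ = h (s * r * s⁻¹) :=
    fun {c r} hr e => by
      rw [I.cj sJ (H.RJ hr), ← e, conjugate_commutatorElement, cj_fix.2 (sB b hb)]
  have ml : ∀ {c c' : G} {r r' : X}, c ∈ C → r ∈ F.R → r' ∈ F.R → ⁅b, c⁆ = h r → ⁅b, c'⁆ = h r' →
      ⁅b, c * c'⁆ = h (r * r') := fun {c c' r r'} hc hr hr' e e' => by
    have k : ⁅b, c * c'⁆ = ⁅b, c⁆ * (c * ⁅b, c'⁆ * c⁻¹) := by simp only [commutatorElement_def]; group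
    rw [k, e, e', cj_fix.2 (cC c hc r' hr').symm, I.mul (H.RJ hr) (H.RJ hr')]
  obtain ⟨v, hv, e1⟩ := aC.act c hc
  have hc1 := conj_mem_of_mem_normalizer sC hc
  have hc2 := conj_mem_of_mem_normalizer sC hc1
  have hv1 := (sQ v hv).1
  have hv2 := (sQ _ hv1).1
  have e2 := mv_mul H w (mul_mem (hQ hv) (hQ hv1)) (hQ hv2) ((cC c hc).mul (cC _ hc1))
    (mv_mul H w (hQ hv) (hQ hv1) (cC c hc) e1 (mv (hQ hv) e1)) (mv (hQ hv1) (mv (hQ hv) e1))
  rw [(sQ v hv).2, I.one, mul_one, cj_fix] at e2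
  obtain ⟨v', hv', e3⟩ := aC.fix _ (mul_mem (mul_mem hc hc1) hc2) e2
  have hq1 := (sQ q hq).1
  have hq2 := (sQ _ hq1).1
  have r0 := mul_mem (hP hp) (hQ hq)
  have r1 := mul_mem (hP hp) (hQ hq1)
  have r2 := mul_mem (hP hp) (hQ hq2)
  have f1 := cm r0 e
  rw [← conj_mul (b := s), sP p hp] at f1
  have f2 := cm r1 f1
  rw [← conj_mul (b := s), sP p hp] at f2
  have f3 := ml (mul_mem hc hc1) (mul_mem r0 r1) r2 (ml hc r0 r1 e f1) f2
  rw [e3, commutatorElement_eq_one_iff_mul_comm.2 (cB b hb v' (hQ hv')).symm, ← I.one] at f3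
  have f4 := I.hinj (one_mem _) (H.RJ (mul_mem (mul_mem r0 r1) r2)) f3
  have f5 := (sQ q hq).2
  generalize s * (s * q * s⁻¹) * s⁻¹ = q2 at hq2 f4 f5
  generalize s * q * s⁻¹ = q1 at hq1 f4 f5
  have k1 := H.Rc (hQ hq) (hP hp)
  have k2 := H.Rc (mul_mem (hQ hq) (hQ hq1)) (hP hp)
  calc p = p * (p * p) * (q * q1 * q2) := by rw [H.R2 p (hP hp), f5, mul_one, mul_one]
    _ = p * (p * (p * (q * q1)) * q2) := by group
    _ = p * (p * q) * q1 * (p * q2) := by rw [← k2]; group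
    _ = p * (q * p) * q1 * (p * q2) := by rw [k1]
    _ = 1 := by rw [f4]; group

theorem three (H : Fx F) {a b s v : X} (ha : a ∈ F.R) (hb : b ∈ F.R) (e1 : s * a * s⁻¹ = b)
    (e2 : s * b * s⁻¹ = a * b) (hv : v ∈ closure {a, b}) :
    s * v * s⁻¹ ∈ closure {a, b} ∧ v * (s * v * s⁻¹) * (s * (s * v * s⁻¹) * s⁻¹) = 1 := by
  have m1 : a ∈ closure {a, b} := subset_closure (by simp)
  have m2 : b ∈ closure {a, b} := subset_closure (by simp)
  have e3 : s * (a * b) * s⁻¹ = a := by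
    rw [← conj_mul, e1, e2, H.Rc ha hb, ← mul_assoc, H.R2 b hb, one_mul]
  have e4 := H.R2 _ (mul_mem ha hb)
  rcases (mem_four (H.R2 a ha) (H.R2 b hb) (H.Rc ha hb)).1 hv with rfl | rfl | rfl | rfl
  · simp
  · rw [e1, e2]; exact ⟨m2, e4⟩
  · rw [e2, e3]
    refine ⟨mul_mem m1 m2, ?_⟩
    rw [H.Rc ha hb, ← mul_assoc, H.R2 _ hb, one_mul, H.R2 _ ha]
  · rw [e3, e1]; exact ⟨m1, by rw [mul_assoc, e4]⟩

theorem cA (H : Fx F) (x : Es F t L O α h e A) : ∀ a ∈ A, CR F h a := fun a ha r hr =>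
  x.cW r (H.RJ hr) (H.Rc hr (H.WR Dy.zW)) (H.Rc hr (H.WR Dy.qW)) a ha

theorem cY (H : Fx F) (w : W0 F t L O α h) (y : Ev F t O h Y) : ∀ c ∈ Y, CR F h c := fun c hc r hr => by
  obtain ⟨p, hp, v, hv, rfl⟩ := (H.memR r).1 hr
  rw [w.toIso.mul (H.WJ hp) (H.VJ hv), mul_assoc, y.ab.ab _ (y.ab.YA v hv) c hc, ← mul_assoc,
    y.cX p (H.WX hp) c hc, mul_assoc]

theorem comm (H : Fx F) (x : Es F t L O α h e A) (y : Ev F t O h Y) :
    ∀ a ∈ A, ∀ c ∈ Y, a * c = c * a := by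
  intro a ha c hc
  have w := x.toW0
  obtain ⟨β, hβ, e1⟩ := del H w H.WR H.VR x.ab y.ab (cA H x) (cY H w y) ha hc
  obtain ⟨p, hp, v, hv, rfl⟩ := (H.memR β).1 hβ
  have p1 : p = 1 := part H w H.WR H.VR x.ab y.ab (cA H x) (cY H w y) H.ωJ
    (fun p hp => cj_fix.2 (H.ωX p (H.WX hp)).symm) (fun v hv => three H H.bR H.cR H.ωb H.ωc hv)
    (x.cW _ H.ωJ (H.ωX _ H.zX).symm (H.ωX _ H.qX).symm) y.ωN ha hc hp hv e1
  have tW := fun v (hv : v ∈ F.W) => three H (H.WR Dy.zW) (H.WR Dy.qW) H.ρz H.ρq hv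
  have v1 : v = 1 := part H w H.VR H.WR y.ab x.ab (cY H w y) (cA H x) H.ρJ
    (fun v hv => cj_fix.2 (H.XV H.ρX hv)) tW (y.cX _ H.ρX)
    (x.nW _ H.ρJ (mem_normalizer_fintype fun v hv => (tW v hv).1)) hc ha hv hp (by
      rw [← commutatorElement_inv, e1, ← w.toIso.inv (H.RJ hβ), inv_eq_of_mul_eq_one_right (H.R2 _ hβ),
        H.Rc (H.WR hp) (H.VR hv)])
  rw [p1, v1, mul_one, w.toIso.one] at e1
  exact commutatorElement_eq_one_iff_mul_comm.1 e1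

theorem cjY (H : Fx F) (x : Es F t L O α h e A) (y : Ev F t O h Y) (c : ∀ a ∈ A, ∀ c ∈ Y, a * c = c * a)
    {r : X} (hr : r ∈ F.U) {g : G} (hg : g ∈ Y) : h r * g * (h r)⁻¹ ∈ Y ⊔ A := by
  have w := x.toW0
  have I := w.toIso
  have rJ := H.UJ hr
  have rR : ∀ {r : X}, r ∈ F.U → ∀ s ∈ F.R, r * s * r⁻¹ ∈ F.R := fun {r} hr s hs => by
    simpa using mul_mem (H.WR (H.UR r hr s hs)) (inv_mem hs)
  have rA : ∀ a ∈ A, h r * a = a * h r := x.cW r rJ (H.UW r hr _ Dy.zW) (H.UW r hr _ Dy.qW)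
  have c1 : CR F h (h r * g * (h r)⁻¹) := fun s hs => by
    have k := cjc (j := h r) (cY H w y g hg _ (rR (inv_mem hr) s hs))
    rwa [← I.cj rJ (H.RJ (rR (inv_mem hr) s hs)), show r * (r⁻¹ * s * r⁻¹⁻¹) * r⁻¹ = s by group] at k
  obtain ⟨v, hv, e1⟩ := y.ab.act g hg
  have hp := H.UR r hr v (H.VR hv)
  obtain ⟨a, ha, e2⟩ := x.ab.tr _ hp
  have e3 := mv_mul H w (H.WR hp) (H.VR hv) (cA H x a ha) e2 e1
  rw [mul_assoc _ v v, H.R2 v (H.VR hv), mul_one] at e3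
  have e4 : h r * g * (h r)⁻¹ * t * (h r * g * (h r)⁻¹)⁻¹ = t * h (r * v * r⁻¹) := by
    have k := w.cjt (w.hL r rJ)
    calc _ = h r * g * (h r)⁻¹ * (h r * t * (h r)⁻¹) * (h r * g * (h r)⁻¹)⁻¹ := by rw [k]
      _ = h r * (g * t * g⁻¹) * (h r)⁻¹ := by group
      _ = _ := by rw [e1, ← conj_mul, k, I.cj rJ (H.VJ hv)]
  have hs := rR hr v (H.VR hv)
  have c0 := (cA H x a ha).mul (cY H w y g hg)
  have e5 := mv_mul H w hs hs c0.inv (mv_inv H w hs c0 e3) e4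
  rw [H.R2 _ hs] at e5
  obtain ⟨β, hβ, o, ho, e6⟩ := dec H w (c0.inv.mul c1) e5
  have g2 : P2 g := P2.of_mem y.ab.p2 hg
  have cg : ∀ a' ∈ A, Commute a' (h r * g * (h r)⁻¹) := fun a' ha' =>
    (Commute.mul_right (rA a' ha').symm (c a' ha' g hg)).mul_right (Commute.inv_right (rA a' ha').symm)
  have g2' := g2.conj (h r)
  generalize h r * g * (h r)⁻¹ = g' at e6 g2' cg ⊢
  rcases e6 with e6 | e6
  · have e7 : g' = a * g * h β * o := by rw [mul_assoc, ← e6]; group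
    have k1 : P2 (a * g * h β) := ((P2.of_mem x.ab.p2 ha).mul g2 (c a ha g hg)).mul
      (P2.of_sq (I.sq (H.RJ hβ) (H.R2 β hβ))) (c0 β hβ).symm
    have k2 : Commute (a * g * h β) o :=
      (Commute.mul_left (x.ab.cO a ha o ho) (y.ab.cO g hg o ho)).mul_left (w.hO (H.RJ hβ) ho)
    have o1 : o = 1 := k1.odd_eq_one (e7 ▸ g2') k2.eq (w.oddO o ho)
    obtain ⟨p, hp, v, hv, rfl⟩ := (H.memR β).1 hβ
    rw [e7, o1, mul_one, I.mul (H.WJ hp) (H.VJ hv)]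
    exact mul_mem (mul_mem (mem_sup_right ha) (mem_sup_left hg))
      (mul_mem (mem_sup_right (x.ab.YA p hp)) (mem_sup_left (y.ab.YA v hv)))
  · exfalso
    obtain ⟨a', ha', e7⟩ := x.ab.tr _ Dy.zW
    have e8 : t = (h β)⁻¹ * ((a * g)⁻¹ * g') * o⁻¹ := by rw [e6]; group
    have k : Commute a' t := by
      rw [e8]
      exact ((Commute.inv_right (cA H x a' ha' β hβ).symm).mul_right ((Commute.inv_right
        (Commute.mul_right (x.ab.ab a' ha' a ha) (c a' ha' g hg))).mul_right (cg a' ha'))).mul_right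
        (Commute.inv_right (x.ab.cO a' ha' o ho))
    rw [cj_fix.2 k.eq] at e7
    exact I.ne H.zJ H.z1 (by simpa using e7)

end CT2

theorem Ev.comm (H : Fx F) (x : EU F t L O α h e A ∨ ET F t L O α h e A) (y : Ev F t O h Y) :
    ∀ a ∈ A, ∀ c ∈ Y, a * c = c * a := by
  rcases x with x | x
  · exact CT2.comm H x.toEs y
  · exact CT2.comm H x.toEs y

theorem Ev.norm (H : Fx F) (x : Es F t L O α h e A) (y : Ev F t O h Y) (c : ∀ a ∈ A, ∀ c ∈ Y, a * c = c * a) :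
    ∀ r ∈ F.U, h r ∈ 𝐍(Y ⊔ A) := by
  intro r hr
  refine mem_normalizer_of_cj_le ?_
  rw [Subgroup.map_sup]
  refine sup_le (fun g hg => ?_) fun g hg => ?_
  · obtain ⟨g, hg', rfl⟩ := mem_cj'.1 hg
    exact CT2.cjY H x y c hr hg'
  · obtain ⟨g, hg', rfl⟩ := mem_cj'.1 hg
    rw [cj_fix.2 (x.cW r (H.UJ hr) (H.UW r hr _ Dy.zW) (H.UW r hr _ Dy.qW) g hg')]
    exact mem_sup_right hg'

end H79.JS
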