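import Cfsg.Agent.Lib.JS.CT2

set_option autoImplicit false
set_option linter.unusedSectionVars false

namespace H79.JS

open Subgroup H69 H36.SW
open H48.SM (Pf)
open scoped commutatorElement

variable {X : Type} [Group X] [Finite X] {G : Type*} [Group G] [Finite G] {F : Dy X}
variable {t : G} {L O A V Y I S : Subgroup G} {α : G → X} {h e : X → G}

namespace CT3

theorem key (H : Fx F) (x : Es F t L O α h e A) (y : Ev F t O h Y) (cm : ∀ a ∈ A, ∀ c ∈ Y, a * c = c * a)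
    {r v : X} {c : G} (hr : r ∈ F.U) (hv : v ∈ F.V) (hc : c ∈ Y) (cv : c * t * c⁻¹ = t * h v) :
    ∃ μ ∈ F.V, ∃ a ∈ A, h r * c * (h r)⁻¹ = c * h μ * a ∧ a * t * a⁻¹ = t * h (r * v * r⁻¹ * v) := by
  have i := x.toWe.toW0.toIso
  have rJ := H.UJ hr
  have vJ := H.VJ hv
  have m := conj_mem_of_mem_normalizer (y.norm H x cm r hr) (mem_sup_left hc)
  obtain ⟨c1, h1, a, ha, e1⟩ := (mem_sup_comm fun _ h _ k => (cm _ k _ h).symm).1 m
  obtain ⟨v1, hv1, e2⟩ := y.ab.act c1 h1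
  obtain ⟨w, hw, e3⟩ := x.ab.act a ha
  have rt : h r * t = t * h r := x.toWe.toW0.ht rJ
  have cw : Commute (h w) c1 := cm _ (x.ab.YA w hw) _ h1
  have e4 : h (r * v * r⁻¹) = h (v1 * w) := by
    apply mul_left_cancel (a := t)
    calc t * h (r * v * r⁻¹) = h r * (c * t * c⁻¹) * (h r)⁻¹ := by
          rw [cv, i.cj rJ vJ, ← mul_assoc (h r), rt]; group
      _ = (h r * c * (h r)⁻¹) * (h r * t * (h r)⁻¹) * (h r * c * (h r)⁻¹)⁻¹ := by group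
      _ = c1 * (a * t * a⁻¹) * c1⁻¹ := by rw [e1, rt]; group
      _ = c1 * t * (h w * c1⁻¹) := by rw [e3]; group
      _ = c1 * t * c1⁻¹ * h w := by rw [cw.inv_right.eq]; group
      _ = t * h (v1 * w) := by rw [e2, i.mul (H.VJ hv1) (H.WJ hw), mul_assoc]
  have e5 : r * v * r⁻¹ = v1 * w := i.hinj (H.cjJ vJ r) (mul_mem (H.VJ hv1) (H.WJ hw)) e4
  have vv := H.R2 v (H.VR hv)
  have e6 : v1 = v := by
    have k := H.UR r hr v (H.VR hv)
    rw [e5, H.Rc (H.VR hv1) (H.WR hw), mul_assoc, mul_mem_cancel_left hw] at k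
    exact mul_right_cancel ((H.bW _ (mul_mem hv1 hv) k).trans vv.symm)
  subst e6
  obtain ⟨μ, hμ, eμ⟩ := y.ab.fix (c⁻¹ * c1) (mul_mem (inv_mem hc) h1) (mul_inv_eq_iff_eq_mul.1 (by
    calc c⁻¹ * c1 * t * (c⁻¹ * c1)⁻¹ = c⁻¹ * (c1 * t * c1⁻¹) * c := by group
      _ = t := by rw [e2, ← cv]; group))
  refine ⟨μ, hμ, a, ha, by rw [e1, ← eμ, mul_inv_cancel_left], ?_⟩
  rw [e3, e5, H.Rc (H.VR hv1) (H.WR hw), mul_assoc w, vv, mul_one]

theorem cA (H : Fx F) (x : Es F t L O α h e A) {r : X} (hr : r ∈ F.U) {a : G} (ha : a ∈ A) :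
    h r * a * (h r)⁻¹ = a :=
  mul_inv_eq_iff_eq_mul.2 (x.cW r (H.UJ hr) (H.UW r hr _ Dy.zW) (H.UW r hr _ Dy.qW) a ha)

theorem fixr (H : Fx F) {r μ v : X} (hr : r ∈ F.V) (r1 : r ≠ 1) (hμ : μ ∈ F.V) (hv : v ∈ F.V)
    (k : μ * (F.a * r * F.a * μ * (F.a * r * F.a)⁻¹) * (F.a * r * F.a * v * (F.a * r * F.a)⁻¹ * v) = 1) :
    μ = v := by
  have vv := H.R2 v (H.VR hv)
  have mm := H.R2 μ (H.VR hμ)
  refine mul_right_cancel (((H.inj r hr _ (mul_mem hμ hv) (mul_inv_eq_iff_eq_mul.1 ?_)).resolve_left r1).trans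
    vv.symm)
  generalize F.a * r * F.a = s at k ⊢
  calc s * (μ * v) * s⁻¹ = μ⁻¹ * (μ * (s * μ * s⁻¹) * (s * v * s⁻¹ * v)) * v⁻¹ := by group
    _ = μ * v := by rw [k, mul_one, inv_eq_of_mul_eq_one_left mm, inv_eq_of_mul_eq_one_left vv]

theorem tw (H : Fx F) (x : ET F t L O α h e A) (y : Ev F t O h Y) {r v : X} {c : G} (hr : r ∈ F.V) (r1 : r ≠ 1)
    (hv : v ∈ F.V) (hc : c ∈ Y) (cv : c * t * c⁻¹ = t * h v) :
    ∃ a ∈ A, h (F.a * r * F.a) * c * (h (F.a * r * F.a))⁻¹ = c * h v * a := by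
  have i := x.toEs.toWe.toW0.toIso
  have cm := y.comm H (Or.inr x)
  have sU := H.aU r (H.VR hr)
  obtain ⟨μ, hμ, a, ha, e1, e2⟩ := key H x.toEs y cm sU hv hc cv
  suffices k : μ = v from ⟨a, ha, k ▸ e1⟩
  refine fixr H hr r1 hμ hv ?_
  have ss : F.a * r * F.a * (F.a * r * F.a) = 1 := by
    calc _ = F.a * (r * (F.a * F.a) * r) * F.a := by group
      _ = 1 := by rw [H.a2, mul_one, H.R2 r (H.VR hr), mul_one, H.a2]
  generalize F.a * r * F.a = s at *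
  have sJ := H.UJ sU
  have μJ := H.VJ hμ
  have wJ := H.WJ (H.UR s sU v (H.VR hv))
  have aa : a * a = h (s * v * s⁻¹ * v) := mul_left_cancel ((x.sqA a ha).symm.trans e2)
  have c1 := cA H x.toEs sU ha
  have c2 : a * h (s * μ * s⁻¹) = h (s * μ * s⁻¹) * a := by
    rw [i.cj sJ μJ]
    conv_lhs => rw [← c1]
    conv_rhs => rw [← c1]
    exact cjc (cm a ha _ (y.ab.YA μ hμ))
  refine i.hinj (mul_mem (mul_mem μJ (H.cjJ μJ s)) wJ) (one_mem _) ?_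
  rw [i.mul (mul_mem μJ (H.cjJ μJ s)) wJ, i.mul μJ (H.cjJ μJ s), i.one, ← aa]
  apply mul_left_cancel (a := c)
  calc c * (h μ * h (s * μ * s⁻¹) * (a * a)) = c * h μ * (h (s * μ * s⁻¹) * a) * a := by group
    _ = c * h μ * a * h (s * μ * s⁻¹) * a := by rw [← c2]; group
    _ = h s * c * (h s)⁻¹ * (h s * h μ * (h s)⁻¹) * (h s * a * (h s)⁻¹) := by rw [e1, c1, i.cj sJ μJ]
    _ = h s * (c * h μ * a) * (h s)⁻¹ := by group
    _ = h s * h s * c * (h s * h s)⁻¹ := by rw [← e1]; group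
    _ = c * 1 := by rw [i.sq sJ ss]; group

end CT3

open CT3

theorem EU.ev_sq (H : Fx F) (x : EU F t L O α h e A) (y : Ev F t O h Y) : ∀ c ∈ Y, c * c = 1 := by
  intro c hc
  have i := x.toEs.toWe.toW0.toIso
  have cm := y.comm H (Or.inl x)
  obtain ⟨v, hv, cv⟩ := y.ab.act c hc
  have c1 : Commute (h v) c := y.ab.ab _ (y.ab.YA v hv) _ hc
  obtain ⟨ν, hν, eν⟩ := y.ab.fix _ (mul_mem hc hc) (mul_inv_eq_iff_eq_mul.1 (by
    calc c * c * t * (c * c)⁻¹ = c * (c * t * c⁻¹) * c⁻¹ := by group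
      _ = c * t * (h v * c⁻¹) := by rw [cv]; group
      _ = c * t * c⁻¹ * h v := by rw [c1.inv_right.eq]; group
      _ = t := by rw [cv, mul_assoc, i.sq (H.VJ hv) (H.R2 v (H.VR hv)), mul_one]))
  have sU := H.aU _ H.bR
  obtain ⟨μ, hμ, a, ha, e1, -⟩ := key H x.toEs y cm sU hv hc cv
  have mY := y.ab.YA μ hμ
  have c2 : Commute a (c * h μ) := cm a ha _ (mul_mem hc mY)
  have c3 : Commute (h μ) c := y.ab.ab _ mY _ hc
  have e2 : h (F.a * F.b * F.a * ν * (F.a * F.b * F.a)⁻¹) = h ν := by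
    rw [i.cj (H.UJ sU) (H.VJ hν), ← eν, ← conj_mul, e1, c2.mul_mul_mul_comm, c3.mul_mul_mul_comm,
      i.sq (H.VJ hμ) (H.R2 μ (H.VR hμ)), x.sqA a ha, mul_one, mul_one]
  have e3 := (H.inj _ Dy.bV ν hν (mul_inv_eq_iff_eq_mul.1
    (i.hinj (H.cjJ (H.VJ hν) _) (H.VJ hν) e2))).resolve_left H.b1
  rw [eν, e3, i.one]

theorem ET.not_ev (H : Fx F) (x : ET F t L O α h e A) (y : Ev F t O h Y) : False := by
  have i := x.toEs.toWe.toW0.toIso
  obtain ⟨c, hc, cv⟩ := y.ab.tr _ Dy.bV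
  obtain ⟨a1, h1, e1⟩ := CT3.tw H x y Dy.bV H.b1 Dy.bV hc cv
  obtain ⟨a2, h2, e2⟩ := CT3.tw H x y Dy.cV H.c1 Dy.bV hc cv
  obtain ⟨a3, h3, e3⟩ := CT3.tw H x y (mul_mem Dy.bV Dy.cV)
    (fun k => H.bc1 (mul_right_cancel (k.trans H.c2.symm))) Dy.bV hc cv
  have U1 := H.aU _ H.bR
  have U2 := H.aU _ H.cR
  have ss : F.a * (F.b * F.c) * F.a = F.a * F.b * F.a * (F.a * F.c * F.a) := by
    calc _ = F.a * F.b * 1 * F.c * F.a := by group
      _ = _ := by rw [← H.a2]; group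
  rw [ss, i.mul (H.UJ U1) (H.UJ U2)] at e3
  generalize F.a * F.b * F.a = r at *
  generalize F.a * F.c * F.a = s at *
  have rJ := H.UJ U1
  have e4 : h (r * F.b * r⁻¹) = a1⁻¹ * a3 * a2⁻¹ := by
    have : c * h F.b * a1 * h (r * F.b * r⁻¹) * a2 = c * h F.b * a3 := by
      calc _ = h r * c * (h r)⁻¹ * (h r * h F.b * (h r)⁻¹) * (h r * a2 * (h r)⁻¹) := by
            rw [e1, cA H x.toEs U1 h2, i.cj rJ H.bJ]
        _ = h r * (c * h F.b * a2) * (h r)⁻¹ := by group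
        _ = _ := by rw [← e2, ← e3]; group
    calc _ = a1⁻¹ * ((c * h F.b)⁻¹ * (c * h F.b * a1 * h (r * F.b * r⁻¹) * a2)) * a2⁻¹ := by group
      _ = _ := by rw [this]; group
  obtain ⟨w, hw, e5⟩ := x.ab.fix _ (e4 ▸ mul_mem (mul_mem (inv_mem h1) h3) (inv_mem h2))
    (x.toEs.toWe.toW0.ht (H.cjJ H.bJ r))
  have k := H.UR r U1 _ H.bR
  rw [i.hinj (H.cjJ H.bJ r) (H.WJ hw) e5, mul_mem_cancel_left hw] at k
  exact H.b1 (H.bW _ Dy.bV k)

end H79.JS
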