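import Cfsg.Agent.Lib.JS.NC
import Cfsg.Agent.Lib.JS.CT1
import Cfsg.Agent.Lib.JS.CT3

set_option autoImplicit false
set_option linter.unusedSectionVars false

namespace H79.JS

open Subgroup H69 H36.SW
open H48.SM (Pf)
open scoped commutatorElement

variable {X : Type} [Group X] [Finite X] {G : Type*} [Group G] [Finite G] {F : Dy X}
variable {t : G} {L O A V Y I S : Subgroup G} {α : G → X} {h e : X → G}

namespace CTL

theorem ext2 {N : Subgroup G} (t2 : t * t = 1) (tN : ∀ x ∈ N, t * x * t ∈ N) :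
    ∃ B : Subgroup G, ∀ x, x ∈ B ↔ x ∈ N ∨ t * x ∈ N := by
  have tt : ∀ x, t * (t * x) = x := fun x => by rw [← mul_assoc, t2, one_mul]
  refine ⟨{ carrier := {x | x ∈ N ∨ t * x ∈ N}
            one_mem' := Or.inl (one_mem _)
            mul_mem' := ?_
            inv_mem' := ?_ }, fun _ => Iff.rfl⟩
  · rintro x y (hx | hx) (hy | hy)
    · exact Or.inl (mul_mem hx hy)
    · refine Or.inr ?_
      have := mul_mem (tN x hx) hy
      rwa [mul_assoc, tt, mul_assoc] at this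
    · exact Or.inr (by rw [← mul_assoc]; exact mul_mem hx hy)
    · refine Or.inl ?_
      have := mul_mem (tN _ hx) hy
      rwa [tt, mul_assoc, tt] at this
  · rintro x (hx | hx)
    · exact Or.inl (inv_mem hx)
    · refine Or.inr ?_
      have := tN _ (inv_mem hx)
      rwa [mul_inv_rev, mul_assoc, inv_mul_cancel_right] at this

/-- control of fusion in `C ⟨t⟩` -/
theorem ctl {C Z : Subgroup G} (t2 : t * t = 1) (tC : ∀ x ∈ C, t * x * t ∈ C) (nt : t ∉ C) (ZC : Z ≤ C)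
    (pZ : ∀ y ∈ Z, P2 y) (tZ : ∀ x ∈ Z, t * x * t ∈ Z)
    (ha : ∀ y ∈ Z, ∀ g, g * t * g⁻¹ = t * y → ∃ k ∈ Z, k * t * k⁻¹ = t * y)
    (hb : ∀ x ∈ C, x * t = t * x → P2 x → x ∈ Z) {g : G} (hg : t * (g * t * g⁻¹) ∈ C) :
    ∃ κ ∈ C, κ * t * κ⁻¹ = g * t * g⁻¹ := by
  haveI : Fact (Nat.Prime 2) := ⟨Nat.prime_two⟩
  have tt : ∀ x, t * (t * x) = x := fun x => by rw [← mul_assoc, t2, one_mul]
  obtain ⟨M, hM⟩ := ext2 t2 tC
  obtain ⟨B, hB⟩ := ext2 t2 tZ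
  have BM : B ≤ M := fun x hx => (hM x).2 (((hB x).1 hx).imp (fun k => ZC k) fun k => ZC k)
  have tB : t ∈ B := (hB t).2 (Or.inr (t2 ▸ one_mem _))
  have pB : IsPGroup 2 B := isP_of_P2 fun x hx => by
    rcases (hB x).1 hx with k | k
    · exact pZ x k
    · have := mul_mem (tZ _ k) k
      rw [tt, mul_assoc, tt] at this
      exact (pZ _ this).of_mul_self
  have nC : ∀ m ∈ M, ∀ x ∈ C, m * x * m⁻¹ ∈ C := fun m hm x hx => by
    rcases (hM m).1 hm with k | k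
    · exact mul_mem (mul_mem k hx) (inv_mem k)
    · have := tC _ (mul_mem (mul_mem k hx) (inv_mem k))
      rwa [show t * (t * m * x * (t * m)⁻¹) * t = t * (t * (m * x * m⁻¹)) by group, tt] at this
  have key : ∀ k, k * t * k⁻¹ ∈ B → k * t * k⁻¹ ∉ C → ∃ y ∈ Z, y * t * y⁻¹ = k * t * k⁻¹ := fun k h1 h2 => by
    obtain ⟨y, hy, e⟩ := ha _ (((hB _).1 h1).resolve_left fun c => h2 (ZC c)) k (tt _).symm
    exact ⟨y, hy, by rw [e, tt]⟩
  have syl : IsSylowIn 2 B M := ⟨BM, pB, fun P BP PM pP => by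
    by_contra ne
    obtain ⟨p, ⟨pp, pn⟩, np⟩ := SetLike.exists_of_lt (lt_inf_normalizer_of_lt pP (lt_of_le_of_ne BP (Ne.symm ne)))
    obtain ⟨y, hy, e⟩ := key p ((mem_normalizer_iff.1 pn t).1 tB) fun c => nt (by
      have := nC _ (inv_mem (PM pp)) _ c
      rwa [show p⁻¹ * (p * t * p⁻¹) * p⁻¹⁻¹ = t by group] at this)
    have yB : y ∈ B := (hB y).2 (Or.inl hy)
    have xP : y⁻¹ * p ∈ P := mul_mem (inv_mem (BP yB)) pp
    have xt : y⁻¹ * p * t = t * (y⁻¹ * p) := by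
      calc y⁻¹ * p * t = y⁻¹ * (p * t * p⁻¹) * p := by group
        _ = _ := by rw [← e]; group
    refine np ?_
    rw [← mul_inv_cancel_left y p]
    refine mul_mem yB ((hB _).2 (((hM _).1 (PM xP)).imp (fun c => hb _ c xt (P2.of_mem pP xP)) fun c =>
      hb _ c ?_ (P2.of_mem pP (mul_mem (BP tB) xP))))
    rw [mul_assoc, xt]⟩
  have s2 : g * t * g⁻¹ * (g * t * g⁻¹) = 1 := by
    rw [show g * t * g⁻¹ * (g * t * g⁻¹) = g * (t * t) * g⁻¹ by group, t2, mul_one, mul_inv_cancel]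
  obtain ⟨m, hm, le⟩ := syl.exists_cj_le (P2.of_sq s2).zpowers (zpowers_le.2 ((hM _).2 (Or.inr hg)))
  have e1 : m * (g * t * g⁻¹) * m⁻¹ = m * g * t * (m * g)⁻¹ := by group
  obtain ⟨y, hy, e⟩ := key (m * g) (e1 ▸ le (cj_mem_iff.2 (mem_zpowers _))) fun c => nt (by
    have := nC _ (inv_mem hm) _ c
    rw [show m⁻¹ * (m * g * t * (m * g)⁻¹) * m⁻¹⁻¹ = g * t * g⁻¹ by group] at this
    have := mul_mem hg (inv_mem this)
    rwa [mul_inv_cancel_right] at this)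
  have e2 : m⁻¹ * y * t * (m⁻¹ * y)⁻¹ = g * t * g⁻¹ := by
    calc m⁻¹ * y * t * (m⁻¹ * y)⁻¹ = m⁻¹ * (y * t * y⁻¹) * m := by group
      _ = _ := by rw [e]; group
  rcases (hM _).1 (mul_mem (inv_mem hm) ((hM y).2 (Or.inl (ZC hy)))) with k | k
  · exact ⟨_, k, e2⟩
  · refine ⟨_, tC _ k, ?_⟩
    rw [tt, ← e2]
    group

/-- the common part of the two cases -/
theorem main (H : Fx F) (x : EU F t L O α h e A) (VY : ∀ v ∈ F.V, h v ∈ Y)
    (YA : ∀ a ∈ A, ∀ c ∈ Y, a * c = c * a) (ab : ∀ a ∈ Y, ∀ c ∈ Y, a * c = c * a)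
    (sq : ∀ c ∈ Y, c * c = 1) (tY : t ∈ 𝐍(Y))
    (tr : ∀ r ∈ F.R, ∀ g, g * t * g⁻¹ = t * h r → ∃ k ∈ A ⊔ Y, k * t * k⁻¹ = t * h r)
    {g : G} (gA : ∀ y ∈ A, g * y = y * g) {w1 w2 : X}
    (h1 : w1 ∈ F.W) (h2 : w2 ∈ F.W) (e1 : g * h F.b * g⁻¹ = h (F.b * w1))
    (e2 : g * h F.c * g⁻¹ = h (F.c * w2)) : w2 = F.ρ * w1 * F.ρ⁻¹ := by
  have w : W0 F t L O α h := x.toW0
  have c : Iso F.J L α h := w.toIso
  obtain ⟨C, hC⟩ : ∃ C : Subgroup G, ∀ y, y ∈ C ↔ (∀ a ∈ A, a * y = y * a) ∧ y * h F.b = h F.b * y ∧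
      y * h F.c = h F.c * y :=
    ⟨𝐂(A) ⊓ (centralizer {h F.b} ⊓ centralizer {h F.c}), fun y => by
      rw [mem_inf, mem_inf, mem_centralizer_singleton_iff, mem_centralizer_singleton_iff]; rfl⟩
  have tA : ∀ a ∈ A, t * a * t ∈ A := fun a ha => by
    have := (mem_normalizer_iff.1 x.ab.tA a).1 ha
    rwa [w.ti] at this
  have tY' : ∀ a ∈ Y, t * a * t ∈ Y := fun a ha => by
    have := (mem_normalizer_iff.1 tY a).1 ha
    rwa [w.ti] at this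
  have tC : ∀ y ∈ C, t * y * t ∈ C := fun y hy => by
    obtain ⟨k1, k2, k3⟩ := (hC y).1 hy
    have k : ∀ j ∈ F.J, y * h j = h j * y → t * y * t * h j = h j * (t * y * t) := fun j hj e => by
      rw [mul_assoc, ← w.ht hj, ← mul_assoc, mul_assoc t, e, ← mul_assoc, ← w.ht hj, mul_assoc, mul_assoc,
        mul_assoc]
    refine (hC _).2 ⟨fun a ha => ?_, k _ H.bJ k2, k _ H.cJ' k3⟩
    calc a * (t * y * t) = t * (t * a * t * y) * t := by simp only [mul_assoc, w.tt]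
      _ = _ := by rw [k1 _ (tA a ha)]; simp only [mul_assoc, w.t2, mul_one, w.tt]
  have nt : t ∉ C := fun k => by
    have k1 := ((hC t).1 k).1 _ (x.eA _ Dy.zW H.z1)
    have k2 := x.et _ Dy.Zz
    rw [k1, mul_inv_cancel_right] at k2
    exact c.ne H.zJ H.z1 (left_eq_mul.1 k2)
  have RC : ∀ r ∈ F.R, h r ∈ C := fun r hr => (hC _).2
    ⟨fun a ha => (x.cW r (H.RJ hr) (H.Rc hr (H.WR Dy.zW)) (H.Rc hr (H.WR Dy.qW)) a ha).symm,
      c.comm (H.RJ hr) H.bJ (H.Rc hr H.bR), c.comm (H.RJ hr) H.cJ' (H.Rc hr H.cR)⟩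
  have hb : ∀ y ∈ C, y * t = t * y → P2 y → ∃ r ∈ F.R, y = h r := fun y hy yt py => by
    obtain ⟨k1, k2, -⟩ := (hC y).1 hy
    have yN := w.CN y yt
    have hr : α y ∈ F.R := H.cbW _ (c.of_comm yN H.bJ k2)
      (c.of_comm yN H.zJ (k1 _ (x.ab.YA _ Dy.zW)).symm) (c.of_comm yN H.qJ (k1 _ (x.ab.YA _ Dy.qW)).symm)
    refine ⟨_, hr, (w.over2 yt py (H.RJ hr)).resolve_right fun e => nt ?_⟩
    have := mul_mem (inv_mem (RC _ hr)) hy
    rwa [inv_mul_eq_of_eq_mul e] at this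
  have mZ : ∀ y, y ∈ A ⊔ Y ↔ ∃ a ∈ A, ∃ b ∈ Y, y = a * b := fun y => mem_sup_comm YA
  have ZC : A ⊔ Y ≤ C := sup_le
    (fun a ha => (hC a).2 ⟨fun b hb => x.ab.ab b hb a ha, YA a ha _ (VY _ Dy.bV), YA a ha _ (VY _ Dy.cV)⟩)
    fun y hy => (hC y).2 ⟨fun a ha => YA a ha y hy, ab y hy _ (VY _ Dy.bV), ab y hy _ (VY _ Dy.cV)⟩
  have Z2 : ∀ y ∈ A ⊔ Y, y * y = 1 := fun y hy => by
    obtain ⟨a, ha, b, hb, rfl⟩ := (mZ y).1 hy
    calc a * b * (a * b) = a * (b * a) * b := by group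
      _ = a * a * (b * b) := by rw [← YA a ha b hb]; group
      _ = 1 := by rw [x.sqA a ha, sq b hb, one_mul]
  have cm : ∀ {j v : X}, j ∈ F.J → v ∈ F.W → g * h j * g⁻¹ = h (j * v) →
      t * (g * t * g⁻¹) * h j = h j * (t * (g * t * g⁻¹)) := fun {j v} hj hv e => by
    have vJ := H.WJ hv
    have k : g⁻¹ * h j * g = h j * (h v)⁻¹ := by
      rw [c.mul hj vJ] at e
      have e' : g * (h v)⁻¹ = (h v)⁻¹ * g := gA _ (inv_mem (x.ab.YA v hv))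
      calc g⁻¹ * h j * g = g⁻¹ * (h j * h v) * ((h v)⁻¹ * g) := by group
        _ = _ := by rw [← e, ← e']; group
    have k2 : t * (h j * (h v)⁻¹) = h j * (h v)⁻¹ * t :=
      (w.Lt (mul_mem (c.hL j hj) (inv_mem (c.hL v vJ)))).symm
    calc t * (g * t * g⁻¹) * h j = t * g * (t * (g⁻¹ * h j * g)) * g⁻¹ := by group
      _ = t * g * (g⁻¹ * h j * g * t) * g⁻¹ := by rw [k, k2]
      _ = t * h j * (g * t * g⁻¹) := by group
      _ = _ := by rw [← w.ht hj, mul_assoc]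
  obtain ⟨κ, hκ, eκ⟩ := ctl (Z := A ⊔ Y) w.t2 tC nt ZC (fun y hy => P2.of_sq (Z2 y hy))
    (fun y hy => by
      obtain ⟨a, ha, b, hb, rfl⟩ := (mZ y).1 hy
      have := mul_mem_sup (tA a ha) (tY' b hb)
      rwa [show t * a * t * (t * b * t) = t * (a * b) * t by simp only [mul_assoc, w.tt]] at this)
    (fun y hy k ek => by
      have s2 : t * y * (t * y) = 1 := by
        rw [← ek, show k * t * k⁻¹ * (k * t * k⁻¹) = k * (t * t) * k⁻¹ by group, w.t2, mul_one,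
          mul_inv_cancel]
      have yt : y * t = t * y := by
        calc y * t = t * (t * y * (t * y)) * y := by
              simp only [mul_assoc, w.tt, Z2 y hy, mul_one]
          _ = _ := by rw [s2, mul_one]
      obtain ⟨r, hr, rfl⟩ := hb y (ZC hy) yt (P2.of_sq (Z2 y hy))
      exact tr r hr k ek)
    (fun y hy yt py => by
      obtain ⟨r, hr, rfl⟩ := hb y hy yt py
      obtain ⟨u, hu, v, hv, rfl⟩ := (H.memR r).1 hr
      rw [c.mul (H.WJ hu) (H.VJ hv)]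
      exact mul_mem_sup (x.ab.YA u hu) (VY v hv))
    (g := g) ((hC _).2 ⟨fun a ha => by
      have k1 : g⁻¹ * a = a * g⁻¹ := by
        rw [inv_mul_eq_iff_eq_mul, ← mul_assoc, gA a ha, mul_inv_cancel_right]
      calc a * (t * (g * t * g⁻¹)) = t * (t * a * t * g) * t * g⁻¹ := by simp only [mul_assoc, w.tt]
        _ = t * g * t * (a * g⁻¹) := by
            rw [← gA _ (tA a ha)]; simp only [mul_assoc, w.tt]
        _ = _ := by rw [← k1]; group, cm H.bJ h1 e1, cm H.cJ' h2 e2⟩)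
  obtain ⟨k1, k2, k3⟩ := (hC κ⁻¹).1 (inv_mem hκ)
  have kt : κ⁻¹ * g * t = t * (κ⁻¹ * g) := by
    calc κ⁻¹ * g * t = κ⁻¹ * (g * t * g⁻¹) * g := by group
      _ = _ := by rw [← eκ]; group
  have kN := w.CN _ kt
  have kW : ∀ v ∈ F.W, α (κ⁻¹ * g) * v = v * α (κ⁻¹ * g) := fun v hv => c.of_comm kN (H.WJ hv) (by
    rw [mul_assoc, gA _ (x.ab.YA v hv), ← mul_assoc, ← k1 _ (x.ab.YA v hv), mul_assoc])
  have kV : ∀ {j v : X}, j ∈ F.R → v ∈ F.W → g * h j * g⁻¹ = h (j * v) → κ⁻¹ * h j = h j * κ⁻¹ →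
      α (κ⁻¹ * g) * j * (α (κ⁻¹ * g))⁻¹ * j = v := fun {j v} hj hv e k => by
    have jJ := H.RJ hj
    have e' : α (κ⁻¹ * g) * j * (α (κ⁻¹ * g))⁻¹ = j * v := by
      refine c.hinj (H.cjJ jJ _) (mul_mem jJ (H.WJ hv)) ?_
      rw [← c.conj kN jJ]
      calc κ⁻¹ * g * h j * (κ⁻¹ * g)⁻¹ = κ⁻¹ * (g * h j * g⁻¹) * κ := by group
        _ = _ := by
          rw [e, c.mul jJ (H.WJ hv), ← mul_assoc, k, mul_assoc (h j), ← k1 _ (x.ab.YA v hv)]
          group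
    rw [e', mul_assoc, H.Rc (H.WR hv) hj, ← mul_assoc, H.R2 j hj, one_mul]
  have := H.lin _ (kW _ Dy.zW) (kW _ Dy.qW) (by rw [kV H.bR h1 e1 k2]; exact h1)
    (by rw [kV H.cR h2 e2 k3]; exact h2)
  rwa [kV H.bR h1 e1 k2, kV H.cR h2 e2 k3] at this

end CTL

theorem EU.lin (H : Fx F) (x : EU F t L O α h e A) {g : G} (gA : ∀ y ∈ A, g * y = y * g) {w1 w2 : X}
    (h1 : w1 ∈ F.W) (h2 : w2 ∈ F.W) (e1 : g * h F.b * g⁻¹ = h (F.b * w1))
    (e2 : g * h F.c * g⁻¹ = h (F.c * w2)) : w2 = F.ρ * w1 * F.ρ⁻¹ := by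
  have w : W0 F t L O α h := x.toW0
  have c : Iso F.J L α h := w.toIso
  by_cases hc : ∃ g, g * t * g⁻¹ = t * h F.b
  · obtain ⟨Y, y⟩ := w.exists_ev H (x.toEs.nL H) hc
    have cm := Ev.comm H (Or.inl x) y
    refine CTL.main H x y.ab.YA cm y.ab.ab (x.ev_sq H y) y.ab.tA (fun r hr _ _ => ?_) gA h1 h2 e1 e2
    obtain ⟨u, hu, v, hv, rfl⟩ := (H.memR r).1 hr
    obtain ⟨a, ha, ea⟩ := x.ab.tr u hu
    obtain ⟨b, hb, eb⟩ := y.ab.tr v hv
    refine ⟨a * b, mul_mem_sup ha hb, ?_⟩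
    calc a * b * t * (a * b)⁻¹ = a * (b * t * b⁻¹) * a⁻¹ := by group
      _ = a * t * (h v * a⁻¹) := by rw [eb]; group
      _ = a * t * a⁻¹ * h v := by rw [← cm _ (inv_mem ha) _ (y.ab.YA v hv)]; group
      _ = _ := by rw [ea, c.mul (H.WJ hu) (H.VJ hv), mul_assoc]
  · have mV : ∀ {y}, y ∈ c.hat F.V ↔ ∃ v ∈ F.V, h v = y := c.mem_hat H.VJ
    refine CTL.main H x (Y := c.hat F.V) (fun v hv => mV.2 ⟨v, hv, rfl⟩) (fun a ha y hy => ?_)
      (fun y hy y' hy' => ?_) (fun y hy => ?_) ?_ (fun r hr k ek => ?_) gA h1 h2 e1 e2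
    · obtain ⟨v, hv, rfl⟩ := mV.1 hy
      exact (x.cW v (H.VJ hv) (H.Rc (H.VR hv) (H.WR Dy.zW)) (H.Rc (H.VR hv) (H.WR Dy.qW)) a ha).symm
    · obtain ⟨v, hv, rfl⟩ := mV.1 hy
      obtain ⟨v', hv', rfl⟩ := mV.1 hy'
      exact c.comm (H.VJ hv) (H.VJ hv') (H.Rc (H.VR hv) (H.VR hv'))
    · obtain ⟨v, hv, rfl⟩ := mV.1 hy
      exact c.sq (H.VJ hv) (H.R2 v (H.VR hv))
    · exact centralizer_le_normalizer _ (centralizer_le (c.hat_le F.V) w.tL)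
    · by_cases hW : r ∈ F.W
      · obtain ⟨a, ha, ea⟩ := x.ab.tr r hW
        exact ⟨a, mem_sup_left ha, ea⟩
      · obtain ⟨j, hj, rfl⟩ := H.RB r hr hW
        refine absurd ⟨(h j)⁻¹ * k, ?_⟩ hc
        rw [c.cj hj H.bJ] at ek
        calc (h j)⁻¹ * k * t * ((h j)⁻¹ * k)⁻¹ = (h j)⁻¹ * (k * t * k⁻¹) * h j := by group
          _ = (h j)⁻¹ * (t * h j) * h F.b := by rw [ek]; group
          _ = _ := by rw [← w.ht hj]; group

end H79.JS
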