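import Mathlib
import Cfsg.Agent.Lib.JS.Basic
import Cfsg.Agent.Lib.StdW.D2

/-! Common facts on the involutions `e a`. -/

set_option autoImplicit false
set_option linter.unusedSectionVars false

namespace H79.JS.D0

open Subgroup H69 H36.SW

variable {X : Type} [Group X] {G : Type*} [Group G] {F : Dy X}
variable {t : G} {L O : Subgroup G} {α : G → X} {h e : X → G}

theorem zcomm (H : Fx F) {a c : X} (ha : F.Zc a) (hc : F.Zc c) (hk : F.Zc (a * c)) : a * c = c * a := by
  have h1 := inv_eq_of_mul_eq_one_left (H.Zc_sq hk)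
  rw [mul_inv_rev, inv_eq_of_mul_eq_one_left (H.Zc_sq ha), inv_eq_of_mul_eq_one_left (H.Zc_sq hc)] at h1
  exact h1.symm

theorem ei (x : We F t L O α h e) {a : X} (ha : F.Zc a) : (e a)⁻¹ = e a :=
  inv_eq_of_mul_eq_one_left (x.e2 a ha)

theorem ee (x : We F t L O α h e) {a : X} (ha : F.Zc a) (g : G) : e a * (e a * g) = g := by
  rw [← mul_assoc, x.e2 a ha, one_mul]

theorem eC (x : We F t L O α h e) {a d : X} (ha : F.Zc a) (hd : d ∈ F.J) (c : d * a = a * d) :
    Commute (e a) (h d) := by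
  have := x.ecj a ha d hd
  rw [c, mul_inv_cancel_right] at this
  exact (mul_inv_eq_iff_eq_mul.1 this.symm).symm

theorem eO (x : We F t L O α h e) {a : X} (ha : F.Zc a) {o : G} (ho : o ∈ O) : Commute (e a) o :=
  x.eO a ha o ho

theorem te (H : Fx F) (x : We F t L O α h e) {a : X} (ha : F.Zc a) : t * e a * t⁻¹ = e a * h a := by
  calc _ = e a * ((e a)⁻¹ * t * (e a)⁻¹⁻¹) * t⁻¹ := by group
    _ = _ := by rw [ei x ha, x.et a ha, ← x.toW0.ht (H.Zc_mem ha)]; group

theorem ct (H : Fx F) (x : We F t L O α h e) {a c : X} (ha : F.Zc a) (hc : F.Zc c) (hk : F.Zc (a * c)) :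
    e (a * c) * (e a * e c) * t = t * (e (a * c) * (e a * e c)) := mul_inv_eq_iff_eq_mul.1 (by
  have e0 := zcomm H ha hc hk
  calc _ = e (a * c) * (e a * (e c * t * (e c)⁻¹) * (e a)⁻¹) * (e (a * c))⁻¹ := by group
    _ = t := by
      rw [x.et c hc, cjm _ t (h c), x.et a ha, (eC x ha (H.Zc_mem hc) e0.symm).eq, mul_inv_cancel_right,
        mul_assoc t, ← x.mul (H.Zc_mem ha) (H.Zc_mem hc), cjm _ t, x.et _ hk,
        (eC x hk (H.Zc_mem hk) rfl).eq, mul_inv_cancel_right, mul_assoc t,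
        x.sq (H.Zc_mem hk) (H.Zc_sq hk), mul_one])

theorem cC (x : We F t L O α h e) {a c : X} (ha : F.Zc a) (hc : F.Zc c) (hk : F.Zc (a * c)) {d : X}
    (hd : d ∈ F.J) (c1 : d * a = a * d) (c2 : d * c = c * d) : Commute (e (a * c) * (e a * e c)) (h d) :=
  (eC x hk hd (Commute.mul_right c1 c2 :)).mul_left ((eC x ha hd c1).mul_left (eC x hc hd c2))

theorem cc (H : Fx F) (x : We F t L O α h e) {a c : X} (ha : F.Zc a) (hc : F.Zc c) (hk : F.Zc (a * c)) :
    F.CC a c (α (e (a * c) * (e a * e c))) := by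
  have e0 := zcomm H ha hc hk
  have key : ∀ d ∈ F.J, d * a = a * d → d * c = c * d →
      α (e (a * c) * (e a * e c)) * d = d * α (e (a * c) * (e a * e c)) := fun d hd c1 c2 =>
    x.of_comm (x.CN _ (ct H x ha hc hk)) hd (cC x ha hc hk hd c1 c2).eq
  exact ⟨key a (H.Zc_mem ha) rfl e0, key c (H.Zc_mem hc) e0.symm rfl, key⟩

theorem ad_eq (x : We F t L O α h e) {a c : X} (p : AdE F h e a c 1) : e (a * c) = e a * e c := by
  rw [p.2.2.2.2, x.one, mul_one]

theorem ad_comm (x : We F t L O α h e) {a c : X} (p : AdE F h e a c 1) : Commute (e a) (e c) := by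
  have h1 := ei x p.2.2.1
  rw [ad_eq x p, mul_inv_rev, ei x p.1, ei x p.2.1] at h1
  exact h1.symm

end H79.JS.D0
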