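import Mathlib
import Cfsg.Agent.Lib.JS.Basic
import Cfsg.Agent.Lib.StdW.D3

/-! The subgroup `A = ⟨e(s)⟩` commutes with `t A t`, and `L` is the diagonal. -/

set_option autoImplicit false
set_option linter.unusedSectionVars false

namespace H79.JS

open Subgroup H69 H36.SW
open H48.SM (Pf)
open scoped commutatorElement

variable {X : Type} [Group X] [Finite X] {G : Type*} [Group G] [Finite G] {F : Dy X}
variable {t : G} {L O : Subgroup G} {α : G → X} {h : X → G}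

namespace D3

theorem tuf (H : Fx F) {e : X → G} (x : We F t L O α h e) {a : X} (ha : F.Zc a) :
    t * e a * t⁻¹ = e a * h a := by
  have i : (e a)⁻¹ = e a := inv_eq_of_mul_eq_one_left (x.e2 a ha)
  calc _ = e a * ((e a)⁻¹ * t * (e a)⁻¹⁻¹) * t⁻¹ := by group
    _ = _ := by rw [i, x.et a ha, ← x.ht (H.Zc_mem ha)]; group

theorem w2 {e : X → G} (x : We F t L O α h e) : W2 F t L O α h (e F.z) :=
  { x.toW0 with
    u2 := x.e2 _ Dy.Zz
    ut := x.et _ Dy.Zz
    uO := x.eO _ Dy.Zz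
    uD := fun d hd => by
      have := x.ecj _ Dy.Zz d (Dy.DJ hd)
      rw [cj_fix.2 (Dy.Dz hd)] at this
      exact (cj_fix.1 this.symm).symm }

end D3

theorem We.exists_pr (H : Fx F) {e : X → G} (x : We F t L O α h e) {S : Set X} (gen : F.J ≤ closure S)
    (hS : ∀ s ∈ S, F.Zc s) (rel : ∀ s ∈ S, ∀ s' ∈ S, Commute (e s) (e s' * h s')) :
    ∃ A β, Pr F t L O α h (e F.z) A β := by
  let A := closure (e '' S)
  have ind : ∀ {K : Subgroup G}, (∀ b ∈ S, e b ∈ K) → A ≤ K := fun h =>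
    (closure_le _).2 fun _ ⟨b, h1, e⟩ => e ▸ h b h1
  have mA : ∀ {b}, b ∈ S → e b ∈ A := fun h1 => subset_closure ⟨_, h1, rfl⟩
  have SJ : ∀ {b}, b ∈ S → b ∈ F.J := fun h1 => H.Zc_mem (hS _ h1)
  have c : ∀ g ∈ A, ∀ k ∈ A, g * (t * k * t⁻¹) = (t * k * t⁻¹) * g := fun g hg k hk => by
    have : A ≤ 𝐂(A ^ᶜ t) := ind fun b sb => le_centralizer_iff.1 (cj_le_iff.2 (ind fun c sc => by
      rw [mem_cj, inv_inv, centralizer_zpowers, mem_centralizer_singleton_iff, D3.tuf H x (hS c sc)]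
      exact (rel b sb c sc).symm)) (mem_zpowers _)
    exact (this hg _ (cj_mem t hk)).symm
  have pu : ∀ {b}, b ∈ S → e b * (t * e b * t⁻¹) = h b := fun hb => by
    rw [D3.tuf H x (hS _ hb), can (x.e2 _ (hS _ hb))]
  have pL : ∀ g : A, piH t c g ∈ L := fun g => by
    have : A ≤ (L.comap (piH t c)).map A.subtype :=
      ind fun b sb => ⟨⟨_, mA sb⟩, show _ * _ ∈ L from (pu sb).symm ▸ x.hL _ (SJ sb), rfl⟩
    obtain ⟨k, hk, e⟩ := this g.2
    exact Subtype.ext e ▸ hk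
  have rL : (piH t c).range ≤ L := fun _ ⟨g, e⟩ => e ▸ pL g
  have on : ∀ j ∈ F.J, ∃ d ∈ (piH t c).range, α d = j := fun j hj =>
    x.cov.of_closure (rL.trans le_normalizer) (fun y hy =>
      ⟨h y, ⟨⟨_, mA hy⟩, pu hy⟩, x.αh _ (SJ hy)⟩) (gen hj)
  have onL : ∀ l ∈ L, ∃ g : A, piH t c g = l := fun l hl => x.cov.gen rL on hl
  have uA : e F.z ∈ A := by
    obtain ⟨y, hy⟩ : S.Nonempty := Set.nonempty_iff_ne_empty.2 fun e => H.z1 (by
      have := gen H.zJ
      rwa [e, Subgroup.closure_empty, mem_bot] at this)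
    obtain ⟨j, hj, rfl⟩ := hS y hy
    obtain ⟨g, eg⟩ := onL (h j) (x.hL j hj)
    have := mA hy
    rw [x.ecj _ Dy.Zz j hj, ← eg] at this
    exact (mem_normalizer_iff.1 (pi_norm c g.2) _).2 this
  let f : A →* X := x.cov.hom.comp ((piH t c).codRestrict _ fun g => le_normalizer (pL g))
  have k0 : ∀ g : A, f g = 1 → piH t c g = 1 := fun g h => x.inj _ (pL g) h
  have k1 : ∀ g : A, f g = 1 → (g : G) ∈ 𝐂(A) := fun g h k hk => by
    have h1 : (g : G) = (t * g * t⁻¹)⁻¹ := eq_inv_of_mul_eq_one_left (k0 g h)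
    rw [h1]
    exact (Commute.inv_right (c k hk g g.2)).eq
  have k2 : ∀ g : A, f g = 1 → g * g = 1 → g = 1 := fun g h g2 => by
    have h1 : piH t c g = 1 := k0 g h
    have g2' : (g : G) * g = 1 := congrArg Subtype.val g2
    have ct : g * t = t * g :=
      (mul_inv_eq_iff_eq_mul.1 ((eq_inv_of_mul_eq_one_right h1).trans (inv_eq_of_mul_eq_one_left g2'))).symm
    rcases x.ker_P2 (fun l hl => by
      obtain ⟨k, rfl⟩ := onL l hl
      refine (Commute.mul_left (k1 g h k k.2) ?_ :)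
      have := cj_comm' (j := t) (k1 g h k k.2)
      rwa [← ct, mul_inv_cancel_right] at this) ct (P2.of_sq g2') with e | e
    · exact Subtype.ext e
    · have := x.et _ Dy.Zz
      rw [← e, k1 g h _ uA, mul_inv_cancel_right, eq_comm, mul_eq_left] at this
      exact absurd this (x.ne H.zJ H.z1)
  have k3 : ∀ g : A, f g = 1 → Odd (orderOf (g : G)) := fun g h => odd_of_inv fun n hn =>
    congrArg Subtype.val (k2 (g ^ n) (by rw [map_pow, h, one_pow]) (Subtype.ext hn))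
  obtain ⟨β, h1, h2⟩ := exists_cov H f (fun g => x.cov.mem _ (pL g))
    (fun j hj => let ⟨_, ⟨g, e⟩, e'⟩ := on j hj; ⟨g, by rw [← e', ← e]; rfl⟩)
    (fun g h => ⟨k1 g h, k3 g h⟩) (ind fun b sb => by
      have : ⁅L, L⁆ ≤ (⁅A, A⁆.subgroupOf A).map (piH t c) := commutator_le.2 fun l hl m hm => by
        obtain ⟨g, rfl⟩ := onL l hl
        obtain ⟨k, rfl⟩ := onL m hm
        exact ⟨⁅g, k⁆, commutator_mem_commutator g.2 k.2, map_commutatorElement _ _ _⟩
      obtain ⟨d, hd, e0⟩ := this (x.cov.perf (x.hL _ (SJ sb)))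
      have e1 : f (d⁻¹ * ⟨_, mA sb⟩) = 1 := by
        rw [map_mul, map_inv, inv_mul_eq_one]
        exact congrArg α (e0.trans (pu sb).symm)
      have o : Odd (orderOf ((d : G)⁻¹ * e b)) := k3 _ e1
      have := Commute.mul_pow (show Commute (d : G) ((d : G)⁻¹ * e b) from k1 _ e1 d d.2)
        (orderOf ((d : G)⁻¹ * e b))
      rw [pow_orderOf_eq_one, mul_one, mul_inv_cancel_left, pow_odd_of_sq (x.e2 _ (hS _ sb)) o] at this
      rw [this]; exact pow_mem hd _)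
  exact ⟨A, β, D3.w2 x, h1, c, fun g hg => pL ⟨g, hg⟩, fun g hg => (h2 ⟨g, hg⟩).symm,
    fun l hl => let ⟨g, e⟩ := onL l hl; ⟨g, g.2, e⟩, uA,
    ind fun b sb => subset_closure ⟨mA sb, x.e2 _ (hS _ sb)⟩⟩

end H79.JS
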