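import Cfsg.Agent.Lib.JS.Basic
import Cfsg.Agent.Lib.JO.Defs2

/-! The frames of the twisted case. -/

set_option autoImplicit false

namespace H79.JS

open Subgroup H69 H36.SW
open H79.JO (PU LU IsL34 IsU34)

variable {X : Type} [Group X] {G : Type*} [Group G]

/-- the pump-up `I` of `X̂₅ = Y` in `C(V̂)`, `V̂ = V` -/
structure T1 (F : Dy X) (t : G) (L O : Subgroup G) (α : G → X) (h e : X → G) (A V Y I : Subgroup G) : Prop
    extends ET F t L O α h e A where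
  nL : ∀ g, g * t * g⁻¹ ∉ L
  nV : ∀ g, ∀ v ∈ F.V, g * t * g⁻¹ = t * h v → v = 1
  mV : ∀ g, g ∈ V ↔ ∃ v ∈ F.V, h v = g
  mY : ∀ g, g ∈ Y ↔ ∃ x ∈ F.X5, h x = g
  pu : PU 𝐂(V) V Y I
  lu : LU I
  typ : IsL34 (I ⧸ center I) ∨ IsU34 (I ⧸ center I)
  AI : A ≤ I

/-- the Sylow subgroup `S` of `C(V)` -/
structure T2 (F : Dy X) (t : G) (L O : Subgroup G) (α : G → X) (h e : X → G) (A V Y I S : Subgroup G) : Prop
    extends T1 F t L O α h e A V Y I where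
  syl : IsSylowIn 2 S 𝐂(V)
  tS : t ∈ S
  AS : A ≤ S
  tI : t ∉ I ⊔ V
  cjS : ∀ g, g * t * g⁻¹ ∈ S → ∃ a ∈ A, g * t * g⁻¹ = t * a
  trS : ∀ a ∈ A, ∃ u ∈ S, u * t * u⁻¹ = t * a
  invS : ∀ y ∈ S, y * y = 1 → y ∈ I ⊔ V ∨ ∃ a ∈ A, ∃ v ∈ V, y = t * a * v
  SW : ∀ s ∈ S, ∀ w ∈ F.W, s * h w * s⁻¹ * h w ∈ V

/-- `I` is normalised by the centralisers of the involutions of `V` -/
structure T3 (F : Dy X) (t : G) (L O : Subgroup G) (α : G → X) (h e : X → G) (A V Y I S : Subgroup G) : Prop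
    extends T2 F t L O α h e A V Y I S where
  NV : 𝐍(V) ≤ 𝐍(I)
  sylV : IsSylowIn 2 V 𝐂(I)
  cb : ∀ g, g * h F.b = h F.b * g → g ∈ 𝐍(I)

end H79.JS
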