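import Cfsg.Agent.Lib.JS.Basic

/-! `t` does not normalise two commuting covers of `J`. -/

set_option autoImplicit false
set_option linter.unusedSectionVars false

namespace H79.JS

open Subgroup H69 H36.SW
open H48.SM (Pf)
open scoped commutatorElement

variable {X : Type} [Group X] [Finite X] {G : Type*} [Group G] [Finite G] {F : Dy X}
variable {t : G} {L O A V Y I S : Subgroup G} {α : G → X} {h e : X → G}

namespace E1

variable {J : Subgroup X} {β : G → X}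

theorem im_comm (c : Cov J A β) {Q : Subgroup G} (QA : Q ≤ A) {P : Subgroup X} (h : ∀ y ∈ P, ∃ a ∈ Q, β a = y)
    {y : X} (hy : y ∈ ⁅P, P⁆) : ∃ d ∈ ⁅Q, Q⁆, β d = y := by
  have : ⁅P, P⁆ ≤ c.im ⁅Q, Q⁆ := commutator_le.2 fun y hy y' hy' => by
    obtain ⟨a, ha, rfl⟩ := h y hy
    obtain ⟨b, hb, rfl⟩ := h y' hy'
    have := map_commutatorElement c.hom ⟨a, le_normalizer (QA ha)⟩ ⟨b, le_normalizer (QA hb)⟩
    exact c.mem_im.2 ⟨⁅a, b⁆, commutator_mem_commutator ha hb,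
      (⁅(⟨a, le_normalizer (QA ha)⟩ : 𝐍(A)), ⟨b, le_normalizer (QA hb)⟩⁆ : 𝐍(A)).2, this⟩
  obtain ⟨d, hd, -, e⟩ := c.mem_im.1 (this hy)
  exact ⟨d, hd, e⟩

/-- lifts of elementary abelian subgroups centralising the image of `t` -/
theorem lift (c : Cov J A β) (tA : t ∈ 𝐍(A)) {P : Subgroup X} (PJ : P ≤ J) (hP : ∀ x ∈ P, x * x = 1)
    (cP : ∀ x ∈ P, x * β t = β t * x) : ∃ Q ≤ A, (∀ a ∈ Q, a * a = 1) ∧ (∀ a ∈ Q, a * t = t * a) ∧
      Nat.card Q = Nat.card P := by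
  obtain ⟨Q, hQ, cQ⟩ := c.exists_lift PJ (isP_of_P2 fun u hu => P2.of_sq (hP u hu))
  refine ⟨Q, fun a ha => ((hQ a).1 ha).1, fun a ha => ?_, fun a ha => ?_, cQ⟩
  · obtain ⟨h1, h2, h3⟩ := (hQ a).1 ha
    rw [← pow_two]
    exact c.pow_eq_one h1 h2 (by rw [pow_two]; exact hP _ h3)
  · obtain ⟨h1, h2, h3⟩ := (hQ a).1 ha
    exact (c.comm_lift tA h1 h2 (cP _ h3).symm).symm

/-- `X` has `2`-rank at most four -/
theorem rank (H : Fx F) {E : Subgroup X} (hE : ∀ x ∈ E, x * x = 1) : Nat.card E ≤ 16 := by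
  by_cases EJ : E ≤ F.J
  · obtain ⟨j, -, hj⟩ := H.cjTs (isP_of_P2 fun u hu => P2.of_sq (hE u hu))
    by_contra! n
    have := H.e16 (E ^ᶜ j) (fun y hy => by
      obtain ⟨x, hx, e⟩ := mem_cj'.1 hy
      exact Dy.mem_T.2 ⟨hj hy, e ▸ H.cjJ (EJ hx) j⟩) (fun y hy => by
      obtain ⟨x, hx, rfl⟩ := mem_cj'.1 hy
      exact cjsq (hE x hx) j) (by rw [card_cj]; exact n.le)
    rw [← card_cj E j] at n
    rcases this with e | e
    · rw [e, H.cardR] at n; exact lt_irrefl _ n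
    · rw [e, card_cj, H.cardR] at n; exact lt_irrefl _ n
  · obtain ⟨x, hx, xJ⟩ := SetLike.not_le_iff_exists.1 EJ
    obtain ⟨j, hj, ej⟩ := H.out xJ (hE x hx)
    have x1 : x ≠ 1 := fun e => xJ (e ▸ one_mem _)
    have h4 : Nat.card (E ⊓ F.J : Subgroup X) ≤ 4 := by
      rw [← card_cj (E ⊓ F.J) j⁻¹]
      refine H.ea4 _ (fun y hy => ?_) (fun y hy => ?_) fun y hy => ?_
      · obtain ⟨u, hu, rfl⟩ := mem_cj'.1 hy
        exact H.cjJ (mem_inf.1 hu).2 _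
      · obtain ⟨u, hu, rfl⟩ := mem_cj'.1 hy
        exact cjsq (hE u (mem_inf.1 hu).1) _
      · obtain ⟨u, hu, rfl⟩ := mem_cj'.1 hy
        have := cjc (j := j⁻¹) (comm_of_sq hE (mem_inf.1 hu).1 hx)
        rwa [show j⁻¹ * x * j⁻¹⁻¹ = F.φ by rw [← ej]; group] at this
    have cm : ∀ a ∈ E ⊓ F.J, ∀ b ∈ zpowers x, a * b = b * a := fun a ha b hb =>
      comm_of_sq hE (mem_inf.1 ha).1 ((zpowers_le.2 hx) hb)
    have le : E ≤ E ⊓ F.J ⊔ zpowers x := fun u hu => by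
      by_cases uJ : u ∈ F.J
      · exact mem_sup_left (mem_inf.2 ⟨hu, uJ⟩)
      · rw [show u = u * x⁻¹ * x by group]
        exact mul_mem_sup (mem_inf.2 ⟨mul_mem hu (inv_mem hx), H.mul_inv_mem uJ xJ⟩) (mem_zpowers x)
    have := card_le_of_le le
    rw [card_sup_comm cm fun a ha hb => ((mem_zp (hE x hx)).1 hb).resolve_right
      fun e => xJ (e ▸ (mem_inf.1 ha).2), card_zp (hE x hx) x1] at this
    omega

/-- `C(t)` has `2`-rank at most five -/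
theorem rank' (H : Fx F) (w : W0 F t L O α h) {E : Subgroup G} (hE : ∀ x ∈ E, x * x = 1)
    (c : ∀ a ∈ E, a * t = t * a) : Nat.card E ≤ 32 := by
  have h1 := w.cov.card_im (E := E) fun a ha => w.CN a (c a ha)
  have h2 : Nat.card (w.cov.im E) ≤ 16 := rank H fun x hx => by
    obtain ⟨a, ha, aN, rfl⟩ := w.cov.mem_im.1 hx
    exact w.cov.sq aN (hE a ha)
  have h3 : Nat.card (E ⊓ 𝐂(L) : Subgroup G) ≤ 2 := by
    rw [← card_zp w.t2 w.t1]
    exact card_le_of_le fun a ha => (mem_zp w.t2).2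
      (w.ker_P2 (mem_inf.1 ha).2 (c a (mem_inf.1 ha).1) (P2.of_sq (hE a (mem_inf.1 ha).1)))
  rw [h1]
  exact Nat.mul_le_mul h2 h3

/-- the perfect subgroup centralising an outer involution lifts into `L` -/
theorem pfl (H : Fx F) (w : W0 F t L O α h) (c : Cov F.J A β) (tA : t ∈ 𝐍(A)) (o : β t ∉ F.J)
    {N : Subgroup X} {k : ℕ} (pN : Pf N) (NJ : N ≤ F.J)
    (cN : ∀ a ∈ N, a * F.φ = F.φ * a) (kN : k ∣ Nat.card N) : ∃ M ≤ A, M ≤ L ∧ k ∣ Nat.card (c.im M) := by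
  obtain ⟨x, hx, ex⟩ := H.out o (c.sq tA w.t2)
  have p1 := pN.cj x
  have J1 : N ^ᶜ x ≤ F.J := cj_le_of_mem NJ hx
  let M := closure {a | a ∈ A ∧ a * a = 1 ∧ β a ∈ N ^ᶜ x}
  have MA : M ≤ A := (closure_le _).2 fun a ha => ha.1
  have Mt : M ≤ centralizer {t} := (closure_le _).2 fun a ha => by
    obtain ⟨y, hy, e⟩ := mem_cj'.1 ha.2.2
    refine mem_centralizer_singleton_iff.2 (c.comm_lift tA ha.1 (P2.of_sq ha.2.1) ?_).symm
    rw [e, ← ex]; exact (cjc (cN y hy)).symm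
  have on : ∀ y ∈ N ^ᶜ x, ∃ a ∈ M, β a = y := fun y hy =>
    c.of_closure (MA.trans le_normalizer) (fun i hi => by
      obtain ⟨a, ha, rfl, a2⟩ := c.lifti (J1 hi.1) hi.2
      exact ⟨a, subset_closure ⟨ha, a2, hi.1⟩, rfl⟩) (p1.2 hy)
  refine ⟨M, MA, (closure_le _).2 fun a ha => ?_, ?_⟩
  · obtain ⟨d, hd, e⟩ := im_comm c MA on (p1.1 ha.2.2)
    have dA : d ∈ A := MA (commutator_le_of_le le_rfl le_rfl hd)
    have z := c.inv_mul_mem (le_normalizer dA) (le_normalizer ha.1) e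
    have o := c.odd' (mul_mem (inv_mem dA) ha.1) z
    have := Commute.mul_pow (show Commute d (d⁻¹ * a) from z d dA) (orderOf (d⁻¹ * a))
    rw [pow_orderOf_eq_one, mul_one, mul_inv_cancel_left, pow_odd_of_sq ha.2.1 o] at this
    refine w.P2_mem ?_ (P2.of_sq ha.2.1)
    rw [this]
    exact pow_mem (w.comm_le H (fun g hg => mem_centralizer_singleton_iff.1 (Mt hg)) hd) _
  · refine (card_cj N x ▸ kN : k ∣ Nat.card (N ^ᶜ x)).trans (card_dvd_of_le fun y hy => ?_)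
    obtain ⟨a, ha, e⟩ := on y hy
    exact c.mem_im.2 ⟨a, ha, le_normalizer (MA ha), e⟩

end E1

theorem W0.not_norm (H : Fx F) (w : W0 F t L O α h) (A B : Subgroup G) (β γ : G → X) (cA : Cov F.J A β)
    (cB : Cov F.J B γ) (c : ∀ g ∈ A, ∀ k ∈ B, g * k = k * g) (K : ∀ k ∈ 𝐂(A), k ∈ 𝐂(B) → P2 k → k = 1)
    (tA : t ∈ 𝐍(A)) (tB : t ∈ 𝐍(B)) : False := by
  have AC : A ≤ 𝐂(B) := fun a ha b hb => (c a ha b hb).symm
  have BC : B ≤ 𝐂(A) := fun b hb a ha => c a ha b hb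
  have bd : ∀ {P P' : Subgroup X}, P ≤ F.J → (∀ x ∈ P, x * x = 1) → (∀ x ∈ P, x * β t = β t * x) →
      P' ≤ F.J → (∀ x ∈ P', x * x = 1) → (∀ x ∈ P', x * γ t = γ t * x) → Nat.card P * Nat.card P' ≤ 32 :=
    fun {P P'} PJ hP cP PJ' hP' cP' => by
      obtain ⟨E, h1, s1, c1, n1⟩ := E1.lift cA tA PJ hP cP
      obtain ⟨E', h2, s2, c2, n2⟩ := E1.lift cB tB PJ' hP' cP'
      have cm : ∀ p ∈ E, ∀ q ∈ E', p * q = q * p := fun p hp q hq => c p (h1 hp) q (h2 hq)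
      rw [← n1, ← n2, ← card_sup_comm cm fun p hp hq => K p (BC (h2 hq)) (AC (h1 hp)) (P2.of_sq (s1 p hp))]
      refine E1.rank' H w (fun e he => ?_) fun e he => ?_
      · obtain ⟨p, hp, q, hq, rfl⟩ := (mem_sup_comm cm).1 he
        rw [show p * q * (p * q) = p * (q * p) * q by group, ← cm p hp q hq,
          show p * (p * q) * q = p * p * (q * q) by group, s1 p hp, s2 q hq, mul_one]
      · obtain ⟨p, hp, q, hq, rfl⟩ := (mem_sup_comm cm).1 he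
        exact (Commute.mul_left (c1 p hp) (c2 q hq) :)
  have y1 := cA.sq tA w.t2
  have y2 := cB.sq tB w.t2
  by_cases h1 : β t ∈ F.J <;> by_cases h2 : γ t ∈ F.J
  · obtain ⟨P, PJ, hP, cP, nP⟩ := H.e16c h1 y1
    obtain ⟨P', PJ', hP', cP', nP'⟩ := H.e16c h2 y2
    have := bd PJ hP cP PJ' hP' cP'
    rw [nP, nP'] at this; omega
  · obtain ⟨P, PJ, hP, cP, nP⟩ := H.e16c h1 y1
    obtain ⟨-, P', PJ', hP', cP', nP'⟩ := H.outAll h2 y2
    have := bd PJ hP cP PJ' hP' cP'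
    rw [nP, nP'] at this; omega
  · obtain ⟨-, P, PJ, hP, cP, nP⟩ := H.outAll h1 y1
    obtain ⟨P', PJ', hP', cP', nP'⟩ := H.e16c h2 y2
    have := bd PJ hP cP PJ' hP' cP'
    rw [nP, nP'] at this; omega
  · obtain ⟨N, pN, NJ, cN, kN⟩ := H.oo
    obtain ⟨M, MA, ML, kM⟩ := E1.pfl H w cA tA h1 pN NJ cN kN
    obtain ⟨M', MB, ML', kM'⟩ := E1.pfl H w cB tB h2 pN NJ cN kN
    refine H.n49 ?_
    rw [← w.card, show 49 = 7 * 7 from rfl]
    refine Dvd.dvd.trans ?_ (card_dvd_of_le (sup_le ML ML'))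
    rw [cA.card_im (sup_le (MA.trans le_normalizer) ((MB.trans BC).trans (centralizer_le_normalizer _)))]
    refine mul_dvd_mul (kM.trans (card_dvd_of_le fun y hy => ?_)) ?_
    · obtain ⟨a, ha, aN, e⟩ := cA.mem_im.1 hy
      exact cA.mem_im.2 ⟨a, mem_sup_left ha, aN, e⟩
    · refine Dvd.dvd.trans ?_ (card_dvd_of_le (le_inf le_sup_right (MB.trans BC)))
      rw [cB.card_im (MB.trans le_normalizer)]
      exact kM'.mul_right _

end H79.JS
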