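import Cfsg.Agent.Lib.JS.D1

set_option autoImplicit false
set_option linter.unusedSectionVars false

namespace H79.JS

open Subgroup H69 H36.SW
open H48.SM (Pf)
open scoped commutatorElement

variable {X : Type} [Group X] [Finite X] {G : Type*} [Group G] [Finite G] {F : Dy X}
variable {t : G} {L O A V Y I S : Subgroup G} {α : G → X} {h e : X → G}

namespace EX

theorem cardW (H : Fx F) : Nat.card F.W = 4 := by
  have e : (F.W : Set X) = {1, F.z, F.q, F.z * F.q} := by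
    ext g
    simp only [SetLike.mem_coe, H.mem_W, Set.mem_insert_iff, Set.mem_singleton_iff]
  have z1 := H.z1
  have q1 := H.Zc_ne H.Zq
  have zq1 := H.Zc_ne H.Zzq
  have zq := H.Tyne Dy.Ty.base
  have h1 : F.z ≠ F.z * F.q := fun h => q1 (by simpa using h)
  have h2 : F.q ≠ F.z * F.q := fun h => z1 (by simpa using h)
  change Nat.card (F.W : Set X) = 4
  rw [Nat.card_coe_set_eq, e, Set.ncard_insert_of_notMem (by simp [z1.symm, q1.symm, zq1.symm]),
    Set.ncard_insert_of_notMem (by simp [zq, h1]), Set.ncard_pair h2]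

theorem Wc (H : Fx F) {w m : X} (hw : w ∈ F.W) (hm : m ∈ F.W) : w * m = m * w :=
  H.Rc (H.WR hw) (H.WR hm)

theorem W2 (H : Fx F) {w : X} (hw : w ∈ F.W) : w * w = 1 := H.R2 w (H.WR hw)

theorem build (H : Fx F) (x : W0 F t L O α h) (g : X → G) (g1 : g 1 = 1)
    (gt : ∀ w ∈ F.W, g w * t * (g w)⁻¹ = t * h w)
    (gm : ∀ w ∈ F.W, ∀ w' ∈ F.W, ∃ m ∈ F.W, g w * g w' = g (w * w') * h m)
    (gc : ∀ w ∈ F.W, ∀ w' ∈ F.W, g w * g w' = g w' * g w)
    (gC : ∀ w ∈ F.W, ∀ d ∈ F.J, d * w = w * d → g w * h d = h d * g w)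
    (gO : ∀ w ∈ F.W, ∀ o ∈ O, g w * o = o * g w)
    (gj : ∀ w ∈ F.W, ∀ d ∈ F.J, g (d * w * d⁻¹) = h d * g w * (h d)⁻¹) :
    ∃ A : Subgroup G, (∀ y, y ∈ A ↔ ∃ w ∈ F.W, ∃ m ∈ F.W, y = g w * h m) ∧ Ab t O h F.W A ∧
      (∀ d ∈ F.J, d * F.z = F.z * d → d * F.q = F.q * d → ∀ y ∈ A, h d * y = y * h d) ∧
      ∀ d ∈ F.J, d ∈ 𝐍(F.W) → h d ∈ 𝐍(A) := by
  have c := x.toIso
  have gW : ∀ w ∈ F.W, ∀ m ∈ F.W, Commute (g w) (h m) := fun w hw m hm =>
    gC w hw m (H.WJ hm) (Wc H hm hw)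
  have hh : ∀ w ∈ F.W, ∀ m ∈ F.W, Commute (h w) (h m) := fun w hw m hm =>
    c.comm (H.WJ hw) (H.WJ hm) (Wc H hw hm)
  have hm' : ∀ w ∈ F.W, ∀ m ∈ F.W, h (w * m) = h w * h m := fun w hw m hm =>
    c.mul (H.WJ hw) (H.WJ hm)
  let A : Subgroup G :=
    { carrier := {y | ∃ w ∈ F.W, ∃ m ∈ F.W, y = g w * h m}
      one_mem' := ⟨1, one_mem _, 1, one_mem _, by rw [g1, c.one, mul_one]⟩
      mul_mem' := by
        rintro _ _ ⟨w, hw, m, hm, rfl⟩ ⟨w', hw', m', hm'', rfl⟩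
        obtain ⟨n, hn, e⟩ := gm w hw w' hw'
        refine ⟨w * w', mul_mem hw hw', n * m * m', mul_mem (mul_mem hn hm) hm'', ?_⟩
        rw [hm' _ (mul_mem hn hm) _ hm'', hm' _ hn _ hm, ← mul_assoc, ← mul_assoc, ← mul_assoc, ← e,
          mul_assoc (g w) (h m), ← (gW w' hw' m hm).eq, ← mul_assoc]
      inv_mem' := by
        rintro _ ⟨w, hw, m, hm, rfl⟩
        obtain ⟨n, hn, e⟩ := gm w hw w hw
        rw [W2 H hw, g1, one_mul] at e
        refine ⟨w, hw, n * m, mul_mem hn hm, ?_⟩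
        rw [inv_eq_iff_mul_eq_one, hm' _ hn _ hm, mul_assoc, ← mul_assoc (h m), ← (gW w hw m hm).eq,
          ← mul_assoc, ← mul_assoc, ← mul_assoc, e, ← hm' _ hn _ hm, mul_assoc,
          ← hm' _ hn _ hm, ← hm' _ (mul_mem hn hm) _ (mul_mem hn hm), W2 H (mul_mem hn hm), c.one] }
  have mA : ∀ y, y ∈ A ↔ ∃ w ∈ F.W, ∃ m ∈ F.W, y = g w * h m := fun y => Iff.rfl
  have act : ∀ w ∈ F.W, ∀ m ∈ F.W, g w * h m * t * (g w * h m)⁻¹ = t * h w := fun w hw m hm => by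
    rw [← gt w hw, mul_assoc (g w), x.ht (H.WJ hm)]
    group
  have card : Nat.card A = 16 := by
    let φ : F.W × F.W → A := fun p => ⟨g p.1 * h p.2, p.1, p.1.2, p.2, p.2.2, rfl⟩
    have hφ : Function.Bijective φ := by
      constructor
      · rintro ⟨⟨w, hw⟩, m, hm⟩ ⟨⟨w', hw'⟩, m', hm''⟩ e
        have e1 : g w * h m = g w' * h m' := congrArg Subtype.val e
        have e2 := act w hw m hm
        rw [e1, act w' hw' m' hm''] at e2
        obtain rfl : w' = w := c.hinj (H.WJ hw') (H.WJ hw) (mul_left_cancel e2)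
        obtain rfl : m = m' := c.hinj (H.WJ hm) (H.WJ hm'') (mul_left_cancel e1)
        rfl
      · rintro ⟨_, w, hw, m, hm, rfl⟩
        exact ⟨(⟨w, hw⟩, ⟨m, hm⟩), rfl⟩
    rw [← Nat.card_eq_of_bijective φ hφ, Nat.card_prod, cardW H]
  have tg : ∀ w ∈ F.W, t * g w * t⁻¹ = g w * h w := fun w hw => by
    have e := gt w hw
    rw [mul_inv_eq_iff_eq_mul] at e
    rw [x.ti, mul_assoc, e, mul_assoc, x.tt, (gW w hw w hw).eq]
  refine ⟨A, mA, ⟨?_, IsPGroup.of_card (n := 4) card, card, ?_, ?_, ?_, ?_, ?_, ?_⟩, ?_, ?_⟩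
  · rintro _ ⟨w, hw, m, hm, rfl⟩ _ ⟨w', hw', m', hm'', rfl⟩
    exact (Commute.mul_left (Commute.mul_right (gc w hw w' hw') (gW w hw m' hm''))
      (Commute.mul_right (gW w' hw' m hm).symm (hh m hm m' hm''))).eq
  · exact fun w hw => ⟨1, one_mem _, w, hw, by rw [g1, one_mul]⟩
  · exact fun w hw => ⟨g w, ⟨w, hw, 1, one_mem _, by rw [c.one, mul_one]⟩, gt w hw⟩
  · rintro _ ⟨w, hw, m, hm, rfl⟩
    exact ⟨w, hw, act w hw m hm⟩
  · rintro _ ⟨w, hw, m, hm, rfl⟩ e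
    have e2 := act w hw m hm
    rw [e, mul_inv_cancel_right, left_eq_mul, ← c.one] at e2
    obtain rfl : w = 1 := c.hinj (H.WJ hw) (one_mem _) e2
    exact ⟨m, hm, by rw [g1, one_mul]⟩
  · refine mem_normalizer_fintype ?_
    rintro _ ⟨w, hw, m, hm, rfl⟩
    refine ⟨w, hw, w * m, mul_mem hw hm, ?_⟩
    rw [hm' _ hw _ hm, ← mul_assoc (g w), ← tg w hw, mul_assoc _ t⁻¹, x.ti, ← x.ht (H.WJ hm)]
    simp only [mul_assoc]
  · rintro _ ⟨w, hw, m, hm, rfl⟩ o ho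
    exact (Commute.mul_left (gO w hw o ho) (x.hO (H.WJ hm) ho)).eq
  · rintro d hd dz dq _ ⟨w, hw, m, hm, rfl⟩
    have dW : ∀ w ∈ F.W, d * w = w * d := fun w hw => by
      rcases H.mem_W.1 hw with rfl | rfl | rfl | rfl
      · rw [mul_one, one_mul]
      · exact dz
      · exact dq
      · exact (Commute.mul_right dz dq).eq
    exact (Commute.mul_right (gC w hw d hd (dW w hw)).symm (c.comm hd (H.WJ hm) (dW m hm))).eq
  · intro d hd dN
    refine mem_normalizer_fintype ?_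
    rintro _ ⟨w, hw, m, hm, rfl⟩
    refine ⟨d * w * d⁻¹, (mem_normalizer_iff.1 dN w).1 hw, d * m * d⁻¹, (mem_normalizer_iff.1 dN m).1 hm, ?_⟩
    rw [gj w hw d hd, c.cj hd (H.WJ hm)]
    group

open Classical in
/-- `e w * s` on the nonidentity elements -/
noncomputable def gg (e : X → G) (s : G) (w : X) : G := if w = 1 then 1 else e w * s

theorem gg1 (s : G) : gg e s 1 = 1 := if_pos rfl

theorem ggn (s : G) {w : X} (h1 : w ≠ 1) : gg e s w = e w * s := if_neg h1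

theorem build2 (H : Fx F) (x : We F t L O α h e) (s : G) (hs : s = 1 ∨ s = t) (ν : X → X)
    (ν1 : ν 1 = 1) (νW : ∀ w ∈ F.W, ν w ∈ F.W)
    (hsq : ∀ w ∈ F.W, w ≠ 1 → e w * s * (e w * s) = h (ν w))
    (hmul : ∀ a c, F.Ty a c → e a * s * (e c * s) = e (a * c) * s * h (ν (a * c))) :
    ∃ A, Es F t L O α h e A ∧ (∀ w ∈ F.W, w ≠ 1 → e w * s ∈ A) ∧
      ∀ y ∈ A, ∃ w ∈ F.W, y * t * y⁻¹ = t * h w ∧ y * y = h (ν w) := by
  have c := x.toW0.toIso
  have st : s * t = t * s := by rcases hs with rfl | rfl <;> simp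
  have sh : ∀ d ∈ F.J, s * h d = h d * s := fun d hd => by
    rcases hs with rfl | rfl
    · simp
    · exact (x.toW0.ht hd).symm
  have so : ∀ o ∈ O, s * o = o * s := fun o ho => by
    rcases hs with rfl | rfl
    · simp
    · exact (x.Ot o ho).symm
  have gt : ∀ w ∈ F.W, gg e s w * t * (gg e s w)⁻¹ = t * h w := fun w hw => by
    by_cases h1 : w = 1
    · subst h1
      simp [gg1, c.one]
    · rw [ggn s h1, ← x.et w (H.Zw hw h1), mul_assoc (e w), st]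
      group
  have gC : ∀ w ∈ F.W, ∀ d ∈ F.J, d * w = w * d → gg e s w * h d = h d * gg e s w :=
    fun w hw d hd cd => by
      by_cases h1 : w = 1
      · subst h1
        simp [gg1]
      · rw [ggn s h1]
        exact (Commute.mul_left (D0.eC x (H.Zw hw h1) hd cd) (sh d hd)).eq
  have g2 : ∀ w ∈ F.W, gg e s w * gg e s w = h (ν w) := fun w hw => by
    by_cases h1 : w = 1
    · subst h1
      simp [gg1, c.one, ν1]
    · rw [ggn s h1, hsq w hw h1]
  have g3 : ∀ w ∈ F.W, ∀ w' ∈ F.W, w ≠ 1 → w' ≠ 1 → w ≠ w' →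
      gg e s w * gg e s w' = gg e s (w * w') * h (ν (w * w')) := fun w hw w' hw' h1 h2 h3 => by
    have ty := H.ty_of (H.Zw hw h1) (H.Zw hw' h2) (Wc H hw hw') h3
    rw [ggn s h1, ggn s h2, ggn s (H.Zc_ne (H.Ty3 ty)), hmul _ _ ty]
  obtain ⟨A, mA, ab, cW, nW⟩ := build H x.toW0 (gg e s) (gg1 s) gt
    (fun w hw w' hw' => by
      by_cases h1 : w = 1
      · subst h1
        exact ⟨1, one_mem _, by simp [gg1, c.one]⟩
      by_cases h2 : w' = 1
      · subst h2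
        exact ⟨1, one_mem _, by simp [gg1, c.one]⟩
      by_cases h3 : w = w'
      · subst h3
        exact ⟨ν w, νW w hw, by rw [g2 w hw, W2 H hw, gg1, one_mul]⟩
      exact ⟨_, νW _ (mul_mem hw hw'), g3 w hw w' hw' h1 h2 h3⟩)
    (fun w hw w' hw' => by
      by_cases h1 : w = 1
      · subst h1
        simp [gg1]
      by_cases h2 : w' = 1
      · subst h2
        simp [gg1]
      by_cases h3 : w = w'
      · rw [h3]
      rw [g3 w hw w' hw' h1 h2 h3, g3 w' hw' w hw h2 h1 (Ne.symm h3), Wc H hw hw'])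
    gC
    (fun w hw o ho => by
      by_cases h1 : w = 1
      · subst h1
        simp [gg1]
      · rw [ggn s h1]
        exact (Commute.mul_left (D0.eO x (H.Zw hw h1) ho) (so o ho)).eq)
    (fun w hw d hd => by
      by_cases h1 : w = 1
      · subst h1
        simp [gg1]
      · rw [ggn s h1, ggn s (H.Zc_ne ((H.Zw hw h1).cj hd)), x.ecj w (H.Zw hw h1) d hd,
          mul_assoc _ _ s, ← c.inv hd, ← sh _ (inv_mem hd)]
        simp only [mul_assoc])
  refine ⟨A, ⟨x, ab, cW, nW⟩, fun w hw h1 => (mA _).2 ⟨w, hw, 1, one_mem _, ?_⟩, fun y hy => ?_⟩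
  · rw [ggn s h1, c.one, mul_one]
  · obtain ⟨w, hw, m, hm, rfl⟩ := (mA y).1 hy
    have cm : Commute (gg e s w) (h m) := gC w hw m (H.WJ hm) (Wc H hm hw)
    refine ⟨w, hw, ?_, ?_⟩
    · rw [← gt w hw, mul_assoc (gg e s w), x.toW0.ht (H.WJ hm)]
      group
    · rw [mul_assoc, ← mul_assoc (h m), ← cm.eq, mul_assoc, c.sq (H.WJ hm) (W2 H hm), mul_one, g2 w hw]

end EX

theorem We.exists_es (H : Fx F) (x : We F t L O α h e) :
    (∃ A, EU F t L O α h e A) ∨ ∃ A, ET F t L O α h e A := by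
  have c := x.toW0.toIso
  rcases x.dich H with hU | hT
  · obtain ⟨A, es, eA, sq⟩ := EX.build2 H x 1 (Or.inl rfl) (fun _ => 1) rfl (fun _ _ => one_mem _)
      (fun w hw h1 => by rw [mul_one, x.e2 w (H.Zw hw h1), c.one])
      (fun a b ty => by rw [mul_one, mul_one, mul_one, c.one, mul_one, hU a b ty])
    refine Or.inl ⟨A, es, hU, fun w hw h1 => by simpa using eA w hw h1, fun y hy => ?_⟩
    obtain ⟨w, -, -, e2⟩ := sq y hy
    rw [e2, c.one]
  · have te : ∀ a, F.Zc a → t * e a * t = e a * h a := fun a ha => by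
      rw [← D0.te H x ha, x.toW0.ti]
    obtain ⟨A, es, eA, sq⟩ := EX.build2 H x t (Or.inr rfl) id rfl (fun _ hw => hw)
      (fun w hw h1 => by
        rw [mul_assoc, ← mul_assoc t, te w (H.Zw hw h1), ← mul_assoc, x.e2 w (H.Zw hw h1), one_mul, id])
      (fun a b ty => by
        rw [mul_assoc, ← mul_assoc t, te b (H.Ty2 ty), ← mul_assoc, hT a b ty, id,
          c.mul (H.Zc_mem (H.Ty1 ty)) (H.Zc_mem (H.Ty2 ty)), x.toW0.ht (H.Zc_mem (H.Ty1 ty))]
        simp only [mul_assoc])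
    refine Or.inr ⟨A, es, hT, eA, fun y hy => ?_⟩
    obtain ⟨w, -, e1, e2⟩ := sq y hy
    rw [e1, e2, id]

end H79.JS
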