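import Cfsg.Agent.Lib.JS.Basic
import Cfsg.Agent.Lib.StdW.F2

set_option autoImplicit false
set_option linter.unusedSectionVars false

namespace H79.JS

open Subgroup H69 H36.SW
open H48.SM (Pf)
open scoped commutatorElement

variable {X : Type} [Group X] [Finite X] {G : Type*} [Group G] [Finite G] {F : Dy X}
variable {t : G} {L O A V Y I S : Subgroup G} {α : G → X} {h e : X → G}

namespace F1h

open H43.SW

theorem ea8 (H : Fx F) {E : Subgroup X} (e2 : ∀ x ∈ E, x * x = 1) {x : X} (hx : x ∈ E) (xJ : x ∉ F.J) :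
    Nat.card E ≤ 8 := by
  obtain ⟨j, hj, k⟩ := H.out xJ (e2 x hx)
  have h4 : Nat.card ((E ⊓ F.J) ^ᶜ j⁻¹ : Subgroup X) ≤ 4 := by
    refine H.ea4 _ (cj_le_of_mem inf_le_right (inv_mem hj)) (fun a ha => ?_) fun a ha => ?_ <;>
      obtain ⟨b, hb, rfl⟩ := mem_cj'.1 ha
    · exact cjsq (e2 b hb.1) _
    · have c : b * x = x * b := comm_of_sq e2 hb.1 hx
      rw [← k] at c
      calc _ = j⁻¹ * (b * (j * F.φ * j⁻¹)) * j := by group
        _ = _ := by rw [c]; group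
  rw [card_cj] at h4
  rw [card_of_two (M := F.J) hx xJ fun a _ na => H.sq a na x xJ]
  omega

theorem ea16 (H : Fx F) {E : Subgroup X} (e2 : ∀ x ∈ E, x * x = 1) : Nat.card E ≤ 16 := by
  by_cases hE : E ≤ F.J
  · obtain ⟨j, hj, k⟩ := H.cjTs (isP_of_P2 fun x hx => P2.of_sq (e2 x hx))
    by_contra hlt
    have c : Nat.card (E ^ᶜ j : Subgroup X) = Nat.card E := card_cj _ _
    rcases H.e16 (E ^ᶜ j) (le_inf k (cj_le_of_mem hE hj)) (fun a ha => by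
      obtain ⟨b, hb, rfl⟩ := mem_cj'.1 ha
      exact cjsq (e2 b hb) _) (by omega) with h | h
    · rw [h, H.cardR] at c; omega
    · rw [h, card_cj, H.cardR] at c; omega
  · obtain ⟨x, hx, n⟩ := SetLike.not_le_iff_exists.1 hE
    exact (ea8 H e2 hx n).trans (by norm_num)

theorem e16 (H : Fx F) {A : Subgroup G} {α : G → X} (c : Cov F.J A α) {y : G} (hy : y ∈ 𝐍(A)) (y2 : y * y = 1)
    (h : α y ∈ F.J) :
    ∃ E : Subgroup G, E ≤ A ∧ (∀ a ∈ E, a * a = 1) ∧ (∀ a ∈ E, a * y = y * a) ∧ Nat.card E = 16 := by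
  obtain ⟨P, PJ, p2, pc, cP⟩ := H.e16c h (c.sq hy y2)
  rw [← cP]
  exact lift_ea c PJ p2 hy fun u hu => (pc u hu).symm

theorem e4 (H : Fx F) {A : Subgroup G} {α : G → X} (c : Cov F.J A α) {y : G} (hy : y ∈ 𝐍(A)) (y2 : y * y = 1)
    (h : α y ∉ F.J) :
    ∃ E : Subgroup G, E ≤ A ∧ (∀ a ∈ E, a * a = 1) ∧ (∀ a ∈ E, a * y = y * a) ∧ Nat.card E = 4 := by
  obtain ⟨-, P, PJ, p2, pc, cP⟩ := H.outAll h (c.sq hy y2)
  rw [← cP]
  exact lift_ea c PJ p2 hy fun u hu => (pc u hu).symm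

theorem low1 (H : Fx F) (e : E2 F.J F.T G) : ∀ y ∈ e.H0, y * y = 1 → e.β1 y ∈ F.J → Low 128 y :=
    fun y hy y2 h => by
  obtain ⟨D, DA, d2, dy, cD⟩ := e16 H e.c1 (e.N1 hy) y2 h
  have key : ∀ E ≤ e.B, (∀ a ∈ E, a * a = 1) → (∀ a ∈ E, a * y = y * a) →
      (∀ a ∈ D ⊔ E, a * a = 1) ∧ (∀ a ∈ D ⊔ E, a * y = y * a) ∧
        Nat.card (D ⊔ E : Subgroup G) = 16 * Nat.card E := fun E EB e2 ey => by
    have cc : ∀ a ∈ D, ∀ b ∈ E, a * b = b * a := fun a ha b hb => e.comm a (DA ha) b (EB hb)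
    exact ⟨sup_ea d2 e2 cc, sup_cm dy ey, by
      rw [card_sup_comm cc fun a ha hb => e.AB1 (DA ha) (EB hb) (P2.of_sq (d2 a ha)), cD]⟩
  by_cases h2 : e.β2 y ∈ F.J
  · obtain ⟨E, EB, e2, ey, cE⟩ := e16 H e.c2 (e.N2 hy) y2 h2
    obtain ⟨k1, k2, k3⟩ := key E EB e2 ey
    exact ⟨_, k1, k2, by omega⟩
  · obtain ⟨E, EB, e2, ey, cE⟩ := e4 H e.c2 (e.N2 hy) y2 h2
    obtain ⟨k1, k2, k3⟩ := key E EB e2 ey
    have y1 : y ≠ 1 := fun k => h2 (by rw [k, e.c2.one]; exact one_mem _)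
    refine ⟨(D ⊔ E) ⊔ zpowers y, sup_ea k1 (zp_ea y2) (zp_comm k2), sup_cm k2 (zp_cm rfl), ?_⟩
    · rw [card_sup_comm (zp_comm k2), k3, cE, card_zp y2 y1]
      intro a ha hb
      refine ((mem_zp y2).1 hb).resolve_right fun k => h2 ?_
      obtain ⟨u, hu, v, hv, l⟩ := (mem_sup_comm fun a ha b hb => e.comm a (DA ha) b (EB hb)).1 ha
      rw [← k, l, e.b2 (DA hu) (EB hv)]; exact e.c2.mem _ (EB hv)

theorem fz (H : Fx F) (e : E2 F.J F.T G) {c s : G} (ct : c * e.t = e.t * c) (cJ : e.β1 c ∉ F.J)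
    (s2 : s * s = 1) (st : s * e.t = e.t * s) (hs : s ∈ e.H0 → s = c) : ¬ Low 128 s := fun ⟨E, e2, es, cE⟩ => by
  have d2 := sup_ea e2 (zp_ea s2) (zp_comm es)
  obtain ⟨y, hy, h⟩ := e.odd (Y := centralizer {s}) (mem_centralizer_singleton_iff.2 st.symm)
    (isP_of_P2 fun x hx => P2.of_sq (d2 x hx)) fun a ha => mem_centralizer_singleton_iff.2 (sup_cm es (zp_cm rfl) a ha)
  have sD : s ∈ (E ⊔ zpowers s) ^ᶜ y := by
    have := cj_mem y (mem_sup_right (mem_zpowers s) : s ∈ E ⊔ zpowers s)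
    rwa [mem_centralizer_singleton_iff.1 hy, mul_inv_cancel_right] at this
  have cD : 128 ≤ Nat.card ((E ⊔ zpowers s) ^ᶜ y) := by
    rw [card_cj]; exact cE.trans (card_le_of_le le_sup_left)
  have D2 : ∀ a ∈ (E ⊔ zpowers s) ^ᶜ y, a * a = 1 := fun a ha => by
    obtain ⟨b, hb, rfl⟩ := mem_cj'.1 ha
    exact cjsq (d2 b hb) y
  generalize (E ⊔ zpowers s) ^ᶜ y = D at h sD cD D2
  by_cases hD : D ≤ e.H0
  · obtain rfl := hs (hD sD)
    have k := e.rk2 hD (isP_of_P2 fun x hx => P2.of_sq (D2 x hx))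
    have k1 := ea8 H (im_sq e.c1 D2) (e.c1.mem_im.2 ⟨s, sD, e.N1 (hD sD), rfl⟩) cJ
    have k2 := ea8 H (im_sq e.c2 D2) (e.c2.mem_im.2 ⟨s, sD, e.N2 (hD sD), rfl⟩) (e.bt ct ▸ cJ)
    have := Nat.mul_le_mul k1 k2
    omega
  · obtain ⟨x, hx, n⟩ := SetLike.not_le_iff_exists.1 hD
    have k := e.rk1 h D2 hx n
    have := ea16 H (im_sq e.c1 (D := D ⊓ e.H0) fun a ha => D2 a ha.1)
    omega

end F1h

theorem Fx.sylE (H : Fx F) (e : H43.SW.E2 F.J F.T G) : IsSylowIn 2 (e.T1 ⊔ e.T2) e.G0 := by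
  refine e.syl_of_low H.Jne H.sq H.φJ H.φ2 (H43.SW.Low 128) H43.SW.Low.cj (F1h.low1 H e) (F1h.low1 H e.symm)
    fun c c0 ct c2 cJ => ⟨F1h.fz H e ct cJ c2 ct fun _ => rfl,
      F1h.fz H e ct cJ ?_ (by rw [← mul_assoc, ← ct]) fun h => absurd h (e.mt c0)⟩
  rw [mul_assoc, ← mul_assoc e.t, ← ct, e.tt', c2]

end H79.JS
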