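import Cfsg.Agent.Lib.JS.D0

set_option autoImplicit false
set_option linter.unusedSectionVars false
set_option linter.unusedSimpArgs false

namespace H79.JS

open Subgroup H69 H36.SW
open H48.SM (Pf)
open scoped commutatorElement

variable {X : Type} [Group X] [Finite X] {G : Type*} [Group G] [Finite G] {F : Dy X}
variable {t : G} {L O A V Y I S : Subgroup G} {α : G → X} {h e : X → G}

namespace LA1

theorem lc {p q : G} (h : p * q = q * p) (w : G) : p * (q * w) = q * (p * w) := by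
  rw [← mul_assoc, h, mul_assoc]

theorem l2 {p : G} (h : p * p = 1) (w : G) : p * (p * w) = w := by
  rw [← mul_assoc, h, one_mul]

theorem pi (E P : Fin 5 → G) (u c : G) (uu : u * u = 1) (cc : c * c = 1) (EE : ∀ i, E i * E i = 1)
    (uE : ∀ i, E i * u = u * E i) (uP : ∀ i, P i * u = u * P i) (cE : ∀ i, E i * c = c * E i)
    (r1 : ∀ i j, i ≠ j → P i * E j = u * E j * P i) (r2 : ∀ i, P i * E i = E i * P i)
    (r3 : ∀ i j, i ≠ j → E i * E j = c * E j * E i) :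
    (∀ i, P i * (E 1 * E 2 * E 3 * E 4 * E 0) = E 1 * E 2 * E 3 * E 4 * E 0 * P i) ∧
    E 1 * P 1 * (E 2 * P 2) * (E 3 * P 3) * (E 4 * P 4) * (E 0 * P 0) =
      E 1 * E 2 * E 3 * E 4 * E 0 * (P 1 * P 2 * P 3 * P 4 * P 0) ∧
    E 1 * E 2 * E 3 * E 4 * E 0 * (E 1 * E 2 * E 3 * E 4 * E 0) = 1 := by
  have s1 : ∀ i j, i ≠ j → ∀ w, P i * (E j * w) = u * (E j * (P i * w)) := fun i j n w => by
    rw [← mul_assoc, r1 i j n]; group
  have s2 : ∀ i w, P i * (E i * w) = E i * (P i * w) := fun i => lc (r2 i)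
  have s3 : ∀ i j, j < i → ∀ w, E i * (E j * w) = c * (E j * (E i * w)) := fun i j n w => by
    rw [← mul_assoc, r3 i j n.ne']; group
  have s4 : ∀ i w, E i * (u * w) = u * (E i * w) := fun i => lc (uE i)
  have s5 : ∀ i w, P i * (u * w) = u * (P i * w) := fun i => lc (uP i)
  have s6 : ∀ i w, E i * (c * w) = c * (E i * w) := fun i => lc (cE i)
  have s7 : ∀ i w, E i * (E i * w) = w := fun i => l2 (EE i)
  refine ⟨fun i => mul_right_cancel (b := 1) ?_, mul_right_cancel (b := 1) ?_, ?_⟩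
  · generalize (1 : G) = w
    fin_cases i <;>
      simp only [Fin.zero_eta, Fin.mk_one, Fin.reduceFinMk, Fin.isValue, mul_assoc, s1, s2, s4, s5, l2 uu, ne_eq,
        Fin.reduceEq, not_false_eq_true]
  · generalize (1 : G) = w
    simp only [mul_assoc, s1, s2, s4, s5, l2 uu, ne_eq, Fin.reduceEq, not_false_eq_true]
  · have : ∀ w, E 1 * E 2 * E 3 * E 4 * E 0 * (E 1 * E 2 * E 3 * E 4 * E 0) * w = w := fun w => by
      simp only [mul_assoc, s3, s6, s7, l2 cc, Fin.reduceLT]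
    simpa using this 1

theorem ue (H : Fx F) (x : EU F t L O α h e A) {a : X} (ha : F.Ty F.z a) : e a * e F.z = e F.z * e a := by
  rw [x.uu _ _ ha, x.uu _ _ (H.ty_of (H.Ty2 ha) Dy.Zz (H.Tyc ha).symm (H.Tyne ha).symm), H.Tyc ha]

theorem uh (H : Fx F) (x : EU F t L O α h e A) {a : X} (ha : F.Ty F.z a) : h a * e F.z = e F.z * h a :=
  (D0.eC x.toWe Dy.Zz (H.Zc_mem (H.Ty2 ha)) (H.Tyc ha).symm).eq.symm

theorem hE (H : Fx F) (x : EU F t L O α h e A) {a c : X} (ha : F.Ty F.z a) (hc : F.Ty F.z c) (n : a * c ≠ c * a) :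
    h a * e c = e F.z * e c * h a := by
  obtain ⟨d, hd, rfl, rfl⟩ := H.d8 a c ha hc n
  have e1 : d * F.a * d⁻¹ * (d * F.q * d⁻¹) * (d * F.a * d⁻¹)⁻¹ = F.z * (d * F.q * d⁻¹) := by
    have dz := cj_fix.2 (Dy.Dz hd)
    calc _ = d * (F.a * F.q * F.a⁻¹) * d⁻¹ := by group
      _ = (d * F.z * d⁻¹) * (d * F.q * d⁻¹) := by
        rw [inv_eq_of_mul_eq_one_right H.a2, H.aq, H.qz]; group
      _ = _ := by rw [dz]
  have e2 := x.ecj _ (H.Ty2 hc) _ (H.Zc_mem (H.Ty2 ha))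
  rw [e1, ← x.uu _ _ hc] at e2
  rw [e2]; group

theorem notT (H : Fx F) (x : EU F t L O α h e A) : e F.z * t ≠ t * e F.z := fun c => by
  have := x.et _ Dy.Zz
  rw [cj_fix.2 c] at this
  exact x.toIso.ne H.zJ H.z1 (left_eq_mul.1 this)

theorem hl (H : Fx F) (x : EU F t L O α h e A) {l : X} (hl : l = 1 ∨ l = F.z) :
    h l * h l = 1 ∧ l ∈ F.J ∧ ∀ a, F.Zc a → F.z * a = a * F.z → e a * h l = h l * e a := by
  rcases hl with rfl | rfl
  · rw [x.toIso.one]
    exact ⟨mul_one _, one_mem _, fun a _ _ => by rw [mul_one, one_mul]⟩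
  · exact ⟨x.toIso.sq H.zJ H.z2, H.zJ, fun a ha c => (D0.eC x.toWe ha H.zJ c).eq⟩

theorem base (H : Fx F) (x : EU F t L O α h e A) : ∃ l, (l = 1 ∨ l = F.z) ∧
    e F.a * e F.q * e F.a * e F.q = e F.z * h l := by
  have ta := H.Tya
  have tq : F.Ty F.z F.q := Dy.Ty.base
  have n : F.a * F.q ≠ F.q * F.a := fun c => by
    have := H.aq
    rw [c, mul_assoc, H.a2, mul_one] at this
    exact H.z1 (left_eq_mul.1 this)
  have w := x.toW0
  have c := x.toIso
  have r1 := hE H x ta tq n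
  have r2 := hE H x tq ta n.symm
  have r3 := (D0.eC x.toWe H.Za H.aJ rfl).eq.symm
  have r4 := (D0.eC x.toWe H.Zq H.qJ rfl).eq.symm
  have u1 := ue H x ta
  have u2 := ue H x tq
  have u3 := uh H x ta
  have u4 := uh H x tq
  have uu := x.e2 _ (Dy.Zz (F := F))
  have aa := x.e2 _ H.Za
  have qq := x.e2 _ H.Zq
  have s1 : ∀ y, h F.a * (e F.q * y) = e F.z * (e F.q * (h F.a * y)) := fun y => by
    rw [← mul_assoc, r1]; group
  have s2 : ∀ y, h F.q * (e F.a * y) = e F.z * (e F.a * (h F.q * y)) := fun y => by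
    rw [← mul_assoc, r2]; group
  have zz : h F.a * h F.q * h F.a * h F.q = h F.z := by
    rw [← c.mul H.aJ H.qJ, ← c.mul (mul_mem H.aJ H.qJ) H.aJ, H.aq, ← c.mul (mul_mem H.qJ H.zJ) H.qJ, H.qz,
      mul_assoc, H.q2, mul_one]
  have uz := (D0.eC x.toWe Dy.Zz H.zJ rfl).eq
  obtain ⟨m, hm⟩ : ∃ m, m = e F.a * e F.q * e F.a * e F.q * e F.z := ⟨_, rfl⟩
  have mt : m * t = t * m := by
    rw [eq_comm, ← cj_fix]
    calc t * m * t⁻¹ = (t * e F.a * t⁻¹) * (t * e F.q * t⁻¹) * (t * e F.a * t⁻¹) * (t * e F.q * t⁻¹) *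
          (t * e F.z * t⁻¹) := by rw [hm]; group
      _ = m * (h F.a * h F.q * h F.a * h F.q) * h F.z := by
        rw [D0.te H x.toWe H.Za, D0.te H x.toWe H.Zq, D0.te H x.toWe Dy.Zz, hm]
        simp only [mul_assoc, s1, s2, lc r3, lc r4, lc u1, lc u2, lc u3, lc u4, l2 uu, u2]
      _ = m := by rw [zz, mul_assoc, c.sq H.zJ H.z2, mul_one]
  have mN := w.CN m mt
  have m1 : m * h F.a = h F.a * m := by
    refine mul_right_cancel (b := 1) ?_
    generalize (1 : G) = y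
    rw [hm]
    simp only [mul_assoc, s1, s2, lc r3, lc r4, lc u1, lc u2, lc u3, lc u4, l2 uu]
  have m2 : m * h F.q = h F.q * m := by
    refine mul_right_cancel (b := 1) ?_
    generalize (1 : G) = y
    rw [hm]
    simp only [mul_assoc, s1, s2, lc r3, lc r4, lc u1, lc u2, lc u3, lc u4, l2 uu]
  have m3 : α m = 1 ∨ α m = F.z := H.ccA _ ⟨c.of_comm mN H.aJ m1, c.of_comm mN H.qJ m2, fun d hd d1 d2 => by
    refine c.of_comm mN hd ?_
    have d3 : d * F.z = F.z * d := by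
      have z1 : F.z = F.a * F.q * F.a * F.q := by rw [H.aq, H.qz, mul_assoc, H.q2, mul_one]
      have k1 : Commute d F.a := d1
      have k2 : Commute d F.q := d2
      rw [z1]
      exact (((k1.mul_right k2).mul_right k1).mul_right k2).eq
    have k1 := D0.eC x.toWe H.Za hd d1
    have k2 := D0.eC x.toWe H.Zq hd d2
    rw [hm]
    exact ((((k1.mul_left k2).mul_left k1).mul_left k2).mul_left (D0.eC x.toWe Dy.Zz hd d3)).eq⟩
  obtain ⟨ll, lJ, lc'⟩ := hl H x m3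
  have lu := lc' _ Dy.Zz rfl
  have mu : e F.z * m = m * e F.z := by
    rw [hm]; simp only [mul_assoc, lc u1, lc u2, u2, l2 uu, uu, mul_one]
  refine ⟨α m, m3, ?_⟩
  obtain ⟨o, ho, e1 | e1⟩ := w.ovr mt lJ
  · generalize α m = l at *
    have k : e F.a * m = m * e F.a := by
      rw [e1]
      exact ((show Commute (e F.a) (h l) from lc' _ H.Za (H.Tyc ta)).mul_right (D0.eO x.toWe H.Za ho)).eq
    have k2 : m * m = 1 := by
      calc m * m = e F.a * (e F.a * m) * m := by rw [l2 aa]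
        _ = e F.a * (m * e F.a) * m := by rw [← k]
        _ = e F.a * m * e F.a * m := by group
        _ = 1 := by
          rw [hm]; simp only [mul_assoc, lc u1, lc u2, u1, u2, l2 uu, l2 aa, l2 qq, uu, qq, mul_one]
    have k3 : o * o = 1 := by
      rw [e1, mul_assoc, lc (w.hO lJ ho).symm, l2 ll] at k2
      exact k2
    have k4 : o = 1 := (P2.of_sq k3).eq_one (w.oddO o ho)
    rw [k4, mul_one] at e1
    rw [lu, ← e1, hm, mul_assoc _ (e F.z), uu, mul_one]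
  · exfalso
    generalize α m = l at *
    apply notT H x
    rw [e1, ← mul_assoc, ← mul_assoc, lu, mul_assoc (h l * t), ← x.eO _ Dy.Zz o ho, ← mul_assoc] at mu
    have := mul_right_cancel mu
    rw [mul_assoc, mul_assoc] at this
    exact mul_left_cancel this

end LA1

theorem EU.lam (H : Fx F) (x : EU F t L O α h e A) : ∃ l, (l = 1 ∨ l = F.z) ∧
    ∀ a c, F.Ty F.z a → F.Ty F.z c → a * c ≠ c * a → e a * e c * e a * e c = e F.z * h l := by
  obtain ⟨l, hl, e1⟩ := LA1.base H x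
  refine ⟨l, hl, fun a c ha hc n => ?_⟩
  obtain ⟨d, hd, rfl, rfl⟩ := H.d8 a c ha hc n
  have dJ := Dy.DJ hd
  have k1 := (D0.eC x.toWe Dy.Zz dJ (Dy.Dz hd)).symm
  have k2 : Commute (h d) (h l) := by
    rcases hl with rfl | rfl
    · rw [x.toIso.one]; exact Commute.one_right _
    · exact x.toIso.comm dJ H.zJ (Dy.Dz hd)
  rw [x.ecj _ H.Za _ dJ, x.ecj _ H.Zq _ dJ]
  calc _ = h d * (e F.a * e F.q * e F.a * e F.q) * (h d)⁻¹ := by group
    _ = _ := by rw [e1]; exact cj_fix.2 (k1.mul_right k2).eq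

theorem EU.prod (H : Fx F) (x : EU F t L O α h e A) : ∃ y, (y = 1 ∨ y = e F.z) ∧ ∃ l, (l = 1 ∨ l = F.z) ∧
    e (F.pt 1) * e (F.pt 2) * e (F.pt 3) * e (F.pt 4) = e F.q * y * h l := by
  obtain ⟨l0, hl0, lam⟩ := x.lam H
  obtain ⟨ll0, -, lc0⟩ := LA1.hl H x hl0
  have w := x.toW0
  have c := x.toIso
  have uu := x.e2 _ (Dy.Zz (F := F))
  have Z : ∀ i, F.Zc (F.pt i) := fun i => H.Ty2 (H.pty i)
  have J : ∀ i, F.pt i ∈ F.J := fun i => H.Zc_mem (Z i)
  have uE : ∀ i, e (F.pt i) * e F.z = e F.z * e (F.pt i) := fun i => LA1.ue H x (H.pty i)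
  have uP : ∀ i, h (F.pt i) * e F.z = e F.z * h (F.pt i) := fun i => LA1.uh H x (H.pty i)
  obtain ⟨p1, p2, p3⟩ := LA1.pi (fun i => e (F.pt i)) (fun i => h (F.pt i)) (e F.z) (e F.z * h l0) uu
    (by rw [mul_assoc, LA1.lc (lc0 _ Dy.Zz rfl).symm, LA1.l2 uu, ll0]) (fun i => x.e2 _ (Z i)) uE uP
    (fun i => ((show Commute (e (F.pt i)) (e F.z) from uE i).mul_right (lc0 _ (Z i) (H.Tyc (H.pty i)))).eq)
    (fun i j n => LA1.hE H x (H.pty i) (H.pty j) (H.pnc i j n))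
    (fun i => (D0.eC x.toWe (Z i) (J i) rfl).eq.symm)
    (fun i j n => by
      rw [← lam _ _ (H.pty i) (H.pty j) (H.pnc i j n)]
      simp only [mul_assoc, LA1.l2 (x.e2 _ (Z j)), x.e2 _ (Z i), mul_one])
  obtain ⟨m, hm⟩ : ∃ m, m = e (F.pt 1) * e (F.pt 2) * e (F.pt 3) * e (F.pt 4) * e (F.pt 0) := ⟨_, rfl⟩
  rw [← hm] at p1 p2 p3
  have mu : Commute (e F.z) m := by
    have k : ∀ i, Commute (e F.z) (e (F.pt i)) := fun i => (uE i).symm
    rw [hm]
    exact ((((k 1).mul_right (k 2)).mul_right (k 3)).mul_right (k 4)).mul_right (k 0)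
  have tm : t * m * t⁻¹ = m * h (F.pt 1 * F.pt 2 * F.pt 3 * F.pt 4 * F.q) := by
    calc t * m * t⁻¹ = (t * e (F.pt 1) * t⁻¹) * (t * e (F.pt 2) * t⁻¹) * (t * e (F.pt 3) * t⁻¹) *
          (t * e (F.pt 4) * t⁻¹) * (t * e (F.pt 0) * t⁻¹) := by rw [hm]; group
      _ = _ := by
        rw [D0.te H x.toWe (Z 1), D0.te H x.toWe (Z 2), D0.te H x.toWe (Z 3), D0.te H x.toWe (Z 4),
          D0.te H x.toWe (Z 0), p2, ← c.mul (J 1) (J 2), ← c.mul (mul_mem (J 1) (J 2)) (J 3),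
          ← c.mul (mul_mem (mul_mem (J 1) (J 2)) (J 3)) (J 4),
          ← c.mul (mul_mem (mul_mem (mul_mem (J 1) (J 2)) (J 3)) (J 4)) (J 0)]
        rfl
  have uz := (D0.eC x.toWe Dy.Zz H.zJ rfl).eq
  obtain ⟨y, hy, yt⟩ : ∃ y, (y = 1 ∨ y = e F.z) ∧ m * y * t = t * (m * y) := by
    rcases H.pprod with q | q
    · rw [q, H.q2, c.one, mul_one] at tm
      exact ⟨1, .inl rfl, by rw [mul_one]; exact (cj_fix.1 tm).symm⟩
    · rw [q, H.qz, mul_assoc F.z, H.q2, mul_one] at tm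
      refine ⟨_, .inr rfl, (cj_fix.1 ?_).symm⟩
      calc t * (m * e F.z) * t⁻¹ = (t * m * t⁻¹) * (t * e F.z * t⁻¹) := by group
        _ = _ := by rw [tm, D0.te H x.toWe Dy.Zz, uz, mul_assoc, LA1.l2 (c.sq H.zJ H.z2)]
  have y1 : y * y = 1 ∧ Commute (e F.z) y ∧ Commute y m ∧ (∀ i, Commute y (h (F.pt i))) ∧ Commute y (e F.q) := by
    rcases hy with rfl | rfl
    · exact ⟨mul_one _, .one_right _, .one_left _, fun _ => .one_left _, .one_left _⟩
    · exact ⟨uu, .refl _, mu, fun i => (uP i).symm, (uE 0).symm⟩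
  obtain ⟨yy, uy, ym, yP, yq⟩ := y1
  have mN := w.CN _ yt
  have m3 := H.cQ _ fun i => c.of_comm mN (J i)
    ((show Commute m (h (F.pt i)) from (p1 i).symm).mul_left (yP i)).eq
  obtain ⟨-, lJ, lc'⟩ := LA1.hl H x m3
  have m2 : m * y * (m * y) = 1 := by rw [mul_assoc, LA1.lc ym.eq, yy, mul_one, p3]
  have mu' := (mu.mul_right uy).eq
  refine ⟨y, hy, α (m * y), m3, ?_⟩
  have lu := lc' _ Dy.Zz rfl
  have lq := lc' _ H.Zq H.qz.symm
  have ly : y * h (α (m * y)) = h (α (m * y)) * y := by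
    rcases hy with e1 | e1
    · conv_lhs => rw [show y * h (α (m * y)) = h (α (m * y)) by rw [mul_eq_right, e1]]
      rw [left_eq_mul, e1]
    · generalize α (m * y) = l at *
      rw [e1, lu]
  rcases w.over2 yt (.of_sq m2) lJ with e1 | e1
  · generalize α (m * y) = l at *
    have qq : e (F.pt 0) * e F.q = 1 := x.e2 _ H.Zq
    calc _ = m * y * y * e F.q := by rw [mul_assoc m, yy, mul_one, hm, mul_assoc _ _ (e F.q), qq, mul_one]
      _ = _ := by rw [e1, ← ly, mul_assoc, ← lq, ← mul_assoc, yq.eq]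
  · exfalso
    generalize α (m * y) = l at *
    apply LA1.notT H x
    rw [e1, ← mul_assoc, lu, mul_assoc, mul_assoc] at mu'
    exact mul_left_cancel mu'

end H79.JS
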