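import Cfsg.Agent.Lib.JS.LA1
import Cfsg.Agent.Lib.JS.CTL

set_option autoImplicit false
set_option linter.unusedSectionVars false

namespace H79.JS

open Subgroup H69 H36.SW
open H48.SM (Pf)
open scoped commutatorElement

variable {X : Type} [Group X] [Finite X] {G : Type*} [Group G] [Finite G] {F : Dy X}
variable {t : G} {L O A V Y I S : Subgroup G} {α : G → X} {h e : X → G}

namespace LA2

theorem act2 {g k y v m : G} (c : y * g = g * y) (e : g * v * g⁻¹ = m * v) (e' : k * v * k⁻¹ = y * v) :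
    g * k * v * (g * k)⁻¹ = y * (m * v) := by
  calc _ = g * (k * v * k⁻¹) * g⁻¹ := by group
    _ = y * (g * v * g⁻¹) := by rw [e', ← mul_assoc g, ← c]; group
    _ = _ := by rw [e]

theorem actc {r s v v' m : G} (e0 : r * v' * r⁻¹ = v) (e : s * v' * s⁻¹ = m * v') :
    r * s * r⁻¹ * v * (r * s * r⁻¹)⁻¹ = r * m * r⁻¹ * v := by
  calc _ = r * (s * v' * s⁻¹) * r⁻¹ := by rw [← e0]; group
    _ = _ := by rw [e, ← e0]; group

theorem cs {ε B x x' : G} (ε2 : ε * ε = 1) (e : ε * x * ε = x') (c : B * x' = x' * B) :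
    x * (ε * B * ε) = ε * B * ε * x := by
  calc _ = ε * ε * x * (ε * B * ε) := by rw [ε2, one_mul]
    _ = ε * (ε * x * ε * B) * ε := by simp only [mul_assoc]
    _ = ε * (B * (ε * x * ε)) * ε := by rw [e, c]
    _ = ε * B * ε * x * (ε * ε) := by simp only [mul_assoc]
    _ = _ := by rw [ε2, mul_one]

theorem genA (H : Fx F) (x : EU F t L O α h e A) : A ≤ closure {e F.z, e F.q, h F.z, h F.q} := fun y hy => by
  have m1 : e F.z ∈ closure {e F.z, e F.q, h F.z, h F.q} := subset_closure (by simp)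
  have m2 : e F.q ∈ closure {e F.z, e F.q, h F.z, h F.q} := subset_closure (by simp)
  have m3 : h F.z ∈ closure {e F.z, e F.q, h F.z, h F.q} := subset_closure (by simp)
  have m4 : h F.q ∈ closure {e F.z, e F.q, h F.z, h F.q} := subset_closure (by simp)
  have fx : ∀ y ∈ A, y * t = t * y → y ∈ closure {e F.z, e F.q, h F.z, h F.q} := fun y hy c => by
    obtain ⟨w, hw, rfl⟩ := x.ab.fix y hy c
    rcases H.mem_W.1 hw with rfl | rfl | rfl | rfl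
    · rw [x.one]; exact one_mem _
    · exact m3
    · exact m4
    · rw [x.mul H.zJ H.qJ]; exact mul_mem m3 m4
  obtain ⟨w, hw, k⟩ := x.ab.act y hy
  by_cases w1 : w = 1
  · rw [w1, x.one, mul_one] at k
    exact fx y hy (cj_fix.1 k)
  have me : e w ∈ closure {e F.z, e F.q, h F.z, h F.q} := by
    rcases H.mem_W.1 hw with rfl | rfl | rfl | rfl
    exacts [absurd rfl w1, m1, m2, x.uu _ _ Dy.Ty.base ▸ mul_mem m1 m2]
  rw [← x.et w (H.Zw hw w1)] at k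
  have := fx _ (mul_mem (inv_mem (x.eA w hw w1)) hy) (cj_fix.1 (by
    calc (e w)⁻¹ * y * t * ((e w)⁻¹ * y)⁻¹ = (e w)⁻¹ * (y * t * y⁻¹) * e w := by group
      _ = t := by rw [k]; group))
  simpa using mul_mem me this

end LA2

open LA2 D0

theorem EU.d8 (H : Fx F) (x : EU F t L O α h e A) : Commute (e F.a) (e F.q * h F.q) := by
  have q1 : F.q ≠ 1 := H.Zc_ne H.Zq
  have uA : e F.z ∈ A := x.eA _ Dy.zW H.z1
  have pA : e F.q ∈ A := x.eA _ Dy.qW q1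
  have ZA : h F.z ∈ A := x.ab.YA _ Dy.zW
  have QA : h F.q ∈ A := x.ab.YA _ Dy.qW
  have az : F.a * F.z = F.z * F.a := H.cT _ H.aT.1
  have ε2 : e F.a * e F.a = 1 := x.e2 _ H.Za
  have εi : (e F.a)⁻¹ = e F.a := ei x.toWe H.Za
  have sw : ∀ {a b : G}, a ∈ A → b ∈ A → ∀ g, a * (b * g) = b * (a * g) := fun ha hb g => by
    rw [← mul_assoc, x.ab.ab _ ha _ hb, mul_assoc]
  have sq : ∀ {a : G}, a ∈ A → ∀ g, a * (a * g) = g := fun ha g => by rw [← mul_assoc, x.sqA _ ha, one_mul]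
  have εu : e F.a * e F.z * e F.a = e F.z := by
    have k := x.e2 _ (H.Ty3 H.Tya)
    rw [← x.uu _ _ H.Tya, mul_assoc, ← mul_assoc (e F.a)] at k
    exact (eq_inv_of_mul_eq_one_right k).trans (ei x.toWe Dy.Zz)
  have εZ : e F.a * h F.z * e F.a = h F.z := by
    rw [(eC x.toWe H.Za H.zJ az.symm).eq, mul_assoc, ε2, mul_one]
  have εQ : e F.a * h F.q * e F.a = h F.q * e F.z := by
    have k := x.ecj _ H.Za _ H.qJ
    rw [show F.q * F.a * F.q⁻¹ = F.z * F.a by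
      calc _ = F.a * F.a * F.q * F.a * F.q⁻¹ := by rw [H.a2, one_mul]
        _ = F.a * (F.a * F.q * F.a) * F.q⁻¹ := by simp only [mul_assoc]
        _ = _ := by rw [H.aq, H.qz, ← az]; group, ← x.uu _ _ H.Tya] at k
    have k2 : e F.z * e F.a * h F.q = h F.q * e F.a := by rw [k]; group
    calc _ = e F.z * (e F.z * e F.a * h F.q) * e F.a := by rw [mul_assoc (e F.z) (e F.a), sq uA]
      _ = _ := by rw [k2, mul_assoc, mul_assoc, ε2, mul_one, x.ab.ab _ uA _ QA]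
  obtain ⟨l, hl, lam⟩ := x.lam H
  have εp : e F.a * e F.q * e F.a = e F.z * h l * e F.q := by
    rw [← lam _ _ H.Tya Dy.Ty.base (H.pnc 1 0 (by decide)), mul_assoc _ (e F.q) (e F.q), x.sqA _ pA, mul_one]
  rcases hl with rfl | rfl
  · rw [x.one, mul_one] at εp
    calc e F.a * (e F.q * h F.q) = e F.a * e F.q * e F.a * (e F.a * h F.q * e F.a) * e F.a := by
          simp only [mul_assoc, ee x.toWe H.Za, ε2, mul_one]
      _ = _ := by rw [εp, εQ]; simp only [mul_assoc, sw QA uA, sw pA uA, sq uA]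
  exfalso
  have BA : ∀ y ∈ A, h F.b * y = y * h F.b :=
    x.cW _ H.bJ (H.Xb _ H.zX).symm (H.Xb _ H.qX).symm
  have CA : ∀ y ∈ A, h F.c * y = y * h F.c :=
    x.cW _ H.cJ' (H.Xc _ H.zX).symm (H.Xc _ H.qX).symm
  have B2 : h F.b * h F.b = 1 := x.sq H.bJ H.b2
  have C2 : h F.c * h F.c = 1 := x.sq H.cJ' H.c2
  have BC : h F.c * h F.b = h F.b * h F.c := x.comm H.cJ' H.bJ H.bc.symm
  obtain ⟨s, hs⟩ : ∃ s, s = e F.a * h F.b * e F.a := ⟨_, rfl⟩
  have sC : s ∈ 𝐂(A) := centralizer_le (genA H x) (by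
    rw [centralizer_closure, hs]
    rintro _ (rfl | rfl | rfl | rfl)
    exacts [cs ε2 εu (BA _ uA), cs ε2 εp (BA _ (mul_mem (mul_mem uA ZA) pA)), cs ε2 εZ (BA _ ZA),
      cs ε2 εQ (BA _ (mul_mem QA uA))])
  have si : s⁻¹ = s := inv_eq_of_mul_eq_one_left (by
    rw [hs, mul_assoc, mul_assoc (e F.a) (h F.b) (e F.a), ee x.toWe H.Za, mul_assoc, ← mul_assoc (h F.b), B2,
      one_mul, ε2])
  have ev : ∀ v ∈ F.V, e (v * F.a * v) = h v * e F.a * h v := fun v hv => by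
    have v2 := H.R2 v (H.VR hv)
    have := x.ecj _ H.Za v (H.VJ hv)
    rwa [inv_eq_of_mul_eq_one_left v2, inv_eq_of_mul_eq_one_left (x.sq (H.VJ hv) v2)] at this
  have e1 : e (F.pt 1) = e F.a := rfl
  have e2 : e (F.pt 2) = h F.b * e F.a * h F.b := ev _ Dy.bV
  have e3 : e (F.pt 3) = h F.c * e F.a * h F.c := ev _ Dy.cV
  have e4 : e (F.pt 4) = h F.b * h F.c * e F.a * (h F.b * h F.c) :=
    (ev _ (mul_mem Dy.bV Dy.cV)).trans (by rw [x.mul H.bJ H.cJ'])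
  have BB : ∀ g, h F.b * (h F.b * g) = g := fun g => by rw [← mul_assoc, B2, one_mul]
  have CC : ∀ g, h F.c * (h F.c * g) = g := fun g => by rw [← mul_assoc, C2, one_mul]
  have CB : ∀ g, h F.c * (h F.b * g) = h F.b * (h F.c * g) := fun g => by rw [← mul_assoc, BC, mul_assoc]
  have sB : s * h F.b * s⁻¹ = e F.z * h F.z * h F.b := by
    rw [← lam _ _ (H.pty 1) (H.pty 2) (H.pnc 1 2 (by decide)), e1, e2, si, hs]
    simp only [mul_assoc, B2, mul_one]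
  obtain ⟨y, hy, l, hl, pr⟩ := x.prod H
  have yA : y ∈ A := by rcases hy with rfl | rfl; exacts [one_mem _, uA]
  have lA : h l ∈ A := by rcases hl with rfl | rfl; exacts [x.one ▸ one_mem _, ZA]
  have sc : s * h F.c * s⁻¹ = e F.q * y * h l * (e F.z * h F.z) * h F.c := by
    have k := lam _ _ (H.pty 3) (H.pty 4) (H.pnc 3 4 (by decide))
    have k3 := x.e2 _ (H.Ty2 (H.pty 3))
    have k4 := x.e2 _ (H.Ty2 (H.pty 4))
    have k5 : e (F.pt 3) * e (F.pt 4) * (e F.z * h F.z) = e (F.pt 4) * e (F.pt 3) := by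
      rw [← inv_eq_of_mul_eq_one_left (x.sqA _ (mul_mem uA ZA)), ← k]
      conv_rhs => rw [← inv_eq_of_mul_eq_one_left k3, ← inv_eq_of_mul_eq_one_left k4]
      group
    rw [← pr, mul_assoc _ (e (F.pt 3)), mul_assoc (e (F.pt 1) * e (F.pt 2)), k5, e1, e2, e3, e4, si, hs]
    simp only [mul_assoc, BB, CC, CB, C2, mul_one]
  obtain ⟨m, mA, sc, hm⟩ : ∃ m ∈ A, s * h F.c * s⁻¹ = m * h F.c ∧ (m = e F.q ∨ m = e F.q * h F.z ∨
      m = e F.q * e F.z ∨ m = e F.q * e F.z * h F.z) := by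
    refine ⟨_, mul_mem (mul_mem (mul_mem pA yA) lA) (mul_mem uA ZA), sc, ?_⟩
    rcases hy with rfl | rfl <;> rcases hl with rfl | rfl <;>
      simp [mul_assoc, x.one, sw ZA uA, sq uA, sq ZA, x.sqA _ ZA, x.sqA _ uA]
  have cjC : ∀ {r}, r ∈ 𝐍(A) → r * s * r⁻¹ ∈ 𝐂(A) := fun hr =>
    conj_mem_of_mem_normalizer (normalizer_le_normalizer_centralizer A hr) sC
  have lin : ∀ {g w1 w2}, g ∈ 𝐂(A) → w1 ∈ F.W → w2 ∈ F.W → g * h F.b * g⁻¹ = h w1 * h F.b →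
      g * h F.c * g⁻¹ = h w2 * h F.c → w2 = F.ρ * w1 * F.ρ⁻¹ := fun hg h1 h2 k1 k2 =>
    x.lin H (fun y hy => (hg y hy).symm) h1 h2
      (by rw [k1, ← H.Xb _ (H.WX h1), x.mul (H.WJ h1) H.bJ]) (by rw [k2, ← H.Xc _ (H.WX h2), x.mul (H.WJ h2) H.cJ'])
  have ZQ : h (F.z * F.q) = h F.z * h F.q := x.mul H.zJ H.qJ
  have zq : F.z * F.q ∈ F.W := mul_mem Dy.zW Dy.qW
  have cjA : ∀ {r y}, r ∈ 𝐍(A) → y ∈ A → r * y * r⁻¹ ∈ A := fun hr hy => conj_mem_of_mem_normalizer hr hy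
  -- (i)
  have tu := te H x.toWe Dy.Zz
  have tp := te H x.toWe H.Zq
  have tJ : ∀ {j}, j ∈ F.J → t * h j * t⁻¹ = h j := fun hj => cj_fix.2 (x.toW0.ht hj).symm
  have i1 := act2 (sC _ (cjA x.ab.tA (mul_mem uA ZA))) sB (actc (tJ H.bJ) sB)
  have i2 := act2 (sC _ (cjA x.ab.tA mA)) sc (actc (tJ H.cJ') sc)
  have i0 := mul_mem sC (cjC x.ab.tA)
  rw [← conj_mul, tu, tJ H.zJ] at i1
  have i1' : s * (t * s * t⁻¹) * h F.b * (s * (t * s * t⁻¹))⁻¹ = h F.z * h F.b := by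
    rw [i1]; simp only [mul_assoc, sq ZA, sq uA]
  have bad : t * m * t⁻¹ * (m * h F.c) ≠ h (F.z * F.q) * h F.c := fun k => by
    have := lin i0 Dy.zW zq i1' (i2.trans k)
    rw [H.ρz] at this
    exact H.z1 (by simpa using this)
  -- (ii)
  have ΩN : (h F.ω)⁻¹ ∈ 𝐍(A) := centralizer_le_normalizer _ (inv_mem fun y hy =>
    (x.cW _ H.ωJ (H.ωX _ H.zX).symm (H.ωX _ H.qX).symm y hy).symm)
  have Ωf : ∀ y ∈ A, (h F.ω)⁻¹ * y * (h F.ω)⁻¹⁻¹ = y := fun y hy => by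
    rw [inv_inv, mul_assoc, ← x.cW _ H.ωJ (H.ωX _ H.zX).symm (H.ωX _ H.qX).symm y hy, inv_mul_cancel_left]
  have PN : h F.ρ ∈ 𝐍(A) := x.nW _ H.ρJ (mem_normalizer_fintype fun w hw => by
    rcases H.mem_W.1 hw with rfl | rfl | rfl | rfl
    · simp
    · rw [H.ρz]; exact Dy.qW
    · rw [H.ρq]; exact zq
    · rw [← conj_mul, H.ρz, H.ρq]; exact mul_mem Dy.qW zq)
  have Ωb : (h F.ω)⁻¹ * h F.c * (h F.ω)⁻¹⁻¹ = h F.b := by
    rw [← H.ωb, x.cj H.ωJ H.bJ]; group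
  have Ωc : (h F.ω)⁻¹ * (h F.b * h F.c) * (h F.ω)⁻¹⁻¹ = h F.c := by
    rw [← x.mul H.bJ H.cJ', ← H.ωc, x.cj H.ωJ H.cJ']; group
  have sBC : s * (h F.b * h F.c) * s⁻¹ = e F.z * h F.z * m * (h F.b * h F.c) := by
    rw [← conj_mul, sB, sc, mul_assoc, ← mul_assoc (h F.b), BA _ mA]; simp only [mul_assoc]
  have Pb : h F.ρ * h F.b * (h F.ρ)⁻¹ = h F.b := cj_fix.2 (x.comm H.ρJ H.bJ (H.Xb _ H.ρX))
  have Pc : h F.ρ * h F.c * (h F.ρ)⁻¹ = h F.c := cj_fix.2 (x.comm H.ρJ H.cJ' (H.Xc _ H.ρX))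
  have Pu : h F.ρ * e F.z * (h F.ρ)⁻¹ = e F.q := by rw [← x.ecj _ Dy.Zz _ H.ρJ, H.ρz]
  have Pp : h F.ρ * e F.q * (h F.ρ)⁻¹ = e F.z * e F.q := by
    rw [← x.ecj _ H.Zq _ H.ρJ, H.ρq, x.uu _ _ Dy.Ty.base]
  have PZ : h F.ρ * h F.z * (h F.ρ)⁻¹ = h F.q := by rw [← x.cj H.ρJ H.zJ, H.ρz]
  have j0 := mul_mem (cjC ΩN) (cjC PN)
  have j1 := act2 (cjC ΩN _ (cjA PN (mul_mem uA ZA))) (actc Ωb sc) (actc Pb sB)
  have j2 := act2 (cjC ΩN _ (cjA PN mA)) (actc Ωc sBC) (actc Pc sc)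
  rw [Ωf _ mA, ← conj_mul, Pu, PZ] at j1
  rw [Ωf _ (mul_mem (mul_mem uA ZA) mA)] at j2
  rcases hm with rfl | rfl | rfl | rfl
  · have := lin j0 Dy.qW Dy.zW (j1.trans (by simp only [mul_assoc, sw QA pA, sq pA]))
      (j2.trans (by rw [Pp]; simp only [mul_assoc, sw pA uA, sw ZA pA, sq pA, sq uA]))
    rw [H.ρq] at this
    exact q1 (by simpa using this)
  · have := lin j0 zq Dy.qW (j1.trans (by rw [ZQ]; simp only [mul_assoc, sw QA pA, sw QA ZA, sq pA]))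
      (j2.trans (by
        rw [← conj_mul, Pp, PZ]
        simp only [mul_assoc, sw pA uA, sw QA uA, sw ZA pA, sw QA pA, sw QA ZA, sq pA, sq uA, sq ZA]))
    rw [← conj_mul, H.ρz, H.ρq] at this
    exact H.Zc_ne H.Zzq (by simpa using this)
  · refine bad ?_
    rw [← conj_mul, tp, tu, ZQ]
    simp only [mul_assoc, sw pA uA, sw QA uA, sw ZA uA, sw ZA pA, sw QA pA, sw QA ZA, sq pA, sq uA, sq ZA]
  · refine bad ?_
    rw [← conj_mul, ← conj_mul, tp, tu, tJ H.zJ, ZQ]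
    simp only [mul_assoc, sw pA uA, sw QA uA, sw ZA uA, sw ZA pA, sw QA pA, sw QA ZA, sq pA, sq uA, sq ZA]

end H79.JS
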