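import Cfsg.Agent.Lib.JS.MB

set_option autoImplicit false
set_option maxRecDepth 100000

namespace H79.JS.MC1

open H54 H74 H74.J2 Subgroup H69 H36.SW H79.JS.MB

section
variable {X : Type*} [Group X]

/-- the value of a word in three letters -/
def ev (a b c : X) : List ℕ → X
  | [] => 1
  | l :: w => (if l = 0 then a else if l = 1 then b else c) * ev a b c w

theorem ev_conj (g a b c : X) : ∀ w, ev (g * a * g⁻¹) (g * b * g⁻¹) (g * c * g⁻¹) w = g * ev a b c w * g⁻¹
  | [] => by simp [ev]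
  | l :: w => by
    rw [ev, ev, ev_conj g a b c w, ← conj_mul]
    split_ifs <;> rfl

theorem ev_mem {M : Subgroup X} {a b c : X} (ha : a ∈ M) (hb : b ∈ M) (hc : c ∈ M) : ∀ w, ev a b c w ∈ M
  | [] => one_mem _
  | l :: w => by
    rw [ev]
    refine mul_mem ?_ (ev_mem ha hb hc w)
    split_ifs <;> assumption

theorem ev_map {M : Subgroup X} {θ : X → X} (h1 : θ 1 = 1) (h : ∀ a ∈ M, ∀ a' ∈ M, θ (a * a') = θ a * θ a')
    {a b c : X} (ha : a ∈ M) (hb : b ∈ M) (hc : c ∈ M) : ∀ w, θ (ev a b c w) = ev (θ a) (θ b) (θ c) w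
  | [] => h1
  | l :: w => by
    rw [ev, ev, h _ (by split_ifs <;> assumption) _ (ev_mem ha hb hc w), ev_map h1 h ha hb hc w]
    split_ifs <;> rfl

/-- the image of a point under a word -/
noncomputable def wv (k : Cfg) (p q r : ℕ) (w : List ℕ) (i : ℕ) : ℕ :=
  List.rec (motive := fun _ => ℕ) i
    (fun l _ ih => force ih (k.get (sel (Nat.beq l 0) p (sel (Nat.beq l 1) q r)))) w

theorem rep_ev {Ω : Type*} [MulAction X Ω] {k : Cfg} {pt : ℕ → Ω} {a b c : X} {p q r : ℕ} (ra : Rep k pt a p)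
    (rb : Rep k pt b q) (rc : Rep k pt c r) : ∀ w, RepF k pt (ev a b c w) (wv k p q r w)
  | [] => repF_one
  | l :: w => by
    have : Rep k pt (if l = 0 then a else if l = 1 then b else c) (sel (Nat.beq l 0) p (sel (Nat.beq l 1) q r)) := by
      rw [sel_eq, sel_eq]
      simp only [Nat.beq_eq]
      split_ifs <;> assumption
    exact (RepF.mul this (rep_ev ra rb rc w)).congr fun _ _ => rfl

end

def px : ℕ := 0xfffbefcf7ebcf8efdbaf4e7cb8f0dfbb6ecd7ab4e8cf9b2e424ec1621516d8148b6f06189e6a07d4c5bd0b70db2018215078d9cb18f3ac83289aa3444d609154e91b38620d131e36ab0512dbae38969218d28cc8bf8c3d8b586e84aefd5c03ae0f2f1c24a983f4484f595a6172d124a9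
def py : ℕ := 0xfffbefcf7ebcf8efdbaf4e7cb8f0dfbb6ecd7ab4e8cf9b2e456296d0a42d61b3826a1990199d9957d2e05048610234dbd764bd8971ed8c140ea8705007c115930971eab1e2968cd70ddc6f824f426a893448d38874d01dbb89ac4188c1c40493a5cc86f40cdbd8ad207f59e293ae46bb
def pn : ℕ := 0xfffbefcf7ebcf8efdbaf4e7cb8f0dfbb6ecd7ab4e8cf9b2e473506d0782eb1b38ec51d004f14ec2c63dc4d5513e1e826c2c612fae2368fa443124b890628c51d5cb9e2494a968d3254064417cf0e6810618f538187781b0c0a2c4b556c2dd29660b5748c43768cdb537eb292932ad689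
def rels : List (List ℕ) := [[1, 1], [0, 1, 0, 1, 0, 1, 0, 1, 0, 1, 0, 1, 2], [0, 0, 1, 0, 0, 1, 0, 0, 1, 0, 0, 1, 0, 0, 1, 2]]
def gw : List (List ℕ) := [[1, 0, 0, 1, 0, 0, 1, 0, 0, 1, 0, 0, 1], [1, 0, 0, 0, 1, 0, 0, 0, 1, 0, 0]]

noncomputable def ok (p : ℕ) : Bool :=
  bor (anyL (fun w => anyL (fun i => band (Nat.ble (Nat.succ i) cfg100.n)
      (bnot (Nat.beq (wv cfg100 px p pz w i) i))) [0, 2]) rels)
    (anyL (fun k => eqc cfg100 p (conjc cfg100 (powc cfg100 px k) py)) [0, 1, 2, 3, 4])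

theorem c_scan : allElts cfg100 ok chD cfg100.one = true := by decide +kernel
theorem c_rel : allL (fun w => allLt (fun i => Nat.beq (wv cfg100 px py pz w i) i) cfg100.n) rels = true := by
  decide +kernel
theorem c_gen : allL (fun s => anyL (fun w => allLt (fun i => Nat.beq (cfg100.get s i) (wv cfg100 px py pz w i))
    cfg100.n) gw) chD.gens = true := by decide +kernel
theorem c_x : memb cfg100 chD px = true := by decide +kernel
theorem c_y : memb cfg100 chD py = true := by decide +kernel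
theorem c_n : memb cfg100 chCz pn = true := by decide +kernel
theorem c_o : ordc cfg100 px = 5 := by decide +kernel
theorem c_nx : eqc cfg100 (conjc cfg100 pn px) (cfg100.mul px px) = true := by decide +kernel

theorem eqns_MC1 : True := by
  have := @ev.eq_1.{0}
  have := @ev.eq_2.{0}
  have := @ev.eq_def.{0}
  have := @ok.eq_1
  trivial

end H79.JS.MC1

namespace H79.JS.MB

open H54 H74 H74.J2 Subgroup H69 H36.SW
open H48.SM (Pf)
open scoped commutatorElement

variable {X : Type} [Group X] [Finite X] [MulAction X (Fin 100)] {F : Dy X}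

open H79.JS.MC1 in
theorem Mo2.autM_ (m : Mo2 F) :
    ∀ θ : X → X, (∀ a ∈ F.M, θ a ∈ F.M) → (∀ a ∈ F.M, ∀ a' ∈ F.M, θ (a * a') = θ a * θ a') →
    (∀ a ∈ F.M, θ a = 1 → a = 1) → θ F.z = F.z → ∃ x, x * F.z = F.z * x ∧ ∀ m ∈ F.M, θ m = x * m * x⁻¹ := by
  intro θ h1 h2 h3 h4
  classical
  have Xc := m.md.X
  have K := m.md.K
  have gM : Good cfg100 (finPt 100) chD F.M := m.eD ▸ m.gD
  obtain ⟨x, xM, rx⟩ := gM.in_of_memb Xc c_x
  obtain ⟨y, yM, ry⟩ := gM.in_of_memb Xc c_y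
  obtain ⟨n, nz, rn⟩ := m.gCz.in_of_memb Xc c_n
  rw [mem_centralizer_singleton_iff] at nz
  have Mz : ∀ {a}, a ∈ F.M → Commute a F.z := fun ha =>
    mem_centralizer_singleton_iff.1 (show _ ∈ F.D from m.eD ▸ ha).2
  have t1 : θ 1 = 1 := by
    have := h2 1 (one_mem _) 1 (one_mem _)
    rw [mul_one] at this
    exact left_eq_mul.1 this
  have zM : F.z ∈ F.M := by
    have r := rep_ev rx ry m.rz [0, 1, 0, 1, 0, 1, 0, 1, 0, 1, 0, 1, 2]
    have c := (allL_iff _ _).1 c_rel [0, 1, 0, 1, 0, 1, 0, 1, 0, 1, 0, 1, 2] (by decide)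
    rw [allLt_iff] at c
    have e := (repF_one.congr fun i hi => Nat.eq_of_beq_eq_true (c i hi)).unique r
    rw [K, inv_one, one_mul, mem_bot] at e
    simp only [ev, if_true, one_ne_zero, if_false, OfNat.ofNat_ne_zero, OfNat.ofNat_ne_one, mul_one] at e
    iterate 6 rw [← F.M.mul_mem_cancel_left yM, ← F.M.mul_mem_cancel_left xM]
    rw [e]
    exact one_mem _
  have ox : orderOf x = 5 := (rx.orderOf_eq Xc K).trans c_o
  have nx : n * x * n⁻¹ = x * x := ((rn.conj Xc rx).eqc_iff Xc K (rx.mul Xc rx)).1 c_nx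
  have x5 : x ^ 5 = 1 := ox ▸ pow_orderOf_eq_one x
  have : Fact (Nat.Prime 5) := ⟨by norm_num⟩
  have tp : ∀ k : ℕ, θ (x ^ k) = θ x ^ k := fun k => by
    induction k with
    | zero => simpa using t1
    | succ k ih => rw [pow_succ, h2 _ (pow_mem xM k) _ xM, ih, pow_succ]
  have ot : orderOf (θ x) = 5 := orderOf_eq_prime (by rw [← tp, x5, t1]) fun e => by
    rw [h3 x xM e, orderOf_one] at ox
    omega
  have sy : IsSylowIn 5 (zpowers x) F.M := by
    refine isSylowIn_of_not_dvd_relIndex (IsPGroup.of_card (n := 1) (by rw [Nat.card_zpowers, ox, pow_one]))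
      (zpowers_le.2 xM) fun ⟨k, hk⟩ => ?_
    have k2 := ((zpowers x).subgroupOf F.M).card_mul_index
    rw [Nat.card_congr (subgroupOfEquivOfLe (zpowers_le.2 xM)).toEquiv, Nat.card_zpowers, ox,
      show ((zpowers x).subgroupOf F.M).index = _ from hk, gM.card Xc K, chD_size] at k2
    omega
  obtain ⟨g, gz, hg⟩ : ∃ g, Commute g F.z ∧ θ x = g * x * g⁻¹ := by
    obtain ⟨j, jM, hj⟩ := sy.exists_cj_le (R := zpowers (θ x))
      (IsPGroup.of_card (n := 1) (by rw [Nat.card_zpowers, ot, pow_one])) (zpowers_le.2 (h1 x xM))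
    have := mem_zpowers_iff_mem_range_orderOf.1 (hj (cj_mem j (mem_zpowers _)))
    rw [ox, Finset.mem_image] at this
    obtain ⟨k, hk, e⟩ := this
    have n2 : n * n * x * (n * n)⁻¹ = x ^ 4 := by
      calc _ = n * (n * x * n⁻¹) * n⁻¹ := by group
        _ = _ := by rw [nx, ← conj_mul, nx]; simp only [pow_succ, pow_zero, one_mul, mul_assoc]
    have n3 : n * n * n * x * (n * n * n)⁻¹ = x ^ 3 := by
      calc _ = n * (n * n * x * (n * n)⁻¹) * n⁻¹ := by group
        _ = (x * x) ^ 4 := by rw [n2, ← conj_pow, nx]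
        _ = x ^ 5 * x ^ 3 := by rw [← pow_two, ← pow_mul, ← pow_add]
        _ = _ := by rw [x5, one_mul]
    have fin : ∀ u, Commute u F.z → u * x * u⁻¹ = x ^ k → ∃ g, Commute g F.z ∧ θ x = g * x * g⁻¹ := fun u hu eu =>
      ⟨j⁻¹ * u, (Mz jM).inv_left.mul_left hu, by
        calc θ x = j⁻¹ * (j * θ x * j⁻¹) * j := by group
          _ = _ := by rw [← e, ← eu]; group⟩
    have nz' : Commute n F.z := nz
    rw [Finset.mem_range] at hk
    interval_cases k
    · rw [pow_zero] at e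
      refine absurd e.symm (cjne (fun e' => ?_) j)
      rw [e', orderOf_one] at ot
      omega
    · exact fin 1 (Commute.one_left _) (by simp)
    · exact fin n nz' (by rw [nx, pow_two])
    · exact fin _ ((nz'.mul_left nz').mul_left nz') n3
    · exact fin _ (nz'.mul_left nz') n2
  have y1M : g⁻¹ * θ y * g ∈ F.M := m.eD ▸ (⟨by
      simpa using m.nJ.conj_mem _ (show θ y ∈ F.D from m.eD ▸ h1 y yM).1 g⁻¹,
    mem_centralizer_singleton_iff.2 ((gz.inv_left.mul_left (Mz (h1 y yM))).mul_left gz)⟩ : _ ∈ F.D)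
  have ez : g * F.z * g⁻¹ = F.z := by rw [gz.eq, mul_inv_cancel_right]
  obtain ⟨p, rp, c⟩ := gM.forall_of_allElts Xc c_scan _ y1M
  simp only [ok, bor_eq_true, anyL_iff, band_eq_true, bnot_eq_true, Nat.beq_eq, Nat.ble_eq] at c
  rcases c with ⟨w, hw, i, -, hi, c⟩ | ⟨k, -, c⟩
  · refine absurd ?_ c
    have c := (allL_iff _ _).1 c_rel w hw
    rw [allLt_iff] at c
    have e := (repF_one.congr fun i hi => Nat.eq_of_beq_eq_true (c i hi)).unique (rep_ev rx ry m.rz w)
    rw [K, inv_one, one_mul, mem_bot] at e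
    have e1 := ev_map t1 h2 xM yM zM w
    rw [e, t1, h4, hg, ← ez, show θ y = g * (g⁻¹ * θ y * g) * g⁻¹ by group, ev_conj] at e1
    have r := rep_ev rx rp m.rz w
    rw [conj_eq_one_iff.1 e1.symm] at r
    exact r.eq_on Xc repF_one i hi
  · have e := (rp.eqc_iff Xc K ((rx.pow Xc k).conj Xc ry)).1 c
    have gz' : Commute (g * x ^ k) F.z := gz.mul_left (Mz (pow_mem xM k))
    refine ⟨g * x ^ k, gz', ?_⟩
    have ex : θ x = g * x ^ k * x * (g * x ^ k)⁻¹ := by rw [hg]; group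
    have ey : θ y = g * x ^ k * y * (g * x ^ k)⁻¹ := by
      calc θ y = g * (g⁻¹ * θ y * g) * g⁻¹ := by group
        _ = _ := by rw [e]; group
    have ez' : θ F.z = g * x ^ k * F.z * (g * x ^ k)⁻¹ := by rw [h4, gz'.eq, mul_inv_cancel_right]
    generalize g * x ^ k = u at ex ey ez'
    let H : Subgroup X :=
      { carrier := {a | a ∈ F.M ∧ θ a = u * a * u⁻¹}
        one_mem' := ⟨one_mem _, by simpa using t1⟩
        mul_mem' := fun {a b} ha hb => ⟨mul_mem ha.1 hb.1, by rw [h2 a ha.1 b hb.1, ha.2, hb.2, conj_mul]⟩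
        inv_mem' := fun {a} ha => ⟨inv_mem ha.1, by
          have := h2 _ (inv_mem ha.1) _ ha.1
          rw [inv_mul_cancel, t1, ha.2] at this
          rw [eq_inv_of_mul_eq_one_left this.symm, conj_inv]⟩ }
    have : F.M ≤ H := by
      rw [m.eM]
      refine grp_le (K ▸ bot_le) fun s hs => ?_
      obtain ⟨w, -, c⟩ := (anyL_iff _ _).1 ((allL_iff _ _).1 c_gen s hs)
      rw [allLt_iff] at c
      exact ⟨ev x y F.z w, ⟨ev_mem xM yM zM w, by rw [ev_map t1 h2 xM yM zM, ex, ey, ez', ev_conj]⟩,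
        (rep_ev rx ry m.rz w).congr fun i hi => Nat.eq_of_beq_eq_true (c i hi)⟩
    exact fun a ha => (this ha).2

end H79.JS.MB
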