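import Cfsg.Agent.Lib.JS.MB

/-! Package MC2: scans of `C_J(z)` and `C(z)` in the model. -/

set_option autoImplicit false
set_option maxRecDepth 100000
set_option linter.unusedSectionVars false

namespace H79.JS.MC2

open H54 H74 H74.J2 Subgroup H79.JS.MB

def LD : List ℕ :=
  [0xfffbefcf7ebcf8efdbaf4e7cb8f0dfbb6ecd7ab4e8cf9b2e4c78b0e0bf7aedcb76acd8af5aad4a74a8d09f3a6cc972a4c88f1a2c4870a0c07ef9ebc76e9cb86ed9ab466c98b05eb96ac56a94a84e992a446890a03e78e9c3668c982e58a9426488901e3868c16284880e182840608080,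
   0xfffbefcf7ebcf8efdbaf4e7cb8f0dfbb6ecd7ab4e8cf9b2e4bf7b163c186ddab166e5da15abd1a752955993654b9f3a2488b1e343930a0c058bd6ae52a152b74f9dbd70f1cbf6cc9a3066c5ab7327cd9d3068e1e2e48b132a44a104c912a742811231e2870b103448c0c0c1050e10080,
   0xfffbefcf7ebcf8efdbaf4e7cb8f0dfbb6ecd7ab4e8cf9b2e4c186f5fc78ac59bb72d5bab5a852a746a57972a74f99361c88d163c9890a0c060d9a326add8b350bd4ad56b952c7cf1ebf70e5dba285ca9620449924c812214a893a33e74d993878d181e34508183848b061c2020c14080,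
   0xfffbefcf7ebcf8efdbaf4e7cb8f0dfbb6ecd7ab4e8cf9b2e486395269aeab057f89cdb84b282baf12f926a7decf82f99c82b192ca6881ddd614a89012c8560625d4af6c10158c769c409cf265c4eb62996e2c353a954a1c3689259925a39d0e780e122b941a186258f26846de068c400,
   0xfffbefcf7ebcf8efdbaf4e7cb8f0dfbb6ecd7ab4e8cf9b2e49ae87434ca9fe2b6e42d624b215faeae2509ef5f416a7e5484a563346681ddd818dc5a9971e4e65484d1c0405302e117d86c094b14950d94b288e559278b078e04ee15a662a70d4c5b7226170c1ea259a420d18d2778400,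
   0xfffbefcf7ebcf8efdbaf4e7cb8f0dfbb6ecd7ab4e8cf9b2e49cdc6c42ee5861bac42563cfe163aae24d796d1b41529a6c82a6e2ad5649ad881819dc9f6594a5d444d4be6072c3e09f5b5e15daa2d49299b4450d08680e838c0525e7a9e3940f4c628348de081eea622261880a3988580,
   0xfffbefcf7ebcf8efdbaf4e7cb8f0dfbb6ecd7ab4e8cf9b2e494a05493ec565eb0a815640c2160a0ce1d598b57c1765e74836963bd70794db817d5d9976974d79504d2c68c6bf4c15b5d7c11ab93b44aa7b8689d788492068a04b626852319074c43a444190b1ede791381cc0e4384600,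
   0xfffbefcf7ebcf8efdbaf4e7cb8f0dfbb6ecd7ab4e8cf9b2e45f68838a212028b0b8c30a774f1f40f9ed598aefa91310bc82b192d2c75e5acb72a6aa837acad46ce7c392e9bbf6839356a985a8d4f8229904683429c48a1c363120a6c5a39d0f407bc118828b44e5d812686e3206c4880,
   0xfffbefcf7ebcf8efdbaf4e7cb8f0dfbb6ecd7ab4e8cf9b2e41cc55619402b0c422af1c104c6cd73885ce6b5d2b28d6575f841422f8e7a9242c9a81222d8b8f53121ab9604d1d4482d40988c83c33230038ab431ba954a5bc74eebea2c04bf4ee1ebb68ccaba83727b7596249f0e61402,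
   0xfffbefcf7ebcf8efdbaf4e7cb8f0dfbb6ecd7ab4e8cf9b2e4568095aa0060153acee163691c573d652d521345c3238a25f841422644e679338be52a8c7df4830b990ea2022a18ec70d6a8edac9323f00334e83089938a5bc706e9796c04bf4e35ba3502862da77a93d5961e360ea5a02]
def LS : List ℕ :=
  [0xfffbefcf7ebcf8efdbaf4e7cb8f0dfbb6ecd7ab4e8cf9b2e4c78b0e0bf7aedcb76acd8af5aad4a74a8d09f3a6cc972a4c88f1a2c4870a0c07ef9ebc76e9cb86ed9ab466c98b05eb96ac56a94a84e992a446890a03e78e9c3668c982e58a9426488901e3868c16284880e182840608080,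
   0xfffbefcf7ebcf8efdbaf4e7cb8f0dfbb6ecd7ab4e8cf9b2e4a0d19bc6c8165cb04814062c2160942994ea8e935346faa8f102d1371ae4c5bad7c762a38625793304cfc6edc3f5e14fdd2e1081e432c627bd1524d5ca89863400e5950508990704dad8ed61a590f69462c1d4ab3b68a81,
   0xfffbefcf7ebcf8efdbaf4e7cb8f0dfbb6ecd7ab4e8cf9b2e499164e28978b3b48a40d67084422ab6a8b99f1e5c6878655f858f0489b39a9d803d73c64f9b2f67408d41771893ae6ac9c563292a609820340d2c0d1c79f870af6e9f4a644944e6e09574611a86e008535818917b629682,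
   0xfffbefcf7ebcf8efdbaf4e7cb8f0dfbb6ecd7ab4e8cf9b2e409405c2be80cb1b0965275e74f61a71abc722e535a9a880c4c44092b86160a10661d00b8a0db85b167b792c9dbfa239a07907cabdb72e640bd65223342099c9ca8a0c5258bddacd9ad25c3c6bea8f31d50cb3009600998a,
   0xfffbefcf7ebcf8efdbaf4e7cb8f0dfbb6ecd7ab4e8cf9b2e45a01737503433206287b05e4c591085d890b316f1b9756a49307b0c7474f024b604112b81713bbf10d42455e8a770331949822709b10cf9d4d42b2066fa0169edaeb59072519431a92556aa6a9b4560b9581dd3d7ed1e0e,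
   0xfffbefcf7ebcf8efdbaf4e7cb8f0dfbb6ecd7ab4e8cf9b2e4c22864a1d78e31ac01521ae92cb5a51992517386e29a200b47b4d6924079c933b51e477740ddc5721f3666bdc40a2b94962b562da7e99d5b86141a344693948308c918819bdd605c210be3e5e313327e00eb0f98b124128,
   0xfffbefcf7ebcf8efdbaf4e7cb8f0dfbb6ecd7ab4e8cf9b2e4aad04546634a516054493700f1e09c6ee48454d037462c7d06ce5e3a4cf882749089456512357991c2e2beed7db62085064a10017810d5bf973cecd2231099a460e1a501ed5db0f4fc19206f1e94b6ce12cb1aaaacb8729,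
   0xfffbefcf7ebcf8efdbaf4e7cb8f0dfbb6ecd7ab4e8cf9b2e4920146131783b14208658700c091b58ee046f1d1c5974d6d45d56c9b1a79b277e89e4264e42bb577c7d0175d79da26a91912230298099f249a4ada068f58146b3aec190199962694b9588ea1cc211a7e2587071fad2852a]
def pu : ℕ := 0xfffbefcf7ebcf8efdbaf4e7cb8f0dfbb6ecd7ab4e8cf9b2e482fa7bd7536ebbb6e713fb90274cc769c3c3ed532a863a5258c5643340d02d6b05c2295e09b31c1488091545930af12faca0495c2068c013bc2108d3d84e968e043c9b270d94495115534625911eb940c321a9b74eb45c5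
def pv : ℕ := 0xfffbefcf7ebcf8efdbaf4e7cb8f0dfbb6ecd7ab4e8cf9b2e4a416cb6568eeb27e41bc0af6e9ad3c5d7926b8218996cea4836963df4d427b0acf4f8a763b151c33a0ca68c6e5870a24ac88ea6183b34aa71a2c9a07d552068a3cb2ec652319070888418aaf1a0209488381dcda42f1100

/-- pointwise commutation test -/
noncomputable def cm1 (p r i : ℕ) : Bool :=
  Nat.beq (cfg100.get p (cfg100.get r i)) (cfg100.get r (cfg100.get p i))

/-- the image of `i` under the `k`-th power -/
noncomputable def itr (p k i : ℕ) : ℕ :=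
  Nat.rec (motive := fun _ => ℕ) i (fun _ ih => force ih (cfg100.get p)) k

noncomputable def P1 (p : ℕ) : Bool :=
  bimp (Nat.beq (itr p 2 0) 0) (bimp (Nat.beq (fixc cfg100 p) 20)
    (bor (eqc cfg100 p pz) (anyL (fun t => eqc cfg100 p (conjc cfg100 t pq)) LD)))

noncomputable def P5 (p : ℕ) : Bool :=
  bimp (Nat.beq (itr p 10 0) 0) (bimp (Nat.beq (itr p 10 2) 2)
    (force (cfg100.mul p p) fun p2 => bor (eqc cfg100 p2 cfg100.one)
      (force (cfg100.mul (cfg100.mul p2 p2) p) fun p5 => bor (eqc cfg100 p5 cfg100.one)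
        (eqc cfg100 p5 pz))))

noncomputable def PA (p : ℕ) : Bool :=
  bimp (cm1 p pv 2) (bimp (cm1 p pa 0) (bimp (cm1 p pu 0) (bimp (cm1 p pq 0)
    (bor (eqc cfg100 p cfg100.one) (eqc cfg100 p pz)))))

theorem eqns_MC2 : True := by
  have := @cm1.eq_1
  have := @itr.eq_1
  have := @P1.eq_1
  have := @P5.eq_1
  have := @PA.eq_1
  trivial

theorem s1 : allElts cfg100 P1 chD cfg100.one = true := by decide +kernel
theorem s5a : allFrom (allAt cfg100 P5 chD cfg100.one) 0 50 = true := by decide +kernel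
theorem s5b : allFrom (allAt cfg100 P5 chD cfg100.one) 50 50 = true := by decide +kernel
theorem sAa : allFrom (allAt cfg100 PA chCz cfg100.one) 0 50 = true := by decide +kernel
theorem sAb : allFrom (allAt cfg100 PA chCz cfg100.one) 50 50 = true := by decide +kernel
theorem kLD : allL (memb cfg100 chD) LD = true := by decide +kernel
theorem kLS : allL (fun s => band (memb cfg100 chD s) (eqc cfg100 (conjc cfg100 s pq) pq)) LS = true := by
  decide +kernel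
theorem kW : allL (fun t => force (conjc cfg100 t pq) fun x => sel (commutes cfg100 x pq)
    (bor (eqc cfg100 x pq) (eqc cfg100 x (cfg100.mul pz pq)))
    (anyL (fun s => eqc cfg100 (conjc cfg100 s pa) x) LS)) LD = true := by decide +kernel
theorem kP : allL (fun x => anyL (fun t => eqc cfg100 (conjc cfg100 t pq) x) LD)
    [pq, pa, cfg100.mul (cfg100.mul pb pa) pb, cfg100.mul (cfg100.mul pc pa) pc,
      cfg100.mul (cfg100.mul (cfg100.mul pb pc) pa) (cfg100.mul pb pc)] = true := by decide +kernel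
theorem kz : band (band (memb cfg100 chD pz) (memb cfg100 chD pq))
    (band (band (eqc cfg100 (cfg100.mul pz pz) cfg100.one) (eqc cfg100 (cfg100.mul pq pq) cfg100.one))
      (band (Nat.beq (fixc cfg100 pz) 20) (Nat.beq (fixc cfg100 pq) 20))) = true := by decide +kernel
theorem kA : allL (fun u => band (memb cfg100 chD u) (band (commutes cfg100 u pa) (commutes cfg100 u pq)))
    [pz, pu, pv] = true := by decide +kernel
theorem n100 : cfg100.n = 100 := by decide +kernel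
theorem neD : chD ≠ .nil := fun h => by cases h
theorem neCz : chCz ≠ .nil := fun h => by cases h

variable {X : Type} [Group X] [MulAction X (Fin 100)] {F : Dy X}

theorem rep_itr {g : X} {p : ℕ} (r : Rep cfg100 (finPt 100) g p) :
    ∀ k, RepF cfg100 (finPt 100) (g ^ k) (itr p k)
  | 0 => by rw [pow_zero]; exact repF_one
  | k + 1 => by rw [pow_succ']; exact RepF.mul (f := cfg100.get p) (f' := itr p k) r (rep_itr r k)

theorem itr_fix (m : Mo2 F) {g : X} {p k i : ℕ} (r : Rep cfg100 (finPt 100) g p) (h : g ^ k = 1)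
    (hi : i < 100) : Nat.beq (itr p k i) i = true := by
  have := rep_itr r k
  rw [h] at this
  exact Nat.beq_eq ▸ RepF.eq_on m.md.X this repF_one i (n100 ▸ hi)

theorem cm1_of (m : Mo2 F) {g x : X} {p q i : ℕ} (r : Rep cfg100 (finPt 100) g p)
    (r' : Rep cfg100 (finPt 100) x q) (h : g * x = x * g) (hi : i < 100) : cm1 p q i = true := by
  have a := RepF.mul r r'
  rw [h] at a
  exact Nat.beq_eq ▸ RepF.eq_on m.md.X a (RepF.mul r' r) i (n100 ▸ hi)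

theorem bas (m : Mo2 F) : (F.z ∈ F.D ∧ F.q ∈ F.D) ∧ (F.z * F.z = 1 ∧ F.q * F.q = 1) ∧
    fixc cfg100 pz = 20 ∧ fixc cfg100 pq = 20 := by
  have h := kz
  simp only [band_eq_true, Nat.beq_eq] at h
  exact ⟨⟨m.gD.mem_of_memb m.md.X h.1.1 m.rz, m.gD.mem_of_memb m.md.X h.1.2 m.rq⟩,
    ⟨((m.rz.mul m.md.X m.rz).eqc_one_iff m.md.X m.md.K).1 h.2.1.1,
      ((m.rq.mul m.md.X m.rq).eqc_one_iff m.md.X m.md.K).1 h.2.1.2⟩, h.2.2⟩

/-- the conjugates of `z` or `q` in `D` -/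
theorem scan (m : Mo2 F) {g y x : X} {s : ℕ} (ry : Rep cfg100 (finPt 100) y s) (y2 : y * y = 1)
    (yJ : y ∈ F.J) (fy : fixc cfg100 s = 20) (e : g * y * g⁻¹ = x) (hz : x * F.z = F.z * x) :
    x = F.z ∨ ∃ t ∈ LD, ∃ d ∈ F.D, Rep cfg100 (finPt 100) d t ∧ d * F.q * d⁻¹ = x := by
  have xD : x ∈ F.D := Dy.mem_D.2 ⟨e ▸ m.nJ.conj_mem y yJ g, hz⟩
  obtain ⟨p, r, h⟩ := m.gD.forall_of_allElts m.md.X s1 x xD
  obtain ⟨f, rf⟩ := m.md.T.exists_repF m.md.X (mem_top g)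
  have x2 : x ^ 2 = 1 := by rw [← e, conj_pow, pow_two, y2]; simp
  have f20 : fixc cfg100 p = 20 := (fixc_conj m.md.X rf ry r e).symm.trans fy
  simp only [P1, bimp_eq_true, bor_eq_true, anyL_iff] at h
  rcases h (itr_fix m r x2 (by norm_num)) (Nat.beq_eq ▸ f20) with h | ⟨t, ht, h⟩
  · exact .inl ((r.eqc_iff m.md.X m.md.K m.rz).1 h)
  · obtain ⟨d, hd, rd⟩ := m.gD.all_in m.md.X kLD t ht
    exact .inr ⟨t, ht, d, hd, rd, ((r.eqc_iff m.md.X m.md.K (rd.conj m.md.X m.rq)).1 h).symm⟩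

theorem split (m : Mo2 F) {t : ℕ} (ht : t ∈ LD) {d : X} (rd : Rep cfg100 (finPt 100) d t) {x : X}
    (e : d * F.q * d⁻¹ = x) : (x * F.q = F.q * x → x = F.q ∨ x = F.z * F.q) ∧
      (x * F.q ≠ F.q * x → ∃ s ∈ F.D, s * F.a * s⁻¹ = x ∧ s * F.q * s⁻¹ = F.q) := by
  have h := (allL_iff _ _).1 kW t ht
  have r : Rep cfg100 (finPt 100) x (conjc cfg100 t pq) := e ▸ rd.conj m.md.X m.rq
  have c := r.commutes_iff m.md.X m.md.K m.rq
  rw [force_eq] at h
  refine ⟨fun hx => ?_, fun hx => ?_⟩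
  · rw [c.2 hx, sel_true, bor_eq_true] at h
    exact h.imp (r.eqc_iff m.md.X m.md.K m.rq).1 (r.eqc_iff m.md.X m.md.K (m.rz.mul m.md.X m.rq)).1
  · rw [Bool.eq_false_iff.2 (fun h => hx (c.1 h)), sel_false, anyL_iff] at h
    obtain ⟨s, hs, h⟩ := h
    have k := (allL_iff _ _).1 kLS s hs
    rw [band_eq_true] at k
    obtain ⟨u, hu, ru⟩ := m.gD.in_of_memb m.md.X k.1
    exact ⟨u, hu, ((ru.conj m.md.X m.ra).eqc_iff m.md.X m.md.K r).1 h,
      ((ru.conj m.md.X m.rq).eqc_iff m.md.X m.md.K m.rq).1 k.2⟩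

theorem ty_comm (m : Mo2 F) {g x : X} (hz : g * F.z * g⁻¹ = F.z) (e : g * F.q * g⁻¹ = x) :
    x * F.z = F.z * x := by
  have c := Dy.Dz (bas m).1.2
  calc x * F.z = g * (F.q * F.z) * g⁻¹ := by rw [← e]; nth_rw 1 [← hz]; group
    _ = F.z * x := by rw [c, ← e]; nth_rw 2 [← hz]; group

end H79.JS.MC2

namespace H79.JS.MB

open H54 H74 H74.J2 Subgroup H69 H36.SW H79.JS.MC2
open H48.SM (Pf)
open scoped commutatorElement

variable {X : Type} [Group X] [Finite X] [MulAction X (Fin 100)] {F : Dy X}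

theorem Mo2.tyJ_ (m : Mo2 F) :
    ∀ x, F.Zc x → x * F.z = F.z * x → x = F.z ∨ ∃ d ∈ F.D, d * F.q * d⁻¹ = x := by
  rintro x ⟨j, -, e⟩ hz
  have b := bas m
  rcases scan m m.rz b.2.1.1 (Dy.DJ b.1.1) b.2.2.1 e hz with h | ⟨t, -, d, hd, -, h⟩
  · exact .inl h
  · exact .inr ⟨d, hd, h⟩

theorem Mo2.pure_ (m : Mo2 F) :
    ∀ x, F.Zc x → x * F.z = F.z * x → x * F.q = F.q * x → x ∈ F.W := by
  rintro x ⟨j, -, e⟩ hz hq
  have b := bas m
  rcases scan m m.rz b.2.1.1 (Dy.DJ b.1.1) b.2.2.1 e hz with h | ⟨t, ht, d, -, rd, h⟩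
  · exact h ▸ Dy.zW
  · rcases (split m ht rd h).1 hq with h | h
    · exact h ▸ Dy.qW
    · exact h ▸ mul_mem Dy.zW Dy.qW

theorem Mo2.d8_ (m : Mo2 F) :
    ∀ x y, F.Ty F.z x → F.Ty F.z y → x * y ≠ y * x → ∃ d ∈ F.D, d * F.a * d⁻¹ = x ∧ d * F.q * d⁻¹ = y := by
  rintro x y ⟨g, gz, gx⟩ ⟨h, hz, hy⟩ hn
  have b := bas m
  have xz := ty_comm m gz gx
  have yz := ty_comm m hz hy
  rcases scan m m.rq b.2.1.2 (Dy.DJ b.1.2) b.2.2.2 hy yz with e | ⟨t, -, d, hd, -, e⟩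
  · exact absurd (e ▸ xz) hn
  have dz : d⁻¹ * F.z * d⁻¹⁻¹ = F.z := by rw [Dy.Dz (inv_mem hd)]; group
  have k1 : d⁻¹ * g * F.z * (d⁻¹ * g)⁻¹ = F.z := by
    rw [← dz]; nth_rw 2 [← gz]; rw [dz]; group
  have k2 : d⁻¹ * g * F.q * (d⁻¹ * g)⁻¹ = d⁻¹ * x * d := by rw [← gx]; group
  have hn' : d⁻¹ * x * d * F.q ≠ F.q * (d⁻¹ * x * d) := fun c => hn (by
    rw [← e]
    calc x * (d * F.q * d⁻¹) = d * (d⁻¹ * x * d * F.q) * d⁻¹ := by group
      _ = _ := by rw [c]; group)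
  rcases scan m m.rq b.2.1.2 (Dy.DJ b.1.2) b.2.2.2 k2 (ty_comm m k1 k2) with e' | ⟨t', ht', d', -, rd', e'⟩
  · exact absurd (e' ▸ (Dy.Dz b.1.2).symm) hn'
  obtain ⟨s, hs, s1, s2⟩ := (split m ht' rd' e').2 hn'
  refine ⟨d * s, mul_mem hd hs, ?_, ?_⟩
  · calc d * s * F.a * (d * s)⁻¹ = d * (s * F.a * s⁻¹) * d⁻¹ := by group
      _ = x := by rw [s1]; group
  · calc d * s * F.q * (d * s)⁻¹ = d * (s * F.q * s⁻¹) * d⁻¹ := by group
      _ = y := by rw [s2, e]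

theorem Mo2.pty_ (m : Mo2 F) :
    ∀ i, F.Ty F.z (F.pt i) := by
  have X := m.md.X
  have key : ∀ {x : _} {p : ℕ}, Rep cfg100 (finPt 100) x p →
      anyL (fun t => eqc cfg100 (conjc cfg100 t pq) p) LD = true → F.Ty F.z x := by
    intro x p r h
    obtain ⟨t, ht, h⟩ := (anyL_iff _ _).1 h
    obtain ⟨d, hd, rd⟩ := m.gD.all_in X kLD t ht
    exact ⟨d, by rw [Dy.Dz hd]; group, ((rd.conj X m.rq).eqc_iff X m.md.K r).1 h⟩
  have h := (allL_iff _ _).1 kP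
  intro i
  fin_cases i
  · exact key m.rq (h _ (by simp))
  · exact key m.ra (h _ (by simp))
  · exact key ((m.rb.mul X m.ra).mul X m.rb) (h _ (by simp))
  · exact key ((m.rc.mul X m.ra).mul X m.rc) (h _ (by simp))
  · exact key (((m.rb.mul X m.rc).mul X m.ra).mul X (m.rb.mul X m.rc)) (h _ (by simp))

theorem Mo2.c5_ (m : Mo2 F) :
    ∀ d ∈ F.D, d ^ 5 = 1 → ∀ p ∈ F.D, p * p = 1 → p * d = d * p → d = 1 ∨ p = 1 ∨ p = F.z := by
  intro d hd d5 p hp p2 hc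
  have X := m.md.X
  obtain ⟨s, r, h⟩ := m.gD.allAt_sound X neD (rep_one X)
    (P := P5) (by rw [n100]; exact allFrom_append _ 0 50 50 s5a s5b) (p * d) (mul_mem hp hd)
  rw [one_mul] at r
  have c : Commute p d := hc
  have p2' : p ^ 2 = 1 := by rw [pow_two, p2]
  have e2 : (p * d) ^ 2 = d ^ 2 := by rw [c.mul_pow, p2', one_mul]
  have e5 : (p * d) ^ 5 = p := by
    rw [c.mul_pow, d5, mul_one, show 5 = 2 * 2 + 1 by rfl, pow_succ, pow_mul, p2', one_pow, one_mul]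
  have e10 : (p * d) ^ 10 = 1 := by rw [show 10 = 5 * 2 by rfl, pow_mul, e5, p2']
  simp only [P5, bimp_eq_true, bor_eq_true, force_eq] at h
  have r2 := r.mul X r
  have r5 := (r2.mul X r2).mul X r
  have f5 : p * d * (p * d) * (p * d * (p * d)) * (p * d) = p := by
    refine Eq.trans ?_ e5
    generalize p * d = w
    simp only [pow_succ, pow_zero, one_mul, mul_assoc]
  rw [f5] at r5
  rcases h (itr_fix m r e10 (by norm_num)) (itr_fix m r e10 (by norm_num)) with h | h | h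
  · left
    have h := (r2.eqc_one_iff X m.md.K).1 h
    rw [← pow_two, e2] at h
    calc d = d ^ 5 * (d ^ 2)⁻¹ * (d ^ 2)⁻¹ := by group
      _ = 1 := by rw [d5, h]; simp
  · exact .inr (.inl ((r5.eqc_one_iff X m.md.K).1 h))
  · exact .inr (.inr ((r5.eqc_iff X m.md.K m.rz).1 h))

theorem Mo2.ccA_ (m : Mo2 F) :
    ∀ g, F.CC F.a F.q g → g = 1 ∨ g = F.z := by
  rintro g ⟨ga, gq, hg⟩
  have X := m.md.X
  have key : ∀ u ∈ [pz, pu, pv], ∃ d, Rep cfg100 (finPt 100) d u ∧ g * d = d * g := by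
    intro u hu
    have k := (allL_iff _ _).1 kA u hu
    simp only [band_eq_true] at k
    obtain ⟨d, hd, rd⟩ := m.gD.in_of_memb X k.1
    exact ⟨d, rd, hg d (Dy.DJ hd) ((rd.commutes_iff X m.md.K m.ra).1 k.2.1)
      ((rd.commutes_iff X m.md.K m.rq).1 k.2.2)⟩
  obtain ⟨z, rz, cz⟩ := key pz (by simp)
  obtain ⟨u, ru, cu⟩ := key pu (by simp)
  obtain ⟨v, rv, cv⟩ := key pv (by simp)
  rw [rz.eq_of_bot m.md.K m.rz] at cz
  obtain ⟨s, r, h⟩ := m.gCz.allAt_sound X neCz (rep_one X)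
    (P := PA) (by rw [n100]; exact allFrom_append _ 0 50 50 sAa sAb) g (mem_centralizer_singleton_iff.2 cz)
  rw [one_mul] at r
  simp only [PA, bimp_eq_true, bor_eq_true] at h
  exact (h (cm1_of m r rv cv (by norm_num)) (cm1_of m r m.ra ga (by norm_num))
    (cm1_of m r ru cu (by norm_num)) (cm1_of m r m.rq gq (by norm_num))).imp
    (r.eqc_one_iff X m.md.K).1 (r.eqc_iff X m.md.K m.rz).1

end H79.JS.MB
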