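import Cfsg.Agent.Lib.JS.MD1

set_option autoImplicit false
set_option maxRecDepth 100000
set_option linter.unusedSectionVars false

namespace H79.JS.MB

open H54 H74 H74.J2 Subgroup H69 H36.SW
open H48.SM (Pf)
open scoped commutatorElement

variable {X : Type} [Group X] [Finite X] [MulAction X (Fin 100)] {F : Dy X}

namespace MD2

/-- lazy commutation test -/
noncomputable def cm (p q : ℕ) : Bool :=
  allLt (fun i => Nat.beq (cfg100.get p (cfg100.get q i)) (cfg100.get q (cfg100.get p i))) cfg100.n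

theorem cm_of (m : Mo2 F) {g x : X} {p q : ℕ} (r : Rep cfg100 (finPt 100) g p) (r' : Rep cfg100 (finPt 100) x q)
    (e : g * x = x * g) : cm p q = true := by
  refine (allLt_iff _ _).2 fun i hi => ?_
  have a := RepF.mul r r'
  have b := RepF.mul r' r
  rw [← e] at b
  exact Nat.beq_eq.mpr (RepF.eq_on m.md.X a b i hi)

/-- an outer element centralising `b` -/
def ps : ℕ := 0xfffbefcf7ebcf8efdbaf4e7cb8f0dfbb6ecd7ab4e8cf9b2e42b6c9c12f72694258c8ce2d8ad10813eecc549eb8234c403746cec86749610c1cadf890ab2f875d2e1b050d63bd6d4990a1f4303c3d1248130130b8728440b446651c8b7aaa0a69233e535a89d5eecfd81ab5348686c1d4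

theorem scanA : force (cfg100.mul pb pc) (fun bc => force (cfg100.mul ps pb) fun sb =>
    force (cfg100.mul ps pc) fun sc => force (cfg100.mul ps bc) fun sbc =>
    allElts cfg100 (fun p => bor (memb cfg100 chX5 p)
    (bor (sift cfg100 chX5 p pb) (bor (sift cfg100 chX5 p pc) (bor (sift cfg100 chX5 p bc)
    (bor (sift cfg100 chX5 p ps) (bor (sift cfg100 chX5 p sb) (bor (sift cfg100 chX5 p sc)
      (sift cfg100 chX5 p sbc)))))))) chCb cfg100.one) = true := by
  decide +kernel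

theorem scanC : allElts cfg100 (fun p => bimp (cm p pz) (bimp (cm p pq)
    (memb cfg100 chR p))) chCb cfg100.one = true := by
  decide +kernel

theorem gen_le (m : Mo2 F) {S : List ℕ} {H : Subgroup X} {f : ℕ → Bool} (hf : allL f S = true)
    (h : ∀ g p, Rep cfg100 (finPt 100) g p → f p = true → g ∈ H) : grp X cfg100 (finPt 100) S ≤ H := by
  refine (closure_le _).2 ?_
  rintro g (⟨s, hs, r⟩ | hk)
  · exact h g s r ((allL_iff _ _).1 hf s hs)
  · rw [m.md.K] at hk
    obtain rfl : g = 1 := hk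
    exact H.one_mem

theorem nrm {H : Subgroup X} {g : X} (h : H ≤ H.comap (MulAut.conj g).toMonoidHom) : g ∈ 𝐍(H) :=
  mem_normalizer_fintype fun _ hn => h hn

theorem nrm_of (m : Mo2 F) {ch : Chain} {H : Subgroup X} (a : Good cfg100 (finPt 100) ch H)
    (e : H = grp X cfg100 (finPt 100) ch.gens) {g : X} {p : ℕ} (r : Rep cfg100 (finPt 100) g p)
    (h : allL (fun s => force (conjc cfg100 p s) (memb cfg100 ch)) ch.gens = true) : g ∈ 𝐍(H) := by
  refine nrm (e.le.trans (gen_le m h fun x s rx hs => ?_))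
  rw [force_eq] at hs
  exact a.mem_of_memb m.md.X hs (r.conj m.md.X rx)

theorem cen (m : Mo2 F) {y : X} {p : ℕ} (r : Rep cfg100 (finPt 100) y p)
    (h : allL (fun s => commutes cfg100 s p) chX5.gens = true) : ∀ x ∈ F.X5, x * y = y * x := by
  intro x hx
  have : F.X5 ≤ centralizer {y} := m.eX5.le.trans (gen_le m h fun x s rx hs =>
    mem_centralizer_singleton_iff.2 ((rx.commutes_iff m.md.X m.md.K r).1 hs))
  exact mem_centralizer_singleton_iff.1 (this hx)

theorem XJ (m : Mo2 F) : F.X5 ≤ F.J :=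
  m.eX5.le.trans (gen_le m (f := memb cfg100 chJ) (by decide +kernel)
    fun _ _ r h => m.gJ.mem_of_memb m.md.X h r)

theorem VJ (m : Mo2 F) : F.V ≤ F.J := by
  refine (closure_le _).2 ?_
  rintro y (rfl | rfl)
  · exact m.gJ.mem_of_memb m.md.X (by decide +kernel) m.rb
  · exact m.gJ.mem_of_memb m.md.X (by decide +kernel) m.rc

theorem Vc (m : Mo2 F) : F.V ≤ centralizer {F.c} := by
  refine (closure_le _).2 ?_
  rintro y (rfl | rfl)
  · exact mem_centralizer_singleton_iff.2 ((m.rb.commutes_iff m.md.X m.md.K m.rc).1 (by decide +kernel))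
  · exact mem_centralizer_singleton_iff.2 rfl

theorem dec (m : Mo2 F) : ∃ s, s ∉ F.J ∧ s ∉ centralizer {F.c} ∧ ∀ g, g * F.b = F.b * g →
    ∃ v ∈ F.V, ∃ x ∈ F.X5, g = v * x ∨ g = s * (v * x) := by
  have X := m.md.X
  obtain ⟨s, -, rs⟩ := m.gCb.in_of_memb X (x := ps) (by decide +kernel)
  refine ⟨s, m.gJ.not_mem_of_notMemb X (by decide +kernel) rs, fun h => ?_, fun g hb => ?_⟩
  · have := cm_of m rs m.rc (mem_centralizer_singleton_iff.1 h)
    revert this
    decide +kernel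
  have sc := scanA
  simp only [force_eq] at sc
  obtain ⟨p, r, h⟩ := m.gCb.forall_of_allElts X sc g (mem_centralizer_singleton_iff.2 hb)
  simp only [bor_eq_true] at h
  have rel := fun {x y : ℕ} {g g' : _} h r r' =>
    rel_of_sift (x := x) (y := y) (g := g) (g' := g') X m.gX5.K_le m.gX5.low h r r'
  have bc := mul_mem (Dy.bV (F := F)) Dy.cV
  rcases h with h | h | h | h | h | h | h | h
  · exact ⟨1, one_mem _, g, m.gX5.mem_of_memb X h r, .inl (by simp)⟩
  · exact ⟨F.b, Dy.bV, _, rel h r m.rb, .inl (by simp)⟩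
  · exact ⟨F.c, Dy.cV, _, rel h r m.rc, .inl (by simp)⟩
  · exact ⟨_, bc, _, rel h r (m.rb.mul X m.rc), .inl (by group)⟩
  · exact ⟨1, one_mem _, _, rel h r rs, .inr (by simp)⟩
  · exact ⟨F.b, Dy.bV, _, rel h r (rs.mul X m.rb), .inr (by group)⟩
  · exact ⟨F.c, Dy.cV, _, rel h r (rs.mul X m.rc), .inr (by group)⟩
  · exact ⟨_, bc, _, rel h r (rs.mul X (m.rb.mul X m.rc)), .inr (by group)⟩

end MD2

open MD2

theorem Mo2.cJb_ (m : Mo2 F) :
    ∀ g ∈ F.J, g * F.b = F.b * g → ∃ v ∈ F.V, ∃ x ∈ F.X5, g = v * x := by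
  intro g hg hb
  obtain ⟨s, hs, -, h⟩ := dec m
  obtain ⟨v, hv, x, hx, e | rfl⟩ := h g hb
  · exact ⟨v, hv, x, hx, e⟩
  · exact (hs ((mul_mem_cancel_right (mul_mem (VJ m hv) (XJ m hx))).1 hg)).elim

theorem Mo2.cV_ (m : Mo2 F) :
    ∀ g, g * F.b = F.b * g → g * F.c = F.c * g → g ∈ F.J := by
  intro g hb hc
  obtain ⟨s, -, hs, h⟩ := dec m
  obtain ⟨v, hv, x, hx, rfl | rfl⟩ := h g hb
  · exact mul_mem (VJ m hv) (XJ m hx)
  · have xc : x ∈ centralizer {F.c} :=
      mem_centralizer_singleton_iff.2 (cen m m.rc (by decide +kernel) x hx)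
    exact (hs ((mul_mem_cancel_right (mul_mem (Vc m hv) xc)).1 (mem_centralizer_singleton_iff.2 hc))).elim

theorem Mo2.nb_ (m : Mo2 F) :
    ∀ g, g * F.b = F.b * g → g ∈ 𝐍(F.V) ∧ g ∈ 𝐍(F.X5) := by
  intro g hb
  have X := m.md.X
  have e := (m.gCb.base_change' X (ch := chCb) (by decide +kernel) chCb_low (by simp)).2
  have le : grp _ cfg100 (finPt 100) chCb.gens ≤ 𝐍(F.V) ⊓ 𝐍(F.X5) := by
    refine gen_le m (f := fun p => band (commutes cfg100 p pb) (band
      (bor (eqc cfg100 (conjc cfg100 p pc) pc) (eqc cfg100 (conjc cfg100 p pc) (cfg100.mul pb pc)))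
      (allL (fun s => force (conjc cfg100 p s) (memb cfg100 chX5)) chX5.gens))) (by decide +kernel) ?_
    intro x p r h
    simp only [band_eq_true, bor_eq_true] at h
    obtain ⟨h1, h2, h3⟩ := h
    refine ⟨nrm ((closure_le _).2 ?_), nrm_of m m.gX5 m.eX5 r h3⟩
    rintro y (rfl | rfl)
    · change x * F.b * x⁻¹ ∈ F.V
      rw [(r.commutes_iff X m.md.K m.rb).1 h1, mul_inv_cancel_right]
      exact Dy.bV
    · change x * F.c * x⁻¹ ∈ F.V
      rcases h2 with h2 | h2
      · rw [((r.conj X m.rc).eqc_iff X m.md.K m.rc).1 h2]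
        exact Dy.cV
      · rw [((r.conj X m.rc).eqc_iff X m.md.K (m.rb.mul X m.rc)).1 h2]
        exact mul_mem Dy.bV Dy.cV
  rw [e] at le
  exact le (mem_centralizer_singleton_iff.2 hb)

theorem Mo2.cbW_ (m : Mo2 F) :
    ∀ g, g * F.b = F.b * g → g * F.z = F.z * g → g * F.q = F.q * g → g ∈ F.R := by
  intro g hb hz hq
  have X := m.md.X
  obtain ⟨p, r, h⟩ := m.gCb.forall_of_allElts X scanC g (mem_centralizer_singleton_iff.2 hb)
  simp only [bimp_eq_true] at h
  exact m.gR.mem_of_memb X (h (cm_of m r m.rz hz) (cm_of m r m.rq hq)) r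

theorem Mo2.cb (m : Mo2 F) : Cb F := by
  have X := m.md.X
  have K := m.md.K
  exact
  { nzb := m.nzb_
    XJ := XJ m
    isoX := m.isoX_
    zX := m.gX5.mem_of_memb X (by decide +kernel) m.rz
    qX := m.gX5.mem_of_memb X (by decide +kernel) m.rq
    ρX := m.gX5.mem_of_memb X (by decide +kernel) m.rρ
    Xb := cen m m.rb (by decide +kernel)
    Xc := cen m m.rc (by decide +kernel)
    invX := m.invX_
    cJb := m.cJb_
    cV := m.cV_
    nb := m.nb_
    cX := m.cX_
    cbW := m.cbW_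
    b32 := m.b32_
    ωJ := m.gJ.mem_of_memb X (by decide +kernel) m.rω
    ω3 := ((m.rω.pow X 3).eqc_one_iff X K).1 (by decide +kernel)
    ωX := cen m m.rω (by decide +kernel)
    ωb := ((m.rω.conj X m.rb).eqc_iff X K m.rc).1 (by decide +kernel)
    ωc := ((m.rω.conj X m.rc).eqc_iff X K (m.rb.mul X m.rc)).1 (by decide +kernel)
    ωa := (m.rω.commutes_iff X K m.ra).1 (by decide +kernel)
    ρ3 := ((m.rρ.pow X 3).eqc_one_iff X K).1 (by decide +kernel)
    ρz := ((m.rρ.conj X m.rz).eqc_iff X K m.rq).1 (by decide +kernel)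
    ρq := ((m.rρ.conj X m.rq).eqc_iff X K (m.rz.mul X m.rq)).1 (by decide +kernel)
    ρU := nrm_of m m.gU m.eU m.rρ (by decide +kernel)
    lin := m.lin_ }

end H79.JS.MB
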