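import Cfsg.Agent.Lib.JS.MS1

set_option autoImplicit false
set_option maxRecDepth 100000

namespace H79.JS.MB

open H54 H74 H74.J2 Subgroup H69 H36.SW
open H48.SM (Pf)
open scoped commutatorElement

variable {X : Type} [Group X] [Finite X] [MulAction X (Fin 100)] {F : Dy X}

namespace MS2

local notation "cc" => cfg100

noncomputable def lW : List ℕ := [Cfg.one cc, pz, pq, Cfg.mul cc pz pq]
noncomputable def lV : List ℕ := [Cfg.one cc, pb, pc, Cfg.mul cc pb pc]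
noncomputable def inW (p : ℕ) : Bool := force p fun p => anyL (eqc cc p) lW
noncomputable def sq1 (p : ℕ) : Bool := eqc cc (Cfg.mul cc p p) (Cfg.one cc)
noncomputable def ca (p : ℕ) : ℕ := Cfg.mul cc (Cfg.mul cc pa p) pa

theorem k_sq : allL sq1 [pz, pq, pb, pc, pa] = true := by decide +kernel
theorem k_cm : band (commutes cc pz pq) (commutes cc pb pc) = true := by decide +kernel
theorem k_inR : allL (memb cc chR) [pz, pq, pb, pc] = true := by decide +kernel
theorem k_R : allElts cc (fun p => force p fun p =>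
    band (anyL (fun w => anyL (fun v => eqc cc p (Cfg.mul cc w v)) lV) lW)
      (band (sq1 p) (band (memb cc chU p) (force (ca p) (memb cc chU))))) chR (Cfg.one cc) = true := by
  decide +kernel
theorem k_U : allElts cc (fun p => force p fun p =>
    band (memb cc chT p) (band (commutes cc p pz) (band (commutes cc p pq)
      (allL (fun v => inW (Cfg.mul cc (conjc cc p v) v)) lV)))) chU (Cfg.one cc) = true := by
  decide +kernel
theorem k_bW : allL (fun v => bnot (inW v)) [pb, pc, Cfg.mul cc pb pc] = true := by decide +kernel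
theorem k_aW : allL (fun v => inW (ca v)) lW = true := by decide +kernel
theorem k_bc : eqc cc pb pc = false := by decide +kernel
theorem k_aT : memb cc chT pa = true := by decide +kernel
theorem k_aq : eqc cc (ca pq) (Cfg.mul cc pq pz) = true := by decide +kernel
theorem k_aR : notMemb cc chR (ca pb) = true := by decide +kernel
theorem k_inj : allL (fun r => allL (fun v => bimp (commutes cc (ca r) v)
    (bor (eqc cc r (Cfg.one cc)) (eqc cc v (Cfg.one cc)))) lV) lV = true := by decide +kernel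
theorem k_e1 : allElts cc (fun p => force p fun p => bor (inW p)
    (allElts cc (fun t => force t fun t => bimp (commutes cc t p) (memb cc chR t)) chT (Cfg.one cc)))
    chR (Cfg.one cc) = true := by decide +kernel
theorem k_e2 : allElts cc (fun p => force p fun p =>
    bimp (sq1 p) (bor (memb cc chR p) (force (ca p) (memb cc chR)))) chU (Cfg.one cc) = true := by decide +kernel

variable (m : Mo2 F)
include m

theorem sq1_iff {x : X} {p : ℕ} (r : Rep cc (finPt 100) x p) : sq1 p = true ↔ x * x = 1 :=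
  (r.mul m.md.X r).eqc_one_iff m.md.X m.md.K
theorem rca {x : X} {p : ℕ} (r : Rep cc (finPt 100) x p) : Rep cc (finPt 100) (F.a * x * F.a) (ca p) :=
  (m.ra.mul m.md.X r).mul m.md.X m.ra
theorem z2 : F.z * F.z = 1 := (sq1_iff m m.rz).1 ((allL_iff _ _).1 k_sq _ (by simp))
theorem q2 : F.q * F.q = 1 := (sq1_iff m m.rq).1 ((allL_iff _ _).1 k_sq _ (by simp))
theorem b2 : F.b * F.b = 1 := (sq1_iff m m.rb).1 ((allL_iff _ _).1 k_sq _ (by simp))
theorem c2 : F.c * F.c = 1 := (sq1_iff m m.rc).1 ((allL_iff _ _).1 k_sq _ (by simp))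
theorem a2 : F.a * F.a = 1 := (sq1_iff m m.ra).1 ((allL_iff _ _).1 k_sq _ (by simp))
theorem mW {x : X} : x ∈ F.W ↔ x = 1 ∨ x = F.z ∨ x = F.q ∨ x = F.z * F.q :=
  mem_four (z2 m) (q2 m) ((m.rz.commutes_iff m.md.X m.md.K m.rq).1 ((band_eq_true _ _).1 k_cm).1)
theorem mV {x : X} : x ∈ F.V ↔ x = 1 ∨ x = F.b ∨ x = F.c ∨ x = F.b * F.c :=
  mem_four (b2 m) (c2 m) ((m.rb.commutes_iff m.md.X m.md.K m.rc).1 ((band_eq_true _ _).1 k_cm).2)

theorem ofW {p : ℕ} (h : p ∈ lW) : ∃ w ∈ F.W, Rep cc (finPt 100) w p := by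
  simp only [lW, List.mem_cons, List.not_mem_nil, or_false] at h
  rcases h with rfl | rfl | rfl | rfl
  exacts [⟨_, one_mem _, rep_one m.md.X⟩, ⟨_, Dy.zW, m.rz⟩, ⟨_, Dy.qW, m.rq⟩,
    ⟨_, mul_mem Dy.zW Dy.qW, m.rz.mul m.md.X m.rq⟩]
theorem ofV {p : ℕ} (h : p ∈ lV) : ∃ w ∈ F.V, Rep cc (finPt 100) w p := by
  simp only [lV, List.mem_cons, List.not_mem_nil, or_false] at h
  rcases h with rfl | rfl | rfl | rfl
  exacts [⟨_, one_mem _, rep_one m.md.X⟩, ⟨_, Dy.bV, m.rb⟩, ⟨_, Dy.cV, m.rc⟩,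
    ⟨_, mul_mem Dy.bV Dy.cV, m.rb.mul m.md.X m.rc⟩]
theorem toW {w : X} (h : w ∈ F.W) : ∃ p ∈ lW, Rep cc (finPt 100) w p := by
  rcases (mW m).1 h with rfl | rfl | rfl | rfl
  exacts [⟨_, by simp [lW], rep_one m.md.X⟩, ⟨_, by simp [lW], m.rz⟩, ⟨_, by simp [lW], m.rq⟩,
    ⟨_, by simp [lW], m.rz.mul m.md.X m.rq⟩]
theorem toV {w : X} (h : w ∈ F.V) : ∃ p ∈ lV, Rep cc (finPt 100) w p := by
  rcases (mV m).1 h with rfl | rfl | rfl | rfl
  exacts [⟨_, by simp [lV], rep_one m.md.X⟩, ⟨_, by simp [lV], m.rb⟩, ⟨_, by simp [lV], m.rc⟩,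
    ⟨_, by simp [lV], m.rb.mul m.md.X m.rc⟩]

theorem inW_iff {x : X} {p : ℕ} (r : Rep cc (finPt 100) x p) : inW p = true ↔ x ∈ F.W := by
  rw [inW, force_eq, anyL_iff]
  constructor
  · rintro ⟨s, hs, e⟩
    obtain ⟨w, hw, rw⟩ := ofW m hs
    rwa [(r.eqc_iff m.md.X m.md.K rw).1 e]
  · intro h
    obtain ⟨s, hs, rs⟩ := toW m h
    exact ⟨s, hs, r.eqc_of_eq m.md.X rs⟩

theorem sR {x : X} (hx : x ∈ F.R) :
    (∃ w ∈ F.W, ∃ v ∈ F.V, x = w * v) ∧ x * x = 1 ∧ x ∈ F.U ∧ F.a * x * F.a ∈ F.U := by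
  obtain ⟨p, r, h⟩ := m.gR.forall_of_allElts m.md.X k_R x hx
  simp only [force_eq, band_eq_true, anyL_iff] at h
  obtain ⟨⟨s, hs, t, ht, e⟩, h2, h3, h4⟩ := h
  obtain ⟨w, hw, rw⟩ := ofW m hs
  obtain ⟨v, hv, rv⟩ := ofV m ht
  exact ⟨⟨w, hw, v, hv, (r.eqc_iff m.md.X m.md.K (rw.mul m.md.X rv)).1 e⟩, (sq1_iff m r).1 h2,
    m.gU.mem_of_memb m.md.X h3 r, m.gU.mem_of_memb m.md.X h4 (rca m r)⟩

theorem sU {x : X} (hx : x ∈ F.U) :
    x ∈ F.T ∧ (∀ w ∈ F.W, x * w = w * x) ∧ ∀ v ∈ F.V, x * v * x⁻¹ * v ∈ F.W := by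
  obtain ⟨p, r, h⟩ := m.gU.forall_of_allElts m.md.X k_U x hx
  simp only [force_eq, band_eq_true, allL_iff] at h
  obtain ⟨h1, h2, h3, h4⟩ := h
  have e2 : Commute x F.z := (r.commutes_iff m.md.X m.md.K m.rz).1 h2
  have e3 : Commute x F.q := (r.commutes_iff m.md.X m.md.K m.rq).1 h3
  refine ⟨m.gT.mem_of_memb m.md.X h1 r, fun w hw => ?_, fun v hv => ?_⟩
  · rcases (mW m).1 hw with rfl | rfl | rfl | rfl
    exacts [by simp, e2, e3, e2.mul_right e3]
  · obtain ⟨s, hs, rs⟩ := toV m hv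
    exact (inW_iff m ((r.conj m.md.X rs).mul m.md.X rs)).1 (h4 s hs)

theorem WR : F.W ≤ F.R := (closure_le _).2 (by
  rintro _ (rfl | rfl)
  exacts [m.gR.mem_of_memb m.md.X ((allL_iff _ _).1 k_inR _ (by simp)) m.rz,
    m.gR.mem_of_memb m.md.X ((allL_iff _ _).1 k_inR _ (by simp)) m.rq])
theorem VR : F.V ≤ F.R := (closure_le _).2 (by
  rintro _ (rfl | rfl)
  exacts [m.gR.mem_of_memb m.md.X ((allL_iff _ _).1 k_inR _ (by simp)) m.rb,
    m.gR.mem_of_memb m.md.X ((allL_iff _ _).1 k_inR _ (by simp)) m.rc])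
theorem cardR : Nat.card F.R = 16 := (m.gR.card m.md.X m.md.K).trans chR_size
theorem cardU : Nat.card F.U = 64 := (m.gU.card m.md.X m.md.K).trans chU_size
theorem cardT : Nat.card F.T = 128 := (m.gT.card m.md.X m.md.K).trans chT_size
theorem aT : F.a ∈ F.T := m.gT.mem_of_memb m.md.X k_aT m.ra

theorem cenR {x t : X} (hx : x ∈ F.R) (hn : x ∉ F.W) (ht : t ∈ F.T) (e : t * x = x * t) : t ∈ F.R := by
  obtain ⟨p, r, h⟩ := m.gR.forall_of_allElts m.md.X k_e1 x hx
  rw [force_eq, bor_eq_true] at h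
  obtain ⟨s, rs, h⟩ := m.gT.forall_of_allElts m.md.X
    (h.resolve_left fun h' => hn ((inW_iff m r).1 h')) t ht
  rw [force_eq, bimp_eq_true] at h
  exact m.gR.mem_of_memb m.md.X (h ((rs.commutes_iff m.md.X m.md.K r).2 e)) rs

theorem invU {x : X} (hx : x ∈ F.U) (h2 : x * x = 1) : x ∈ F.R ∨ F.a * x * F.a ∈ F.R := by
  obtain ⟨p, r, h⟩ := m.gU.forall_of_allElts m.md.X k_e2 x hx
  simp only [force_eq, bimp_eq_true, bor_eq_true] at h
  exact (h ((sq1_iff m r).2 h2)).imp (fun h => m.gR.mem_of_memb m.md.X h r)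
    fun h => m.gR.mem_of_memb m.md.X h (rca m r)

theorem aq : F.a * F.q * F.a = F.q * F.z :=
  ((rca m m.rq).eqc_iff m.md.X m.md.K (m.rq.mul m.md.X m.rz)).1 k_aq

theorem nW {v : X} {p : ℕ} (hp : p ∈ [pb, pc, Cfg.mul cc pb pc]) (r : Rep cc (finPt 100) v p) : v ∉ F.W :=
  fun h => (bnot_eq_true _).1 ((allL_iff _ _).1 k_bW p hp) ((inW_iff m r).2 h)

theorem cardW : Nat.card F.W ≤ 4 := by
  classical
  have : (F.W : Set X) ⊆ ({1, F.z, F.q, F.z * F.q} : Finset X) := fun x hx => by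
    simpa using (mW m).1 hx
  refine (Set.ncard_le_ncard this).trans ?_
  rw [Set.ncard_coe_finset]
  exact Finset.card_le_four

end MS2

open MS2

theorem Mo2.memR_ (m : Mo2 F) :
    ∀ x, x ∈ F.R ↔ ∃ w ∈ F.W, ∃ v ∈ F.V, x = w * v := by
  refine fun x => ⟨fun hx => (sR m hx).1, ?_⟩
  rintro ⟨w, hw, v, hv, rfl⟩
  exact mul_mem (WR m hw) (VR m hv)

theorem Mo2.e16_ (m : Mo2 F) :
    ∀ E ≤ F.T, (∀ x ∈ E, x * x = 1) → 16 ≤ Nat.card E → E = F.R ∨ E = F.R ^ᶜ F.a := by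
  have UT : F.U ≤ F.T := fun x hx => (sU m hx).1
  have ai : F.a⁻¹ = F.a := inv_eq_of_mul_eq_one_left (a2 m)
  have main : ∀ E ≤ F.T, (∀ x ∈ E, x * x = 1) → 16 ≤ Nat.card E → ∀ x ∈ E, x ∈ F.R → x ∉ F.W → E = F.R := by
    intro E hE h2 h16 x hx hR hW
    refine eq_of_le_of_card_ge (fun t ht => cenR m hR hW (hE ht) ?_) (by rwa [cardR m])
    rw [← inv_eq_of_mul_eq_one_left (h2 _ (mul_mem ht hx)), mul_inv_rev,
      inv_eq_of_mul_eq_one_left (h2 x hx), inv_eq_of_mul_eq_one_left (h2 t ht)]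
  intro E hE h2 h16
  have i2 : F.U.relIndex F.T = 2 := by
    have := card_mul_index (F.U.subgroupOf F.T)
    rw [Nat.card_congr (subgroupOfEquivOfLe UT).toEquiv, cardU m, cardT m] at this
    change 64 * F.U.relIndex F.T = 128 at this
    omega
  have i1 : F.U.relIndex E ≤ 2 := i2 ▸ relIndex_le_of_le_right hE (by rw [i2]; norm_num)
  have i3 : Nat.card ↥(F.U ⊓ E) * F.U.relIndex E = Nat.card E := by
    have := card_mul_index (F.U.subgroupOf E)
    rwa [← inf_subgroupOf_right, Nat.card_congr (subgroupOfEquivOfLe inf_le_right).toEquiv,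
      inf_subgroupOf_right] at this
  have hn : ¬ F.U ⊓ E ≤ F.W := fun h => by
    have h1 := (card_le_of_le h).trans (cardW m)
    have := Nat.mul_le_mul h1 i1
    omega
  obtain ⟨x, hx, hW⟩ := SetLike.not_le_iff_exists.1 hn
  rcases invU m hx.1 (h2 x hx.2) with h | h
  · exact Or.inl (main E hE h2 h16 x hx.2 h hW)
  · right
    rw [← ai, ← cj_eq_iff]
    refine main _ (cj_le_of_mem hE (aT m)) (fun y hy => ?_) (by rwa [card_cj]) (F.a * x * F.a)
      (by simpa [ai] using cj_mem F.a hx.2) h fun hw => hW ?_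
    · obtain ⟨y', hy', rfl⟩ := mem_cj'.1 hy
      rw [conj_mul, h2 y' hy', mul_one, mul_inv_cancel]
    · obtain ⟨p, hp, r⟩ := toW m hw
      have e : x = F.a * (F.a * x * F.a) * F.a := by
        rw [← mul_assoc, ← mul_assoc, a2 m, one_mul, mul_assoc, a2 m, mul_one]
      rw [e]
      exact (inW_iff m (rca m r)).1 ((allL_iff _ _).1 k_aW p hp)

theorem Mo2.sy (m : Mo2 F) : Sy F := by
  refine
    { ctr := m.ctr_
      genT := m.genT_
      invT := m.invT_
      outT := m.outT_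
      memR := m.memR_
      cardR := cardR m
      R2 := fun x hx => (sR m hx).2.1
      RU := fun x hx => (sR m hx).2.2.1
      UT := fun x hx => (sU m hx).1
      cardU := cardU m
      RB := m.RB_
      bW := fun v hv hw => ?_
      b1 := fun e => nW m (by simp) m.rb (e ▸ one_mem _)
      c1 := fun e => nW m (by simp) m.rc (e ▸ one_mem _)
      bc1 := fun e => by simpa [k_bc] using (m.rb.eqc_iff m.md.X m.md.K m.rc).2 e
      UW := fun u hu => (sU m hu).2.1
      UR := fun u hu x hx => ?_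
      aT := aT m
      a2 := a2 m
      aq := aq m
      aU := fun x hx => (sR m hx).2.2.2
      aR := m.gR.not_mem_of_notMemb m.md.X k_aR (rca m m.rb)
      inj := fun r hr v hv e => ?_
      e16 := m.e16_
      z2T := m.z2T_ }
  · rcases (mV m).1 hv with rfl | rfl | rfl | rfl
    exacts [rfl, absurd hw (nW m (by simp) m.rb), absurd hw (nW m (by simp) m.rc),
      absurd hw (nW m (by simp) (m.rb.mul m.md.X m.rc))]
  · obtain ⟨w, hw, v, hv, rfl⟩ := (sR m hx).1
    have vU := (sR m (VR m hv)).2.2.1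
    have e1 := (sU m hu).2.1 w hw
    have e2 := (sU m (mul_mem (mul_mem hu vU) (inv_mem hu))).2.1 w hw
    have e3 := (sR m (WR m hw)).2.1
    have : u * (w * v) * u⁻¹ * (w * v) = u * v * u⁻¹ * v := by
      calc u * (w * v) * u⁻¹ * (w * v) = w * (u * v * u⁻¹ * w) * v := by rw [← mul_assoc u, e1]; group
        _ = _ := by rw [e2, ← mul_assoc w w, e3, one_mul]
    rw [this]
    exact (sU m hu).2.2 v hv
  · obtain ⟨p, hp, rp⟩ := toV m hr
    obtain ⟨s, hs, rs⟩ := toV m hv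
    have := (allL_iff _ _).1 ((allL_iff _ _).1 k_inj p hp) s hs
    rw [bimp_eq_true, bor_eq_true, rp.eqc_one_iff m.md.X m.md.K, rs.eqc_one_iff m.md.X m.md.K] at this
    exact this (((rca m rp).commutes_iff m.md.X m.md.K rs).2 e)

end H79.JS.MB
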