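import Cfsg.Agent.Lib.JS.D0

set_option autoImplicit false
set_option linter.unusedSectionVars false

namespace H79.JS

open Subgroup H69 H36.SW
open H48.SM (Pf)
open scoped commutatorElement

variable {X : Type} [Group X] [Finite X] {G : Type*} [Group G] [Finite G] {F : Dy X}
variable {t : G} {L O A V Y I S : Subgroup G} {α : G → X} {h e : X → G}

namespace NC

theorem cardV (H : Fx F) : Nat.card F.V = 4 := by
  have e : F.V = zpowers F.b ⊔ zpowers F.c := by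
    rw [Dy.V, Set.insert_eq, Subgroup.closure_union, ← zpowers_eq_closure, ← zpowers_eq_closure]
  rw [e, card_sup_comm, card_zp H.b2 H.b1, card_zp H.c2 H.c1]
  · intro a ha b hb
    exact H.Rc (zpowers_le.2 H.bR ha) (zpowers_le.2 H.cR hb)
  · intro a ha hb
    rcases (mem_zp H.b2).1 ha with k | k
    · exact k
    · rcases (mem_zp H.c2).1 hb with l | l
      · exact l
      · exact absurd (k.symm.trans l) H.bc1

theorem exP (H : Fx F) (x : Es F t L O α h e A) : ∃ P : Subgroup G, IsPGroup 2 P ∧ 64 < Nat.card P ∧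
    ∀ r ∈ F.R, ∀ p ∈ P, p * h r = h r * p := by
  have c := x.toWe.toW0.toIso
  have av : ∀ a ∈ A, ∀ v ∈ F.V, a * h v = h v * a := fun a ha v hv =>
    (x.cW v (H.VJ hv) (H.Rc (H.VR hv) (H.WR Dy.zW)) (H.Rc (H.VR hv) (H.WR Dy.qW)) a ha).symm
  have cAV : ∀ a ∈ A, ∀ v ∈ c.hat F.V, a * v = v * a := by
    intro a ha v hv
    obtain ⟨y, hy, rfl⟩ := (c.mem_hat H.VJ).1 hv
    exact av a ha y hy
  have cB : Nat.card (A ⊔ c.hat F.V : Subgroup G) = 64 := by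
    rw [card_sup_comm cAV, x.ab.card, c.card_hat H.VJ, cardV H]
    intro a ha hv
    obtain ⟨y, hy, rfl⟩ := (c.mem_hat H.VJ).1 hv
    obtain ⟨w, hw, k⟩ := x.ab.fix _ ha (x.toWe.toW0.ht (H.VJ hy))
    rw [H.bW y hy (c.hinj (H.VJ hy) (H.WJ hw) k ▸ hw), c.one]
  have pB : IsPGroup 2 (A ⊔ c.hat F.V : Subgroup G) := isP_of_P2 fun y hy => by
    obtain ⟨a, ha, v, hv, rfl⟩ := (mem_sup_comm cAV).1 hy
    exact (P2.of_mem x.ab.p2 ha).mul (P2.of_mem (c.isP_hat (H.pR.to_le H.VR)) hv) (cAV a ha v hv)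
  have nB : zpowers t ≤ 𝐍(A ⊔ c.hat F.V) := le_normalizer_sup (zpowers_le.2 x.ab.tA)
    (le_normalizer_of_le_centralizer (zpowers_le.2 (centralizer_anti (c.hat_le _) x.tL)))
  have tB : t ∉ A ⊔ c.hat F.V := by
    intro k
    obtain ⟨a, ha, v, hv, k⟩ := (mem_sup_comm cAV).1 k
    obtain ⟨y, hy, l⟩ := x.ab.tr _ Dy.zW
    have : y * t * y⁻¹ = t := by
      rw [cj_fix, k, ← mul_assoc, x.ab.ab y hy a ha, mul_assoc, cAV y hy v hv, mul_assoc]
    rw [this, left_eq_mul] at l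
    exact c.ne H.zJ H.z1 l
  refine ⟨(A ⊔ c.hat F.V) ⊔ zpowers t, pB.to_sup_of_normal_left' (P2.of_sq x.t2).zpowers nB, ?_, fun r hr => ?_⟩
  · by_contra k
    have := Subgroup.eq_of_le_of_card_ge (le_sup_left : A ⊔ c.hat F.V ≤ (A ⊔ c.hat F.V) ⊔ zpowers t) (by omega)
    exact tB (this ▸ mem_sup_right (mem_zpowers t))
  · have : (A ⊔ c.hat F.V) ⊔ zpowers t ≤ centralizer {h r} := by
      refine sup_le (sup_le (fun a ha => ?_) fun v hv => ?_) (zpowers_le.2 ?_) <;>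
        rw [mem_centralizer_singleton_iff]
      · obtain ⟨w, hw, v, hv, rfl⟩ := (H.memR r).1 hr
        rw [c.mul (H.WJ hw) (H.VJ hv), ← mul_assoc, x.ab.ab a ha _ (x.ab.YA w hw), mul_assoc, av a ha v hv,
          mul_assoc]
      · obtain ⟨y, hy, rfl⟩ := (c.mem_hat H.VJ).1 hv
        exact c.comm (H.VJ hy) (H.RJ hr) (H.Rc (H.VR hy) hr)
      · exact (x.toWe.toW0.ht (H.RJ hr)).symm
    exact fun p hp => mem_centralizer_singleton_iff.1 (this hp)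

theorem main (H : Fx F) (x : Es F t L O α h e A) (k : G) (hk : k * h F.b * k⁻¹ = t) : False := by
  have w := x.toWe.toW0
  have c := w.toIso
  obtain ⟨P, pP, cP, hP⟩ := exP H x
  have ct : ∀ y, y * h F.b = h F.b * y → k * y * k⁻¹ * t = t * (k * y * k⁻¹) := fun y hy => hk ▸ cjc hy
  have rb : ∀ r ∈ F.R, h r * h F.b = h F.b * h r := fun r hr => c.comm (H.RJ hr) H.bJ (H.Rb r hr)
  have rN : ∀ r ∈ F.R, k * h r * k⁻¹ ∈ 𝐍(L) := fun r hr => w.CN _ (ct _ (rb r hr))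
  have Et : ∀ y ∈ P ^ᶜ k, y * t = t * y := by
    intro y hy
    obtain ⟨a, ha, rfl⟩ := mem_cj'.1 hy
    exact ct a (hP _ H.bR a ha)
  have EN : P ^ᶜ k ≤ 𝐍(L) := fun y hy => w.CN y (Et y hy)
  have pE := isPGroup_cj pP k
  have pI := c.cov.isP_im pE
  have cI : 32 < Nat.card (c.cov.im (P ^ᶜ k)) := by
    have e1 := c.cov.card_im EN
    have e2 : Nat.card ((P ^ᶜ k) ⊓ 𝐂(L) : Subgroup G) ≤ Nat.card (zpowers t) := card_le_of_le fun y hy =>
      (mem_zp w.t2).2 (w.ker_P2 hy.2 (Et y hy.1) (P2.of_mem pE hy.1))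
    rw [card_zp w.t2 w.t1] at e2
    rw [card_cj] at e1
    by_contra l
    have := Nat.mul_le_mul (not_lt.1 l) e2
    omega
  have sq : ∀ r ∈ F.R, k * h r * k⁻¹ * (k * h r * k⁻¹) = 1 := fun r hr => by
    rw [conj_mul, c.sq (H.RJ hr) (H.R2 r hr), mul_one, mul_inv_cancel]
  have ker : ∀ r ∈ F.R, α (k * h r * k⁻¹) = 1 → r = 1 ∨ r = F.b := by
    intro r hr l
    rcases w.ker_P2 ((c.cov.ker _ (rN r hr)).1 l) (ct _ (rb r hr)) (P2.of_sq (sq r hr)) with m | m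
    · exact Or.inl (by_contra fun n => c.ne (H.RJ hr) n (conj_eq_one_iff.1 m))
    · rw [← hk] at m
      exact Or.inr (c.hinj (H.RJ hr) H.bJ (mul_left_cancel (mul_right_cancel m)))
  have mu : ∀ r ∈ F.R, ∀ s ∈ F.R, α (k * h (r * s) * k⁻¹) = α (k * h r * k⁻¹) * α (k * h s * k⁻¹) :=
    fun r hr s hs => by rw [c.mul (H.RJ hr) (H.RJ hs), ← conj_mul, c.cov.mul _ (rN r hr) _ (rN s hs)]
  have cm : ∀ r ∈ F.R, ∀ s ∈ F.R, α (k * h r * k⁻¹) * α (k * h s * k⁻¹) = α (k * h s * k⁻¹) * α (k * h r * k⁻¹) :=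
    fun r hr s hs => by rw [← mu r hr s hs, ← mu s hs r hr, H.Rc hr hs]
  have zc : ∀ r ∈ F.R, r ≠ 1 → r ≠ F.b → F.Zc (α (k * h r * k⁻¹)) := by
    intro r hr r1 r2
    have y2 := c.cov.sq (rN r hr) (sq r hr)
    have cy : ∀ a ∈ c.cov.im (P ^ᶜ k), a * α (k * h r * k⁻¹) = α (k * h r * k⁻¹) * a := by
      intro a ha
      obtain ⟨y, hy, yN, rfl⟩ := c.cov.mem_im.1 ha
      obtain ⟨p, hp, rfl⟩ := mem_cj'.1 hy
      exact c.cov.comm yN (rN r hr) (cjc (hP r hr p hp))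
    by_cases hJ : α (k * h r * k⁻¹) ∈ F.J
    · rcases H.inv hJ y2 with l | l | ⟨j, hj, l⟩
      · exact ((ker r hr l).elim r1 r2).elim
      · exact l
      · have := H.b32 _ (isPGroup_cj pI j⁻¹) fun y hy => by
          have := cy _ (mem_cj.1 hy)
          rw [← l, inv_inv, conj_mul, conj_mul] at this
          exact mul_left_cancel (mul_right_cancel this)
        rw [card_cj] at this
        omega
    · have := H.ext3 pI hJ y2 cy
      omega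
  have nb : ∀ v ∈ F.W, v ≠ F.b := fun v hv l => H.b1 (H.bW _ Dy.bV (l ▸ hv))
  have zR := H.WR Dy.zW
  have qR := H.WR Dy.qW
  have z1 := zc _ zR H.z1 (nb _ Dy.zW)
  have z2 := zc _ qR (H.Zc_ne H.Zq) (nb _ Dy.qW)
  have z3 := zc _ H.cR H.c1 H.bc1.symm
  obtain ⟨j, hj, e1, e2⟩ := H.tyJ' z1 z2 (cm _ zR _ qR) fun l => by
    have := mu _ zR _ qR
    rw [← l, H.Zc_sq z1] at this
    exact (ker _ (mul_mem zR qR) this).elim (H.Zc_ne H.Zzq) (nb _ (mul_mem Dy.zW Dy.qW))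
  obtain ⟨y, hy⟩ : ∃ y, α (k * h F.c * k⁻¹) = j * y * j⁻¹ := ⟨j⁻¹ * α (k * h F.c * k⁻¹) * j, by group⟩
  have cz := cm _ H.cR _ zR
  have cq := cm _ H.cR _ qR
  rw [hy, ← e1, conj_mul, conj_mul] at cz
  rw [hy, ← e2, conj_mul, conj_mul] at cq
  have yW := H.pure y (Dy.Zc.of_cj hj (hy ▸ z3)) (mul_left_cancel (mul_right_cancel cz))
    (mul_left_cancel (mul_right_cancel cq))
  obtain ⟨v, hv, l⟩ : ∃ v ∈ F.W, α (k * h v * k⁻¹) = j * y * j⁻¹ := by
    rcases H.mem_W.1 yW with rfl | rfl | rfl | rfl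
    · exact ⟨1, one_mem _, by rw [c.one, mul_one, mul_inv_cancel, c.cov.one, mul_one, mul_inv_cancel]⟩
    · exact ⟨_, Dy.zW, e1.symm⟩
    · exact ⟨_, Dy.qW, e2.symm⟩
    · exact ⟨_, mul_mem Dy.zW Dy.qW, by rw [mu _ zR _ qR, ← e1, ← e2, conj_mul]⟩
  have := mu _ H.cR _ (H.WR hv)
  rw [l, ← hy, H.Zc_sq z3] at this
  rcases ker _ (mul_mem H.cR (H.WR hv)) this with m | m
  · exact H.c1 (H.bW _ Dy.cV (by rw [eq_inv_of_mul_eq_one_left m]; exact inv_mem hv))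
  · have : F.c⁻¹ * F.b = 1 := H.bW _ (mul_mem (inv_mem Dy.cV) Dy.bV) (by rwa [← m, inv_mul_cancel_left])
    exact H.bc1 (inv_mul_eq_one.1 this).symm

end NC

theorem Es.nL (H : Fx F) (x : Es F t L O α h e A) (g : G) : g * t * g⁻¹ ∉ L := by
  intro hg
  have w := x.toWe.toW0
  have c := w.toIso
  obtain ⟨j, hj, l⟩ := c.ex hg
  have j2 : j * j = 1 := c.hinj (mul_mem hj hj) (one_mem _) (by
    rw [c.mul hj hj, l, c.one, conj_mul, w.t2, mul_one, mul_inv_cancel])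
  rcases H.inv hj j2 with rfl | hz | ⟨k, hk, rfl⟩
  · rw [c.one] at l
    exact w.t1 (conj_eq_one_iff.1 l.symm)
  · exact w.not_conj H g hz l.symm
  · rw [c.cj hk H.bJ] at l
    refine NC.main H x (g⁻¹ * h k) ?_
    calc g⁻¹ * h k * h F.b * (g⁻¹ * h k)⁻¹ = g⁻¹ * (h k * h F.b * (h k)⁻¹) * g := by group
      _ = t := by rw [l]; group

end H79.JS
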