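import Cfsg.Agent.Lib.JS.Defs2
import Cfsg.Agent.Lib.A7S.Gen

set_option autoImplicit false
set_option linter.unusedSectionVars false

namespace H79.JS

open Subgroup H69 H36.SW
open H48.SM (Pf)
open scoped commutatorElement

variable {X : Type} [Group X] [Finite X] {G : Type*} [Group G] [Finite G] {F : Dy X}
variable {t : G} {L O A V Y I S : Subgroup G} {α : G → X} {h e : X → G}

namespace TW1

/-- the facts used, inside `G` -/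
structure Cx (t ω z q : G) (L V I A W S : Subgroup G) : Prop where
  t2 : t * t = 1
  tV : t ∈ 𝐂(V)
  V2 : ∀ v ∈ V, v * v = 1
  VL : V ≤ L
  WL : W ≤ L
  nL : ∀ g, g * t * g⁻¹ ∉ L
  nV : ∀ g, ∀ v ∈ V, g * t * g⁻¹ = t * v → v = 1
  IH : I ≤ 𝐂(V)
  nI : 𝐂(V) ≤ 𝐍(I)
  cI : ∀ x ∈ 𝐂(V), x ∈ 𝐂(I) → P2 x → x ∈ V
  lu : H79.JO.LU I
  AI : A ≤ I
  ab : ∀ x ∈ A, ∀ y ∈ A, x * y = y * x
  cA : Nat.card A = 16
  WA : W ≤ A
  Wt : ∀ w ∈ W, w * t = t * w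
  W2 : ∀ w ∈ W, w * w = 1
  tr : ∀ w ∈ W, ∃ a ∈ A, a * t * a⁻¹ = t * w ∧ a * a = w
  zW : z ∈ W
  qW : q ∈ W
  z1 : z ≠ 1
  q1 : q ≠ 1
  zq1 : z * q ≠ 1
  WV : ∀ w ∈ W, w ∈ V → w = 1
  cW : Nat.card W ≤ 4
  ωt : ω * t = t * ω
  ωA : ∀ a ∈ A, ω * a = a * ω
  ωV : ∀ v ∈ V, ω * v * ω⁻¹ ∈ V
  ωf : ∀ v ∈ V, ω * v * ω⁻¹ = v → v = 1
  ct : ∀ x ∈ 𝐂(V), P2 x → x * t = t * x → ∃ v ∈ V, ∃ y ∈ I, (x = v * y ∨ x = v * y * t) ∧
    ((∀ w ∈ W, y * w * y⁻¹ * w ∈ V) → ∃ w ∈ W, ∃ v' ∈ V, y = w * v')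
  syl : IsSylowIn 2 S 𝐂(V)
  tS : t ∈ S
  AS : A ≤ S

namespace Cx

variable {ω z q : G} {W : Subgroup G} (c : Cx t ω z q L V I A W S)
include c

theorem ti : t⁻¹ = t := inv_eq_of_mul_eq_one_right c.t2

theorem tt (x : G) : t * (t * x) = x := by rw [← mul_assoc, c.t2, one_mul]

theorem VH : V ≤ 𝐂(V) := fun _ hv _ hu => comm_of_sq c.V2 hu hv

theorem VS : V ≤ S :=
  c.syl.le_of_le_normalizer (isP_of_P2 fun v hv => P2.of_sq (c.V2 v hv)) c.VH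
    (c.syl.le.trans (centralizer_le_normalizer _))

theorem VC : V ≤ 𝐂(I) := fun v hv _ hi => (c.IH hi v hv).symm

theorem cv {x v : G} (hx : x ∈ 𝐂(V)) (hv : v ∈ V) : x * v * x⁻¹ = v := conj_eq_of_mem_centralizer hx hv

theorem cv' {x v : G} (hx : x ∈ 𝐂(V)) (hv : v ∈ V) : v * x = x * v := hx v hv

theorem dec {x : G} (hx : x ∈ I ⊔ V) : ∃ i ∈ I, ∃ v ∈ V, x = i * v :=
  (mem_sup_of_le_normalizer_right (c.IH.trans (centralizer_le_normalizer _))).1 hx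

theorem decS {x : G} (hs : x ∈ S) (hx : x ∈ I ⊔ V) : ∃ p ∈ S ⊓ I, ∃ v ∈ V, x = p * v := by
  obtain ⟨i, hi, v, hv, rfl⟩ := c.dec hx
  exact ⟨i, ⟨(mul_mem_cancel_right (c.VS hv)).1 hs, hi⟩, v, hv, rfl⟩

theorem sqv {i v : G} (hi : i ∈ 𝐂(V)) (hv : v ∈ V) : i * v * (i * v) = i * i := by
  rw [mul_assoc, ← mul_assoc v, c.cv' hi hv, mul_assoc, c.V2 v hv, mul_one]

theorem inV {x : G} (hs : x ∈ S) (hx : x ∈ 𝐂(I)) : x ∈ V :=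
  c.cI x (c.syl.le hs) hx (P2.of_mem c.syl.isP hs)

theorem wC {w : G} (hw : w ∈ W) (hx : w ∈ 𝐂(I)) : w = 1 := c.WV w hw (c.inV (c.AS (c.WA hw)) hx)

theorem nIV (g : G) : g * t * g⁻¹ ∉ I ⊔ V := fun m => by
  obtain ⟨i, hi, v, hv, e⟩ := c.dec m
  have i2 : i * i = 1 := by rw [← c.sqv (c.IH hi) hv, ← e]; exact cjsq c.t2 g
  by_cases hc : i ∈ 𝐂(I)
  · exact c.nL g (e ▸ c.VL (mul_mem (c.cI i (c.IH hi) hc (P2.of_sq i2)) hv))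
  have zI := c.AI (c.WA c.zW)
  have z2 := c.W2 z c.zW
  obtain ⟨k, hk, m⟩ := c.lu.one i hi z zI hc (fun m => c.z1 (c.wC c.zW m)) (i2 ▸ one_mem _) (z2 ▸ one_mem _)
  have kI : k * i * k⁻¹ ∈ I := mul_mem (mul_mem hk hi) (inv_mem hk)
  have e1 : k * i * k⁻¹ * z * (k * i * k⁻¹ * z) = 1 := by
    have c1 := m z zI
    calc k * i * k⁻¹ * z * (k * i * k⁻¹ * z) = k * i * k⁻¹ * (z * (k * i * k⁻¹ * z)) := by group
      _ = k * i * k⁻¹ * (k * i * k⁻¹) * (z * z) := by rw [c1]; group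
      _ = 1 := by rw [cjsq i2, z2, one_mul]
  have mV := c.cI _ (c.IH (mul_mem kI zI)) m (P2.of_sq e1)
  refine c.nL (k * g) ?_
  have e2 : k * g * t * (k * g)⁻¹ = k * i * k⁻¹ * z * z⁻¹ * (k * v * k⁻¹) := by
    calc k * g * t * (k * g)⁻¹ = k * (g * t * g⁻¹) * k⁻¹ := by group
      _ = _ := by rw [e]; group
  rw [e2, c.cv (c.IH hk) hv]
  exact mul_mem (mul_mem (c.VL mV) (inv_mem (c.WL c.zW))) (c.VL hv)

theorem tI : t ∉ I ⊔ V := by simpa using c.nIV 1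

theorem pP : IsPGroup 2 (S ⊓ I : Subgroup G) := c.syl.isP.to_le inf_le_left

theorem AP : A ≤ S ⊓ I := le_inf c.AS c.AI

theorem swP {p w : G} (hp : p ∈ S ⊓ I) (hw : w ∈ W) : p * w * p⁻¹ * w ∈ V := by
  obtain ⟨a, ha, -, e⟩ := c.tr w hw
  have m := inv_mem (c.lu.sqc _ inf_le_right c.pP a (c.AP ha) p hp)
  rw [e, show (w * p * w⁻¹ * p⁻¹)⁻¹ = p * w * p⁻¹ * w⁻¹ by group, inv_eq_of_mul_eq_one_right (c.W2 w hw)] at m
  have wS := c.AS (c.WA hw)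
  exact c.inV (mul_mem (mul_mem (mul_mem hp.1 wS) (inv_mem hp.1)) wS) m

theorem sqP {p : G} (hp : p ∈ S ⊓ I) : ∃ w ∈ W, ∃ v ∈ V, p * p = w * v := by
  obtain ⟨a, ha, -, ea⟩ := c.tr z c.zW
  obtain ⟨b, hb, -, eb⟩ := c.tr q c.qW
  have k : ∀ w ∈ W, p * p * w ∈ 𝐂(I) → ∃ w ∈ W, ∃ v ∈ V, p * p = w * v := fun w hw m => by
    have mV := c.inV (mul_mem (mul_mem hp.1 hp.1) (c.AS (c.WA hw))) m
    refine ⟨w, hw, _, mV, ?_⟩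
    rw [← c.cv' (c.IH (c.AI (c.WA hw))) mV, mul_assoc, c.W2 w hw, mul_one]
  have := c.lu.sq4 _ inf_le_right c.pP a (c.AP ha) b (c.AP hb)
  rw [ea, eb] at this
  rcases this (fun m => c.z1 (c.wC c.zW m)) (fun m => c.q1 (c.wC c.qW m))
    (fun m => c.zq1 (c.wC (mul_mem c.zW c.qW) m)) p hp with m | m | m | m
  · exact k 1 (one_mem _) (by rwa [mul_one])
  · exact k _ c.zW m
  · exact k _ c.qW m
  · exact k _ (mul_mem c.zW c.qW) m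

theorem cent {x : G} (hs : x ∈ S) (e : x * t = t * x) : ∃ w ∈ W, ∃ v ∈ V, x = w * v ∨ x = w * v * t := by
  obtain ⟨v, hv, y, hy, e1, k⟩ := c.ct x (c.syl.le hs) (P2.of_mem c.syl.isP hs) e
  have yS : y ∈ S := by
    rcases e1 with rfl | rfl
    · exact (mul_mem_cancel_left (c.VS hv)).1 hs
    · exact (mul_mem_cancel_left (c.VS hv)).1 ((mul_mem_cancel_right c.tS).1 hs)
  obtain ⟨w, hw, v', hv', rfl⟩ := k fun w hw => c.swP ⟨yS, hy⟩ hw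
  refine ⟨w, hw, v * v', mul_mem hv hv', ?_⟩
  rwa [← mul_assoc v, c.cv' (c.IH (c.AI (c.WA hw))) hv, mul_assoc w] at e1

theorem WVI {w v : G} (hw : w ∈ W) (hv : v ∈ V) : w * v ∈ I ⊔ V := mul_mem_sup (c.AI (c.WA hw)) hv

theorem centU {x : G} (hs : x ∈ S) (hx : x ∈ I ⊔ V) (e : x * t = t * x) : ∃ w ∈ W, ∃ v ∈ V, x = w * v := by
  obtain ⟨w, hw, v, hv, e1 | e1⟩ := c.cent hs e
  · exact ⟨w, hw, v, hv, e1⟩
  · exact absurd ((mul_mem_cancel_left (c.WVI hw hv)).1 (e1 ▸ hx)) c.tI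

/-- an involution `t y` has `y ∈ A V` -/
theorem invU {y : G} (hs : y ∈ S) (hy : y ∈ I ⊔ V) (e : t * y * (t * y) = 1) : ∃ a ∈ A, ∃ v ∈ V, y = a * v := by
  obtain ⟨p, hp, v0, hv0, ey⟩ := c.decS hs hy
  obtain ⟨w, hw, v, hv, e1⟩ := c.sqP hp
  rw [← c.sqv (c.IH hp.2) hv0, ← ey] at e1
  obtain ⟨a, ha, ea, -⟩ := c.tr w hw
  have e2 : y * t * y⁻¹ = t * w * v := by
    have e0 : y * t * y = t := by
      calc y * t * y = t * (t * y * (t * y)) := by rw [mul_assoc t y, c.tt, mul_assoc]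
        _ = t := by rw [e, mul_one]
    have e3 : t * y⁻¹ = y * t := by rw [mul_inv_eq_iff_eq_mul, e0]
    rw [mul_assoc, e3, ← mul_assoc, e1, mul_assoc, c.cv' c.tV hv, ← mul_assoc, c.Wt w hw]
  have e4 : a⁻¹ * y * t * (a⁻¹ * y)⁻¹ = t * v := by
    calc a⁻¹ * y * t * (a⁻¹ * y)⁻¹ = a⁻¹ * (y * t * y⁻¹) * a := by group
      _ = a⁻¹ * (a * t * a⁻¹ * v) * a := by rw [e2, ea]
      _ = t * (a⁻¹ * v * a⁻¹⁻¹) := by group
      _ = t * v := by rw [c.cv (inv_mem (c.IH (c.AI ha))) hv]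
  rw [c.nV _ v hv e4, mul_one, mul_inv_eq_iff_eq_mul] at e4
  obtain ⟨w', hw', v', hv', e5⟩ := c.centU (mul_mem (inv_mem (c.AS ha)) hs)
    (mul_mem (inv_mem (mem_sup_left (c.AI ha))) hy) e4
  exact ⟨a * w', mul_mem ha (c.WA hw'), v', hv', by rw [mul_assoc, ← e5, mul_inv_cancel_left]⟩

theorem uniq {u g a v v' : G} (hu : u ∈ 𝐂(V)) (hv : v ∈ V) (hv' : v' ∈ V) (e : u * t * u⁻¹ = t * a * v)
    (e' : g * t * g⁻¹ = t * a * v') : v = v' := by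
  have e1 : u⁻¹ * g * t * (u⁻¹ * g)⁻¹ = t * (v⁻¹ * v') := by
    calc u⁻¹ * g * t * (u⁻¹ * g)⁻¹ = u⁻¹ * (g * t * g⁻¹) * u := by group
      _ = u⁻¹ * (t * a * v) * u * (u⁻¹ * (v⁻¹ * v') * u⁻¹⁻¹) := by rw [e']; group
      _ = t * (v⁻¹ * v') := by rw [← e, c.cv (inv_mem hu) (mul_mem (inv_mem hv) hv')]; group
  exact inv_mul_eq_one.1 (c.nV _ _ (mul_mem (inv_mem hv) hv') e1)

theorem orbA {u : G} (hu : u ∈ S ⊓ I) : ∃ a ∈ A, u * t * u⁻¹ = t * a := by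
  have m1 : t * (u * t * u⁻¹) ∈ S := mul_mem c.tS (mul_mem (mul_mem hu.1 c.tS) (inv_mem hu.1))
  have m2 : t * (u * t * u⁻¹) ∈ I := by
    have := mul_mem (conj_mem_of_mem_normalizer (c.nI c.tV) hu.2) (inv_mem hu.2)
    rwa [c.ti, mul_assoc t, mul_assoc t] at this
  obtain ⟨a, ha, v, hv, e⟩ := c.invU m1 (mem_sup_left m2) (by rw [c.tt]; exact cjsq c.t2 u)
  have e1 : u * t * u⁻¹ = t * a * v := by rw [mul_assoc t, ← e, c.tt]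
  have e2 : ω * u * t * (ω * u)⁻¹ = t * a * (ω * v * ω⁻¹) := by
    calc ω * u * t * (ω * u)⁻¹ = ω * (u * t * u⁻¹) * ω⁻¹ := by group
      _ = ω * t * a * v * ω⁻¹ := by rw [e1]; group
      _ = _ := by rw [c.ωt, mul_assoc t, c.ωA a ha]; group
  have := c.ωf v hv (c.uniq (c.IH hu.2) hv (c.ωV v hv) e1 e2).symm
  exact ⟨a, ha, by rw [e1, this, mul_one]⟩

theorem trP {a : G} (ha : a ∈ A) : ∃ u ∈ S ⊓ I, u * t * u⁻¹ = t * a := by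
  have e1 := H25.A7.card_orbit t (S ⊓ I)
  have e2 := c.lu.card _ (c.syl.inf_normal c.IH c.nI)
  have e3 : Nat.card (W ⊔ (S ⊓ I ⊓ 𝐂(I)) : Subgroup G) = Nat.card W * Nat.card (S ⊓ I ⊓ 𝐂(I) : Subgroup G) :=
    card_sup_comm (fun w hw b hb => hb.2 w (c.AI (c.WA hw))) fun w hw hb => c.wC hw hb.2
  have e4 : Nat.card (S ⊓ I ⊓ centralizer {t} : Subgroup G) ≤ Nat.card (W ⊔ (S ⊓ I ⊓ 𝐂(I)) : Subgroup G) := by
    refine card_le_of_le fun x hx => ?_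
    obtain ⟨w, hw, v, hv, rfl⟩ := c.centU hx.1.1 (mem_sup_left hx.1.2) (mem_centralizer_singleton_iff.1 hx.2)
    exact mul_mem_sup hw ⟨(mul_mem_cancel_left (c.AP (c.WA hw))).1 hx.1, c.VC hv⟩
  have e5 : 16 ≤ Set.ncard {s | ∃ n ∈ S ⊓ I, n * t * n⁻¹ = s} := by
    have pos : 0 < Nat.card (S ⊓ I ⊓ 𝐂(I) : Subgroup G) := Nat.card_pos
    have := c.cW
    refine Nat.le_of_mul_le_mul_right (c := 4 * Nat.card (S ⊓ I ⊓ 𝐂(I) : Subgroup G)) ?_ (by omega)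
    calc 16 * (4 * Nat.card (S ⊓ I ⊓ 𝐂(I) : Subgroup G)) = Nat.card (S ⊓ I : Subgroup G) := by omega
      _ ≤ _ := by
        rw [e1]
        exact Nat.mul_le_mul_left _ (e4.trans (e3 ▸ Nat.mul_le_mul_right _ this))
  have e6 := Set.eq_of_subset_of_ncard_le (s := {s | ∃ n ∈ S ⊓ I, n * t * n⁻¹ = s})
    (t := (fun a => t * a) '' (A : Set G)) (by
      rintro _ ⟨n, hn, rfl⟩
      obtain ⟨a, ha, e⟩ := c.orbA hn
      exact ⟨a, ha, e.symm⟩) (by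
      rw [Set.ncard_image_of_injective _ (mul_right_injective t)]
      exact c.cA.le.trans e5)
  exact (e6.ge ⟨a, ha, rfl⟩ :)

theorem tU : t ∈ 𝐍(S ⊓ (I ⊔ V)) :=
  le_normalizer_inf (L := S) le_normalizer
    (le_normalizer_sup (c.syl.le.trans c.nI) (c.syl.le.trans (centralizer_le_normalizer _))) c.tS

theorem mem0 {y : G} : y ∈ S ⊓ (I ⊔ V) ⊔ zpowers t ↔ y ∈ S ⊓ (I ⊔ V) ∨ y * t⁻¹ ∈ S ⊓ (I ⊔ V) :=
  H25.A7.mem_adj c.tU (c.t2 ▸ one_mem _)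

theorem inv0 {y : G} (hy : y ∈ S ⊓ (I ⊔ V) ⊔ zpowers t) (y2 : y * y = 1) :
    y ∈ I ⊔ V ∨ ∃ a ∈ A, ∃ v ∈ V, y = t * a * v := by
  refine (c.mem0.1 hy).imp And.right fun m => ?_
  have m1 := inv_mem m
  rw [mul_inv_rev, inv_inv, inv_eq_of_mul_eq_one_right y2] at m1
  obtain ⟨a, ha, v, hv, e⟩ := c.invU m1.1 m1.2 (by rw [c.tt]; exact y2)
  exact ⟨a, ha, v, hv, by rw [mul_assoc, ← e, c.tt]⟩

theorem cj0 {g : G} (hg : g * t * g⁻¹ ∈ S ⊓ (I ⊔ V) ⊔ zpowers t) : ∃ a ∈ A, g * t * g⁻¹ = t * a := by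
  obtain ⟨a, ha, v, hv, e⟩ := (c.inv0 hg (cjsq c.t2 g)).resolve_left (c.nIV g)
  obtain ⟨u, hu, e'⟩ := c.trP ha
  have := c.uniq (c.IH hu.2) (one_mem _) hv (by rw [e', mul_one]) e
  exact ⟨a, ha, by rw [e, ← this, mul_one]⟩

theorem S0 : S ≤ S ⊓ (I ⊔ V) ⊔ zpowers t := by
  have le : S ⊓ (I ⊔ V) ⊔ zpowers t ≤ S := sup_le inf_le_left (zpowers_le.2 c.tS)
  by_contra hn
  obtain ⟨s, ⟨hs, hN⟩, n⟩ := SetLike.exists_of_lt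
    (lt_inf_normalizer_of_lt c.syl.isP (lt_of_le_not_ge le hn))
  have t0 : t ∈ S ⊓ (I ⊔ V) ⊔ zpowers t := mem_sup_right (mem_zpowers t)
  obtain ⟨a, ha, e⟩ := c.cj0 (conj_mem_of_mem_normalizer hN t0)
  obtain ⟨u, hu, e'⟩ := c.trP ha
  obtain ⟨w, hw, v, hv, e1⟩ := c.cent (mul_mem (inv_mem hu.1) hs) (by
    calc u⁻¹ * s * t = u⁻¹ * (s * t * s⁻¹) * s := by group
      _ = t * (u⁻¹ * s) := by rw [e, ← e']; group)
  have m : w * v ∈ S ⊓ (I ⊔ V) ⊔ zpowers t :=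
    mem_sup_left ⟨mul_mem (c.AS (c.WA hw)) (c.VS hv), c.WVI hw hv⟩
  have uS : u⁻¹ ∈ S ⊓ (I ⊔ V) ⊔ zpowers t := inv_mem (mem_sup_left ⟨hu.1, mem_sup_left hu.2⟩)
  refine n ((mul_mem_cancel_left uS).1 ?_)
  rcases e1 with e1 | e1 <;> rw [e1]
  · exact m
  · exact mul_mem m t0

theorem sw {s w : G} (hs : s ∈ S) (hw : w ∈ W) : s * w * s⁻¹ * w ∈ V := by
  have k : ∀ u ∈ S ⊓ (I ⊔ V), u * w * u⁻¹ * w ∈ V := fun u hu => by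
    obtain ⟨p, hp, v, hv, rfl⟩ := c.decS hu.1 hu.2
    have := c.swP hp hw
    rwa [show p * v * w * (p * v)⁻¹ = p * (v * w * v⁻¹) * p⁻¹ by group, c.cv' (c.IH (c.AI (c.WA hw))) hv,
      mul_inv_cancel_right]
  rcases c.mem0.1 (c.S0 hs) with m | m
  · exact k s m
  · have := k _ m
    rwa [show s * t⁻¹ * w * (s * t⁻¹)⁻¹ = s * (t⁻¹ * (w * t)) * s⁻¹ by group, c.Wt w hw, inv_mul_cancel_left] at this

end Cx

theorem cardW (H : Fx F) : Nat.card F.W ≤ 4 := by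
  have e : (F.W : Set X) = {1, F.z, F.q, F.z * F.q} := by
    ext x; simpa using H.mem_W
  show Nat.card (F.W : Set X) ≤ 4
  rw [Nat.card_coe_set_eq, e]
  exact (Set.ncard_insert_le _ _).trans (Nat.succ_le_succ ((Set.ncard_insert_le _ _).trans
    (Nat.succ_le_succ ((Set.ncard_insert_le _ _).trans (by simp)))))

theorem ωV (H : Fx F) {v : X} (hv : v ∈ F.V) : F.ω * v * F.ω⁻¹ ∈ F.V ∧ (F.ω * v * F.ω⁻¹ = v → v = 1) := by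
  have e3 : F.ω * (F.b * F.c) * F.ω⁻¹ = F.b := by
    rw [show F.ω * (F.b * F.c) * F.ω⁻¹ = F.ω * F.b * F.ω⁻¹ * (F.ω * F.c * F.ω⁻¹) by group, H.ωb, H.ωc, H.bc,
      ← mul_assoc, H.c2, one_mul]
  rcases H.mem_V.1 hv with e | e | e | e <;> rw [e]
  · exact ⟨by simp, fun _ => rfl⟩
  · rw [H.ωb]; exact ⟨Dy.cV, fun k => absurd k.symm H.bc1⟩
  · rw [H.ωc]; exact ⟨mul_mem Dy.bV Dy.cV, fun k => absurd (mul_eq_right.1 k) H.b1⟩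
  · rw [e3]; exact ⟨Dy.bV, fun k => absurd (left_eq_mul.1 k) H.c1⟩

theorem VX (H : Fx F) {v : X} (hv : v ∈ F.V) (hx : v ∈ F.X5) : v = 1 := by
  by_contra n
  exact H.not_Zc (H.Bv hv n) ((H.invX v hx (H.R2 v (H.VR hv))).resolve_left n)

theorem cx (H : Fx F) (x : T1 F t L O α h e A V Y I) (syl : IsSylowIn 2 S 𝐂(V)) (tS : t ∈ S) (AS : A ≤ S) :
    Cx t (h F.ω) (h F.z) (h F.q) L V I A (x.toIso.hat F.W) S := by
  have w := x.toW0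
  have c := x.toIso
  have mW : ∀ {g}, g ∈ c.hat F.W ↔ ∃ y ∈ F.W, h y = g := c.mem_hat H.WJ
  have hV : ∀ {v}, v ∈ F.V → h v ∈ V := fun hv => (x.mV _).2 ⟨_, hv, rfl⟩
  refine
    { t2 := x.t2
      tV := fun v hv0 => ?_
      V2 := fun v hv0 => ?_
      VL := fun v hv0 => ?_
      WL := c.hat_le _
      nL := x.nL
      nV := fun g v hv0 e1 => ?_
      IH := x.pu.IH
      nI := x.pu.nI
      cI := x.pu.cI
      lu := x.lu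
      AI := x.AI
      ab := x.ab.ab
      cA := x.ab.card
      WA := fun g hg => ?_
      Wt := fun g hg => w.Lt (c.hat_le _ hg)
      W2 := fun g hg => ?_
      tr := fun g hg => ?_
      zW := mW.2 ⟨_, Dy.zW, rfl⟩
      qW := mW.2 ⟨_, Dy.qW, rfl⟩
      z1 := c.ne H.zJ H.z1
      q1 := c.ne H.qJ (H.Zc_ne H.Zq)
      zq1 := ?_
      WV := fun g hg hv0 => ?_
      cW := (c.card_hat H.WJ).le.trans (cardW H)
      ωt := w.ht H.ωJ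
      ωA := x.cW _ H.ωJ (H.ωX _ H.zX).symm (H.ωX _ H.qX).symm
      ωV := fun v hv0 => ?_
      ωf := fun v hv0 e1 => ?_
      ct := fun g hg g2 gt => ?_
      syl := syl
      tS := tS
      AS := AS }
  · obtain ⟨v, hv, rfl⟩ := (x.mV v).1 hv0
    exact w.ht (H.VJ hv)
  · obtain ⟨v, hv, rfl⟩ := (x.mV v).1 hv0
    exact c.sq (H.VJ hv) (H.R2 v (H.VR hv))
  · obtain ⟨v, hv, rfl⟩ := (x.mV v).1 hv0
    exact c.hL v (H.VJ hv)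
  · obtain ⟨v, hv, rfl⟩ := (x.mV v).1 hv0
    rw [x.nV g v hv e1, c.one]
  · obtain ⟨y, hy, rfl⟩ := mW.1 hg
    exact x.ab.YA y hy
  · obtain ⟨y, hy, rfl⟩ := mW.1 hg
    exact c.sq (H.WJ hy) (H.R2 y (H.WR hy))
  · obtain ⟨y, hy, rfl⟩ := mW.1 hg
    obtain ⟨a, ha, e1⟩ := x.ab.tr y hy
    exact ⟨a, ha, e1, mul_left_cancel ((x.sqA a ha).symm.trans e1)⟩
  · rw [← c.mul H.zJ H.qJ]
    exact c.ne (mul_mem H.zJ H.qJ) (H.Zc_ne H.Zzq)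
  · obtain ⟨y, hy, rfl⟩ := mW.1 hg
    obtain ⟨v, hv, e1⟩ := (x.mV _).1 hv0
    obtain rfl := c.hinj (H.VJ hv) (H.WJ hy) e1
    rw [H.bW v hv hy, c.one]
  · obtain ⟨v, hv, rfl⟩ := (x.mV v).1 hv0
    rw [← c.cj H.ωJ (H.VJ hv)]
    exact hV (ωV H hv).1
  · obtain ⟨v, hv, rfl⟩ := (x.mV v).1 hv0
    rw [← c.cj H.ωJ (H.VJ hv)] at e1
    rw [(ωV H hv).2 (c.hinj (H.VJ (ωV H hv).1) (H.VJ hv) e1), c.one]
  · have gN := x.CN g gt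
    obtain ⟨v, hv, y, hy, e1⟩ := H.cV' (c.of_comm gN H.bJ (hg _ (hV Dy.bV)).symm)
      (c.of_comm gN H.cJ' (hg _ (hV Dy.cV)).symm)
    have yJ := H.XJ hy
    have e2 := w.over2 gt g2 (e1 ▸ mul_mem (H.VJ hv) yJ)
    rw [e1, c.mul (H.VJ hv) yJ] at e2
    refine ⟨_, hV hv, _, x.pu.XI ((x.mY _).2 ⟨y, hy, rfl⟩), e2, fun k => ?_⟩
    have k1 : ∀ u ∈ F.W, y * u = u * y := fun u hu => by
      have uJ := H.WJ hu
      have m : y * u * y⁻¹ * u ∈ F.X5 := mul_mem (mul_mem (mul_mem hy (H.WX hu)) (inv_mem hy)) (H.WX hu)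
      obtain ⟨v', hv', e3⟩ := (x.mV _).1 (k _ (mW.2 ⟨u, hu, rfl⟩))
      rw [← c.cj yJ uJ, ← c.mul (H.cjJ uJ y) uJ] at e3
      obtain rfl := c.hinj (H.VJ hv') (H.XJ m) e3
      have e4 := VX H hv' m
      rw [mul_eq_one_iff_eq_inv, inv_eq_of_mul_eq_one_right (H.R2 u (H.WR hu)), mul_inv_eq_iff_eq_mul] at e4
      exact e4
    obtain ⟨u, hu, v', hv', rfl⟩ := (H.memR y).1 (H.cbW y (H.Xb y hy) (k1 _ Dy.zW) (k1 _ Dy.qW))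
    exact ⟨_, mW.2 ⟨u, hu, rfl⟩, _, hV hv', c.mul (H.WJ hu) (H.VJ hv')⟩

end TW1

theorem T1.exists_t2 (H : Fx F) (x : T1 F t L O α h e A V Y I) : ∃ S, T2 F t L O α h e A V Y I S := by
  have tV : t ∈ 𝐂(V) := fun v hv0 => by
    obtain ⟨v, hv, rfl⟩ := (x.mV v).1 hv0
    exact x.toW0.ht (H.VJ hv)
  obtain ⟨S, syl, le⟩ := exists_isSylowIn_le (H25.A7.isP_sup x.ab.p2 (P2.of_sq x.t2) x.ab.tA)
    (sup_le (x.AI.trans x.pu.IH) (zpowers_le.2 tV))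
  have c := TW1.cx H x syl (le (mem_sup_right (mem_zpowers t))) (le_sup_left.trans le)
  refine ⟨S, x, syl, c.tS, c.AS, c.tI, fun g hg => c.cj0 (c.S0 hg), fun a ha => ?_,
    fun y hy y2 => c.inv0 (c.S0 hy) y2,
    fun s hs w hw => c.sw hs ((x.toIso.mem_hat H.WJ).2 ⟨w, hw, rfl⟩)⟩
  obtain ⟨u, hu, e1⟩ := c.trP ha
  exact ⟨u, hu.1, e1⟩

end H79.JS
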