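import Cfsg.Agent.Lib.JS.Defs2

set_option autoImplicit false
set_option linter.unusedSectionVars false

namespace H79.JS

open Subgroup H69 H36.SW
open H48.SM (Pf)
open scoped commutatorElement

variable {X : Type} [Group X] [Finite X] {G : Type*} [Group G] [Finite G] {F : Dy X}
variable {t : G} {L O A V Y I S : Subgroup G} {α : G → X} {h e : X → G}

namespace TW2

theorem mem_of_three {B : Type*} [Group B] {K : Subgroup B} {g : B} (p : P2 g) (h3 : g ^ 3 ∈ K) : g ∈ K := by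
  obtain ⟨k, hk⟩ := p
  have : g ∈ zpowers (g ^ 3) := by
    rw [mem_zpowers_pow_iff]
    exact Nat.Coprime.coprime_dvd_right (orderOf_dvd_of_pow_eq_one hk) (Nat.Coprime.pow_right k (by norm_num))
  exact zpowers_le.2 h3 this

theorem four {B : Type*} [Group B] {z q w w' y : B} (z2 : z * z = 1) (q2 : q * q = 1) (c : q * z = z * q)
    (hw : w = 1 ∨ w = z ∨ w = q ∨ w = z * q) (hw' : w' = 1 ∨ w' = z ∨ w' = q ∨ w' = z * q)
    (hy : y = 1 ∨ y = z ∨ y = q ∨ y = z * q) (w1 : w ≠ 1) (w1' : w' ≠ 1) (ne : w' ≠ w) :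
    y = 1 ∨ y = w ∨ y = w' ∨ y = w * w' := by
  have e1 : z * (z * q) = q := by rw [← mul_assoc, z2, one_mul]
  have e2 : q * (z * q) = z := by rw [← mul_assoc, c, mul_assoc, q2, mul_one]
  have e3 : z * q * z = q := by rw [mul_assoc, c, e1]
  have e4 : z * q * q = z := by rw [mul_assoc, q2, mul_one]
  rcases hw with a | a | a | a <;> rcases hw' with b | b | b | b <;>
    first
    | exact absurd a w1
    | exact absurd b w1'
    | exact absurd (b.trans a.symm) ne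
    | (rw [a, b]; (try simp only [e1, e2, e3, e4, c]); tauto)

theorem h1 {B : Type*} [CommGroup B] (σ : B →* B) (σσ : ∀ x, σ (σ x) = x) {w a1 a0 : B} (w2 : w * w = 1)
    (k1 : ∀ x : B, x * x = 1 → x = 1 ∨ x = w ∨ x = σ w ∨ x = w * σ w) (k2 : ∀ x : B, x * x * (x * x) = 1)
    (ha : a1 * a1 = w) (ne : σ w ≠ w) (h0 : a0 * σ a0 = 1) : ∃ a, a0 * σ a = a := by
  have fx : ∀ b : B, b * b = 1 → σ b = b → b = 1 ∨ b = w * σ w := by
    intro b b2 hb
    rcases k1 b b2 with rfl | rfl | k | k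
    · exact Or.inl rfl
    · exact absurd hb ne
    · rw [k, σσ] at hb; exact absurd hb.symm ne
    · exact Or.inr k
  have w2' : σ w * σ w = 1 := by rw [← map_mul, w2, map_one]
  have one : ∀ b : B, b * b = 1 → b * σ b = 1 → ∃ a, b * σ a = a := by
    intro b b2 hb
    rcases fx b b2 (mul_left_cancel (hb.trans b2.symm)) with rfl | k
    · exact ⟨1, by simp⟩
    · exact ⟨w, by rw [k, mul_assoc, w2', mul_one]⟩
  have s0 : σ (a0 * a0) = a0 * a0 := by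
    refine mul_left_cancel (a := a0 * a0) ?_
    rw [k2, map_mul, mul_mul_mul_comm, h0, one_mul]
  rcases fx _ (k2 a0) s0 with k | k
  · exact one a0 k h0
  · obtain ⟨a, e⟩ := one (a0 * (σ a1 * a1⁻¹)) (by
      rw [mul_mul_mul_comm, k, mul_mul_mul_comm (σ a1), ← map_mul, ← mul_inv, ha, mul_assoc, ← mul_assoc (σ w), w2',
        one_mul, mul_inv_cancel]) (by
      rw [map_mul, map_mul, map_inv, σσ, mul_mul_mul_comm, h0, one_mul, mul_assoc, inv_mul_cancel_left, mul_inv_cancel])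
    refine ⟨a * a1, ?_⟩
    rw [map_mul]
    calc a0 * (σ a * σ a1) = a0 * (σ a1 * a1⁻¹) * σ a * a1 := by
          rw [mul_assoc, mul_assoc, mul_assoc, mul_comm (σ a) a1, inv_mul_cancel_left, mul_comm (σ a1)]
      _ = a * a1 := by rw [e]

section
variable (H : Fx F) (x : T2 F t L O α h e A V Y I S)
include x

theorem tH : t ∈ 𝐂(V) := x.syl.le x.tS

theorem hV {v : X} (hv : v ∈ F.V) : h v ∈ V := (x.mV _).2 ⟨v, hv, rfl⟩

theorem tv {v : G} (hv : v ∈ V) : v * t = t * v := tH x v hv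

include H

theorem VL : V ≤ L := fun g hg => by
  obtain ⟨v, hv, rfl⟩ := (x.mV g).1 hg
  exact x.hL v (H.VJ hv)

theorem V2 {v : G} (hv : v ∈ V) : v * v = 1 := by
  obtain ⟨u, hu, rfl⟩ := (x.mV v).1 hv
  exact x.toW0.toIso.sq (H.VJ hu) (H.R2 u (H.VR hu))

theorem pV : IsPGroup 2 V := isP_of_P2 fun _ hv => P2.of_sq (V2 H x hv)

theorem memH {g : G} (hb : g * h F.b = h F.b * g) (hc : g * h F.c = h F.c * g) : g ∈ 𝐂(V) := by
  intro v hv
  obtain ⟨u, hu, rfl⟩ := (x.mV v).1 hv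
  rcases H.mem_V.1 hu with rfl | rfl | rfl | rfl
  · rw [x.toW0.toIso.one, one_mul, mul_one]
  · exact hb.symm
  · exact hc.symm
  · rw [x.toW0.toIso.mul H.bJ H.cJ', mul_assoc, ← hc, ← mul_assoc, ← hb, mul_assoc]

theorem zI : h F.z ∈ I := x.pu.XI ((x.mY _).2 ⟨_, H.zX, rfl⟩)

theorem zC : h F.z ∉ 𝐂(I) := fun k => by
  have e1 : h F.ρ * h F.z = h F.z * h F.ρ := k _ (x.pu.XI ((x.mY _).2 ⟨_, H.ρX, rfl⟩))
  rw [← x.toW0.toIso.mul H.ρJ H.zJ, ← x.toW0.toIso.mul H.zJ H.ρJ] at e1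
  have e2 := x.toW0.toIso.hinj (mul_mem H.ρJ H.zJ) (mul_mem H.zJ H.ρJ) e1
  have e3 := H.ρz
  rw [e2, mul_inv_cancel_right] at e3
  exact H.Tyne Dy.Ty.base e3

omit x in
theorem nX {g : X} (hg : g * F.b * g⁻¹ ∈ F.V) : g ∈ 𝐍(F.X5) := by
  have ωN : F.ω ∈ 𝐍(F.X5) := centralizer_le_normalizer _ (fun y hy => H.ωX y hy)
  have key : ∀ j ∈ 𝐍(F.X5), j * (g * F.b * g⁻¹) * j⁻¹ = F.b → g ∈ 𝐍(F.X5) := fun j hj k => by
    have := (H.nb (j * g) (cj_fix.1 (Eq.trans (by group) k))).2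
    exact (mul_mem_cancel_left hj).1 this
  have e3 : F.ω * (F.b * F.c) * F.ω⁻¹ = F.b := by
    calc _ = F.ω * F.b * F.ω⁻¹ * (F.ω * F.c * F.ω⁻¹) := by group
      _ = F.b := by rw [H.ωb, H.ωc, ← mul_assoc, ← H.bc, mul_assoc, H.c2, mul_one]
  rcases H.mem_V.1 hg with k | k | k | k
  · exact absurd k (cjne H.b1 g)
  · exact key 1 (one_mem _) (by rw [k]; group)
  · refine key (F.ω * F.ω) (mul_mem ωN ωN) ?_
    rw [k, ← e3, ← H.ωc]; group
  · exact key F.ω ωN (by rw [k, e3])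

/-- an involution of `S` centralises a conjugate of `t` -/
theorem fixS {y : G} (hy : y ∈ S) (y2 : y * y = 1) : ∃ k ∈ 𝐂(V), y * (k * t * k⁻¹) = k * t * k⁻¹ * y := by
  rcases x.invS y hy y2 with k | ⟨a, ha, v, hv, rfl⟩
  · obtain ⟨i, hi, v, hv, rfl⟩ := (mem_sup_comm fun a ha b hb => (x.pu.IY ha b hb).symm).1 k
    have iv : v * i = i * v := x.pu.IY hi v hv
    have i2 : i * i = 1 := by
      rw [mul_assoc, ← mul_assoc v, iv, mul_assoc, V2 H x hv, mul_one] at y2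
      exact y2
    by_cases ci : i ∈ 𝐂(I)
    · refine ⟨1, one_mem _, ?_⟩
      simpa using tv x (mul_mem (x.pu.cI i (x.pu.IH hi) ci (P2.of_sq i2)) hv)
    · have z2 : h F.z * h F.z = 1 := x.toW0.toIso.sq H.zJ H.z2
      obtain ⟨g, hg, k⟩ := x.lu.one i hi (h F.z) (zI H x) ci (zC H x) (by rw [i2]; exact one_mem _)
        (by rw [z2]; exact one_mem _)
      have gi : g * i * g⁻¹ ∈ I := mul_mem (mul_mem hg hi) (inv_mem hg)
      have p : P2 (g * i * g⁻¹ * h F.z) := by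
        refine ((P2.of_sq i2).conj g).mul (P2.of_sq z2) ?_
        have := k _ (zI H x)
        rw [mul_assoc _ (h F.z), z2, mul_one] at this
        calc g * i * g⁻¹ * h F.z = h F.z * (g * i * g⁻¹ * h F.z) * h F.z := by rw [this]
          _ = _ := by rw [mul_assoc, mul_assoc _ (h F.z), z2, mul_one]
      have cV := x.pu.cI _ (x.pu.IH (mul_mem gi (zI H x))) k p
      have iL : g * i * g⁻¹ ∈ L := (mul_mem_cancel_right (x.hL _ H.zJ)).1 (VL H x cV)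
      have gv : g * v * g⁻¹ = v := conj_eq_of_mem_centralizer (x.pu.IH hg) hv
      have c := x.toW0.Lt (mul_mem iL (VL H x hv))
      refine ⟨g⁻¹, inv_mem (x.pu.IH hg), ?_⟩
      rw [← gv] at c
      calc i * v * (g⁻¹ * t * g⁻¹⁻¹) = g⁻¹ * (g * i * g⁻¹ * (g * v * g⁻¹) * t) * g := by group
        _ = _ := by rw [c]; group
  · obtain ⟨u, hu, k⟩ := x.trS a ha
    refine ⟨u, x.syl.le hu, ?_⟩
    rw [k, mul_assoc (t * a), (mul_mem (tH x) (x.syl.le (x.AS ha)) : t * a ∈ 𝐂(V)) v hv]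

/-- an involution outside `C(V)` that normalises `S` -/
theorem fixN {y : G} (hS : y ∈ 𝐍(S)) (yH : y ∉ 𝐂(V)) (y2 : y * y = 1) (yb : y * h F.b = h F.b * y) :
    ∃ k ∈ 𝐂(V), y * (k * t * k⁻¹) = k * t * k⁻¹ * y := by
  have c := x.toW0.toIso
  obtain ⟨a0, h0, e0⟩ := x.cjS y (conj_mem_of_mem_normalizer hS x.tS)
  have yA : ∀ a ∈ A, y * a * y⁻¹ ∈ A := fun a ha => by
    obtain ⟨u, hu, k⟩ := x.trS a ha
    obtain ⟨a', ha', k'⟩ := x.cjS (y * u) (by
      have := conj_mem_of_mem_normalizer hS (mul_mem (mul_mem hu x.tS) (inv_mem hu))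
      convert this using 1; group)
    have : y * a * y⁻¹ = a0⁻¹ * a' := by
      calc y * a * y⁻¹ = (y * t * y⁻¹)⁻¹ * (y * (t * a) * y⁻¹) := by group
        _ = (t * a0)⁻¹ * (y * u * t * (y * u)⁻¹) := by rw [e0, ← k]; group
        _ = _ := by rw [k']; group
    rw [this]
    exact mul_mem (inv_mem h0) ha'
  have yi : y⁻¹ = y := inv_eq_of_mul_eq_one_right y2
  have yy : ∀ g : G, y * (y * g * y⁻¹) * y⁻¹ = g := fun g => by
    calc _ = y * y * g * (y * y)⁻¹ := by group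
      _ = g := by rw [y2]; group
  -- `y` moves `Ŵ`
  obtain ⟨w, hw, mv⟩ : ∃ w ∈ F.W, y * h w * y⁻¹ ≠ h w := by
    by_contra! n
    obtain ⟨u, hu, k⟩ := x.trS a0 h0
    have uH := x.syl.le hu
    have kt : u⁻¹ * y * t = t * (u⁻¹ * y) := cj_fix.1 (by
      calc _ = u⁻¹ * (y * t * y⁻¹) * u := by group
        _ = t := by rw [e0, ← k]; group)
    have kN := x.CN _ kt
    have kb : u⁻¹ * y * h F.b = h F.b * (u⁻¹ * y) := by
      rw [mul_assoc, yb, ← mul_assoc, ← inv_mem uH _ (hV x Dy.bV), mul_assoc]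
    have ab := c.of_comm kN H.bJ kb
    have fw : ∀ w ∈ F.W, α (u⁻¹ * y) * w = w * α (u⁻¹ * y) := fun w hw => by
      have wX := H.WX hw
      have w'X := conj_mem_of_mem_normalizer (H.nb _ ab).2 wX
      have s := x.SW u⁻¹ (inv_mem hu) w hw
      have e1 : u⁻¹ * h w * u⁻¹⁻¹ = h (α (u⁻¹ * y) * w * (α (u⁻¹ * y))⁻¹) := by
        rw [← c.conj kN (H.WJ hw)]
        conv_lhs => rw [← n w hw]
        group
      rw [e1, ← c.mul (H.XJ w'X) (H.XJ wX)] at s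
      obtain ⟨v, hv, k⟩ := (x.mV _).1 s
      have e2 := c.hinj (H.VJ hv) (H.XJ (mul_mem w'X wX)) k
      have v1 : v = 1 := by
        by_contra v1
        rcases H.invX v (e2 ▸ mul_mem w'X wX) (H.R2 v (H.VR hv)) with k | k
        · exact v1 k
        · exact H.not_Zc (H.Bv hv v1) k
      rw [v1, ← H.R2 w (H.WR hw)] at e2
      exact cj_fix.1 (mul_right_cancel e2).symm
    have kR := H.cbW _ ab (fw _ Dy.zW) (fw _ Dy.qW)
    have kH := memH H x kb (c.comm_of kN H.cJ' (H.Rc kR H.cR))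
    exact yH ((mul_mem_cancel_left (inv_mem uH)).1 kH)
  have Om : ∀ a ∈ A, a * a = 1 → ∃ w ∈ F.W, a = h w := fun a ha a2 =>
    x.ab.fix a ha (cj_fix.1 (by rw [x.sqA a ha, a2, mul_one]))
  have W2 : ∀ w ∈ F.W, h w * h w = 1 := fun w hw => c.sq (H.WJ hw) (H.R2 w (H.WR hw))
  have wA := x.ab.YA w hw
  obtain ⟨w', hw', ew⟩ := Om _ (yA _ wA) (cjsq (W2 w hw) y)
  have w1 : w ≠ 1 := by
    rintro rfl
    exact mv (by rw [c.one]; group)
  have w1' : w' ≠ 1 := by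
    rintro rfl
    rw [c.one] at ew
    exact cjne (c.ne (H.WJ hw) w1) y ew
  have ne : w' ≠ w := by
    rintro rfl
    exact mv ew
  obtain ⟨a1, h1, e1⟩ := x.ab.tr w hw
  rw [x.sqA a1 h1, mul_right_inj] at e1
  let _ : CommGroup A := { (inferInstance : Group A) with mul_comm := fun a b => Subtype.ext (x.ab.ab a a.2 b b.2) }
  let σ : A →* A := MonoidHom.mk' (fun a => ⟨y * a * y⁻¹, yA a a.2⟩) fun a b => Subtype.ext (by
    show y * (a * b) * y⁻¹ = y * a * y⁻¹ * (y * b * y⁻¹)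
    group)
  have hσ : ∀ a : A, (σ a : G) = y * a * y⁻¹ := fun _ => rfl
  obtain ⟨a, ea⟩ := TW2.h1 σ (fun a => Subtype.ext (yy a)) (w := ⟨h w, wA⟩) (a1 := ⟨a1, h1⟩) (a0 := ⟨a0, h0⟩)
    (Subtype.ext (W2 w hw)) (fun a a2 => by
      obtain ⟨w0, hw0, e0⟩ := Om a a.2 (congrArg Subtype.val a2)
      rcases four H.z2 H.q2 H.qz (H.mem_W.1 hw) (H.mem_W.1 hw') (H.mem_W.1 hw0) w1 w1' ne with k | k | k | k
      · exact Or.inl (Subtype.ext (by rw [e0, k, c.one]; rfl))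
      · exact Or.inr (Or.inl (Subtype.ext (by rw [e0, k])))
      · exact Or.inr (Or.inr (Or.inl (Subtype.ext (by rw [e0, k, ← ew]; rfl))))
      · exact Or.inr (Or.inr (Or.inr (Subtype.ext (by rw [e0, k, c.mul (H.WJ hw) (H.WJ hw'), ← ew]; rfl)))))
    (fun a => Subtype.ext (by
      obtain ⟨w0, hw0, e0⟩ := x.ab.act a a.2
      rw [x.sqA a a.2, mul_right_inj] at e0
      show (a : G) * a * (a * a) = 1
      rw [e0, W2 w0 hw0]))
    (Subtype.ext e1) (fun k => mv (congrArg Subtype.val k)) (Subtype.ext (by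
      show a0 * (y * a0 * y⁻¹) = 1
      have := yy t
      rw [e0] at this
      refine mul_left_cancel (a := t) ?_
      calc t * (a0 * (y * a0 * y⁻¹)) = y * t * y⁻¹ * (y * a0 * y⁻¹) := by rw [e0, mul_assoc t]
        _ = y * (t * a0) * y⁻¹ := by group
        _ = _ := by rw [this, mul_one]))
  have ea' : a0 * (y * a * y⁻¹) = a := congrArg Subtype.val ea
  obtain ⟨u, hu, k⟩ := x.trS a a.2
  refine ⟨u, x.syl.le hu, cj_fix.1 ?_⟩
  rw [k]
  calc y * (t * a) * y⁻¹ = y * t * y⁻¹ * (y * a * y⁻¹) := by group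
    _ = _ := by rw [e0, mul_assoc, ea']

end

end TW2

open TW2

theorem T2.fus (H : Fx F) (x : T2 F t L O α h e A V Y I S) {g : G} (hg : g * t * g⁻¹ ∈ 𝐂(V)) :
    ∃ k ∈ 𝐂(V), k * t * k⁻¹ = g * t * g⁻¹ := by
  have _ := H
  obtain ⟨k, hk, e1⟩ := x.syl.exists_cj_le ((P2.of_sq x.t2).conj g).zpowers (zpowers_le.2 hg)
  have e2 : k * g * t * (k * g)⁻¹ ∈ S := by
    have := e1 (cj_mem k (mem_zpowers _))
    convert this using 1; group
  obtain ⟨a, ha, e3⟩ := x.cjS _ e2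
  obtain ⟨u, hu, e4⟩ := x.trS a ha
  refine ⟨k⁻¹ * u, mul_mem (inv_mem hk) (x.syl.le hu), ?_⟩
  calc _ = k⁻¹ * (u * t * u⁻¹) * k := by group
    _ = _ := by rw [e4, ← e3]; group

theorem T2.nV' (H : Fx F) (x : T2 F t L O α h e A V Y I S) : 𝐍(V) ≤ 𝐍(I) := by
  intro n hn
  have c := x.toW0.toIso
  obtain ⟨κ, hκ, e1⟩ := x.fus H (conj_mem_of_mem_normalizer (normalizer_le_normalizer_centralizer V hn) (tH x))
  have kt : κ⁻¹ * n * t = t * (κ⁻¹ * n) := cj_fix.1 (by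
    calc _ = κ⁻¹ * (n * t * n⁻¹) * κ := by group
      _ = t := by rw [← e1]; group)
  have kV : κ⁻¹ * n ∈ 𝐍(V) := mul_mem (inv_mem (centralizer_le_normalizer _ hκ)) hn
  suffices κ⁻¹ * n ∈ 𝐍(I) from (mul_mem_cancel_left (inv_mem (x.pu.nI hκ))).1 this
  generalize κ⁻¹ * n = k at kt kV
  have kN := x.CN _ kt
  have kX : α k ∈ 𝐍(F.X5) := by
    refine nX H ?_
    have := conj_mem_of_mem_normalizer kV (hV x Dy.bV)
    rw [c.conj kN H.bJ] at this
    obtain ⟨v, hv, e2⟩ := (x.mV _).1 this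
    rw [← c.hinj (H.VJ hv) (H.cjJ H.bJ _) e2]
    exact hv
  have kY : k ∈ 𝐍(Y) := by
    refine mem_normalizer_of_cj_le fun g hg => ?_
    obtain ⟨a, ha, rfl⟩ := mem_cj'.1 hg
    obtain ⟨j, hj, rfl⟩ := (x.mY a).1 ha
    rw [c.conj kN (H.XJ hj)]
    exact (x.mY _).2 ⟨_, conj_mem_of_mem_normalizer kX hj, rfl⟩
  have := x.pu.min (I ^ᶜ k⁻¹) (by
    rw [← cj_eq_of_mem_normalizer (inv_mem kY)]; exact cj_mono _ x.pu.XI) (by
    rw [← cj_normalizer, ← cj_eq_of_mem_normalizer (inv_mem (normalizer_le_normalizer_centralizer V kV))]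
    exact cj_mono _ x.pu.nI)
  exact mem_normalizer_of_cj_le (cj_le_iff.2 this)

theorem T2.sylV' (H : Fx F) (x : T2 F t L O α h e A V Y I S) : IsSylowIn 2 V 𝐂(I) := by
  have c := x.toW0.toIso
  have VI : V ≤ 𝐂(I) := fun v hv i hi => (x.pu.IY hi v hv).symm
  refine isSylowIn_of_normalizer VI ?_
  have tC : t ∈ 𝐍(𝐂(I)) := normalizer_le_normalizer_centralizer I (x.pu.nI (tH x))
  have tV : t ∈ 𝐍(V) := centralizer_le_normalizer _ (tH x)
  have tK : zpowers t ≤ 𝐍(𝐂(I) ⊓ 𝐍(V)) :=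
    le_normalizer_inf (zpowers_le.2 tC) (le_normalizer_of_le (zpowers_le.2 tV))
  obtain ⟨P, hP, tP⟩ := exists_isSylowIn_le (P2.of_sq x.t2).zpowers
    (le_sup_right : zpowers t ≤ (𝐂(I) ⊓ 𝐍(V)) ⊔ zpowers t)
  have h0 := hP.inf_of_le_normalizer le_sup_left (hP.le.trans (sup_le le_normalizer tK))
  refine h0.of_card_le (pV H x) (le_inf VI le_normalizer) (card_le_of_le ?_)
  intro n hn
  have nP : n ∈ P := hn.1
  have nI : n ∈ 𝐂(I) := hn.2.1
  have nV : n ∈ 𝐍(V) := hn.2.2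
  have tP' : t ∈ P := tP (mem_zpowers t)
  have n2 : P2 n := P2.of_mem hP.isP nP
  have m : n * t * n⁻¹ * t ∈ V := by
    refine x.pu.cI _ (mul_mem (conj_mem_of_mem_normalizer (normalizer_le_normalizer_centralizer V nV) (tH x)) (tH x)) ?_
      (P2.of_mem hP.isP (mul_mem (mul_mem (mul_mem nP tP') (inv_mem nP)) tP'))
    have := mul_mem nI (conj_mem_of_mem_normalizer tC (inv_mem nI))
    rw [x.toW0.ti] at this
    convert this using 1; group
  obtain ⟨v, hv, e1⟩ := (x.mV _).1 m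
  have v1 := x.nV n v hv (by rw [← tv x (hV x hv), e1, x.toW0.tt'])
  have nt : n * t = t * n := cj_fix.1 (by
    rw [v1, c.one] at e1
    rw [← x.toW0.tt' (n * t * n⁻¹), ← e1, one_mul])
  have nN := x.CN n nt
  obtain ⟨v, hv, k⟩ := H.cX (α n) fun j hj =>
    c.of_comm nN (H.XJ hj) (nI _ (x.pu.XI ((x.mY _).2 ⟨j, hj, rfl⟩))).symm
  have e3 : F.ω * (F.b * F.c) * F.ω⁻¹ = F.b := by
    calc _ = F.ω * F.b * F.ω⁻¹ * (F.ω * F.c * F.ω⁻¹) := by group
      _ = F.b := by rw [H.ωb, H.ωc, ← mul_assoc, ← H.bc, mul_assoc, H.c2, mul_one]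
  have vV : ∀ u ∈ F.V, v * u * v⁻¹ = u := fun u hu => cj_fix.2 (H.Rc (H.VR hv) (H.VR hu))
  have bcV : F.b * F.c ∈ F.V := mul_mem Dy.bV Dy.cV
  have cyc : ∀ g p q : X, P2 g → g * F.b * g⁻¹ = p → g * p * g⁻¹ = q → g * q * g⁻¹ = F.b → p = F.b := by
    intro g p q g2 a1 a2 a3
    have : g ∈ centralizer ({F.b} : Set X) := mem_of_three g2 (mem_centralizer_singleton_iff.2 (cj_fix.1 (by
      conv_rhs => rw [← a3, ← a2, ← a1]
      simp only [pow_succ, pow_zero]; group)))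
    rw [← a1, mem_centralizer_singleton_iff.1 this, mul_inv_cancel_right]
  have a2 := c.cov.p2 nN n2
  have av : α n = v := by
    have cj : ∀ j u u' : X, u' ∈ F.V → j * u * j⁻¹ = u' → v * j * u * (v * j)⁻¹ = u' := fun j u u' hu k => by
      rw [← vV u' hu, ← k]; group
    have iv : ∀ u u' : X, F.ω * u * F.ω⁻¹ = u' → F.ω⁻¹ * u' * F.ω⁻¹⁻¹ = u := fun u u' k => by rw [← k]; group
    rcases k with k | k | k
    · exact k
    · rw [k] at a2
      exact absurd (cyc _ _ _ a2 (cj _ _ _ Dy.cV H.ωb) (cj _ _ _ bcV H.ωc) (cj _ _ _ Dy.bV e3)).symm H.bc1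
    · rw [k] at a2
      exact absurd (mul_eq_left.1 (cyc _ _ _ a2 (cj _ _ _ bcV (iv _ _ e3)) (cj _ _ _ Dy.cV (iv _ _ H.ωc))
        (cj _ _ _ Dy.bV (iv _ _ H.ωb)))) H.c1
  rcases x.toW0.over2 nt n2 (av ▸ H.VJ hv) with k | k
  · rw [k, av]; exact hV x hv
  · rw [av] at k
    have tI : t ∈ 𝐂(I) := by
      rw [k] at nI
      exact (mul_mem_cancel_left (VI (hV x hv))).1 nI
    exact absurd (mem_sup_right (x.pu.cI t (tH x) tI (P2.of_sq x.t2))) x.tI

theorem T2.fixy (H : Fx F) (x : T2 F t L O α h e A V Y I S) {y : G} (hy : y ∈ 𝐍(V)) (y2 : y * y = 1)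
    (yb : y * h F.b = h F.b * y) : ∃ k ∈ 𝐂(V), y * (k * t * k⁻¹) = k * t * k⁻¹ * y := by
  have back : ∀ κ ∈ 𝐂(V), (∃ k ∈ 𝐂(V), κ * y * κ⁻¹ * (k * t * k⁻¹) = k * t * k⁻¹ * (κ * y * κ⁻¹)) →
      ∃ k ∈ 𝐂(V), y * (k * t * k⁻¹) = k * t * k⁻¹ * y := by
    rintro κ hκ ⟨k, hk, e1⟩
    refine ⟨κ⁻¹ * k, mul_mem (inv_mem hκ) hk, ?_⟩
    calc _ = κ⁻¹ * (κ * y * κ⁻¹ * (k * t * k⁻¹)) * κ := by group
      _ = _ := by rw [e1]; group
  have yN : zpowers y ≤ 𝐍(𝐂(V)) := zpowers_le.2 (normalizer_le_normalizer_centralizer V hy)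
  by_cases yH : y ∈ 𝐂(V)
  · obtain ⟨κ, hκ, e1⟩ := x.syl.exists_cj_le (P2.of_sq y2).zpowers (zpowers_le.2 yH)
    exact back κ hκ (fixS H x (e1 (cj_mem κ (mem_zpowers y))) (cjsq y2 κ))
  · obtain ⟨S1, h1, SS⟩ := exists_isSylowIn_le x.syl.isP (x.syl.le.trans (le_sup_left : 𝐂(V) ≤ 𝐂(V) ⊔ zpowers y))
    obtain ⟨κ', hκ', e1⟩ := h1.exists_cj_le (P2.of_sq y2).zpowers le_sup_right
    obtain ⟨κ, hκ, s, hs, rfl⟩ := (mem_sup_of_le_normalizer_left yN).1 hκ'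
    have e2 : κ * y * κ⁻¹ ∈ S1 := by
      have := e1 (cj_mem (κ * s) (mem_zpowers y))
      have sy : s * y * s⁻¹ = y := by
        obtain ⟨m, rfl⟩ := mem_zpowers_iff.1 hs
        group
      rw [← sy]
      convert this using 1; group
    have e3 : S1 ⊓ 𝐂(V) = S := x.syl.max _ (le_inf SS x.syl.le) inf_le_right (h1.isP.to_inf_left)
    have e4 : S1 ≤ 𝐍(S) := by
      rw [← e3]
      exact le_normalizer_inf le_normalizer (h1.le.trans (sup_le le_normalizer yN))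
    refine back κ hκ (fixN H x (e4 e2) (fun k => yH ?_) (cjsq y2 κ) ?_)
    · exact (mul_mem_cancel_left hκ).1 ((mul_mem_cancel_right (inv_mem hκ)).1 k)
    · have kb : κ * h F.b * κ⁻¹ = h F.b := conj_eq_of_mem_centralizer hκ (hV x Dy.bV)
      rw [← kb]
      exact cjc yb

end H79.JS
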