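import Cfsg.Agent.Lib.JS.Defs2
import Cfsg.Agent.Lib.Comp.FStar

set_option autoImplicit false
set_option linter.unusedSectionVars false

namespace H79.JS

open Subgroup H69 H36.SW
open H48.SM (Pf)
open scoped commutatorElement

variable {X : Type} [Group X] [Finite X] {G : Type*} [Group G] [Finite G] {F : Dy X}
variable {t : G} {L O A V Y I S : Subgroup G} {α : G → X} {h e : X → G}

namespace TW4

variable (H : Fx F) (x : T3 F t L O α h e A V Y I S)
include H x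

theorem bV : h F.b ∈ V := (x.mV _).2 ⟨_, Dy.bV, rfl⟩

theorem b1 : h F.b ≠ 1 := x.toIso.ne H.bJ H.b1

theorem zI : h F.z ∈ I := x.pu.XI ((x.mY _).2 ⟨_, H.zX, rfl⟩)

theorem z1 : h F.z ≠ 1 := x.toIso.ne H.zJ H.z1

theorem ωbc : F.ω * (F.b * F.c) * F.ω⁻¹ = F.b := by
  rw [show F.ω * (F.b * F.c) * F.ω⁻¹ = F.ω * F.b * F.ω⁻¹ * (F.ω * F.c * F.ω⁻¹) by group, H.ωb,
    H.ωc, H.bc, ← mul_assoc, H.c2, one_mul]

theorem ωN : h F.ω ∈ 𝐍(I) := by
  refine x.NV (mem_normalizer_fintype fun n hn => ?_)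
  obtain ⟨v, hv, rfl⟩ := (x.mV _).1 hn
  refine (x.mV _).2 ⟨_, ?_, x.toIso.cj H.ωJ (H.VJ hv)⟩
  rcases H.mem_V.1 hv with rfl | rfl | rfl | rfl
  · rw [mul_one, mul_inv_cancel]; exact one_mem _
  · rw [H.ωb]; exact Dy.cV
  · rw [H.ωc]; exact mul_mem Dy.bV Dy.cV
  · rw [ωbc H x]; exact Dy.bV

theorem toV {k : G} (hk : k ∈ 𝐂(I)) (p : P2 k) : ∃ n ∈ 𝐂(I), n * k * n⁻¹ ∈ V := by
  haveI := Fact.mk Nat.prime_two
  obtain ⟨m, hm⟩ := p
  obtain ⟨n, hn, e⟩ := x.sylV.exists_cj_le (H70.isPGroup_zpowers hm) (zpowers_le.2 hk)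
  exact ⟨n, hn, e (cj_mem n (mem_zpowers k))⟩

theorem sqK {k : G} (hk : k ∈ 𝐂(I)) (p : P2 k) : k * k = 1 := by
  obtain ⟨n, -, e⟩ := toV H x hk p
  obtain ⟨v, hv, e⟩ := (x.mV _).1 e
  have := x.toIso.sq (H.VJ hv) (H.R2 v (H.VR hv))
  rw [e] at this
  calc k * k = n⁻¹ * (n * k * n⁻¹ * (n * k * n⁻¹)) * n := by group
    _ = 1 := by rw [this]; group

theorem toB {k : G} (hk : k ∈ 𝐂(I)) (k2 : k * k = 1) (k1 : k ≠ 1) :
    ∃ n ∈ 𝐍(I), n * k * n⁻¹ = h F.b := by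
  obtain ⟨n, hn, e⟩ := toV H x hk ⟨1, by rw [pow_one, sq, k2]⟩
  have hn' : n ∈ 𝐍(I) := centralizer_le_normalizer _ hn
  have w := ωN H x
  have e1 := x.toIso.cj H.ωJ (mul_mem H.bJ H.cJ')
  have e2 := x.toIso.cj H.ωJ H.cJ'
  rw [ωbc H x] at e1
  rw [H.ωc] at e2
  obtain ⟨v, hv, e⟩ := (x.mV _).1 e
  rcases H.mem_V.1 hv with rfl | rfl | rfl | rfl
  · rw [x.toIso.one] at e
    exact absurd (conj_eq_one_iff.1 e.symm) k1
  · exact ⟨n, hn', e.symm⟩
  · exact ⟨h F.ω * h F.ω * n, mul_mem (mul_mem w w) hn', by rw [e1, e2, e]; group⟩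
  · exact ⟨h F.ω * n, mul_mem w hn', by rw [e1, e]; group⟩

theorem nK : 𝐍(I) = 𝐍(𝐂(I)) := by
  haveI := Fact.mk Nat.prime_two
  refine le_antisymm (normalizer_le_normalizer_centralizer I) fun g hg => ?_
  obtain ⟨n, hn, a, ha, rfl⟩ := x.sylV.frattini hg
  exact mul_mem (centralizer_le_normalizer _ hn) (x.NV ha)

end TW4

theorem T3.std (H : Fx F) (x : T3 F t L O α h e A V Y I S) : Cfsg.IsStandardSubgroup I := by
  haveI := Fact.mk Nat.prime_two
  refine ⟨(H23.isQuasisimple_iff I).2 ⟨isPerfect_iff.2 (le_antisymm (commutator_le_self I) x.pu.perf),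
    ⟨⟨⟨_, TW4.zI H x⟩, 1, fun k => TW4.z1 H x (congrArg Subtype.val k)⟩⟩, fun N hN => ?_⟩,
    ⟨?_, fun g hg => ?_⟩, fun g _ k => ?_, TW4.nK H x⟩
  · refine (x.lu.simple (N.map I.subtype) (map_subtype_le N) ?_).symm.imp (fun k => ?_) fun k n hn => ?_
    · have := H70.map_normalizer_le I.subtype (A := ⊤) (B := N) (normalizer_eq_top N).ge
      rwa [← MonoidHom.range_eq_map, range_subtype] at this
    · refine eq_top_iff.2 fun a _ => ?_
      obtain ⟨b, hb, e⟩ := k a.2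
      rwa [← show b = a from Subtype.ext e]
    · exact mem_center_iff.2 fun a => Subtype.ext (k ⟨n, hn, rfl⟩ a a.2)
  · have := orderOf_dvd_natCard (⟨_, x.sylV.le (TW4.bV H x)⟩ : 𝐂(I))
    rw [orderOf_mk, orderOf_eq_prime (p := 2) (by rw [sq, x.toIso.sq H.bJ H.b2]) (TW4.b1 H x)] at this
    exact even_iff_two_dvd.2 this
  · by_contra k
    obtain ⟨⟨i, hi⟩, o⟩ := exists_prime_orderOf_dvd_card' 2
      (even_iff_two_dvd.1 (Nat.not_odd_iff_even.1 k))
    rw [orderOf_mk] at o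
    obtain ⟨hi, hi'⟩ := mem_inf.1 hi
    have i2 : i * i = 1 := by rw [← sq, ← o, pow_orderOf_eq_one]
    have i1 : i ≠ 1 := by rintro rfl; simp at o
    obtain ⟨n, hn, e⟩ := TW4.toB H x hi i2 i1
    obtain ⟨m, hm, e'⟩ := TW4.toB H x (mem_cj.1 hi')
      (by rw [show g⁻¹ * i * g * (g⁻¹ * i * g) = g⁻¹ * (i * i) * g by group, i2]; group)
      (fun k => i1 (by rw [← cj_cj_inv g i, k]; group))
    have := x.cb (n * g * m⁻¹) (by nth_rewrite 1 [← e']; rw [← e]; group)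
    exact hg (TW4.nK H x ▸ (mul_mem_cancel_left hn).1 ((mul_mem_cancel_right (inv_mem hm)).1 this))
  · rw [commutator_comm, commutator_eq_bot_iff_le_centralizer] at k
    obtain ⟨y, hy, e⟩ := x.ab.tr F.z Dy.zW
    obtain ⟨m, hm⟩ := x.ab.p2 ⟨y, hy⟩
    have hm' : y ^ 2 ^ m = 1 := congrArg Subtype.val hm
    have h1 := TW4.sqK H x (k (cj_mem g (x.AI hy))) ⟨m, by rw [conj_pow, hm']; group⟩
    rw [x.sqA y hy, mul_right_inj] at e
    refine TW4.z1 H x ?_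
    rw [← e, show y * y = g⁻¹ * (g * y * g⁻¹ * (g * y * g⁻¹)) * g by group, h1]
    group

theorem T3.ncl (H : Fx F) (x : T3 F t L O α h e A V Y I S)
    (hF : IsSimpleGroup (Cfsg.generalizedFittingSubgroup G))
    (hF' : ¬ IsMulCommutative (Cfsg.generalizedFittingSubgroup G)) (h0 : L ≤ Cfsg.generalizedFittingSubgroup G) :
    ¬ I.Normal ∧ normalClosure (I : Set G) = Cfsg.generalizedFittingSubgroup G := by
  have hn : (Cfsg.generalizedFittingSubgroup G).Normal := inferInstance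
  generalize Cfsg.generalizedFittingSubgroup G = E at *
  have h1 : I ≤ E := x.pu.min E (fun y hy => by
    obtain ⟨a, ha, rfl⟩ := (x.mY _).1 hy
    exact h0 (x.hL a (H.XJ ha))) (by rw [normalizer_eq_top]; exact le_top)
  have h2 : normalClosure (I : Set G) = E := by
    refine le_antisymm (normalClosure_le_normal h1) ?_
    rcases (inferInstance : ((normalClosure (I : Set G)).subgroupOf E).Normal).eq_bot_or_eq_top with k | k
    · have : (⟨_, h1 (TW4.zI H x)⟩ : E) ∈ (normalClosure (I : Set G)).subgroupOf E :=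
        subset_normalClosure (TW4.zI H x)
      rw [k, mem_bot] at this
      exact absurd (congrArg Subtype.val this) (TW4.z1 H x)
    · exact subgroupOf_eq_top.1 k
  refine ⟨fun k => ?_, h2⟩
  rw [normalClosure_eq_self] at h2
  subst h2
  have h3 : (⟨_, h0 (x.hL _ H.bJ)⟩ : I) ∈ center I :=
    mem_center_iff.2 fun a => Subtype.ext (x.pu.IY a.2 _ (TW4.bV H x)).symm
  rcases (inferInstance : (center I).Normal).eq_bot_or_eq_top with k | k
  · rw [k, mem_bot] at h3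
    exact TW4.b1 H x (congrArg Subtype.val h3)
  · exact hF' ⟨⟨fun a b => mem_center_iff.1 (k ▸ mem_top b) a⟩⟩

end H79.JS
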